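import Cfsg.Agent.H5.Der
/-! The Cayley transform between unipotent isometries and nilpotent (skew-)adjoint maps; orders of unipotent centralisers. -/
set_option autoImplicit false
namespace H5
open Module Finset

universe u v
variable {F : Type*} [Field F] {κ κ' : Kind F} {η α c : F} {V : Type u} [AddCommGroup V] [Module F V] {W : Type v} [AddCommGroup W] [Module F W]

/-- `T = N (c + α N)⁻¹`. -/
structure Cay (α c : F) (N T : End F V) : Prop where
  c0 : c ≠ 0
  nN : IsNilpotent N
  nT : IsNilpotent T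
  com : Commute N T
  eq : N = c • T + α • (T * N)

theorem unit_add_nil (c0 : c ≠ 0) {N : End F V} (h : IsNilpotent N) (α : F) : IsUnit (c • 1 + α • N : End F V) :=
  (h.smul α).isUnit_add_left_of_commute (by rw [← Algebra.algebraMap_eq_smul_one]; exact (Ne.isUnit c0).map _)
    ((Commute.one_right _).smul_right c)

theorem exists_cay (c0 : c ≠ 0) (α : F) {N : End F V} (h : IsNilpotent N) : ∃ T, Cay α c N T := by
  obtain ⟨S, hS⟩ := unit_add_nil c0 h α
  have k : Commute N S := by rw [hS]; simp [Commute, SemiconjBy, mul_add, add_mul]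
  refine ⟨N * ↑S⁻¹, c0, h, k.units_inv_right.isNilpotent_mul_right h, (Commute.refl N).mul_right k.units_inv_right, ?_⟩
  conv_lhs => rw [← S.inv_mul_cancel_right N, hS]
  simp [mul_add]

theorem exists_cay' (c0 : c ≠ 0) (α : F) {T : End F V} (h : IsNilpotent T) : ∃ N, Cay α c N T := by
  obtain ⟨S, hS⟩ := unit_add_nil one_ne_zero h (-α)
  have k : Commute T S := by rw [hS]; simp [Commute, SemiconjBy, mul_add, add_mul]
  refine ⟨c • (T * ↑S⁻¹), c0, (k.units_inv_right.isNilpotent_mul_right h).smul c, h,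
    ((Commute.refl T).mul_left k.units_inv_right.symm).smul_left c, ?_⟩
  have : T = S * (T * ↑S⁻¹) := by rw [← mul_assoc, ← k.eq, S.mul_inv_cancel_right]
  nth_rw 2 [this]
  simp [hS, add_mul, smul_smul, mul_comm]

namespace Cay
variable {N T : End F V} {N' T' : End F W} (h : Cay α c N T) (h' : Cay α c N' T')
include h

theorem eq₁ : N = T * (c • 1 + α • N) := by nth_rw 1 [h.eq]; simp [mul_add]

theorem app (x : V) : N x = c • T x + α • T (N x) := LinearMap.congr_fun h.eq x
theorem app' (x : V) : N (T x) = T (N x) := LinearMap.congr_fun h.com.eq x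

include h' in
theorem iff (f : V →ₗ[F] W) : (∀ x, f (N x) = N' (f x)) ↔ ∀ x, f (T x) = T' (f x) := by
  refine ⟨fun k x => ?_, fun k x => ?_⟩
  · obtain ⟨y, rfl⟩ := ((End.isUnit_iff _).1 (unit_add_nil h.c0 h.nN α)).2 x
    have := h'.app (f y)
    have e := congrArg f (h.app y)
    simp only [LinearMap.add_apply, LinearMap.smul_apply, End.one_apply, map_add, map_smul, ← k] at this e ⊢
    rw [← this, ← e]
  · refine ((End.isUnit_iff _).1 (unit_add_nil one_ne_zero h'.nT (-α))).1 ?_
    have e := congrArg f (h.app x)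
    have := h'.app (f x)
    simp only [LinearMap.add_apply, LinearMap.smul_apply, End.one_apply, map_add, map_smul, k, one_smul] at this e ⊢
    linear_combination (norm := module) e - this

theorem ker_pow (k : ℕ) : LinearMap.ker (T ^ k) = LinearMap.ker (N ^ k) := by
  have c : Commute (c • 1 + α • N) T := (Commute.one_left T).smul_left c |>.add_left (h.com.smul_left α)
  rw [h.eq₁, ← c.eq, c.mul_pow, End.mul_eq_comp, LinearMap.ker_comp_of_ker_eq_bot _
    (LinearMap.ker_eq_bot.2 ((End.isUnit_iff _).1 ((unit_add_nil h.c0 h.nN α).pow k)).1)]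

theorem je {μ} : JE T μ ↔ JE N μ := forall_congr' fun k => by rw [h.ker_pow]

theorem adj {Φ : Form κ V} (e : η * η = 1) (hc : c = α - η * κ.σ α) (k : ∀ x y, Φ.B (x + N x) (y + N y) = Φ.B x y) : Φ.Adj η T := by
  intro x y
  obtain ⟨x, rfl⟩ := ((End.isUnit_iff _).1 (unit_add_nil h.c0 h.nN α)).2 x
  obtain ⟨y, rfl⟩ := ((End.isUnit_iff _).1 (unit_add_nil h.c0 h.nN α)).2 y
  have := k x y
  rw [← End.mul_apply T, ← End.mul_apply T, ← h.eq₁]
  have s : κ.σ η = η := by rcases mul_self_eq_one_iff.1 e with rfl | rfl <;> simp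
  simp only [LinearMap.add_apply, LinearMap.smul_apply, End.one_apply, map_add, map_smul, LinearMap.map_smulₛₗ, smul_eq_mul, hc, map_sub, map_mul,
    s, κ.σσ] at this ⊢
  linear_combination (κ.σ α - η * α) * this + Φ.B x (N y) * κ.σ α * e

theorem isom {Φ : Form κ V} (e : η * η = 1) (hc : c = α - η * κ.σ α) (k : Φ.Adj η T) (x y : V) : Φ.B (x + N x) (y + N y) = Φ.B x y := by
  obtain ⟨x, rfl⟩ := ((End.isUnit_iff _).1 (unit_add_nil one_ne_zero h.nT (-α))).2 x
  obtain ⟨y, rfl⟩ := ((End.isUnit_iff _).1 (unit_add_nil one_ne_zero h.nT (-α))).2 y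
  have l : ∀ x, N ((((1 : F) • 1 + -α • T : End F V)) x) = c • T x := fun x => by
    have := h.app x
    simp only [LinearMap.add_apply, LinearMap.smul_apply, End.one_apply, map_add, map_smul, h.app', one_smul]
    linear_combination (norm := module) this
  have s : κ.σ η = η := by rcases mul_self_eq_one_iff.1 e with rfl | rfl <;> simp
  have := k x y
  simp only [l]
  simp only [LinearMap.add_apply, LinearMap.smul_apply, End.one_apply, map_add, map_smul, LinearMap.map_smulₛₗ, smul_eq_mul, hc, map_sub, map_mul,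
    s, κ.σσ, map_neg, one_smul, this]
  linear_combination (Φ.B (T x) (T y) * α * κ.σ α - Φ.B x (T y) * κ.σ α) * e

end Cay

theorem comm_nl {u : V ≃ₗ[F] V} {u' : W ≃ₗ[F] W} (f : V →ₗ[F] W) : (∀ x, f (nl u x) = nl u' (f x)) ↔ ∀ x, f (u x) = u' (f x) := by simp

theorem Cay.card_centralizer {G : Subgroup (V ≃ₗ[F] V)} {u : G} {T : End F V} (h : Cay α c (nl u.1) T) :
    Nat.card (Subgroup.centralizer {u}) = Nat.card ↥(G ⊓ comm T) := by
  rw [← Subgroup.card_map_of_injective G.subtype_injective]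
  refine card_congr_subgroup (le_antisymm ?_ fun g hg => ⟨⟨g, hg.1⟩, Subgroup.mem_centralizer_singleton_iff.2 (Subtype.ext (LinearEquiv.ext
    ((comm_nl g.toLinearMap).1 ((h.iff h g.toLinearMap).2 hg.2)))), rfl⟩)
  rintro _ ⟨g, hg, rfl⟩
  exact ⟨g.2, (h.iff h g.1.toLinearMap).1 ((comm_nl _).2 fun x => congrArg (fun g : G => g.1 x) (Subgroup.mem_centralizer_singleton_iff.1 hg))⟩

theorem count_pred (μ : Multiset ℕ) (i : ℕ) : (μ.map (· - 1)).count (i + 1) = μ.count (i + 2) := by
  induction μ using Multiset.induction_on with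
  | empty => simp
  | cons a s ih => simp only [Multiset.map_cons, Multiset.count_cons, ih]; split_ifs <;> omega

theorem filter_pred (μ : Multiset ℕ) (i : ℕ) : ((μ.map (· - 1)).filter (i + 1 < ·)).card = (μ.filter (i + 2 < ·)).card := by
  induction μ using Multiset.induction_on with
  | empty => simp
  | cons a s ih => simp only [Multiset.map_cons, Multiset.filter_cons, Multiset.card_add, ih]; split_ifs <;> first | rfl | omega

theorem Form.card_unip [Finite F] (n : ℕ) : ∀ (K : ℕ → Kind F) (_ : ∀ i, DualK (K i) (K (i + 1)) η) (N : ℕ → ℕ) {V : Type u} [AddCommGroup V]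
    [Module F V] [FiniteDimensional F V] {Φ : Form (K 0) V} {T : End F V} {μ : Multiset ℕ}, Φ.Nondeg → Φ.Adj η T → JE T μ → finrank F V = μ.sum →
    (∀ a ∈ μ, a ≤ n) → (∀ i < n, ∀ (W : Type u) [AddCommGroup W] [Module F W] [FiniteDimensional F W] (Ψ : Form (K i) W),
      Ψ.Nondeg → finrank F W = μ.count (i + 1) → Nat.card Ψ.isom = N i) → ∀ {s : ℕ → ℕ}, (∀ i, (μ.filter (i + 1 < ·)).card = s i) →
    Nat.card ↥(Φ.isom ⊓ comm T) = ∏ i ∈ range n, Nat.card F ^ (s i * μ.count (i + 1) + s i * (s i - 1) / 2) * Nat.card (K i).π.ker ^ s i * N i := by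
  induction n with
  | zero =>
    intro K _ N V _ _ _ Φ T μ _ _ _ e h _ _ _
    rw [Multiset.sum_eq_zero fun a ha => Nat.le_zero.1 (h a ha)] at e
    exact Nat.dvd_one.1 (Form.card_isom_zero (Φ := Φ) e ▸ Subgroup.card_dvd_of_le inf_le_left)
  | succ n ih =>
    intro K d N V _ _ _ Φ T μ h a j e b hN s hs
    obtain ⟨Ψ, k⟩ := a.exists_der (d 0)
    rw [k.card_step (d 0) a h j (hN 0 n.succ_pos) (hs 0), prod_range_succ', ih (fun i => K (i + 1)) (fun i => d (i + 1)) (fun i => N (i + 1))
      (k.nondeg h) (k.adj a) j.dT (j.finrank_range e) (by simpa using b) (fun i hi => count_pred μ i ▸ hN (i + 1) (by omega))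
      (s := fun i => s (i + 1)) fun i => (filter_pred μ i).trans (hs _)]
    simp only [count_pred]

theorem tame_unit {σ : F →+* F} (hσ : ∀ a, σ (σ a) = a) (h : σ ≠ RingHom.id F) : Tame (.unit σ hσ) := ⟨Kind.exists_trace_one hσ h, by simp⟩
theorem Tame.dual (h : Tame κ) : DualK κ κ 1 := ⟨fun _ => rfl, by simp, by simp, h, h⟩

/-- Alternating sequence. -/
def altK {α : Type*} (a b : α) : ℕ → α
  | 0 => a
  | n + 1 => altK b a n

theorem altK_eq {α : Type*} (n : ℕ) : ∀ a b : α, altK a b n = if Even n then a else b := by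
  induction n with
  | zero => simp [altK]
  | succ n ih => intro a b; simp only [altK, ih, Nat.even_add_one, ite_not]

theorem DualK.alt (n : ℕ) : ∀ {κ κ' : Kind F}, DualK κ κ' η → DualK (altK κ κ' n) (altK κ κ' (n + 1)) η := by
  induction n with
  | zero => exact id
  | succ n ih => exact fun h => ih h.symm

theorem Form.exists_cay [FiniteDimensional F V] {Φ : Form κ V} {u : V ≃ₗ[F] V} (hu : u ∈ Φ.isom) {μ} (j : JE (nl u) μ) (e : finrank F V = μ.sum)
    (s : η * η = 1) (c0 : α - η * κ.σ α ≠ 0) : ∃ T, Cay α (α - η * κ.σ α) (nl u) T ∧ Φ.Adj η T ∧ JE T μ := by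
  obtain ⟨T, h⟩ := H5.exists_cay c0 α ⟨_, j.nil e.symm⟩
  exact ⟨T, h, h.adj s rfl fun x y => by simpa using hu.1 x y, h.je.2 j⟩

theorem sum_tail (a : ℕ → ℕ) (M : ℕ) : ∑ i ∈ range M, ∑ j ∈ range (M + 1), (if i < j then a j else 0) = ∑ j ∈ range (M + 1), j * a j := by
  rw [sum_comm]
  refine sum_congr rfl fun j hj => ?_
  rw [← sum_filter, sum_const, show filter (· < j) (range M) = range j by ext; simp at hj ⊢; omega, card_range, smul_eq_mul]

theorem sum_gamma (a : ℕ → ℕ) (M : ℕ) : ∑ i ∈ range M, (2 * ((∑ j ∈ range (M + 1), if i + 1 < j then a j else 0) * a (i + 1)) +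
    (∑ j ∈ range (M + 1), if i + 1 < j then a j else 0) ^ 2) =
    2 * (∑ i ∈ range (M + 1), ∑ j ∈ range (M + 1), if i < j then i * a i * a j else 0) + ∑ i ∈ range (M + 1), (i - 1) * a i ^ 2 := by
  induction M with
  | zero => simp
  | succ M ih =>
    have t := sum_tail a M
    have e : ∀ i ∈ range M, ∑ j ∈ range (M + 1), (if i < j then a j else 0) = a (i + 1) + ∑ j ∈ range (M + 1), if i + 1 < j then a j else 0 :=
      fun i hi => by
        rw [← sum_ite_eq_of_mem (range (M + 1)) (i + 1) a (by simpa using hi), ← sum_add_distrib]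
        exact sum_congr rfl fun j _ => by split_ifs <;> omega
    rw [sum_congr rfl e, sum_add_distrib] at t
    rw [sum_range_succ, sum_range_succ (fun i => (i - 1) * a i ^ 2), sum_range_succ (fun i => ∑ j ∈ range (M + 1 + 1), _),
      sum_eq_zero (s := range (M + 1 + 1)) (fun j hj => if_neg (by simp at hj; omega)),
      sum_eq_zero (s := range (M + 1 + 1)) (fun j hj => if_neg (by simp at hj; omega))]
    simp only [sum_range_succ _ (M + 1)]
    rw [sum_congr rfl (fun i hi => by rw [if_pos (show i + 1 < M + 1 by simpa using hi)]),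
      sum_congr rfl (s₁ := range (M + 1)) (fun i hi => by rw [if_pos (mem_range.1 hi)]), sum_add_distrib (s := range (M + 1)), ← sum_mul, ← t]
    simp only [add_sq, add_mul, mul_add, sum_add_distrib, ← mul_sum, ← sum_mul, sum_const, card_range, smul_eq_mul, mul_assoc] at ih ⊢
    simp only [Nat.add_sub_cancel]
    linear_combination ih

theorem card_filter_eq {μ : Multiset ℕ} {M : ℕ} (h : ∀ a ∈ μ, a ≤ M) (i : ℕ) :
    (μ.filter (i < ·)).card = ∑ j ∈ range (M + 1), if i < j then μ.count j else 0 := by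
  simp only [← Multiset.count_filter]
  exact (Multiset.sum_count_eq_card fun a ha => mem_range.2 (Nat.lt_succ_of_le (h a (Multiset.mem_of_mem_filter ha)))).symm

end H5
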