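import Cfsg.Agent.H5.Li2
/-! Decompositions into subspaces of equal dimension permuted by a linear map: constructions. -/
set_option autoImplicit false
namespace H5
open Module Pointwise Matrix

universe u
variable {F : Type u} [Field F] {κ : Kind F} {V : Type u} [AddCommGroup V] [Module F V] [FiniteDimensional F V] {Φ : Form κ V} {r a s t c e : ℕ}
  {g : V ≃ₗ[F] V} {z : Fˣ} {D E X Y : Submodule F V}

theorem indep_iff {ι : Type*} [Fintype ι] (D : ι → Submodule F V) :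
    finrank F ↥(⨆ i, D i) ≤ ∑ i, finrank F (D i) ∧ (iSupIndep D ↔ ∑ i, finrank F (D i) ≤ finrank F ↥(⨆ i, D i)) := by
  classical
  have := (DirectSum.coeLinearMap D).finrank_range_add_finrank_ker
  rw [DirectSum.range_coeLinearMap, finrank_directSum] at this
  refine ⟨by omega, (iSupIndep_iff_dfinsupp_lsum_injective D).trans ((LinearMap.ker_eq_bot (f := DirectSum.coeLinearMap D)).symm.trans ?_)⟩
  rw [← Submodule.finrank_eq_zero]; omega

/-- `X` is spanned by at most `t` mutually orthogonal subspaces of dimension at most `a` permuted by `g`. -/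
def Dec (Φ : Form κ V) (g : V ≃ₗ[F] V) (a t : ℕ) (X : Submodule F V) : Prop :=
  ∃ S : Finset (Submodule F V), S.card ≤ t ∧ (∀ D ∈ S, finrank F D ≤ a ∧ ∃ E ∈ S, ∀ v ∈ D, g v ∈ E) ∧ S.sup id = X ∧ ∀ D ∈ S, ∀ E ∈ S, D ≠ E → D ≤ Φ.perp E

/-- The span of the images of `D` under the powers of `g`. -/
def porb (g : V ≃ₗ[F] V) (D : Submodule F V) : Submodule F V := ⨆ k : ℕ, g ^ k • D

section nofd
omit [FiniteDimensional F V]
theorem Dec.bot : Dec Φ g a 0 ⊥ := ⟨∅, by simp⟩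
theorem Dec.single (h : finrank F D ≤ a) (i : ∀ v ∈ D, g v ∈ D) : Dec Φ g a 1 D := ⟨{D}, by simp, by simpa using ⟨h, i⟩, by simp, by simp⟩
theorem Dec.scal (h : Dec Φ g a t X) (c : Fˣ) : Dec Φ (g * scal V c) a t X :=
  let ⟨S, h1, h2, h3⟩ := h; ⟨S, h1, fun D h => (h2 D h).imp_right fun ⟨E, a, b⟩ => ⟨E, a, fun v hv => b _ (D.smul_mem _ hv)⟩, h3⟩

theorem Dec.add (h : Dec Φ g a s X) (k : Dec Φ g a t Y) (o : X ≤ Φ.perp Y) : Dec Φ g a (s + t) (X ⊔ Y) := by
  classical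
  obtain ⟨S, h1, h2, rfl, h4⟩ := h
  obtain ⟨T, k1, k2, rfl, k4⟩ := k
  have w : ∀ D ∈ S, ∀ E ∈ T, D ≤ Φ.perp E := fun D h E k => (Finset.le_sup (f := id) h).trans (o.trans (Φ.perp_anti (Finset.le_sup (f := id) k)))
  refine ⟨S ∪ T, (Finset.card_union_le ..).trans (by omega), ?_, Finset.sup_union, ?_⟩ <;> simp only [Finset.mem_union]
  · rintro D (h | h)
    exacts [(h2 D h).imp_right fun ⟨E, a, b⟩ => ⟨E, .inl a, b⟩, (k2 D h).imp_right fun ⟨E, a, b⟩ => ⟨E, .inr a, b⟩]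
  · rintro D (h | h) E (k | k) n
    exacts [h4 D h E k n, w D h E k, Φ.le_perp_comm.1 (w E k D h), k4 D h E k n]

theorem Dec.pair (h : finrank F D ≤ a) (k : finrank F E ≤ a) (i : ∀ v ∈ D, g v ∈ E) (j : ∀ v ∈ E, g v ∈ D) (o : D ≤ Φ.perp E) : Dec Φ g a 2 (D ⊔ E) := by
  classical
  refine ⟨{D, E}, Finset.card_le_two, by simpa using ⟨⟨h, .inr i⟩, k, .inl j⟩, by simp, by simpa using ⟨fun _ => o, fun _ => Φ.le_perp_comm.1 o⟩⟩

theorem pow_mem_porb (k : ℕ) {v : V} (h : v ∈ D) : (g ^ k) v ∈ porb g D := Submodule.mem_iSup_of_mem k ⟨v, h, rfl⟩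
theorem le_porb : D ≤ porb g D := fun _ h => pow_mem_porb 0 h
theorem pow_mem_inv (i : ∀ v ∈ X, g v ∈ X) (k : ℕ) : ∀ v ∈ X, (g ^ k) v ∈ X := fun v h => by
  induction k with
  | zero => exact h
  | succ k ih => rw [pow_succ']; exact i _ ih
theorem porb_le (h : D ≤ X) (i : ∀ v ∈ X, g v ∈ X) : porb g D ≤ X := iSup_le fun k => by rintro _ ⟨v, hv, rfl⟩; exact pow_mem_inv i k v (h hv)
theorem porb_inv : ∀ v ∈ porb g D, g v ∈ porb g D :=
  show porb g D ≤ (porb g D).comap (g : V →ₗ[F] V) from iSup_le fun k => by rintro _ ⟨v, hv, rfl⟩; simpa [pow_succ'] using pow_mem_porb (g := g) (k + 1) hv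
theorem porb_sup : porb g (D ⊔ E) = porb g D ⊔ porb g E := by simp only [porb, Submodule.smul_sup', iSup_sup_eq]
theorem sup_inv (i : ∀ v ∈ X, g v ∈ X) (j : ∀ v ∈ Y, g v ∈ Y) : ∀ v ∈ X ⊔ Y, g v ∈ X ⊔ Y := fun v hv => by
  obtain ⟨a, ha, b, hb, rfl⟩ := Submodule.mem_sup.1 hv
  exact map_add g a b ▸ Submodule.add_mem_sup (i a ha) (j b hb)

theorem Dec.cyc (o : ∀ X Y, X ≤ Φ.perp Y) (r0 : 0 < r) (e : g ^ r = H5.scal V z) (h : finrank F D ≤ a) : Dec Φ g a r (porb g D) := by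
  classical
  have k : ∀ k, ∀ v ∈ D, (g ^ k) v ∈ g ^ (k % r) • D := fun k v hv => ⟨(z ^ (k / r) : Fˣ).1 • v, D.smul_mem _ hv, by
    conv_rhs => rw [← Nat.mod_add_div k r, pow_add, pow_mul, e, ← map_pow]
    rfl⟩
  refine ⟨(Finset.range r).image fun k => g ^ k • D, Finset.card_image_le.trans (by simp), ?_, le_antisymm ?_ (iSup_le fun j => ?_), fun _ _ _ _ _ => o _ _⟩
  · simp only [Finset.mem_image, Finset.mem_range]
    rintro _ ⟨j, -, rfl⟩
    refine ⟨(LinearEquiv.finrank_map_eq (g ^ j) D).trans_le h, _, ⟨_, Nat.mod_lt (j + 1) r0, rfl⟩, ?_⟩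
    rintro _ ⟨v, hv, rfl⟩; simpa [pow_succ'] using k (j + 1) v hv
  · rw [Finset.sup_image]; exact Finset.sup_le fun j _ => le_iSup (fun k => g ^ k • D) j
  · rintro _ ⟨v, hv, rfl⟩
    exact (Finset.le_sup (f := id) (Finset.mem_image_of_mem (fun k => g ^ k • D) (Finset.mem_range.2 (Nat.mod_lt j r0))) :) (k j v hv)

/-- The zero form. -/
def zF (F V : Type u) [Field F] [AddCommGroup V] [Module F V] : Form (.symp F) V := Form.ofAlt 0 fun _ => rfl
theorem zF_perp (X Y : Submodule F V) : X ≤ (zF F V).perp Y := fun _ _ _ _ => rfl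
end nofd

theorem Dec.map' {U : Type u} [AddCommGroup U] [Module F U] [FiniteDimensional F U] {Ψ : Form κ U} {h : U ≃ₗ[F] U} {W : Submodule F U} (f : U →ₗ[F] V)
    (hB : ∀ x y, Φ.B (f x) (f y) = Ψ.B x y) (hf : ∀ x, f (h x) = g (f x)) (k : Dec Ψ h a t W) : Dec Φ g a t (W.map f) := by
  classical
  obtain ⟨S, h1, h2, rfl, h4⟩ := k
  refine ⟨S.image (.map f), Finset.card_image_le.trans h1, ?_, ?_, ?_⟩
  · simp only [Finset.mem_image]
    rintro _ ⟨D, hD, rfl⟩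
    obtain ⟨k, E, hE, l⟩ := h2 D hD
    exact ⟨(Submodule.finrank_map_le ..).trans k, _, ⟨E, hE, rfl⟩, by rintro _ ⟨v, hv, rfl⟩; exact ⟨_, l v hv, hf v⟩⟩
  · rw [Finset.sup_image, Finset.apply_sup_eq_sup_comp (Submodule.map f) (fun _ _ => Submodule.map_sup ..) (Submodule.map_bot _)]; rfl
  · simp only [Finset.mem_image]
    rintro _ ⟨D, hD, rfl⟩ _ ⟨E, hE, rfl⟩ n _ ⟨v, hv, rfl⟩ _ ⟨w, hw, rfl⟩
    exact (hB v w).trans (h4 D hD E hE (fun h => n (h ▸ rfl)) hv w hw)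

theorem Dec.res (i : ∀ v ∈ X, g v ∈ X) (h : Dec (Φ.res X) (resAut g X i) a t ⊤) : Dec Φ g a t X :=
  X.map_subtype_top ▸ h.map' X.subtype (fun _ _ => rfl) fun _ => rfl

theorem Dec.cnt (h : Dec Φ g a t X) : finrank F X ≤ a * t := by
  obtain ⟨S, h1, h2, rfl, -⟩ := h
  have := (indep_iff fun D : S => D.1).1
  rw [iSup_subtype, ← Finset.sup_eq_iSup] at this
  refine this.trans ((Finset.sum_le_card_nsmul _ _ a fun (D : S) _ => (h2 D D.2).1).trans ?_)
  simp only [Finset.card_univ, Fintype.card_coe, smul_eq_mul, mul_comm a]; gcongr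

theorem finrank_porb (r0 : 0 < r) (e : g ^ r = scal V z) : finrank F (porb g D) ≤ finrank F D * r := (Dec.cyc zF_perp r0 e le_rfl).cnt

theorem Dec.final {ι : Type} [Fintype ι] [DecidableEq ι] {Φ : Form κ (ι → F)} {g} (h : Dec Φ g a t ⊤) (n : Fintype.card ι = a * t) (a0 : 0 < a) (t2 : 2 ≤ t) :
    ∃ D : Fin t → Submodule F (ι → F), Cfsg.Geo.IsMDecomposition a D ∧ (∀ j j', j ≠ j' → D j ≤ Φ.perp (D j')) ∧ ∃ σ : Equiv.Perm (Fin t), ∀ j, g • D j = D (σ j) := by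
  obtain ⟨S, h1, h2, h3, h4⟩ := h
  obtain ⟨k1, k2⟩ := indep_iff fun D : S => D.1
  have s : ⨆ D : S, D.1 = ⊤ := by rw [iSup_subtype, ← Finset.sup_eq_iSup]; exact h3
  rw [s, finrank_top, finrank_fintype_fun_eq_card, n] at k1 k2
  have k3 := Finset.sum_le_sum (s := Finset.univ) fun (D : S) _ => (h2 D D.2).1
  have k4 : ∑ _ : S, a = a * S.card := by simp [mul_comm]
  have k5 := Nat.mul_le_mul_left a h1
  have d := (Finset.sum_eq_sum_iff_of_le fun (D : S) _ => (h2 D D.2).1).1 (show ∑ D : S, _ = _ by omega)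
  let e := (S.equivFinOfCardEq (Nat.eq_of_mul_eq_mul_left a0 (show a * _ = a * t by omega))).symm
  choose f f1 f2 using fun D : S => (h2 D D.2).2
  have m : ∀ j, g • (e j).1 = (e (e.symm ⟨f (e j), f1 _⟩)).1 := fun j => by
    rw [e.apply_symm_apply]; exact smul_eq_of_le (f2 _) ((d _ (by simp)).trans (d ⟨_, f1 _⟩ (by simp)).symm)
  refine ⟨fun j => e j, ⟨t2, a0, fun j => d _ (by simp), (k2.2 (by omega)).comp e.injective, (e.iSup_comp (g := fun D : S => D.1)).trans s⟩,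
    fun j j' n => h4 _ (e j).2 _ (e j').2 fun h => n (e.injective (Subtype.ext h)), .ofBijective _ (Finite.injective_iff_bijective.1 fun i j h => ?_), m⟩
  exact e.injective (Subtype.ext (smul_left_cancel g (by rw [m, m]; exact congrArg (fun x => (e x).1) h)))

theorem compl_inf (h : D ≤ X) (c : IsCompl D E) : D ⊔ E ⊓ X = X ∧ finrank F ↥(E ⊓ X) + finrank F D = finrank F X := by
  have := sup_inf_assoc_of_le E h
  rw [c.sup_eq_top, top_inf_eq] at this
  exact ⟨this.symm, by rw [add_comm, ← finrank_sup_disj (c.disjoint.mono_right inf_le_left), ← this]⟩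

theorem exists_cut (X : Submodule F V) {j : ℕ} (h : j ≤ finrank F X) : ∃ D E, D ⊔ E = X ∧ finrank F D = j ∧ finrank F E + j = finrank F X := by
  obtain ⟨D, d, rfl⟩ := exists_le_finrank_eq X h
  obtain ⟨E, c⟩ := D.exists_isCompl
  exact ⟨D, _, (compl_inf d c).1, rfl, (compl_inf d c).2⟩

theorem regroup (hr : r.Prime) (e : g ^ r = scal V z) (a0 : 0 < a) (t : ℕ) : ∀ D E : Submodule F V, (∀ v ∈ E, g v ∈ F ∙ v) →
    r * finrank F D + finrank F E = a * t → (r = 2 ∨ finrank F E = 0 ∨ a = 1) → Dec (zF F V) g a t (porb g D ⊔ E) := by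
  induction t using Nat.strong_induction_on with
  | _ t ih =>
  intro D E i h k
  have r2 := hr.two_le
  rcases t with _ | t
  · obtain rfl : D = ⊥ := Submodule.finrank_eq_zero.1 (by nlinarith)
    obtain rfl : E = ⊥ := Submodule.finrank_eq_zero.1 (by omega)
    rw [le_bot_iff.1 (porb_le le_rfl (by simp)), bot_sup_eq]; exact .bot
  have : a ≤ a * (t + 1) := Nat.le_mul_of_pos_right a t.succ_pos
  obtain ⟨j, j1, j2, j3⟩ | ⟨j1, j2⟩ : (∃ j ≤ finrank F D, r * j ≤ a ∧ a - r * j ≤ finrank F E) ∨ a ≤ finrank F D ∧ r ≤ t + 1 := by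
    have l : finrank F E = 0 → (∃ j ≤ finrank F D, r * j ≤ a ∧ a - r * j ≤ finrank F E) ∨ a ≤ finrank F D ∧ r ≤ t + 1 := fun l => by
      rw [l, add_zero] at h
      rcases hr.dvd_mul.1 ⟨_, h.symm⟩ with ⟨j, rfl⟩ | d
      · exact .inl ⟨j, Nat.le_of_mul_le_mul_left (h ▸ this) hr.pos, le_rfl, by simp⟩
      · have := Nat.le_of_dvd t.succ_pos d
        exact .inr ⟨Nat.le_of_mul_le_mul_left (by rw [h, mul_comm]; gcongr) hr.pos, this⟩
    by_cases l0 : finrank F E = 0; · exact l l0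
    rcases k with rfl | k | rfl
    · exact .inl ⟨min (finrank F D) (a / 2), by omega⟩
    · exact l k
    · exact .inl ⟨0, by omega⟩
  · obtain ⟨D₁, D₂, rfl, d1, d2⟩ := exists_cut D j1
    obtain ⟨E₁, E₂, rfl, e1, e2⟩ := exists_cut E j3
    rw [porb_sup, sup_sup_sup_comm, add_comm t]
    refine (Dec.single ?_ (sup_inv porb_inv fun v hv => ?_)).add (ih t (by omega) _ _ (fun v hv => i v (le_sup_right (a := E₁) hv)) ?_ (by omega)) (zF_perp _ _)
    · have := finrank_porb (D := D₁) hr.pos e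
      rw [d1, mul_comm] at this
      have := Submodule.finrank_add_le_finrank_add_finrank (porb g D₁) E₁
      omega
    · exact (Submodule.span_singleton_le_iff_mem _ _).2 hv (i v (le_sup_left (b := E₂) hv))
    · rw [← d2, mul_add, mul_add] at h; omega
  · obtain ⟨D₁, D₂, rfl, d1, d2⟩ := exists_cut D j1
    obtain ⟨s, hs⟩ := Nat.exists_eq_add_of_le j2
    rw [porb_sup, sup_assoc, hs]
    refine (Dec.cyc zF_perp hr.pos e d1.le).add (ih s (by omega) _ _ i ?_ k) (zF_perp _ _)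
    rw [← d2, hs, mul_add, mul_add, mul_comm a r] at h; omega

theorem exists_porb_two (e : g ^ 2 = scal V z) (n : ℕ) : ∀ X : Submodule F V, finrank F X = n → (∀ v ∈ X, g v ∈ X) →
    ∃ D E, porb g D ⊔ E = X ∧ 2 * finrank F D + finrank F E ≤ n ∧ ∀ v ∈ E, g v ∈ F ∙ v := by
  induction n using Nat.strong_induction_on with
  | _ n ih =>
  rintro X rfl i
  by_cases h : ∀ v ∈ X, g v ∈ F ∙ v
  · exact ⟨⊥, X, sup_eq_right.2 (porb_le bot_le i), by simp, h⟩
  push Not at h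
  obtain ⟨v, hv, h⟩ := h
  obtain ⟨φ, h1, h2⟩ := Submodule.exists_dual_map_eq_bot_of_notMem h inferInstance
  have h3 : φ v = 0 := h2.le ⟨v, Submodule.mem_span_singleton_self v, rfl⟩
  have e' : ∀ x, g (g x) = (z : F) • x := fun x => LinearEquiv.congr_fun (sq g ▸ e) x
  let W := X ⊓ LinearMap.ker φ ⊓ LinearMap.ker (φ ∘ₗ g)
  have l1 : W < X ⊓ LinearMap.ker φ := lt_of_le_of_ne inf_le_left fun k => h1 (k.ge ⟨hv, h3⟩).2
  have l2 : X ⊓ LinearMap.ker φ < X := lt_of_le_of_ne inf_le_left fun k => h1 (k.ge (i v hv)).2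
  have := Submodule.finrank_lt_finrank_of_lt l1
  have := Submodule.finrank_lt_finrank_of_lt l2
  obtain ⟨D, E, k1, k2, k3⟩ := ih _ (by omega) W rfl fun x hx => ⟨⟨i x hx.1.1, hx.2⟩, by simp [e', show φ x = 0 from hx.1.2]⟩
  refine ⟨(F ∙ v) ⊔ D, E, ?_, ?_, k3⟩
  · rw [porb_sup, sup_assoc, k1]
    refine le_antisymm (sup_le (porb_le (by simpa) i) (l1.trans l2).le) fun x hx => ?_
    have m := le_porb (g := g) (Submodule.mem_span_singleton_self (R := F) v)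
    rw [← add_sub_cancel ((φ (g x) / φ (g v)) • v + (φ x / φ (g v)) • g v) x]
    refine Submodule.add_mem_sup (add_mem (Submodule.smul_mem _ _ m) (Submodule.smul_mem _ _ (porb_inv _ m)))
      ⟨⟨sub_mem hx (add_mem (X.smul_mem _ hv) (X.smul_mem _ (i v hv))), ?_⟩, ?_⟩ <;> simp [h3, h1, e']
  · have := Submodule.finrank_add_le_finrank_add_finrank (F ∙ v) D
    have : finrank F (F ∙ v) ≤ 1 := (finrank_span_le_card _).trans (by simp)
    omega

theorem dec_two (e : g ^ 2 = scal V z) (a0 : 0 < a) (n : finrank F V = a * t) : Dec (zF F V) g a t ⊤ := by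
  obtain ⟨D, E, h1, h2, h3⟩ := exists_porb_two e _ ⊤ (finrank_top ..) fun _ _ => trivial
  have := finrank_porb (D := D) two_pos e
  have := Submodule.finrank_add_le_finrank_add_finrank (porb g D) E
  rw [h1, finrank_top] at this
  exact h1 ▸ regroup Nat.prime_two e a0 t D E h3 (by omega) (.inl rfl)

theorem exists_porb (r0 : (r : F) ≠ 0) (e : g ^ r = scal V z) (blk : ∀ Y ≤ X, (∀ v ∈ Y, g v ∈ Y) → Y ≠ ⊥ → c ≤ finrank F Y) (n : ℕ) :
    ∀ M ≤ X, finrank F M = n → (∀ v ∈ M, g v ∈ M) → ∃ D, porb g D = M ∧ c * finrank F D ≤ n := by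
  induction n using Nat.strong_induction_on with
  | _ n ih =>
  rintro M le rfl i
  by_cases h : M = ⊥
  · exact ⟨⊥, (le_bot_iff.1 (porb_le le_rfl (by simp))).trans h.symm, by simp⟩
  obtain ⟨v, hv, v0⟩ := Submodule.exists_mem_ne_zero_of_ne_bot h
  have l : porb g (F ∙ v) ≤ M := porb_le (by simpa) i
  have n : porb g (F ∙ v) ≠ ⊥ := fun k => v0 (k.le (le_porb (Submodule.mem_span_singleton_self v)))
  obtain ⟨W, c1, c2⟩ := exists_inv_compl r0 e (porb_inv (D := F ∙ v))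
  obtain ⟨s1, s2⟩ := compl_inf l c1
  have := blk _ (l.trans le) porb_inv n
  have := Submodule.one_le_finrank_iff.2 n
  obtain ⟨D, k1, k2⟩ := ih _ (by omega) (W ⊓ M) (inf_le_right.trans le) rfl fun x hx => ⟨c2 x hx.1, i x hx.2⟩
  refine ⟨(F ∙ v) ⊔ D, by rw [porb_sup, k1, s1], ?_⟩
  have := Nat.mul_le_mul_left c (Submodule.finrank_add_le_finrank_add_finrank (F ∙ v) D)
  rw [finrank_span_singleton v0, mul_add] at this; omega

theorem dec_npow [hr : Fact r.Prime] (np : ∀ b : F, b ^ r ≠ z) (r0 : (r : F) ≠ 0) (e : g ^ r = scal V z) (a0 : 0 < a) (n : finrank F V = a * t) :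
    Dec (zF F V) g a t ⊤ := by
  obtain ⟨D, h1, h2⟩ := exists_porb (X := ⊤) (c := r) r0 e (fun Y _ h y0 => by
    obtain ⟨_, k, -⟩ := det_npow np (g := resAut g Y h) (LinearEquiv.ext fun x => Subtype.ext (by simp [resAut_pow, e]))
    exact Nat.le_of_dvd (Submodule.one_le_finrank_iff.2 y0) ⟨_, k⟩) _ ⊤ le_rfl (finrank_top ..) fun _ _ => trivial
  have := finrank_porb (D := D) hr.out.pos e
  rw [h1, finrank_top, mul_comm] at this
  simpa [h1] using regroup hr.out e a0 t D ⊥ (by simp) (by simp; omega) (by simp)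

/-- Subspaces with property `P` split off invariant orthogonal summands of every dimension divisible by `c`. -/
def Spl (Φ : Form κ V) (g : V ≃ₗ[F] V) (c : ℕ) (P : Submodule F V → Prop) : Prop := ∀ M, P M → ∀ k, c * k ≤ finrank F M →
  ∃ M₁ M₂, M₁ ⊔ M₂ = M ∧ P M₂ ∧ finrank F M₁ = c * k ∧ finrank F M₂ + c * k = finrank F M ∧ (∀ v ∈ M₁, g v ∈ M₁) ∧ M₁ ≤ Φ.perp M₂

theorem Spl.dist {P Q} (hP : Spl Φ g c P) (hQ : Spl Φ g e Q) (ea : e ∣ a) (ec : e ∣ c) (t : ℕ) : ∀ k M X, P M → Q X → M ≤ Φ.perp X →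
    finrank F M = c * k → finrank F X + c * k = a * t → k ≤ t * (a / c) → Dec Φ g a t (M ⊔ X) := by
  induction t with
  | zero =>
    intro k M X _ _ _ h1 h2 _
    rw [Submodule.finrank_eq_zero.1 (show finrank F M = 0 by omega), Submodule.finrank_eq_zero.1 (show finrank F X = 0 by omega), bot_sup_eq]; exact .bot
  | succ t ih =>
    intro k M X p q o h1 h2 h3
    obtain ⟨j, l, rfl, j1, j2⟩ : ∃ j l, k = j + l ∧ j ≤ a / c ∧ l ≤ t * (a / c) := ⟨min k (a / c), k - a / c, by rw [add_mul] at h3; omega⟩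
    have b1 : c * j ≤ a := (Nat.mul_le_mul_left c j1).trans (Nat.mul_div_le a c)
    have b2 : c * l ≤ a * t := (Nat.mul_le_mul_left c j2).trans (by rw [mul_left_comm, mul_comm a]; exact Nat.mul_le_mul_left _ (Nat.mul_div_le a c))
    obtain ⟨m, hm⟩ : e ∣ a - c * j := Nat.dvd_sub ea (ec.mul_right _)
    rw [mul_add] at h1 h2; rw [mul_add] at h2
    obtain ⟨M₁, M₂, rfl, m1, m2, m3, m4, m5⟩ := hP M p j (by omega)
    obtain ⟨X₁, X₂, rfl, x1, x2, x3, x4, x5⟩ := hQ X q m (by omega)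
    rw [Φ.perp_sup, sup_le_iff, le_inf_iff, le_inf_iff] at o
    rw [sup_sup_sup_comm, add_comm t]
    refine (Dec.single ?_ (sup_inv m4 x4)).add (ih l _ _ m1 x1 o.2.2 (by omega) (by omega) j2) ?_
    · have := Submodule.finrank_add_le_finrank_add_finrank M₁ X₁; omega
    · rw [Φ.perp_sup]; exact sup_le (le_inf m5 o.1.2) (le_inf (Φ.le_perp_comm.1 o.2.1) x5)

theorem spl_nd {T : Submodule F V} (hg : g ∈ Φ.isom) (h : ∀ M ≤ T, (Φ.res M).Nondeg → ∀ i : ∀ v ∈ M, g v ∈ M, ∀ k, c * k ≤ finrank F M →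
    ∃ W : Submodule F M, ((Φ.res M).res W).Nondeg ∧ (∀ v ∈ W, resAut g M i v ∈ W) ∧ finrank F W = c * k) :
    Spl Φ g c fun M => M ≤ T ∧ (Φ.res M).Nondeg ∧ ∀ v ∈ M, g v ∈ M := fun M ⟨m1, m2, m3⟩ k hk => by
  obtain ⟨W, w1, w2, w3⟩ := h M m1 m2 m3 k hk
  have i : ∀ W : Submodule F M, (∀ v ∈ W, resAut g M m3 v ∈ W) → ∀ v ∈ W.map M.subtype, g v ∈ W.map M.subtype := by
    rintro W h _ ⟨v, hv, rfl⟩; exact ⟨_, h v hv, rfl⟩
  refine ⟨W.map M.subtype, ((Φ.res M).perp W).map M.subtype, by rw [← Submodule.map_sup, (m2.isCompl_perp w1).sup_eq_top, Submodule.map_subtype_top],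
    ⟨(M.map_subtype_le _).trans m1, nd_iff.1 ?_, i _ (Form.isom_perp_mem (Φ.resAut_mem hg m3) w2)⟩, by rw [Submodule.finrank_map_subtype_eq, w3],
    by rw [Submodule.finrank_map_subtype_eq, ← w3, add_comm, m2.finrank_perp], i W w2, ?_⟩
  · rintro _ ⟨v, hv, rfl⟩ v0
    obtain ⟨w, hw, k⟩ := nd_iff.2 (m2.perp_nondeg w1) v hv (by rintro rfl; exact v0 rfl)
    exact ⟨_, ⟨w, hw, rfl⟩, k⟩
  · rintro _ ⟨v, hv, rfl⟩ _ ⟨w, hw, rfl⟩
    exact Φ.B_zero_symm (hw v hv)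
end H5
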