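import Cfsg.Agent.H5.Dc
/-! Decompositions into subspaces of equal dimension permuted by a linear map: obstructions and counting. -/
set_option autoImplicit false
namespace H5
open Module Pointwise Matrix

universe u
variable {F : Type u} [Field F] {κ : Kind F} {V : Type u} [AddCommGroup V] [Module F V] [FiniteDimensional F V] {Φ : Form κ V} {r a s t c : ℕ}
  {g : V ≃ₗ[F] V} {z : Fˣ} {X Y : Submodule F V}

/-- The sum of the first `r` powers of `g`. -/
def nrm (g : V ≃ₗ[F] V) (r : ℕ) : End F V := ∑ k ∈ Finset.range r, (g : End F V) ^ k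

section nec
omit [FiniteDimensional F V] in
theorem nrm_apply (v : V) : nrm g r v = ∑ k ∈ Finset.range r, (g ^ k) v := by simp [nrm, LinearMap.sum_apply, coe_pow_end]
omit [FiniteDimensional F V] in
theorem nrm_fix (e : g ^ r = 1) (v : V) : g (nrm g r v) = nrm g r v ∧ nrm g r (g v) = nrm g r v := by
  have a := LinearMap.congr_fun (mul_geom_sum (g : End F V) r) v
  have b := LinearMap.congr_fun (geom_sum_mul (g : End F V) r) v
  rw [coe_pow_end, e] at a b
  exact ⟨sub_eq_zero.1 (a.trans (sub_self v)), sub_eq_zero.1 ((map_sub ..).symm.trans (b.trans (sub_self v)))⟩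
omit [FiniteDimensional F V] in
theorem nrm_of_fix {v : V} (h : g v = v) : nrm g r v = (r : F) • v := by
  have : ∀ k : ℕ, (g ^ k) v = v := fun k => by
    induction k with
    | zero => rfl
    | succ k ih => rw [pow_succ, LinearEquiv.mul_apply, h, ih]
  simp [nrm_apply, this, Nat.cast_smul_eq_nsmul]

variable {ι : Type} {D : ι → Submodule F V} {σ : Equiv.Perm ι} (ind : iSupIndep D) (fr : ∀ j, finrank F (D j) = a) (a0 : 0 < a) (m : ∀ j, g • D j = D (σ j))
  [hr : Fact r.Prime] (e : g ^ r = 1) {j : ι}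

omit [FiniteDimensional F V] in
include m in
theorem dec_pow (k : ℕ) (j : ι) : g ^ k • D j = D ((σ ^ k) j) := by
  induction k with
  | zero => simp
  | succ k ih => rw [pow_succ', mul_smul, ih, m, pow_succ']; rfl

include ind fr a0 m e
omit hr in
theorem dec_per : σ ^ r = 1 := Equiv.ext fun j => ind.injective (fun j => Submodule.one_le_finrank_iff.1 (fr j ▸ a0)) (by rw [← dec_pow m, e, one_smul]; rfl)

theorem dec_ne (h : σ j ≠ j) {k : ℕ} (k0 : 0 < k) (kr : k < r) : (σ ^ k) j ≠ j := fun l => h (by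
  have := Function.IsPeriodicPt.gcd (f := σ) (m := k) (n := r) l (Equiv.congr_fun (dec_per ind fr a0 m e) j)
  rwa [((Nat.coprime_of_lt_prime k0.ne' kr hr.out).symm : k.gcd r = 1)] at this)

theorem finrank_nrm (h : σ j ≠ j) : finrank F ((D j).map (nrm g r)) = a := by
  rw [← LinearMap.range_domRestrict]
  refine (LinearMap.finrank_range_of_inj (LinearMap.injective_domRestrict_iff.2 (disjoint_iff_inf_le.2 fun v ⟨h1, h2⟩ => ?_))).trans (fr j)
  obtain ⟨s, rfl⟩ := Nat.exists_eq_add_one.2 hr.out.pos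
  refine (ind j).le_bot ⟨h1, ?_⟩
  rw [SetLike.mem_coe, LinearMap.mem_ker, nrm_apply, Finset.sum_range_succ', add_eq_zero_iff_neg_eq] at h2
  refine (show v = _ from h2.symm) ▸ neg_mem (sum_mem fun k hk => Submodule.mem_iSup_of_mem ((σ ^ (k + 1)) j) (Submodule.mem_iSup_of_mem
    (dec_ne ind fr a0 m e h k.succ_pos (by simpa using hk)) ?_))
  rw [← dec_pow m]; exact ⟨v, h1, rfl⟩

theorem dec_mv (r0 : (r : F) ≠ 0) (h : σ j ≠ j) : a ≤ finrank F (fixSp g) ∧ r * a ≤ finrank F (mv g) + a := by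
  have n := finrank_nrm ind fr a0 m e h
  refine ⟨n ▸ Submodule.finrank_mono (by rintro _ ⟨v, -, rfl⟩; exact (nrm_fix e v).1), ?_⟩
  have i : Function.Injective fun k : Fin r => (σ ^ (k : ℕ)) j := fun k l => by
    wlog kl : k ≤ l generalizing k l
    · exact fun h => (this l k (le_of_not_ge kl) h.symm).symm
    refine fun h' => by_contra fun n => dec_ne ind fr a0 m e h (k := l - k) (Nat.sub_pos_of_lt (lt_of_le_of_ne kl n : k < l)) (by omega) ((σ ^ (k : ℕ)).injective ?_)
    rw [← Equiv.Perm.mul_apply, ← pow_add, Nat.add_sub_cancel' kl]; exact h'.symm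
  have := (indep_iff _).2.1 (ind.comp i)
  simp only [Function.comp, fr, Finset.sum_const, Finset.card_univ, Fintype.card_fin, smul_eq_mul] at this
  have l1 : r * a ≤ finrank F (porb g (D j)) := this.trans (Submodule.finrank_mono (iSup_le fun k => (dec_pow m k j).ge.trans (le_iSup (fun k : ℕ => g ^ k • D j) k)))
  have l2 := finrank_map_nl (g := g) (porb g (D j))
  have l3 : _ ≤ finrank F (mv g) := Submodule.finrank_mono (LinearMap.map_le_range (f := nl g) (p := porb g (D j)))
  have l4 : (porb g (D j)).map (nrm g r) ≤ (D j).map (nrm g r) := Submodule.map_le_iff_le_comap.2 (iSup_le fun k => by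
    rintro _ ⟨v, hv, rfl⟩
    refine ⟨v, hv, ?_⟩
    induction k with
    | zero => rfl
    | succ k ih => rw [ih, pow_succ', ← (nrm_fix e _).2]; rfl)
  have := Submodule.finrank_mono (show porb g (D j) ⊓ fixSp g ≤ _ from fun v hv => l4 ⟨(r : F)⁻¹ • v, Submodule.smul_mem _ _ hv.1, by
    rw [map_smul, nrm_of_fix hv.2, inv_smul_smul₀ r0]⟩)
  omega

theorem dec_cnt [Fintype ι] (r0 : (r : F) ≠ 0) (h : ∀ j, σ j = j → D j ≤ fixSp g) : Fintype.card ι * a ≤ r * finrank F (fixSp g) := by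
  classical
  let S := Equiv.Perm.SameCycle.setoid σ
  have l : ∀ j, (D j).map (nrm g r) ≤ ⨆ i ∈ {i | σ.SameCycle j i}, D i := by
    rintro j _ ⟨v, hv, rfl⟩
    rw [nrm_apply]
    refine sum_mem fun k _ => Submodule.mem_iSup_of_mem ((σ ^ k) j) (Submodule.mem_iSup_of_mem ⟨k, by simp⟩ ?_)
    rw [← dec_pow m]; exact ⟨v, hv, rfl⟩
  have i : iSupIndep fun q : Quotient S => (D q.out).map (nrm g r) := fun q => (ind.disjoint_biSup_biSup (s := {i | σ.SameCycle q.out i}) disjoint_compl_right).mono (l _)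
    (iSup₂_le fun q' n => (l _).trans (biSup_mono fun i h h' => n (Quotient.out_equiv_out.1 (h.trans h'.symm))))
  have d : ∀ j, finrank F ((D j).map (nrm g r)) = a := fun j => by
    by_cases k : σ j = j
    · refine .trans (congrArg (fun W : Submodule F V => finrank F W) (le_antisymm ?_ fun v hv => ?_)) (fr j)
      · rintro _ ⟨v, hv, rfl⟩; rw [nrm_of_fix (h j k hv)]; exact Submodule.smul_mem _ _ hv
      · exact ⟨(r : F)⁻¹ • v, Submodule.smul_mem _ _ hv, by rw [map_smul, nrm_of_fix (h j k hv), inv_smul_smul₀ r0]⟩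
    · exact finrank_nrm ind fr a0 m e k
  have := ((indep_iff _).2.1 i).trans (Submodule.finrank_mono (t := fixSp g) (iSup_le fun q => by rintro _ ⟨v, -, rfl⟩; exact (nrm_fix e v).1))
  simp only [d, Finset.sum_const, smul_eq_mul] at this
  have k := Finset.card_le_mul_card_image_of_maps_to (f := Quotient.mk S) (s := Finset.univ) (t := Finset.univ) (by simp) r fun q _ => by
    refine (Finset.card_le_card (t := (Finset.range r).image fun k => (σ ^ k) q.out) fun i hi => ?_).trans (Finset.card_image_le.trans (by simp))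
    obtain ⟨k, h1, h2⟩ := Equiv.Perm.SameCycle.exists_pow_eq' (f := σ)
      (Quotient.exact (s := S) (q.out_eq.trans (Finset.mem_filter.1 hi).2.symm) :)
    exact Finset.mem_image.2 ⟨k, Finset.mem_range.2 (h1.trans_le (orderOf_le_of_pow_eq_one hr.out.pos (dec_per ind fr a0 m e))), h2⟩
  calc _ ≤ r * _ * a := Nat.mul_le_mul_right a k
    _ ≤ _ := by rw [mul_assoc]; gcongr

omit fr a0 m e hr in
theorem dec_fix [Fintype ι] (h : ∀ j, c ∣ a - finrank F ↥(D j ⊓ fixSp g)) (fr : ∀ j, finrank F (D j) = a) : Fintype.card ι * (a % c) ≤ finrank F (fixSp g) := by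
  refine .trans ?_ (((indep_iff _).2.1 (ind.mono (t := fun j => D j ⊓ fixSp g) fun _ => inf_le_left)).trans (Submodule.finrank_mono (iSup_le fun _ => inf_le_right)))
  refine Finset.card_nsmul_le_sum _ _ _ fun j _ => ?_
  obtain ⟨k, hk⟩ := h j
  have : _ ≤ finrank F (D j) := Submodule.finrank_mono (inf_le_left : D j ⊓ fixSp g ≤ _)
  rw [show a = finrank F ↥(D j ⊓ fixSp g) + c * k by rw [fr] at this; omega, Nat.add_mul_mod_self_left]
  exact Nat.mod_le ..
end nec

theorem dec_nec [hr : Fact r.Prime] (r0 : (r : F) ≠ 0) {n : ℕ} (a0 : 0 < a) (c0 : 0 < c) (cr : c ≤ r - 1) (e : finrank F V = n) (hn : n = a * t) (cn : c ≤ n)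
    (H : ∀ k, 0 < k → c * k ≤ n → ∃ (g : V ≃ₗ[F] V) (D : Fin t → Submodule F V) (σ : Equiv.Perm (Fin t)), g ^ r = 1 ∧ finrank F (mv g) = c * k ∧ iSupIndep D ∧
      (∀ j, finrank F (D j) = a) ∧ (∀ j, g • D j = D (σ j)) ∧ ∀ j, σ j = j → c ∣ a - finrank F ↥(D j ⊓ fixSp g)) :
    (a = 1 ∧ 1 < c ∧ c = r - 1 ∧ n ≤ (n % c) * r) ∨ (c ≤ a ∧ n % c = t * (a % c)) := by
  obtain ⟨g, D, σ, g1, g2, g3, g4, g5, g6⟩ := H (n / c) (Nat.div_pos cn c0) (Nat.mul_div_le n c)
  have f := finrank_mv_add g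
  have := Nat.mod_add_div n c
  have := Nat.mod_lt n c0
  by_cases ca : c ≤ a
  · have := dec_fix g3 (fun j => g6 j (by_contra fun h => by have := (dec_mv g3 g4 a0 g5 g1 r0 h).1; omega)) g4
    rw [Fintype.card_fin] at this
    exact .inr ⟨ca, by rw [← Nat.mod_eq_of_lt (show t * (a % c) < c by omega), Nat.mul_mod_mod, hn, mul_comm]⟩
  have k := dec_cnt g3 g4 a0 g5 g1 r0 fun j h => inf_eq_left.1 (Submodule.eq_of_le_of_finrank_le inf_le_left (by
    have := Nat.eq_zero_of_dvd_of_lt (g6 j h) (by omega); rw [g4]; omega))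
  rw [Fintype.card_fin, mul_comm, ← hn, mul_comm, show finrank F (fixSp g) = n % c by omega] at k
  obtain ⟨g, D, σ, g1, g2, g3, g4, g5, g6⟩ := H 1 one_pos (by omega)
  have f := finrank_mv_add g
  obtain ⟨j, h⟩ : ∃ j, σ j ≠ j := by_contra fun h => by
    have := dec_fix g3 (fun j => g6 j (by_contra fun k => h ⟨j, k⟩)) g4
    rw [Fintype.card_fin, Nat.mod_eq_of_lt (by omega), mul_comm] at this; omega
  have := (dec_mv g3 g4 a0 g5 g1 r0 h).2
  obtain ⟨s, rfl⟩ := Nat.exists_eq_add_one.2 hr.out.pos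
  rw [add_mul] at this
  have : a = 1 := by_contra fun h => by have := Nat.mul_le_mul_left s (show 2 ≤ a by omega); omega
  subst this; omega

theorem fact_dvd {α : Type*} (P : (Fin t → α) → Prop) (hP : ∀ D (σ : Equiv.Perm (Fin t)), P D → P (D ∘ σ)) (inj : ∀ D, P D → Function.Injective D) :
    Nat.card {D // P D} / t.factorial ∣ Nat.card {D // P D} := by
  letI : MulAction (Equiv.Perm (Fin t)) {D // P D} := { smul σ D := ⟨D.1 ∘ σ.symm, hP _ _ D.2⟩, one_smul _ := rfl, mul_smul _ _ _ := rfl }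
  refine Nat.div_dvd_of_dvd ?_
  rw [Nat.card_congr (MulAction.selfEquivOrbitsQuotientProd (G := Equiv.Perm (Fin t)) fun D => eq_bot_iff.2 fun σ h => inv_eq_one.1 (Equiv.ext fun j =>
    inj _ D.2 (congr_fun (congrArg Subtype.val h) j))), Nat.card_prod, Nat.card_perm]
  simp

omit [FiniteDimensional F V] in
theorem exists_dec_map {ι : Type} {D E : ι → Submodule F V} (i : iSupIndep D) (s : iSup D = ⊤) (i' : iSupIndep E) (s' : iSup E = ⊤) (e : ∀ j, D j ≃ₗ[F] E j) :
    ∃ g : V ≃ₗ[F] V, ∀ j (v : D j), g v = e j v := by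
  classical
  refine ⟨(i.linearEquiv s).symm ≪≫ₗ DFinsupp.mapRange.linearEquiv e ≪≫ₗ i'.linearEquiv s', fun j v => ?_⟩
  simp [i.linearEquiv_symm_apply s v.2, DFinsupp.mapRange_single]

section mdec
open Cfsg.Geo
variable {ι : Type} [Fintype ι] [DecidableEq ι] {D : Fin t → Submodule F (ι → F)}
omit [DecidableEq ι] in
theorem mdec_comp (σ : Equiv.Perm (Fin t)) (h : IsMDecomposition a D) : IsMDecomposition a (D ∘ σ) :=
  ⟨h.1, h.2, fun _ => h.3 _, h.4.comp σ.injective, (σ.iSup_comp (g := D)).trans h.5⟩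
omit [DecidableEq ι] in
theorem mdec_inj (h : IsMDecomposition a D) : Function.Injective D := h.4.injective fun j => Submodule.one_le_finrank_iff.1 (h.3 j ▸ h.2)
omit [DecidableEq ι] in
theorem mdec_smul (g : (ι → F) ≃ₗ[F] (ι → F)) (h : IsMDecomposition a D) : IsMDecomposition a (g • D) :=
  ⟨h.1, h.2, fun j => (LinearEquiv.finrank_map_eq ..).trans (h.3 j), h.4.map_orderIso (Submodule.orderIsoMapComap g),
    (Submodule.map_iSup ..).symm.trans (by rw [h.5, Submodule.map_top]; exact g.range)⟩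
end mdec
end H5
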