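import Cfsg.Agent.H5.Nd3
/-! Orthogonal splitting of unipotent isometries along a decomposition of the Jordan type; nondegenerate subspaces of symplectic spaces. -/
set_option autoImplicit false
namespace H5
open Module Pointwise Matrix

universe u
variable {F : Type u} [Field F] {κ κ' : Kind F} {η : F} {V : Type u} [AddCommGroup V] [Module F V] {W : Type u} [AddCommGroup W] [Module F W]
  {V' : Type u} [AddCommGroup V'] [Module F V'] {W' : Type u} [AddCommGroup W'] [Module F W']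

namespace Form
theorem Lift.prod₂ {Φ : Form κ V} {Ψ : Form κ' W} {Φ' : Form κ V'} {Ψ' : Form κ' W'} {j p j' p'} (h : Φ.Lift Ψ j p) (h' : Φ'.Lift Ψ' j' p') :
    (Φ.prod Φ').Lift (Ψ.prod Ψ') (j.prodMap j') (p.prodMap p') :=
  ⟨h.inj.prodMap h'.inj, h.surj.prodMap h'.surj, fun w y => by simp [prod_B, h.eq, h'.eq]⟩

variable [Finite F]
theorem _root_.H5.Cls.exists_sg [FiniteDimensional F V] {s : Prop} (c : Cls κ s) {Φ : Form κ V} (n : Φ.Nondeg) {d : ℕ} (h : ¬ s → Even d) (b : Prop) :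
    ∃ (D : Type u) (_ : AddCommGroup D) (_ : Module F D) (_ : FiniteDimensional F D) (Θ : Form κ D), Θ.Nondeg ∧ finrank F D = d ∧ (s → 0 < d → ((Φ.prod Θ).sg 1 ↔ b)) := by
  obtain ⟨D, _, _, _, Θ, Θ', l1, l2, l3, l4⟩ := c.ex _ h
  by_contra! k
  obtain ⟨s, m, c1⟩ := k D _ _ ‹_› Θ l1 l3
  obtain ⟨_, e⟩ := c.iso (n.prod l1) (n.prod l2) rfl fun _ => by have := (k D _ _ ‹_› Θ' l2 l3).2.2; tauto
  exact l4 s m (prod_cancel n l1 e)

theorem exists_sg₂ (n : ℕ) : ∀ (K : ℕ → Kind F) (S : ℕ → Prop) (_ : ∀ i, DualK (K i) (K (i + 1)) η ∧ Cls (K i) (S i)) (μ ν : Multiset ℕ) (b : ℕ → Prop),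
    (∀ a ∈ μ + ν, a ≤ n) → (∀ i, ¬ S i → Even (μ.count (i + 1))) → (∀ i, ¬ S i → Even (ν.count (i + 1))) →
    ∃ (V : Type u) (_ : AddCommGroup V) (_ : Module F V) (_ : FiniteDimensional F V) (Φ : Form (K 0) V) (T : End F V)
      (V' : Type u) (_ : AddCommGroup V') (_ : Module F V') (_ : FiniteDimensional F V') (Φ' : Form (K 0) V') (T' : End F V'),
      (Φ.Nondeg ∧ Φ.Adj η T ∧ JE T μ ∧ finrank F V = μ.sum) ∧ (Φ'.Nondeg ∧ Φ'.Adj η T' ∧ JE T' ν ∧ finrank F V' = ν.sum) ∧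
      ∀ i, S i → i + 1 ∈ μ + ν → ((Φ.prod Φ').sg ((T.prodMap T' : End F (V × V')) ^ i) ↔ b i) := by
  induction n with
  | zero =>
    intro K S d μ ν b h h1 h2
    obtain ⟨V, _, _, _, Φ, T, a1, a2, a3, a4, -⟩ := exists_sg 0 K S d μ b (fun a k => h a (by simp [k])) h1
    obtain ⟨V', _, _, _, Φ', T', b1, b2, b3, b4, -⟩ := exists_sg 0 K S d ν b (fun a k => h a (by simp [k])) h2
    exact ⟨V, _, _, ‹_›, Φ, T, V', _, _, ‹_›, Φ', T', ⟨a1, a2, a3, a4⟩, ⟨b1, b2, b3, b4⟩, fun i _ m => by simpa using h _ m⟩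
  | succ n ih =>
    intro K S d μ ν b h par par'
    obtain ⟨U, _, _, _, Ψ, T, U', _, _, _, Ψ', T', ⟨h1, h2, h3, h4⟩, ⟨g1, g2, g3, g4⟩, h5⟩ := ih (fun i => K (i + 1)) (fun i => S (i + 1)) (fun i => d (i + 1))
      (μ.map (· - 1)) (ν.map (· - 1)) (fun i => b (i + 1)) (by rw [← Multiset.map_add]; generalize μ + ν = x at h; simpa using h) (fun i hi => count_pred μ i ▸ par _ hi)
      fun i hi => count_pred ν i ▸ par' _ hi
    obtain ⟨V, _, _, _, Φ, j, p, k1, k2, rfl, k3⟩ := exists_lift (d 0).1 h1 h2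
    obtain ⟨V', _, _, _, Φ', j', p', m1, m2, rfl, m3⟩ := exists_lift (d 0).1 g1 g2
    obtain ⟨D, _, _, _, Θ, D', _, _, _, Θ', l1, l2, l3, l4, l⟩ : ∃ (D : Type u) (_ : AddCommGroup D) (_ : Module F D) (_ : FiniteDimensional F D) (Θ : Form (K 0) D)
        (D' : Type u) (_ : AddCommGroup D') (_ : Module F D') (_ : FiniteDimensional F D') (Θ' : Form (K 0) D'), Θ.Nondeg ∧ finrank F D = μ.count 1 ∧
        Θ'.Nondeg ∧ finrank F D' = ν.count 1 ∧ (S 0 → 1 ∈ μ + ν → (((Φ.prod Θ).prod (Φ'.prod Θ')).sg 1 ↔ b 0)) := by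
      by_cases k : 1 ∈ μ
      · obtain ⟨D', _, _, _, Θ', -, l3, -, l4, -⟩ := (d 0).2.ex _ (par' 0)
        obtain ⟨D, _, _, _, Θ, l1, l2, l⟩ := (d 0).2.exists_sg (k1.prod (m1.prod l3)) (par 0) (b 0)
        refine ⟨D, _, _, ‹_›, Θ, D', _, _, ‹_›, Θ', l1, l2, l3, l4, fun s _ => .trans ?_ (l s (Multiset.count_pos.2 k))⟩
        simpa using IsIso.sg (T := 1) (T₂ := 1) (f := (LinearEquiv.prodAssoc ..).trans ((LinearEquiv.refl ..).prodCongr (.prodComm ..) |>.trans (.symm (.prodAssoc ..))))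
          ⟨fun x y => add_right_comm .., fun x => add_right_comm ..⟩ (fun _ => rfl) 0
      · obtain ⟨D, _, _, _, Θ, -, l1, -, l2, -⟩ := (d 0).2.ex _ (par 0)
        obtain ⟨D', _, _, _, Θ', l3, l4, l⟩ := (d 0).2.exists_sg ((k1.prod l1).prod m1) (par' 0) (b 0)
        refine ⟨D, _, _, ‹_›, Θ, D', _, _, ‹_›, Θ', l1, l2, l3, l4, fun s m => .trans ?_ (l s (Multiset.count_pos.2 (by simpa [k] using m)))⟩
        simpa using IsIso.sg (T := 1) (T₂ := 1) (f := .symm (.prodAssoc ..)) ⟨fun x y => add_assoc .., fun x => add_assoc ..⟩ (fun _ => rfl) 0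
    have key : ∀ (μ : Multiset ℕ) {u k v e : ℕ}, u = (μ.map (· - 1)).sum → k = ((μ.map (· - 1)).map (min · 1)).sum → v = u + k → e = μ.count 1 →
        v + e = u + (μ.map (min · 1)).sum ∧ v + e = μ.sum := fun μ u k v e a b c d => by
      have : (μ.map (· - 1)).sum + (μ.map (min · 1)).sum = μ.sum := by
        rw [← Multiset.sum_map_add]; exact congrArg _ ((Multiset.map_congr rfl fun a _ => by simp only [id]; omega).trans (Multiset.map_id μ))
      have := sum_min_one μ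
      omega
    have e := key μ h4 (pow_one (p ∘ₗ j : End F U) ▸ h3 1) k3 l2
    have e' := key ν g4 (pow_one (p' ∘ₗ j' : End F U') ▸ g3 1) m3 l4
    rw [← finrank_prod] at e e'
    refine ⟨_, _, _, inferInstance, _, _, _, _, _, inferInstance, _, _, ⟨k1.prod l1, (k2.prod Θ).adj (d 0).1, (k2.prod Θ).je h3 e.1, e.2⟩,
      ⟨m1.prod l3, (m2.prod Θ').adj (d 0).1, (m2.prod Θ').je g3 e'.1, e'.2⟩, ?_⟩
    have : Finite ((V × D) × V' × D') := Module.finite_of_finite F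
    rintro (_ | i) s m
    exacts [l s m, (((k2.prod Θ).prod₂ (m2.prod Θ')).sg i).trans (h5 i s (by rw [← Multiset.map_add]; exact mem_pred.2 m))]

variable [FiniteDimensional F V] {Φ : Form (.symp F) V} {g : V ≃ₗ[F] V} {μ ν : Multiset ℕ}
theorem Nondeg.unip_split (n : Φ.Nondeg) (h2 : (2 : F) ≠ 0) (hg : g ∈ Φ.isom) (j : JE (nl g) (μ + ν)) (e : finrank F V = (μ + ν).sum)
    (h : ∀ a, Odd a → Even (μ.count a)) : ∃ W, (Φ.res W).Nondeg ∧ finrank F W = μ.sum ∧ ∀ v ∈ W, g v ∈ W := by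
  have c0 : (1 : F) - -1 * (Kind.symp F).σ 1 ≠ 0 := by simpa [one_add_one_eq_two] using h2
  have le : ∀ a ∈ μ + ν, a ≤ (μ + ν).sum := fun a => Multiset.single_le_sum (by simp) a
  obtain ⟨T, c, a, k⟩ := Form.exists_cay hg j e (by simp) c0
  obtain ⟨U, _, _, _, Ψ, S, U', _, _, _, Ψ', S', ⟨h1, h3, h4, h5⟩, ⟨g1, g3, g4, g5⟩, l⟩ := exists_sg₂ _ _ _ (cls_alt h2) μ ν (fun i => Φ.sg (T ^ i)) le
    (fun i hi => h _ (Nat.not_odd_iff_even.1 hi).add_one) fun i hi => by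
      have := n.even_count_alt (fun _ => rfl) Φ.symp_self hg j (Nat.not_odd_iff_even.1 hi).add_one
      rw [Multiset.count_add, Nat.even_add] at this
      exact this.1 (h _ (Nat.not_odd_iff_even.1 hi).add_one)
  obtain ⟨f, f1, f2⟩ := iso_of_sg _ _ _ (cls_alt h2) (Φ₂ := Φ) (h1.prod g1) n (fun x y => by simp [prod_B, h3 x.1, g3 x.2, mul_add]) a (h4.prod g4) k
    (by simp [h5, g5]) e le l
  let P : End F V := f.conj (.inl F U U' ∘ₗ .fst F U U')
  have := (c.iff c P).2 fun x => by obtain ⟨x, rfl⟩ := f.surjective x; simp [P, ← f2, LinearEquiv.conj_apply]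
  have i : Function.Injective (f.toLinearMap ∘ₗ .inl F U U') := f.injective.comp LinearMap.inl_injective
  refine ⟨LinearMap.range (f.toLinearMap ∘ₗ .inl F U U'), IsIso.nondeg (e := .ofInjective _ i) ⟨fun x y => (f1.1 (x, 0) (y, 0)).trans (by simp [prod_B]; rfl),
    fun _ => (symp_Q _ _).trans (symp_Q (F := F) Ψ _).symm⟩ h1, by rw [LinearMap.finrank_range_of_inj i, h5], ?_⟩
  rintro _ ⟨x, rfl⟩
  exact ⟨(f.symm (g (f (x, 0)))).1, by simpa [P, LinearEquiv.conj_apply] using (comm_nl P).1 this (f (x, 0))⟩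
end Form
end H5
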