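import Cfsg.Agent.H5.Dc2
import Cfsg.Agent.H5.Nd6
/-! Elements of prime order fixing decompositions of linear and symplectic spaces. -/
set_option autoImplicit false
namespace H5
open Module Pointwise Matrix Form

universe u
variable {F : Type u} [Field F] {κ : Kind F} {V : Type u} [AddCommGroup V] [Module F V] [FiniteDimensional F V] {r a s t c : ℕ}
  {g : V ≃ₗ[F] V} {z : Fˣ} {X Y : Submodule F V}

theorem mv_sup_fix (r0 : (r : F) ≠ 0) (e : g ^ r = 1) : mv g ⊔ fixSp g = ⊤ :=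
  Submodule.eq_top_of_finrank_eq (by rw [finrank_sup_disj (disjoint_iff.2 (mv_inf_fixSp r0 e)), finrank_mv_add])

section lin
variable [Fintype F] [hr : Fact r.Prime] (r0 : (r : F) ≠ 0) {i : ℕ} (hi : i = orderOf (Fintype.card F : ZMod r)) (e : g ^ r = 1)
include r0 hi e

theorem dec_ss (n : finrank F V = a * t) (h : finrank F (mv g) / i ≤ t * (a / i)) : Dec (zF F V) g a t ⊤ := by
  obtain ⟨k, hk⟩ := ord_dvd_mv r0 hi e
  rw [hk, Nat.mul_div_cancel_left _ (hi ▸ ord_pos hr.out r0)] at h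
  have e' : g ^ r = scal V 1 := by simpa
  have := finrank_mv_add g
  refine mv_sup_fix r0 e ▸ Spl.dist (P := fun M => M ≤ mv g ∧ ∀ v ∈ M, g v ∈ M) (Q := (· ≤ fixSp g)) (e := 1) (fun M ⟨m1, m2⟩ k hk => ?_) (fun M m k hk => ?_)
    (one_dvd _) (one_dvd _) t k _ _ ⟨le_rfl, mv_inv g⟩ le_rfl (zF_perp _ _) hk (by omega) h
  · obtain ⟨A, -, a1, a2, a3⟩ := inv_chain r0 e' m2 (fun Y y => exists_blk r0 hi e Y (y.trans m1)) bot_le (by simp) k (by simpa)
    obtain ⟨C, c1, c2⟩ := exists_inv_compl r0 e' a2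
    rw [finrank_bot, zero_add] at a3
    exact ⟨A, C ⊓ M, (compl_inf a1 c1).1, ⟨inf_le_right.trans m1, fun v hv => ⟨c2 v hv.1, m2 v hv.2⟩⟩, a3, a3 ▸ (compl_inf a1 c1).2, a2, zF_perp _ _⟩
  · obtain ⟨A, B, rfl, a2, a3⟩ := exists_cut M hk
    exact ⟨A, B, rfl, le_sup_right.trans m, a2, a3, fun v hv => (mem_fixSp.1 (m (le_sup_left (b := B) hv))).symm ▸ hv, zF_perp _ _⟩

theorem dec_one (ir : i = r - 1) (h : finrank F V ≤ finrank F (fixSp g) * r) : Dec (zF F V) g 1 (finrank F V) ⊤ := by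
  have e' : g ^ r = scal V 1 := by simpa
  obtain ⟨D, d1, d2⟩ := exists_porb (c := i) r0 e' (fun Y y h y0 => let ⟨_, u1, _, u2⟩ := exists_blk r0 hi e Y y h y0; u2 ▸ Submodule.finrank_mono u1) _ _ le_rfl rfl
    (mv_inv g)
  have f := finrank_mv_add g
  obtain ⟨s, rfl⟩ := Nat.exists_eq_add_one.2 hr.out.pos
  have s0 : 0 < s := by have := hr.out.two_le; omega
  rw [ir, Nat.add_sub_cancel] at d2
  obtain ⟨A, B, a1, a2, a3⟩ := exists_cut (fixSp g) (j := finrank F D) (Nat.le_of_mul_le_mul_left (by rw [mul_add, mul_comm] at h; omega) s0)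
  let ψ : D ≃ₗ[F] A := .ofFinrankEq _ _ a2.symm
  let E := LinearMap.range (D.subtype + A.subtype ∘ₗ ψ)
  have k : ∀ v : D, (ψ v : V) ∈ porb g E := fun v => by
    have : nrm g (s + 1) (v + ψ v) ∈ porb g E := by rw [nrm_apply]; exact sum_mem fun k _ => pow_mem_porb k ⟨v, rfl⟩
    obtain ⟨x, hx⟩ := d1.le (le_porb v.2)
    rw [map_add, ← hx, nrm_of_fix (mem_fixSp.1 (a1.le (le_sup_left (b := B) (ψ v).2))), LinearMap.sub_apply, map_sub, LinearEquiv.coe_coe, (nrm_fix e x).2] at this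
    exact (Submodule.smul_mem_iff _ r0).1 (by simpa using this)
  have top : porb g E ⊔ B = ⊤ := by
    rw [eq_top_iff, ← mv_sup_fix r0 e, ← d1, ← a1, ← sup_assoc]
    refine sup_le_sup_right (sup_le (porb_le (fun v hv => ?_) porb_inv) fun v hv => ?_) _
    · simpa using sub_mem (le_porb (g := g) (D := E) ⟨⟨v, hv⟩, rfl⟩) (k ⟨v, hv⟩)
    · simpa using k (ψ.symm ⟨v, hv⟩)
  have := Nat.mul_le_mul_left (s + 1) (LinearMap.finrank_range_le (D.subtype + A.subtype ∘ₗ ψ))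
  have := finrank_porb (D := E) hr.out.pos e'
  have := Submodule.finrank_add_le_finrank_add_finrank (porb g E) B
  rw [top, finrank_top] at this
  refine top ▸ regroup hr.out e' one_pos _ E B (fun v hv => by rw [mem_fixSp.1 (a1.le (le_sup_right (a := A) hv))]; exact Submodule.mem_span_singleton_self v) ?_ (by simp)
  simp only [add_mul, mul_add, mul_comm s, E] at *; omega
end lin

theorem C2.el_one [Finite F] {Φ : Form κ V} {W₀ : Submodule F V} (c : C2 κ) (n : Φ.Nondeg) (n₀ : (Φ.res W₀).Nondeg)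
    (na : ∀ X : Submodule F V, (Φ.res X).Nondeg → ∀ k, 2 * k < finrank F X → ∃ t ∈ (Φ.res X).isom, t * t = 1 ∧ finrank F (mv t) = k + 1 ∧ ¬ (Φ.res X).Alt t) {w₀ w₁ : ℕ}
    (e₀ : ∀ k, (Φ.res W₀).HasTS k ↔ k ≤ w₀) (e₁ : ∀ k, (Φ.res (Φ.perp W₀)).HasTS k ↔ k ≤ w₁) {t : V ≃ₗ[F] V} (t1 : t ∈ Φ.isom) (t2 : t * t = 1)
    (H : Φ.Alt t → finrank F (mv t) / 2 ≤ w₀ / 2 + w₁ / 2) : ∃ W, Φ.Cl W₀ W ∧ ∀ v ∈ W, t v ∈ W := by
  have n₁ := n.perp_nondeg n₀
  obtain ⟨a, a1, a2, b, b1, b2, h1, h2⟩ : ∃ a ∈ (Φ.res W₀).isom, a * a = 1 ∧ ∃ b ∈ (Φ.res (Φ.perp W₀)).isom, b * b = 1 ∧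
      finrank F (mv a) + finrank F (mv b) = finrank F (mv t) ∧ ((Φ.res W₀).Alt a ∧ (Φ.res _).Alt b ↔ Φ.Alt t) := by
    by_cases k : Φ.Alt t
    · obtain ⟨l1, l, l2⟩ := c.alt_iff_ts n t1 t2 k
      have := H k
      obtain ⟨T, h1, h2⟩ := (e₀ (2 * min l (w₀ / 2))).2 (by omega)
      obtain ⟨S, h3, h4⟩ := (e₁ (2 * (l - min l (w₀ / 2)))).2 (by omega)
      obtain ⟨a, a1, a2, a3, a4⟩ := c.exists_alt n₀ h2 (by simp [h1])
      obtain ⟨b, b1, b2, b3, b4⟩ := c.exists_alt n₁ h4 (by simp [h3])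
      exact ⟨a, a1, a2, b, b1, b2, by rw [a3, b3]; omega, by simp [k, a4, b4]⟩
    have l : ∀ X : Submodule F V, (Φ.res X).Nondeg → ∀ k, 2 * k ≤ finrank F X + 1 →
        ∃ t ∈ (Φ.res X).isom, t * t = 1 ∧ finrank F (mv t) = k ∧ (k ≠ 0 → ¬ (Φ.res X).Alt t) := fun X nX k hk => by
      rcases k with _ | k
      · exact ⟨1, one_mem _, one_mul _, by simp [mv_one], by simp⟩
      · exact (na X nX k (by omega)).imp fun t h => ⟨h.1, h.2.1, h.2.2.1, fun _ => h.2.2.2⟩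
    have := c.two_mul_le n t1 t2
    have := n.finrank_perp W₀
    have : finrank F (mv t) ≠ 0 := fun h => k (by rw [mv_eq_bot.1 (Submodule.finrank_eq_zero.1 h)]; exact c.self)
    obtain ⟨a, a1, a2, a3, a4⟩ := l _ n₀ (min (finrank F (mv t)) (finrank F W₀ / 2)) (by omega)
    obtain ⟨b, b1, b2, b3, b4⟩ := l _ n₁ (finrank F (mv t) - min (finrank F (mv t)) (finrank F W₀ / 2)) (by omega)
    exact ⟨a, a1, a2, b, b1, b2, by omega, iff_of_false (fun h => by have := mt a4 (not_not.2 h.1); have := mt b4 (not_not.2 h.2); omega) k⟩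
  have s := (Φ.sumAut_mem_iff (n.isCompl_perp n₀) le_rfl (a, b)).2 ⟨a1, b1⟩
  refine cl_of_conj s t1 ((c.conj_iff n (by rw [← map_mul, Prod.mk_mul_mk, a2, b2]; exact map_one _) t2).2 ⟨(finrank_mv_compl _ a b).trans h1, .trans ?_ h2⟩)
    fun v hv => sumAut_left _ (a, b) ⟨v, hv⟩ ▸ Subtype.mem _
  refine ⟨fun h => ⟨fun x => by simpa using h x, fun x => by simpa using h x⟩, fun h x => ?_⟩
  obtain ⟨x, y, rfl⟩ := exists_add_of_isCompl (n.isCompl_perp n₀) x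
  simpa [sumAut_apply, y.2 _ (a x).2, Φ.B_zero_symm ((b y).2 _ x.2), show Φ.B x (a x) = 0 from h.1 x] using h.2 y

section symp
variable {Φ : Form (.symp F) V}

theorem Form.Nondeg.exists_nd (n : Φ.Nondeg) (h : 2 * a ≤ finrank F V) : ∃ W, (Φ.res W).Nondeg ∧ finrank F W = 2 * a := by
  obtain ⟨W₀, n₀, -, e₀⟩ := n.chain (g := 1) (fun _ _ => True) trivial (fun k W h1 _ h4 _ => by
    obtain ⟨x, hx, x0⟩ := Submodule.exists_mem_ne_zero_of_ne_bot h4
    obtain ⟨y, hy⟩ := (n.perp_nondeg h1).exists_ne (y := ⟨x, hx⟩) (by simpa)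
    replace hy : Φ.B y x ≠ 0 := hy
    exact ⟨_, Submodule.span_le.2 (Set.pair_subset y.2 hx), (symp_plane hy).1, fun _ h => h, (symp_plane hy).2, trivial⟩) a (by omega)
  exact ⟨W₀, n₀, e₀.1⟩

variable [Finite F]
theorem Form.Nondeg.dec_swap (n : Φ.Nondeg) (h2 : (2 : F) = 0) (hg : g ∈ Φ.isom) (e : g * g = 1) (al : Φ.Alt g) (d : finrank F V = 2 * (2 * a))
    (m : finrank F (mv g) = 2 * a) : Dec Φ g (2 * a) 2 ⊤ := by
  obtain ⟨U, u1, u2⟩ := n.exists_nd (a := a) (by omega)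
  obtain ⟨j, hj⟩ := symp_iso (u1.prod u1) n (by simp; omega)
  let s := autCongr j (.prodComm F U U)
  have s0 : ∀ x, s (j x) = j x.swap := fun x => by simp [s, autCongr_apply]
  have s1 : s ∈ Φ.isom := (hj.mem_iff _).1 ((mem_isom_symp _).2 fun x y => add_comm _ _)
  have s2 : s * s = 1 := by rw [← map_mul]; exact map_one _
  have s3 : finrank F (mv s) = 2 * a := by
    have := (c2_symp h2).two_mul_le n s1 s2
    have k := finrank_map_nl (g := s) (LinearMap.range (j ∘ₗ .inl F U U))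
    rw [LinearMap.finrank_range_of_inj (f := j.toLinearMap ∘ₗ .inl F U U) (j.injective.comp (LinearMap.inl_injective (R := F))), show _ ⊓ fixSp s = ⊥ from eq_bot_iff.2 (by
      rintro _ ⟨⟨x, rfl⟩, hx⟩
      have := congrArg Prod.fst (j.injective ((s0 (x, 0)).symm.trans hx))
      simp [show x = 0 from this.symm]), finrank_bot] at k
    have : _ ≤ finrank F (mv s) := Submodule.finrank_mono (LinearMap.map_le_range (f := nl s) (p := LinearMap.range (j ∘ₗ .inl F U U)))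
    omega
  obtain ⟨c, hc⟩ := isConj_iff.1 (((c2_symp h2).conj_iff n (t := ⟨s, s1⟩) (s := ⟨g, hg⟩) s2 e).2 ⟨s3.trans m.symm, iff_of_true (fun x => by
    obtain ⟨x, rfl⟩ := j.surjective x
    rw [s0, hj.1, prod_B, Prod.snd_swap, ((Φ.res U).B_symm x.1 x.2 :)]; simp [Kind.symp]) al⟩)
  have := (Dec.pair (Φ := (Φ.res U).prod (Φ.res U)) (g := .prodComm F U U) (D := LinearMap.range (.inl F U U)) (E := LinearMap.range (.inr F U U))
    ((LinearMap.finrank_range_le _).trans u2.le) ((LinearMap.finrank_range_le _).trans u2.le) (by rintro _ ⟨x, rfl⟩; exact ⟨x, rfl⟩)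
    (by rintro _ ⟨x, rfl⟩; exact ⟨x, rfl⟩)
    (by rintro _ ⟨x, rfl⟩ _ ⟨y, rfl⟩; simp [prod_B])).map' (Φ := Φ) (g := g) (j ≪≫ₗ c.1).toLinearMap (fun x y => (c.2.1 _ _).trans (hj.1 x y)) fun x => by
      rw [show g = c.1 * s * c.1⁻¹ from (congrArg Subtype.val hc).symm]; simp [s0]
  rwa [LinearMap.sup_range_inl_inr, Submodule.map_top, LinearEquiv.range] at this

theorem dec_inv (a0 : 0 < a) (t : ℕ) : ∀ {V : Type u} [AddCommGroup V] [Module F V] [FiniteDimensional F V] {Φ : Form (.symp F) V} {g : V ≃ₗ[F] V}, Φ.Nondeg →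
    g ∈ Φ.isom → ((∀ x, g (g x) = x) ∨ ∀ x, g (g x) = -x) → finrank F V = 2 * a * t → Dec Φ g (2 * a) t ⊤ := by
  induction t using Nat.strong_induction_on with
  | _ t ih =>
  intro V _ _ _ Φ g n hg e d
  rcases t with _ | t
  · rw [Submodule.finrank_eq_zero.1 (show finrank F (⊤ : Submodule F V) = 0 by simpa using d)]; exact .bot
  obtain ⟨s, W, s0, w1, w2, w3, w4⟩ : ∃ s, ∃ W : Submodule F V, 0 < s ∧ (Φ.res W).Nondeg ∧ (∀ v ∈ W, g v ∈ W) ∧ finrank F W = 2 * a * s ∧ Dec Φ g (2 * a) s W := by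
    rw [mul_add] at d
    by_cases h2 : (2 : F) = 0; swap
    · obtain ⟨W, w1, w2, w3⟩ := n.symp_inv h2 hg e (k := a) (by omega)
      exact ⟨1, W, one_pos, w1, w2, by omega, .single w3.le w2⟩
    have g2 : g * g = 1 := LinearEquiv.ext (e.elim id fun h x => (h x).trans (neg_eq_of_add_eq_zero_left ((two_smul F x).symm.trans (by rw [h2, zero_smul]))))
    have k : ∀ b, 2 * b ≤ finrank F V → (Φ.Alt g → finrank F (mv g) / 2 ≤ b / 2 + (finrank F V - 2 * b) / 2 / 2) →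
        ∃ W : Submodule F V, (Φ.res W).Nondeg ∧ (∀ v ∈ W, g v ∈ W) ∧ finrank F W = 2 * b := fun b hb H => by
      obtain ⟨U, u1, u2⟩ := n.exists_nd hb
      obtain ⟨W, w1, w2⟩ := (c2_symp h2).el_one n u1 (fun X nX k hk => by
        obtain ⟨j, hj, -⟩ := nX.symp_hasTS
        exact nX.symp_nalt h2 hj k (by omega)) u1.hasTS_symp (n.perp_nondeg u1).hasTS_symp hg g2 fun h => by
          rw [Nat.eq_sub_of_add_eq' (n.finrank_perp U), u2, Nat.mul_div_cancel_left _ two_pos]; exact H h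
      exact ⟨W, w1.nd u1, w2, w1.finrank.trans u2⟩
    by_cases H : Φ.Alt g → finrank F (mv g) / 2 ≤ a / 2 + (finrank F V - 2 * a) / 2 / 2
    · obtain ⟨W, w1, w2, w3⟩ := k a (by omega) H
      exact ⟨1, W, one_pos, w1, w2, by omega, .single w3.le w2⟩
    obtain ⟨al, H⟩ := Classical.not_imp.1 H
    obtain ⟨-, l, hl⟩ := (c2_symp h2).alt_iff_ts n hg g2 al
    have := (c2_symp h2).two_mul_le n hg g2
    rw [mul_assoc] at d
    have : a ≤ a * t := Nat.le_mul_of_pos_right _ (Nat.pos_of_ne_zero (by rintro rfl; omega))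
    obtain ⟨W, w1, w2, w3⟩ := k (2 * a) (by omega) fun _ => by omega
    have w4 := isom_perp_mem hg w2
    have q : ∀ (X : Submodule F V) (i : ∀ v ∈ X, g v ∈ X), resAut g X i * resAut g X i = 1 := fun X i => sq (resAut g X i) ▸ resAut_one i (sq g ▸ g2)
    have := (c2_symp h2).two_mul_le w1 (Φ.resAut_mem hg w2) (q _ _)
    have := (c2_symp h2).two_mul_le (n.perp_nondeg w1) (Φ.resAut_mem hg w4) (q _ _)
    have := n.finrank_perp W
    have z := finrank_mv_compl (n.isCompl_perp w1) (resAut g _ w2) (resAut g _ w4)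
    rw [← eq_sumAut] at z
    exact ⟨2, W, two_pos, w1, w2, by omega, .res w2 (w1.dec_swap h2 (Φ.resAut_mem hg w2) (q _ _) (fun x => al x) w3 (by omega))⟩
  have f := n.finrank_perp W
  obtain ⟨u, hu⟩ := Nat.exists_eq_add_of_le (show s ≤ t + 1 from Nat.le_of_mul_le_mul_left (show 2 * a * s ≤ _ by omega) (by omega))
  have w5 := isom_perp_mem hg w2
  rw [hu, ← (n.isCompl_perp w1).sup_eq_top]
  refine w4.add (.res w5 (ih u (by omega) (n.perp_nondeg w1) (Φ.resAut_mem hg w5) (e.imp (fun h x => Subtype.ext (h x)) fun h x => Subtype.ext (h x)) ?_)) (Φ.le_perp_perp W)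
  rw [hu, mul_add] at d; omega
end symp

section blk
variable [Fintype F] [hr : Fact r.Prime] {Φ : Form (.symp F) V} (b : Blk (.symp F) r c) (n : Φ.Nondeg)
include b n
theorem Blk.dec (c2 : 2 ∣ c) (a2 : 2 ∣ a) (hg : g ∈ Φ.isom) (e : g ^ r = 1) (d : finrank F V = a * t) (h : finrank F V / c ≤ t * (a / c)) : Dec Φ g a t ⊤ := by
  obtain ⟨k, hk, -⟩ := b.dim n hg e
  have := finrank_mv_add g
  refine mv_sup_fix b.ne e ▸ Spl.dist (spl_nd (T := mv g) (c := c) hg fun M m1 m2 i k hk => ?_) (spl_nd (T := fixSp g) (c := 2) hg fun M m1 m2 i k hk => ?_)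
    a2 c2 t k _ _ ⟨le_rfl, n.mv_nondeg hg b.ne e, mv_inv g⟩ ⟨le_rfl, n.fix_nondeg hg b.ne e, fun v hv => (mem_fixSp.1 hv).symm ▸ hv⟩ ?_ (by omega) (by omega)
    (((Nat.le_div_iff_mul_le b.pos).2 (by rw [mul_comm]; omega)).trans h)
  · obtain ⟨U, _, _, _, Ψ, h, h1, -, -, -, h2, h3⟩ := (b.sub_fpf m2 (Φ.resAut_mem hg i) (resAut_one i e) fun x hx =>
      Subtype.ext ((mv_inf_fixSp b.ne e).le ⟨m1 x.2, congrArg Subtype.val hx⟩)).2 k hk
    obtain ⟨W, w1, j, w2⟩ := h3.exists_W h1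
    exact ⟨W, w2.nondeg h1, w1, j.finrank_eq.symm.trans h2⟩
  · obtain ⟨W, w1, w2⟩ := m2.exists_nd hk
    exact ⟨W, w1, fun v hv => (Subtype.ext (mem_fixSp.1 (m1 v.2)) : resAut g M i v = v).symm ▸ hv, w2⟩
  · rintro _ ⟨x, rfl⟩ w hw
    simpa [sub_eq_zero, mem_fixSp.1 hw] using hg.1 x w

theorem Blk.exists_mv {k : ℕ} (h : c * k ≤ finrank F V) : ∃ g ∈ Φ.isom, g ^ r = 1 ∧ finrank F (mv g) = c * k := by
  obtain ⟨X, x1, x2, h, h1, h2, h3⟩ := (b.hasB_iff n.symp_em k).2 ((Nat.le_div_iff_mul_le b.pos).2 (mul_comm c k ▸ h))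
  exact ⟨_, (Φ.sumAut_mem_iff (n.isCompl_perp x1) le_rfl (h, 1)).2 ⟨h1, one_mem _⟩, sumAut_pow _ h2 (one_pow _), by
    rw [finrank_mv_compl, mv_one, finrank_mv_fpf h3, x2]; simp⟩

omit n in
theorem Blk.dvd_fix (hg : g ∈ Φ.isom) (e : g ^ r = 1) (n : (Φ.res X).Nondeg) (i : ∀ v ∈ X, g v ∈ X) : c ∣ finrank F X - finrank F ↥(X ⊓ fixSp g) := by
  obtain ⟨k, hk, -⟩ := b.dim n (Φ.resAut_mem hg i) (resAut_one i e)
  rw [show X ⊓ fixSp g = (fixSp (resAut g X i)).map X.subtype from le_antisymm (fun v hv => ⟨⟨v, hv.1⟩, Subtype.ext hv.2, rfl⟩)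
    (by rintro _ ⟨v, hv, rfl⟩; exact ⟨v.2, congrArg Subtype.val hv⟩), Submodule.finrank_map_subtype_eq]
  exact ⟨k, by omega⟩

theorem Blk.le_dim (h : r ∣ Nat.card Φ.isom) : c ≤ finrank F V := by
  haveI := finite_aut (F := F) (V := V)
  obtain ⟨g, hg⟩ := exists_prime_orderOf_dvd_card' r h
  obtain ⟨_ | k, hk, -⟩ := b.dim n g.2 (congrArg Subtype.val (hg ▸ pow_orderOf_eq_one g))
  · have := finrank_mv_add g.1
    rw [show g = 1 from Subtype.ext (mv_eq_bot.1 (Submodule.finrank_eq_zero.1 (by omega))), orderOf_one] at hg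
    exact absurd hg.symm hr.out.ne_one
  · rw [mul_add] at hk; omega
end blk

theorem ord_dvd_pred [Fintype F] [hr : Fact r.Prime] (r0 : (r : F) ≠ 0) : orderOf (Fintype.card F : ZMod r) ∣ r - 1 :=
  ZMod.orderOf_dvd_card_sub_one fun h => by simpa [h] using ord_pos hr.out r0

theorem div_of_mod {n : ℕ} (c0 : 0 < c) (e : n = a * t) (h : n % c = t * (a % c)) : n / c = t * (a / c) := Nat.eq_of_mul_eq_mul_left c0 (by
  have := Nat.mod_add_div n c
  have := congrArg (t * ·) (Nat.mod_add_div a c)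
  simp only [mul_add, mul_left_comm t c, mul_comm t a] at this; omega)

theorem elg_symp {d : ℕ} [NeZero d] {P : ((Fin d ⊕ Fin d → F) ≃ₗ[F] _) → Prop} : (∀ x : symplecticGroup (Fin d) F, (∃ z : F, (x ^ r).1 = z • 1) → (∀ z : F, x.1 ≠ z • 1) →
    P (glEquiv (spToGL d x))) ↔ ElG (sympF F d).isom r P := by
  rw [← elg_mat (spToGL d) (M := fun _ => True) fun g => ⟨fun a => ⟨(spEquiv d).symm ⟨g, a⟩, trivial, LinearEquiv.ext (spEquiv_symm_mulVec d _)⟩,
    fun ⟨x, _, b⟩ => b ▸ (mem_spGL_iff _ _).1 (spEquivSpGL d x).2⟩]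
  simp

theorem Dec.final_sp {d : ℕ} {g} (h : Dec (sympF F d) g a t ⊤) (n : 2 * d = a * t) (a0 : 0 < a) (t2 : 2 ≤ t) :
    ∃ D : Fin t → Submodule F (Fin d ⊕ Fin d → F), (Cfsg.Geo.IsMDecomposition a D ∧ (∀ j, ∀ u ∈ D j, u ≠ 0 → ∃ v ∈ D j, Cfsg.sympForm d F u v ≠ 0) ∧
      (∀ j j', j ≠ j' → ∀ u ∈ D j, ∀ v ∈ D j', Cfsg.sympForm d F u v = 0)) ∧ ∃ σ : Equiv.Perm (Fin t), ∀ j, g • D j = D (σ j) := by
  obtain ⟨D, h1, h2, h3⟩ := h.final (by simp; omega) a0 t2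
  refine ⟨D, ⟨h1, fun j u hu u0 => by_contra fun k => u0 (sympF_nondeg d u fun x => ?_), fun j j' n u hu v hv => (sympF_B ..).symm.trans (h2 j j' n hu v hv)⟩, h3⟩
  push Not at k
  refine (h1.5.ge.trans (iSup_le fun i => ?_) : ⊤ ≤ (sympF F d).perp (F ∙ u)) trivial u (Submodule.mem_span_singleton_self u)
  rw [le_perp_comm, Submodule.span_singleton_le_iff_mem]
  by_cases e : j = i
  · exact fun w hw => (sympF_B ..).trans (k w (e ▸ hw))
  · exact h2 j i e hu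
end H5
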