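import Cfsg.Agent.H5.Uni
/-! Derived forms on `range T` for a nilpotent (skew-)adjoint `T`, the Cayley transform, and centralisers of unipotent isometries. -/
set_option autoImplicit false
namespace H5
open Module

universe u v
variable {F : Type*} [Field F] {κ κ' : Kind F} {η : F} {V : Type u} [AddCommGroup V] [Module F V] {W : Type v} [AddCommGroup W] [Module F W]

/-- Kinds where `B` determines `Q`. -/
structure Tame (κ : Kind F) : Prop where
  tr : ∃ c, c + κ.σ c = 1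
  ker : ∀ a, κ.π a = 0 → a + κ.ε * κ.σ a = 0

theorem Tame.π_split {c : F} (hc : c + κ.σ c = 1) (a : F) : κ.π (c * (a + κ.ε * κ.σ a)) = κ.π a := by
  have := κ.π_conj (κ.σ c * a)
  rw [map_mul κ.σ, κ.σσ] at this
  rw [mul_add, map_add, mul_left_comm, this, ← map_add, ← add_mul, hc, one_mul]

theorem Tame.exists_form (h : Tame κ) (B : V →ₗ[F] V →ₛₗ[κ.σ] F) (hB : ∀ x y, B y x = κ.ε * κ.σ (B x y)) : ∃ Φ : Form κ V, Φ.B = B := by
  obtain ⟨c, hc⟩ := h.tr
  refine ⟨⟨B, fun x => κ.π (c * B x x), hB, fun x y => ?_, fun s x => ?_, fun _ => ⟨_, rfl⟩, fun x a e => ?_⟩, rfl⟩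
  · rw [← Tame.π_split hc (B x y), ← hB, ← map_add, ← map_add]; congr 1; simp; ring
  · rw [← κ.π_norm]; congr 1; simp; ring
  · have := h.ker (a - c * B x x) (by simp [e])
    rw [map_sub, map_mul] at this
    linear_combination -this - B x x * hc + κ.σ c * hB x x

theorem Tame.Q_eq (h : Tame κ) {Φ : Form κ V} {Ψ : Form κ W} {x : V} {y : W} (e : Φ.B x x = Ψ.B y y) : Φ.Q x = Ψ.Q y := by
  obtain ⟨c, hc⟩ := h.tr
  obtain ⟨a, ha⟩ := Φ.Q_range x
  obtain ⟨b, hb⟩ := Ψ.Q_range y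
  rw [← ha, ← hb, ← Tame.π_split hc, ← Φ.B_self x a ha, e, Ψ.B_self y b hb, Tame.π_split hc]

theorem tame_symp (h : (2 : F) ≠ 0) : Tame (.symp F) := ⟨⟨2⁻¹, by simp; field_simp; ring⟩, by simp⟩
theorem tame_orth (h : (2 : F) ≠ 0) : Tame (.orth F) := ⟨⟨2⁻¹, by simp; field_simp; ring⟩, by simp⟩

/-- The kind of the derived form. -/
structure DualK (κ κ' : Kind F) (η : F) : Prop where
  σ : ∀ a, κ'.σ a = κ.σ a
  ε : κ'.ε = η * κ.ε
  sq : η * η = 1
  t : Tame κ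
  t' : Tame κ'

theorem DualK.symm (h : DualK κ κ' η) : DualK κ' κ η := ⟨fun a => (h.σ a).symm, by rw [h.ε, ← mul_assoc, h.sq, one_mul], h.sq, h.t', h.t⟩
theorem dual_so (h : (2 : F) ≠ 0) : DualK (.symp F) (.orth F) (-1) := ⟨fun _ => rfl, by simp, by simp, tame_symp h, tame_orth h⟩

/-- Restriction of `T` to its range. -/
def dT (T : End F V) : End F (LinearMap.range T) := T.restrict fun x _ => LinearMap.mem_range_self T x

theorem dT_pow (T : End F V) (k : ℕ) (x : LinearMap.range T) : ((dT T ^ k) x : V) = (T ^ k) x := by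
  induction k with
  | zero => rfl
  | succ k ih => rw [pow_succ', pow_succ', End.mul_apply, End.mul_apply, ← ih]; rfl

theorem JE.dT [FiniteDimensional F V] {T : End F V} {μ} (h : JE T μ) : JE (dT T) (μ.map (· - 1)) := fun k => by
  have := finrank_map_add T (p := LinearMap.ker (T ^ (k + 1))) fun x hx => by rw [LinearMap.mem_ker, pow_succ, End.mul_apply, hx, map_zero]
  have h1 := h 1
  rw [pow_one] at h1
  rw [show (LinearMap.ker (T ^ (k + 1))).map T = (LinearMap.ker (H5.dT T ^ k)).map (Submodule.subtype _) from le_antisymm (by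
      rintro _ ⟨x, hx, rfl⟩; exact ⟨⟨_, x, rfl⟩, Subtype.ext ((dT_pow _ _ _).trans (by rw [pow_succ] at hx; exact hx)), rfl⟩) (by
      rintro _ ⟨⟨_, x, rfl⟩, hx, rfl⟩
      exact ⟨x, by rw [SetLike.mem_coe, LinearMap.mem_ker, pow_succ]; exact (dT_pow _ _ _).symm.trans (congrArg Subtype.val hx), rfl⟩),
    Submodule.finrank_map_subtype_eq, h, h1] at this
  have e : ((μ.map (· - 1)).map (min · k)).sum + (μ.map (min · 1)).sum = (μ.map (min · (k + 1))).sum := by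
    rw [Multiset.map_map, ← Multiset.sum_map_add]
    exact congrArg _ (Multiset.map_congr rfl fun a _ => by simp only [Function.comp]; omega)
  omega

theorem JE.finrank_range [FiniteDimensional F V] {T : End F V} {μ} (h : JE T μ) (e : finrank F V = μ.sum) :
    finrank F (LinearMap.range T) = (μ.map (· - 1)).sum := by
  have h1 := h 1
  rw [pow_one] at h1
  have := T.finrank_range_add_finrank_ker
  have e : (μ.map (· - 1)).sum + (μ.map (min · 1)).sum = (μ.map id).sum := by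
    rw [← Multiset.sum_map_add]
    exact congrArg _ (Multiset.map_congr rfl fun a _ => by simp only [id]; omega)
  rw [Multiset.map_id] at e
  omega

theorem sum_min_one (μ : Multiset ℕ) : ((μ.map (· - 1)).map (min · 1)).sum = (μ.filter (1 < ·)).card ∧
    (μ.map (min · 1)).sum = (μ.filter (1 < ·)).card + μ.count 1 := by
  induction μ using Multiset.induction_on with
  | empty => simp
  | cons a s ih =>
    simp only [Multiset.map_cons, Multiset.sum_cons, Multiset.filter_cons, Multiset.count_cons, Multiset.card_add, ih.1, ih.2]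
    split_ifs <;> simp <;> omega

/-- Automorphisms commuting with `T`. -/
def comm (T : End F V) : Subgroup (V ≃ₗ[F] V) where
  carrier := {g | ∀ x, g (T x) = T (g x)}
  mul_mem' ha hb x := by simp [ha _, hb _]
  one_mem' _ := rfl
  inv_mem' {g} h x := g.injective (by simp [h _])

namespace Form
variable {Φ : Form κ V} {T : End F V} {Ψ : Form κ' (LinearMap.range T)} {Φ₂ : Form κ W} {T₂ : End F W} {Ψ₂ : Form κ' (LinearMap.range T₂)}

variable (Φ η T) in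
/-- `T` is self-adjoint up to the sign `η`. -/
def Adj : Prop := ∀ x y, Φ.B (T x) y = η * Φ.B x (T y)

variable (Φ T Ψ) in
/-- `Ψ (T x) (T y) = Φ (T x) y`. -/
def Der : Prop := ∀ (w : LinearMap.range T) y, Ψ.B w (T.rangeRestrict y) = Φ.B w y

theorem Adj.exists_der (d : DualK κ κ' η) (h : Φ.Adj η T) : ∃ Ψ : Form κ' (LinearMap.range T), Φ.Der T Ψ := by
  obtain ⟨s, hs⟩ := T.rangeRestrict.exists_rightInverse_of_surjective T.range_rangeRestrict
  have e : ∀ (w : LinearMap.range T) y, Φ.B w (s (T.rangeRestrict y)) = Φ.B w y := by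
    rintro ⟨_, x, rfl⟩ y
    rw [h, h, show T (s _) = T y from congrArg Subtype.val (LinearMap.congr_fun hs (T.rangeRestrict y))]
  obtain ⟨Ψ, k⟩ := d.t'.exists_form (LinearMap.mk₂'ₛₗ (.id F) κ'.σ (fun w w' : LinearMap.range T => Φ.B w (s w')) (by simp) (by simp) (by simp)
    (by simp [d.σ])) (by
      rintro ⟨_, x, rfl⟩ ⟨_, y, rfl⟩
      exact (e _ x).trans ((h y x).trans (by rw [Φ.B_symm, d.ε, d.σ, mul_assoc, ← e ⟨_, x, rfl⟩ y]; rfl)))
  exact ⟨Ψ, fun w y => by rw [k]; exact e w y⟩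

theorem Der.nondeg (h : Φ.Der T Ψ) (hΦ : Φ.Nondeg) : Ψ.Nondeg := fun w hw => Subtype.ext (hΦ _ fun y =>
  Φ.B_zero_symm ((h w y).symm.trans (Ψ.B_zero_symm (hw _))))

theorem Der.res (h : Φ.Der T Ψ) (w w' : LinearMap.range T) : Ψ.B w (dT T w') = Φ.B w w' := h w w'

theorem Der.adj (h : Φ.Der T Ψ) (a : Φ.Adj η T) : Ψ.Adj η (dT T) := by
  rintro w ⟨_, y, rfl⟩
  exact (h _ y).trans ((a w y).trans (congrArg _ (h w (T y)).symm))

theorem Adj.perp_range (a : Φ.Adj η T) (hΦ : Φ.Nondeg) : Φ.perp (LinearMap.range T) = LinearMap.ker T := by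
  by_cases e : η = 0
  · have : T = 0 := LinearMap.ext fun x => hΦ.left _ fun y => by simp [a x y, e]
    simp [this]
  ext x
  exact ⟨fun h => hΦ.left _ fun y => by rw [a, h _ ⟨y, rfl⟩, mul_zero], fun h => by
    rintro _ ⟨y, rfl⟩; exact (mul_eq_zero.1 ((a x y).symm.trans (by simp [show T x = 0 from h]))).resolve_left e⟩

theorem Der.comm (h : Φ.Der T Ψ) (h₂ : Φ₂.Der T₂ Ψ₂) (n : Φ₂.Nondeg) {f : V ≃ₗ[F] W} (hf : Φ.IsIso Φ₂ f) {α : LinearMap.range T ≃ₗ[F] LinearMap.range T₂}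
    (hα : ∀ x y, Ψ₂.B (α x) (α y) = Ψ.B x y) (e : ∀ w : LinearMap.range T, f w = α w) (y : V) : f (T y) = T₂ (f y) :=
  (e (T.rangeRestrict y)).trans (congrArg Subtype.val ((h₂.nondeg n).ext (z := T₂.rangeRestrict (f y)) fun w => by
    obtain ⟨w, rfl⟩ := α.surjective w
    rw [hα, h, h₂, ← e, hf.1]))

theorem Der.iso_B (h : Φ.Der T Ψ) (h₂ : Φ₂.Der T₂ Ψ₂) {α : LinearMap.range T ≃ₗ[F] LinearMap.range T₂}
    (hα : ∀ x y, Ψ₂.B (α x) (α y) = Ψ.B x y) (c : ∀ x, α (dT T x) = dT T₂ (α x)) (x y : LinearMap.range T) : Φ₂.B (α x) (α y) = Φ.B x y := by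
  rw [← h₂.res, ← c, hα, h.res]

variable [FiniteDimensional F V]

theorem Der.exists_ext (t : Tame κ) (h : Φ.Der T Ψ) (h₂ : Φ₂.Der T₂ Ψ₂) (n : Φ.Nondeg) {i : V ≃ₗ[F] W} (hi : Φ.IsIso Φ₂ i)
    {α : LinearMap.range T ≃ₗ[F] LinearMap.range T₂} (hα : ∀ x y, Ψ₂.B (α x) (α y) = Ψ.B x y) (c : ∀ x, α (dT T x) = dT T₂ (α x)) :
    ∃ f, Φ.IsIso Φ₂ f ∧ (∀ w : LinearMap.range T, f w = α w) ∧ ∀ x, f (T x) = T₂ (f x) := by
  have b : ∀ u v : LinearMap.range T, Φ.B (i.symm (α u)) (i.symm (α v)) = Φ.B u v := fun u v => (hi.symm.1 _ _).trans (h.iso_B h₂ hα c u v)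
  obtain ⟨g, hg, k⟩ := n.witt' (LinearMap.range T) (i.symm.toLinearMap ∘ₗ (LinearMap.range T₂).subtype ∘ₗ α.toLinearMap)
    (i.symm.injective.comp (Subtype.val_injective.comp α.injective)) b
    fun u => t.Q_eq (Φ := Φ) (Ψ := Φ) (b u u)
  have l : ∀ w : LinearMap.range T, (g.trans i) w = α w := fun w => by simp [k]
  exact ⟨_, (isIso_of_mem hg).trans hi, l, h.comm h₂ (hi.nondeg n) ((isIso_of_mem hg).trans hi) hα l⟩

theorem Der.card_cent (d : DualK κ κ' η) (h : Φ.Der T Ψ) (n : Φ.Nondeg) :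
    Nat.card ↥(Φ.isom ⊓ H5.comm T) = Nat.card ↥(Ψ.isom ⊓ H5.comm (dT T)) * Nat.card ↥(Φ.isom ⊓ fixSub (LinearMap.range T)) := by
  have s : Φ.isom ⊓ H5.comm T ≤ stabSub (LinearMap.range T) := fun g hg => mem_stabSub'.2 (by rintro _ ⟨x, rfl⟩; exact ⟨_, (hg.2 x).symm⟩)
  rw [← card_congr_subgroup (inf_eq_left.2 s), card_inf_stabSub]
  congr 1 <;> refine card_congr_subgroup (le_antisymm ?_ ?_)
  · rintro _ ⟨g, rfl⟩
    have : ∀ x y, Ψ.B (resHom _ _ g x) (resHom _ _ g y) = Ψ.B x y := by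
      rintro x ⟨_, y, rfl⟩
      rw [show resHom _ _ g ⟨_, y, rfl⟩ = T.rangeRestrict (g.1 y) from Subtype.ext (g.2.1.2 y), h]
      exact (g.2.1.1.1 x y).trans (h x y).symm
    exact ⟨⟨this, fun x => d.t'.Q_eq (this x x)⟩, fun x => Subtype.ext (g.2.1.2 x)⟩
  · intro φ l
    obtain ⟨g, hg, k, c⟩ := h.exists_ext d.t h n (i := .refl _ _) ⟨fun _ _ => rfl, fun _ => rfl⟩ l.1.1 l.2
    exact ⟨⟨g, ⟨hg, c⟩, s ⟨hg, c⟩⟩, LinearEquiv.ext fun u => Subtype.ext (k u)⟩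
  · exact inf_le_inf_right _ inf_le_left
  · exact fun g hg => ⟨⟨hg.1, h.comm h n hg.1 (α := .refl _ _) (fun _ _ => rfl) fun u => hg.2 u u.2⟩, hg.2⟩

theorem Nondeg.exists_rad_compl (n : Φ.Nondeg) (U : Submodule F V) : ∃ U₀, (Φ.res U₀).Nondeg ∧ (U ⊓ Φ.perp U) ⊔ U₀ = U ∧
    finrank F (Φ.perp U₀) = finrank F (Φ.perp U) + finrank F ↥(U ⊓ Φ.perp U) := by
  obtain ⟨C, hC⟩ := (U ⊓ Φ.perp U).exists_isCompl
  have e : (U ⊓ Φ.perp U) ⊔ (C ⊓ U) = U := by rw [← sup_inf_assoc_of_le _ inf_le_left, hC.sup_eq_top, top_inf_eq]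
  have d : (U ⊓ Φ.perp U) ⊓ (C ⊓ U) = ⊥ := by rw [← inf_assoc, hC.inf_eq_bot, bot_inf_eq]
  refine ⟨C ⊓ U, (res_nondeg_iff _ _).2 (eq_bot_iff.2 fun x hx => d.le ⟨⟨hx.1.2, ?_⟩, hx.1⟩), e, ?_⟩
  · rw [← e, perp_sup]
    exact ⟨fun w hw => Φ.B_zero_symm (hw.2 x hx.1.2), hx.2⟩
  · have := Submodule.finrank_sup_add_finrank_inf_eq (U ⊓ Φ.perp U) (C ⊓ U)
    rw [e, d, finrank_bot] at this
    have := n.finrank_perp U
    have := n.finrank_perp (C ⊓ U)
    omega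

theorem Nondeg.card_fix_gen [Finite F] (t : Tame κ) (n : Φ.Nondeg) (U : Submodule F V) {s d N : ℕ} (hs : finrank F ↥(U ⊓ Φ.perp U) = s)
    (hd : finrank F (Φ.perp U) = s + d) (hN : ∀ (W : Type u) [AddCommGroup W] [Module F W] [FiniteDimensional F W] (Ψ : Form κ W),
      Ψ.Nondeg → finrank F W = d → Nat.card Ψ.isom = N) :
    Nat.card ↥(Φ.isom ⊓ fixSub U) = Nat.card F ^ (s * d + s * (s - 1) / 2) * Nat.card κ.π.ker ^ s * N := by
  obtain ⟨U₀, h1, h2, h3⟩ := n.exists_rad_compl U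
  have le : U ⊓ Φ.perp U ≤ Φ.perp U₀ := inf_le_right.trans (Φ.perp_anti (h2 ▸ le_sup_right))
  have ts : Φ.TS (U ⊓ Φ.perp U) := ⟨fun x hx => (t.Q_eq (Φ := Φ) (Ψ := Φ) (y := 0) (by simpa using hx.2 x hx.1)).trans Φ.Q_zero,
    fun x hx y hy => hx.2 y hy.1⟩
  rw [← card_fix_ts d N hN s _ _ (n.perp_nondeg h1) (by omega) ((U ⊓ Φ.perp U).comap (Submodule.subtype _)) (ts.comap_subtype _)
    (by rw [(Submodule.comapSubtypeEquivOfLe le).finrank_eq, hs]), ← Subgroup.card_map_of_injective (n.extend_injective h1)]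
  refine card_congr_subgroup (le_antisymm (fun g hg => ?_) ?_)
  · obtain ⟨g', k, rfl⟩ := n.exists_extend h1 hg.1 fun u hu => hg.2 u (h2 ▸ Submodule.mem_sup_right hu)
    exact ⟨g', ⟨k, fun v hv => Subtype.ext ((n.extend_right h1 g' v).symm.trans (hg.2 _ hv.1))⟩, rfl⟩
  · rintro _ ⟨g, hg, rfl⟩
    refine ⟨(n.extend_mem_iff h1 g).2 hg.1, fun v hv => ?_⟩
    obtain ⟨a, ha, b, hb, rfl⟩ := Submodule.mem_sup.1 (h2.ge hv)
    rw [map_add, n.extend_left h1 g hb, show _ = a from (n.extend_right h1 g ⟨a, le ha⟩).trans (congrArg Subtype.val (hg.2 _ ha))]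

theorem Der.card_step [Finite F] (d : DualK κ κ' η) (h : Φ.Der T Ψ) (a : Φ.Adj η T) (n : Φ.Nondeg) {μ} (j : JE T μ) {N : ℕ}
    (hN : ∀ (W : Type u) [AddCommGroup W] [Module F W] [FiniteDimensional F W] (Ψ : Form κ W),
      Ψ.Nondeg → finrank F W = μ.count 1 → Nat.card Ψ.isom = N) {s : ℕ} (hs : (μ.filter (1 < ·)).card = s) :
    Nat.card ↥(Φ.isom ⊓ H5.comm T) = Nat.card ↥(Ψ.isom ⊓ H5.comm (dT T)) *
      (Nat.card F ^ (s * μ.count 1 + s * (s - 1) / 2) * Nat.card κ.π.ker ^ s * N) := by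
  have j1 := j 1
  have j2 := j.dT 1
  rw [pow_one] at j1 j2
  have e : ((μ.map (· - 1)).map (min · 1)).sum = s ∧ (μ.map (min · 1)).sum = s + μ.count 1 := by
    rw [← hs]; exact sum_min_one μ
  rw [h.card_cent d n, n.card_fix_gen d.t _ (s := s) _ (by rw [a.perp_range n, j1, e.2]) hN]
  have : LinearMap.range T ⊓ LinearMap.ker T = (LinearMap.ker (dT T)).map (Submodule.subtype _) := by
    ext x
    exact ⟨fun h => ⟨⟨x, h.1⟩, Subtype.ext h.2, rfl⟩, by rintro ⟨x, hx, rfl⟩; exact ⟨x.2, congrArg Subtype.val hx⟩⟩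
  rw [a.perp_range n, ← e.1, ← j2, this, Submodule.finrank_map_subtype_eq]
end Form

end H5
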