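import Cfsg.Agent.H5.UCl
import Cfsg.Agent.H5.AsO1
import Cfsg.Agent.H5.Spec
import Cfsg.Agent.H5.Para
/-! Tools for "elusive" statements: Jordan types of invariant decompositions, unipotent witnesses in orthogonal groups. -/
set_option autoImplicit false
namespace H5
open Module Matrix

universe u v
variable {F : Type u} [Field F] {V : Type v} [AddCommGroup V] [Module F V] [FiniteDimensional F V] {N : End F V} {μ : Multiset ℕ}

theorem exists_je [Finite F] (h : IsNilpotent N) : ∃ μ : Multiset ℕ, (∀ a ∈ μ, 0 < a) ∧ μ.sum = finrank F V ∧ JE N μ := by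
  let b := Module.finBasis F V
  obtain ⟨μ, k⟩ := exists_jt (h.map (LinearMap.toMatrixAlgEquiv b))
  refine ⟨μ.parts, fun _ => μ.parts_pos, by simp [μ.parts_sum], (jt_iff_je.1 k).congr b.equivFun.symm fun x => ?_⟩
  obtain ⟨x, rfl⟩ := b.equivFun.surjective x
  rw [b.equivFun.symm_apply_apply, b.equivFun.symm_apply_eq]
  exact LinearMap.toMatrix_mulVec_repr b b N x

theorem JE.pow_eq_zero (h : JE N μ) (e : μ.sum = finrank F V) {k : ℕ} : N ^ k = 0 ↔ ∀ a ∈ μ, a ≤ k := by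
  rw [← LinearMap.ker_eq_top, show LinearMap.ker (N ^ k) = ⊤ ↔ finrank F (LinearMap.ker (N ^ k)) = finrank F V from
    ⟨fun h => by rw [h, finrank_top], Submodule.eq_top_of_finrank_eq⟩, h k, ← e]
  clear h e
  induction μ using Multiset.induction_on with
  | empty => simp
  | cons a s ih =>
    have : (s.map (min · k)).sum ≤ s.sum := by simpa using Multiset.sum_map_le_sum_map (s := s) (min · k) id fun _ _ => min_le_left _ _
    simp only [Multiset.map_cons, Multiset.sum_cons, Multiset.forall_mem_cons, ← ih]; omega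

theorem JE.split [Finite F] (h : JE N μ) (p : ∀ a ∈ μ, 0 < a) (e : μ.sum = finrank F V) {U W : Submodule F V} (c : IsCompl U W)
    (hU : ∀ x ∈ U, N x ∈ U) (hW : ∀ x ∈ W, N x ∈ W) : ∃ ν ≤ μ, ν.sum = finrank F U ∧ JE (N.restrict hU) ν := by
  obtain ⟨ν, h1, h2, h3⟩ := exists_je (End.isNilpotent.restrict hU ⟨_, h.nil e⟩)
  obtain ⟨ν', k1, -, k3⟩ := exists_je (End.isNilpotent.restrict hW ⟨_, h.nil e⟩)
  have := (h3.prod k3).congr (U.prodEquivOfIsCompl W c) (g := N) fun x => by simp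
  exact ⟨ν, parts_inj p (by simp only [Multiset.mem_add]; rintro a (h | h); exacts [h1 a h, k1 a h]) (fun i => (h i).symm.trans (this i)) ▸ le_self_add, h2, h3⟩

theorem JE.exists_split [Finite F] (h : JE N μ) (e : μ.sum = finrank F V) {ν} (l : ν ≤ μ) :
    ∃ U W : Submodule F V, IsCompl U W ∧ finrank F U = ν.sum ∧ (∀ x ∈ U, N x ∈ U) ∧ ∀ x ∈ W, N x ∈ W := by
  obtain ⟨ν', rfl⟩ := Multiset.le_iff_exists_add.1 l
  obtain ⟨A, hA⟩ := exists_of_jt (F := F) (ι := Fin ν.sum) ν (by simp)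
  obtain ⟨B, hB⟩ := exists_of_jt (F := F) (ι := Fin ν'.sum) ν' (by simp)
  obtain ⟨c, hc⟩ := ((jt_iff_je.1 hA).prod (jt_iff_je.1 hB)).exists_equiv h (by simp) e
  refine ⟨_, _, (Submodule.orderIsoMapComap c).isCompl LinearMap.isCompl_range_inl_inr, ?_, ?_, ?_⟩
  · exact (c.finrank_map_eq _).trans ((LinearMap.finrank_range_of_inj LinearMap.inl_injective).trans (by simp))
  all_goals rintro _ ⟨_, ⟨x, rfl⟩, rfl⟩; exact ⟨_, by simp, hc _⟩

section mat
variable {ι : Type} [Fintype ι] [DecidableEq ι]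

theorem jt_gl (x : GL ι F) : JT (x.1 - 1) μ ↔ JE (nl (glEquiv x)) μ := by
  rw [jt_iff_je, show nl (glEquiv x) = toLin' (x.1 - 1) by ext; simp]

theorem JT.wit (p : ℕ) [Fact p.Prime] [CharP F p] {A : Matrix ι ι F} (h : JT (A - 1) μ) (e : μ.sum = Fintype.card ι) (h1 : ∀ a ∈ μ, a ≤ p)
    (h2 : ¬ ∀ a ∈ μ, a ≤ 1) : A ^ p = 1 ∧ ∀ z : F, A ≠ z • 1 := by
  refine ⟨by simpa using (unip_iff (A := A) p 1).2 (by simpa using (h.isNilpotent e).2 h1), ?_⟩
  rintro z rfl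
  have := (h.isNilpotent e).2 h1
  rw [← h.isNilpotent e] at h2
  rw [show z • (1 : Matrix ι ι F) - 1 = (z - 1) • 1 by simp [sub_smul], _root_.smul_pow, one_pow, smul_eq_zero] at this h2
  simp_all

theorem sub_ones {m : ℕ} (p : ∀ a ∈ μ, 0 < a) (h : ∀ a ∈ μ, a ≤ 1) (l : m ≤ μ.sum) : Multiset.replicate m 1 ≤ μ := by
  have := Multiset.eq_replicate_card.2 fun a ha => le_antisymm (h a ha) (p a ha)
  rw [this] at l ⊢
  simpa [Multiset.replicate_le_replicate] using l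

theorem map_le_iff {x : GL ι F} {W : Submodule F (ι → F)} : W.map (toLin' x.1) ≤ W ↔ ∀ v ∈ W, glEquiv x v ∈ W := Submodule.map_le_iff_le_comap
end mat

theorem exists_half (h : ∀ j, Even (μ.count j)) : ∃ ν, μ = ν + ν := by
  induction μ using Multiset.strongInductionOn with
  | _ μ ih =>
  rcases μ.empty_or_exists_mem with rfl | ⟨a, ha⟩
  · exact ⟨0, rfl⟩
  obtain ⟨ν, rfl⟩ := Multiset.exists_cons_of_mem ha
  obtain ⟨ν, rfl⟩ := Multiset.exists_cons_of_mem (show a ∈ ν from by_contra fun e => by simpa [e] using h a)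
  obtain ⟨ν, rfl⟩ := ih ν ((Multiset.lt_cons_self _ _).trans (Multiset.lt_cons_self _ _)) fun j => by
    have := h j
    simp only [Multiset.count_cons] at this
    split_ifs at this <;> simpa [Nat.even_add_one] using this
  exact ⟨a ::ₘ ν, by simp⟩

namespace Form
variable {κ : Kind F} {W : Type*} [AddCommGroup W] [Module F W] [FiniteDimensional F W]

theorem IsIso.exists_je {Φ : Form κ V} {Ψ : Form κ W} {e} (h : Ψ.IsIso Φ e) {g} (hg : g ∈ Ψ.isom) (j : JE (nl g) μ) : ∃ g ∈ Φ.isom, JE (nl g) μ :=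
  ⟨_, (h.mem_iff g).1 hg, j.congr e fun x => by simp [autCongr_apply]⟩

theorem OGood.mem_of_odd [Fintype F] {Φ : Form (.orth F) V} (h : Φ.OGood) {g} (hg : g ∈ Φ.isom) {n : ℕ} (o : Odd n) (e : g ^ n = 1) : g ∈ Φ.Om := by
  obtain ⟨k, rfl⟩ := o
  rw [show g = (g * g)⁻¹ ^ k by rw [← sq, inv_pow, ← pow_mul, eq_inv_iff_mul_eq_one, ← pow_succ', e]]
  exact pow_mem (inv_mem (h.mul_mem_Om hg hg rfl)) k

theorem exists_split_je [Finite F] (hσ : ∀ a, κ.σ a = a) (hk : ∀ a, κ.π a = 0 → a + κ.ε * a = 0) {Φ : Form κ V} (n : Φ.Nondeg) {m : ℕ}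
    (e : finrank F V = 2 * m) (t : Φ.HasTS m) (s : μ.sum = 2 * m) (h : ∀ j, Even (μ.count j)) : ∃ g ∈ Φ.isom, JE (nl g) μ := by
  obtain ⟨ν, rfl⟩ := exists_half h
  obtain ⟨A, hA⟩ := exists_of_jt (F := F) (ι := Fin m) ν (by simp at s ⊢; omega)
  obtain ⟨A, rfl⟩ : ∃ B : GL (Fin m) F, B.1 - 1 = A := by
    obtain ⟨B, hB⟩ := IsNilpotent.isUnit_add_one ⟨_, (hA.isNilpotent (by simp at s ⊢; omega)).2 fun a => Multiset.single_le_sum (by simp) a⟩
    exact ⟨B, by simp [hB]⟩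
  rw [jt_gl] at hA
  obtain ⟨_, k⟩ := split_iso (hyp_nondeg (W := Fin m → F) (hσ := hσ) (hk := hk)) n (by simp [two_mul]) e
    ⟨LinearMap.range (.inl F _ _), by simp [LinearMap.finrank_range_of_inj LinearMap.inl_injective], by
      rintro _ ⟨x, rfl⟩; simp [hyp], by rintro _ ⟨x, rfl⟩ _ ⟨y, rfl⟩; simp [hyp_B]⟩ t
  exact k.exists_je (hyp_mem (glEquiv A)) ((hA.prod hA.dual).congr (.refl _ _) fun _ => rfl)

variable [Finite F] {V : Type u} [AddCommGroup V] [Module F V] [FiniteDimensional F V] {Φ : Form (.orth F) V} (h2 : (2 : F) ≠ 0) (n : Φ.Nondeg)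
include h2 n

theorem exists_orth_je (e : μ.sum = finrank F V) (h : ∀ j, Even j → Even (μ.count j)) {a} (ha : a ∈ μ) (o : Odd a) : ∃ g ∈ Φ.isom, JE (nl g) μ := by
  obtain ⟨μ, rfl⟩ := Multiset.exists_cons_of_mem ha
  obtain ⟨k, rfl⟩ := o
  obtain ⟨U, _, _, _, Ψ, g, h1, h3, h4, h5⟩ := realU_of (κ := .orth F) (μ := μ) (fun _ => rfl) (by simp) (P := Odd) (fun a ⟨k, hk⟩ => hk ▸ realU_orth h2 k)
    fun j hj => by simpa [Multiset.count_cons_of_ne (show j ≠ 2 * k + 1 by rintro rfl; simp at hj)] using h j (Nat.not_odd_iff_even.1 hj)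
  obtain ⟨L, _, _, _, Θ, t, k1, k3, k4, k5⟩ := realU_orth h2 k
  obtain ⟨c, hc⟩ := FiniteField.exists_nonsquare (F := F) fun e => h2 (by simpa [e] using ringChar.Nat.cast_ringChar (R := F))
  have c0 : c ≠ 0 := by rintro rfl; simp at hc
  obtain ⟨d, d0, f, hf⟩ : ∃ d, d ≠ 0 ∧ ∃ f, (Ψ.prod (Θ.scale d)).IsIso Φ f := by
    have l : finrank F (U × L) = finrank F V := by simp [h5, k5, ← e, add_comm]
    by_contra! l
    have s := fun d d0 => mt (fun h => (cls_orth h2).iso (h1.prod (k1.scale (c := d) d0)) n ‹_› fun _ => h) (not_exists.2 (l d d0))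
    obtain ⟨_, i⟩ := (cls_orth h2).iso (h1.prod (k1.scale one_ne_zero)) (h1.prod (k1.scale c0)) rfl fun _ => by
      have := s 1 one_ne_zero; have := s c c0; tauto
    have b := Module.finBasisOfFinrankEq F L (n := 2 * k + 1) k5
    have := (iso_of_det (k1.scale one_ne_zero) (k1.scale c0) b b (by simp)).1 (prod_cancel h1 (k1.scale one_ne_zero) i)
    rw [show (Θ.scale c).gram b = c • Θ.gram b from rfl, show (Θ.scale 1).gram b = Θ.gram b by ext; simp [gram], det_smul, mul_left_comm,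
      Fintype.card_fin, pow_succ, pow_mul', sq, mul_assoc, isSquare_sq_mul (pow_ne_zero _ c0), mul_comm,
      isSquare_sq_mul (k1.det_gram_ne b)] at this
    exact hc this
  refine hf.exists_je (g := g.prodCongr t) ⟨fun x y => by simp [prod_B, h3.1, k3.1], fun x => by simp [prod_Q, h3.2, k3.2]⟩ ?_
  rw [← Multiset.singleton_add, add_comm]
  exact (h4.prod k4).congr (.refl _ _) fun _ => rfl

theorem unip_sub {g} (hg : g ∈ Φ.isom) (j : JE (nl g) μ) (p : ∀ a ∈ μ, 0 < a) (e : μ.sum = finrank F V) {W : Submodule F V} (hW : (Φ.res W).Nondeg)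
    (i : ∀ v ∈ W, g v ∈ W) : ∃ ν ≤ μ, ν.sum = finrank F W ∧ (∀ e, Even e → Even (ν.count e)) ∧ ((∀ a ∈ ν, a = 2) → Φ.PlusOn W) := by
  obtain ⟨ν, h1, h3, h4⟩ := j.split p e (n.isCompl_perp hW) (fun x hx => sub_mem (i x hx) hx) fun x hx => sub_mem (isom_perp_mem hg i _ hx) hx
  have k := Φ.resAut_mem hg i
  change JE (nl (resAut g W i)) ν at h4
  refine ⟨ν, h1, h3, fun e he => e.eq_zero_or_pos.elim (fun e0 => ?_) (hW.even_count_orth h2 k h4 he), fun h => ?_⟩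
  · rw [e0, Multiset.count_eq_zero.2 fun h => by simpa using p _ (Multiset.mem_of_le h1 h)]; simp
  have a := h4.finrank_inf
  have b := hW.perp_ker_pow k 1
  have c := (h4.pow_eq_zero h3).2 fun a ha => (h a ha).le
  rw [Multiset.count_eq_zero.2 fun e => by simpa using h _ e] at a
  have d : LinearMap.range (nl (resAut g W i)) = LinearMap.ker (nl (resAut g W i)) :=
    le_antisymm (LinearMap.range_le_ker_iff.2 (by rw [sq] at c; exact c)) (inf_eq_right.1 (Submodule.eq_of_le_of_finrank_eq inf_le_right a))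
  rw [pow_one, d] at b
  have := hW.finrank_perp (LinearMap.ker (nl (resAut g W i)))
  rw [b, ← two_mul] at this
  refine (plusOn_iff this.symm).2 ⟨_, rfl, orth_ts.2 fun x hx => ?_⟩
  exact (mul_eq_zero.1 ((orth_self _ x).symm.trans (b.ge hx x hx))).resolve_left h2

end Form

theorem orth_core [Fintype F] {ι : Type} [Fintype ι] [DecidableEq ι] {Φ : Form (.orth F) (ι → F)} (h2 : (2 : F) ≠ 0) (n : Φ.Nondeg) (p : ℕ) [hp : Fact p.Prime]
    [CharP F p] {m : ℕ} {P : Submodule F (ι → F) → Prop} (H : ∀ x ∈ Cfsg.Geo.omegaGL Φ.Q, x ^ p = 1 → (∀ z : F, x.1 ≠ z • 1) →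
      ∃ W : Submodule F (ι → F), (finrank F W = m ∧ Cfsg.Geo.IsNondegenerateOn (QuadraticMap.polar Φ.Q) W ∧ P W) ∧ W.map (toLin' x.1) ≤ W)
    (h : ∀ a ∈ μ, 0 < a ∧ a ≤ p) (e : μ.sum = Fintype.card ι) (h1 : ¬ ∀ a ∈ μ, a ≤ 1) (ex : ∃ g ∈ Φ.isom, JE (nl g) μ) :
    ∃ ν ≤ μ, ν.sum = m ∧ (∀ e, Even e → Even (ν.count e)) ∧ ∃ W, P W ∧ ((∀ a ∈ ν, a = 2) → Φ.PlusOn W) := by
  obtain ⟨g, hg, j⟩ := ex
  obtain ⟨x, rfl⟩ := glEquiv.surjective g
  obtain ⟨k1, k2⟩ := ((jt_gl x).2 j).wit p e (fun a ha => (h a ha).2) h1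
  have k1 : x ^ p = 1 := Units.ext k1
  obtain ⟨W, ⟨rfl, l2, l3⟩, l4⟩ := H x (As.mem_omega.2 ((n.good h2).mem_of_odd hg (hp.out.odd_of_ne_two (by
    rintro rfl; exact h2 (CharP.cast_eq_zero F 2))) (by rw [← map_pow, k1, map_one]))) k1 k2
  obtain ⟨ν, a1, a2, a3, a4⟩ := Form.unip_sub h2 n hg j (fun a ha => (h a ha).1) (by simpa using e) (As.ndOn.1 l2) (map_le_iff.1 l4)
  exact ⟨ν, a1, a2, a3, W, l3, a4⟩

theorem ones_ok {m : ℕ} (p : ∀ a ∈ μ, 0 < a) (h : ∀ a ∈ μ, a ≤ 1) (l : m ≤ μ.sum) : ∃ ν ≤ μ, ν.sum = m ∧ ∀ e, Even e → Even (ν.count e) :=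
  ⟨_, sub_ones p h l, by simp, fun e he => by rw [Multiset.count_replicate, if_neg (by rintro rfl; simp at he)]; simp⟩

theorem le_cons_cases {α : Type*} {a : α} {μ ν : Multiset α} (h : ν ≤ a ::ₘ μ) : ν ≤ μ ∨ ∃ ν', ν = a ::ₘ ν' ∧ ν' ≤ μ := by
  by_cases c : a ∈ ν
  · obtain ⟨ν, rfl⟩ := Multiset.exists_cons_of_mem c
    exact .inr ⟨ν, rfl, (Multiset.cons_le_cons_iff a).1 h⟩
  · exact .inl ((Multiset.le_cons_of_notMem c).1 h)

theorem three_le (p : ℕ) [hp : Fact p.Prime] [CharP F p] (h2 : (2 : F) ≠ 0) : 3 ≤ p :=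
  hp.out.two_le.lt_of_ne (by rintro rfl; exact h2 (CharP.cast_eq_zero F 2))

end H5
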