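import Cfsg.Agent.H5.Elu
/-! Invariant nondegenerate subspaces of semisimple isometries of odd prime order (`Blk`, `Form.Sub`). -/
set_option autoImplicit false
namespace H5
open Module

universe u v
variable {F : Type u} [Field F] {κ : Kind F} {V : Type*} [AddCommGroup V] [Module F V] {U : Type*} [AddCommGroup U] [Module F U]
  {W : Type*} [AddCommGroup W] [Module F W] {D : Type*} [AddCommGroup D] [Module F D]

theorem exists_le_card {α : Type*} (s : Multiset α) {k : ℕ} (h : k ≤ s.card) : ∃ t u, s = t + u ∧ t.card = k := by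
  induction s using Quotient.inductionOn with
  | _ l => exact ⟨l.take k, l.drop k, by simp, by simpa using h⟩

theorem finrank_mv_add [FiniteDimensional F V] (g : V ≃ₗ[F] V) : finrank F (mv g) + finrank F (fixSp g) = finrank F V :=
  by rw [show fixSp g = LinearMap.ker ((g : End F V) - 1) from by ext; simp [mem_fixSp, sub_eq_zero]]; exact LinearMap.finrank_range_add_finrank_ker _

theorem resAut_pow [FiniteDimensional F V] {g : V ≃ₗ[F] V} {U : Submodule F V} (h : ∀ u ∈ U, g u ∈ U) (n : ℕ) (x : U) : ((resAut g U h ^ n) x : V) = (g ^ n) x := by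
  induction n with
  | zero => rfl
  | succ n ih => rw [pow_succ', pow_succ']; exact congrArg g ih

theorem resAut_one [FiniteDimensional F V] {g : V ≃ₗ[F] V} {U : Submodule F V} (h : ∀ u ∈ U, g u ∈ U) {n : ℕ} (e : g ^ n = 1) : resAut g U h ^ n = 1 :=
  LinearEquiv.ext fun x => Subtype.ext (by rw [resAut_pow, e]; rfl)

theorem prodCongr_pow (g : V ≃ₗ[F] V) (h : W ≃ₗ[F] W) (n : ℕ) : g.prodCongr h ^ n = (g ^ n).prodCongr (h ^ n) := by
  induction n with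
  | zero => rfl
  | succ n ih => rw [pow_succ, ih, pow_succ, pow_succ]; rfl

theorem mv_inv (g : V ≃ₗ[F] V) : ∀ x ∈ mv g, g x ∈ mv g := by rintro _ ⟨x, rfl⟩; exact ⟨g x, by simp⟩

namespace Form
variable {Φ : Form κ V} {g : V ≃ₗ[F] V} {Ψ : Form κ U} {h : U ≃ₗ[F] U} {Φ' : Form κ W} {g' : W ≃ₗ[F] W} {Θ : Form κ D} {t : D ≃ₗ[F] D}

variable (Φ g Ψ h) in
/-- `(U, Ψ, h)` embeds in `(V, Φ, g)`. -/
def Sub : Prop := ∃ j : U →ₗ[F] V, (∀ x y, Φ.B (j x) (j y) = Ψ.B x y) ∧ (∀ x, Φ.Q (j x) = Ψ.Q x) ∧ ∀ x, j (h x) = g (j x)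

theorem Sub.exists_W (s : Φ.Sub g Ψ h) (n : Ψ.Nondeg) : ∃ W : Submodule F V, (∀ v ∈ W, g v ∈ W) ∧ ∃ e, Ψ.IsIso (Φ.res W) e := by
  obtain ⟨j, h1, h2, h3⟩ := s
  exact ⟨LinearMap.range j, by rintro _ ⟨x, rfl⟩; exact ⟨_, h3 x⟩,
    .ofInjective j ((injective_iff_map_eq_zero j).2 fun y hy => n y fun x => by rw [← h1, hy, map_zero]), h1, h2⟩

theorem Sub.trans (s : Φ.Sub g Ψ h) (s' : Ψ.Sub h Θ t) : Φ.Sub g Θ t :=
  let ⟨j, a, b, c⟩ := s; let ⟨k, a', b', c'⟩ := s'; ⟨j ∘ₗ k, by simp [a, a'], by simp [b, b'], by simp [c, c']⟩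

theorem Sub.prod (s : Φ.Sub g Ψ h) (s' : Φ'.Sub g' Θ t) : (Φ.prod Φ').Sub (g.prodCongr g') (Ψ.prod Θ) (h.prodCongr t) :=
  let ⟨j, a, b, c⟩ := s; let ⟨k, a', b', c'⟩ := s'
  ⟨j.prodMap k, by simp [prod_B, a, a'], by simp [prod_Q, b, b'], by simp [c, c']⟩

theorem sub_inl : (Φ.prod Θ).Sub (g.prodCongr t) Φ g := ⟨.inl _ _ _, by simp [prod_B], by simp [prod_Q], by simp⟩
theorem sub_inr : (Φ.prod Θ).Sub (g.prodCongr t) Θ t := ⟨.inr _ _ _, by simp [prod_B], by simp [prod_Q], by simp⟩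
theorem Eqv.sub (e : Ψ.Eqv h Φ g) : Φ.Sub g Ψ h := let ⟨e, a, b⟩ := e; ⟨e, a.1, a.2, b⟩
theorem IsIso.sub {e} (i : (Ψ.prod Θ).IsIso Φ e) : Φ.Sub 1 Ψ 1 := (Eqv.sub (h := LinearEquiv.prodCongr 1 1) ⟨e, i, fun _ => rfl⟩).trans sub_inl
theorem Sub.one (s : Φ.Sub 1 Ψ 1) {c : F} (a : ∀ x, g x = c • x) (b : ∀ x, h x = c • x) : Φ.Sub g Ψ h := s.imp fun j s => ⟨s.1, s.2.1, by simp [a, b]⟩
theorem prod_mem (a : g ∈ Φ.isom) (b : t ∈ Θ.isom) : g.prodCongr t ∈ (Φ.prod Θ).isom := (prodHom Φ Θ (⟨g, a⟩, ⟨t, b⟩)).2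

theorem sub_pair [FiniteDimensional F V] {X Y : Submodule F V} (p : X ≤ Φ.perp Y) (a : ∀ x ∈ X, g x ∈ X) (b : ∀ x ∈ Y, g x ∈ Y) :
    Φ.Sub g ((Φ.res X).prod (Φ.res Y)) ((resAut g X a).prodCongr (resAut g Y b)) :=
  ⟨X.subtype.coprod Y.subtype, fun x y => by simp [prod_B, p x.1.2 _ y.2.2, Φ.B_zero_symm (p y.1.2 _ x.2.2)],
    fun x => Φ.Q_add_of_perp (p x.1.2 _ x.2.2), by simp⟩

variable [FiniteDimensional F V] {n : ℕ}
theorem Nondeg.mv_nondeg (k : Φ.Nondeg) (hg : g ∈ Φ.isom) (hn : (n : F) ≠ 0) (e : g ^ n = 1) : (Φ.res (mv g)).Nondeg :=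
  (res_nondeg_iff _ _).2 (k.perp_range_sub hg ▸ mv_inf_fixSp hn e)
theorem Nondeg.fix_nondeg (k : Φ.Nondeg) (hg : g ∈ Φ.isom) (hn : (n : F) ≠ 0) (e : g ^ n = 1) : (Φ.res (fixSp g)).Nondeg :=
  k.perp_range_sub hg ▸ k.perp_nondeg (k.mv_nondeg hg hn e)

theorem IsIso.exists_wit [FiniteDimensional F U] [FiniteDimensional F D] {e} (i : (Ψ.prod Θ).IsIso Φ e) (hh : h ∈ Ψ.isom) (p : h ^ n = 1)
    (f : ∀ x, h x = x → x = 0) : ∃ g ∈ Φ.isom, g ^ n = 1 ∧ finrank F (fixSp g) + finrank F U = finrank F V := by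
  refine ⟨_, (i.mem_iff _).1 (prod_mem hh (one_mem _)), by rw [← map_pow, prodCongr_pow, p, one_pow]; exact map_one _, ?_⟩
  rw [← e.finrank_eq, finrank_prod, add_comm, ← LinearMap.finrank_range_of_inj (f := e.toLinearMap ∘ₗ .inr F U D) (e.injective.comp LinearMap.inr_injective)]
  refine congrArg (fun X : Submodule F V => finrank F U + finrank F X) (Submodule.ext fun x => ?_) |>.trans rfl
  obtain ⟨x, rfl⟩ := e.surjective x
  simp only [mem_fixSp, autCongr_apply, e.symm_apply_apply, e.injective.eq_iff, LinearMap.mem_range, LinearMap.comp_apply, LinearEquiv.coe_coe]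
  exact ⟨fun k => ⟨x.2, Prod.ext (f _ (congrArg Prod.fst k)).symm rfl⟩, by rintro ⟨y, rfl⟩; simp⟩
end Form

variable [Fintype F] {r c : ℕ} [hr : Fact r.Prime]

variable (κ r c) in
/-- Isometries of order `r` are built from blocks of dimension `c`. -/
def Blk : Prop := ∃ w : (ZMod r)ˣ, OrdOK κ w ∧ orderOf w = c ∧ ∃ (U : Type u) (_ : AddCommGroup U) (_ : Module F U) (_ : FiniteDimensional F U) (Ψ : Form κ U),
  Ψ.Nondeg ∧ finrank F U = c ∧ r ∣ Nat.card Ψ.isom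

namespace Blk
open Form
variable (b : Blk κ r c) [FiniteDimensional F V] {Φ : Form κ V} {g : V ≃ₗ[F] V}
include b

theorem ne : (r : F) ≠ 0 := b.choose_spec.1.ne
theorem pos : 0 < c := b.choose_spec.2.1 ▸ orderOf_pos _

theorem exists_fpf (k : ℕ) : ∃ (U : Type u) (_ : AddCommGroup U) (_ : Module F U) (_ : FiniteDimensional F U) (Ψ : Form κ U) (h : U ≃ₗ[F] U),
    Ψ.Nondeg ∧ h ∈ Ψ.isom ∧ h ^ r = 1 ∧ (∀ x, h x = x → x = 0) ∧ finrank F U = c * k := by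
  obtain ⟨w, ok, rfl, U, _, _, _, Ψ, h1, h2, h3⟩ := b
  obtain ⟨ψ, hψ⟩ := exists_char ok.ne
  obtain ⟨U, _, _, _, Ψ, g, k1, k2, k3, k4⟩ := exists_blocks ok hψ h1 h2 h3 (.replicate k default)
  exact ⟨U, _, _, ‹_›, Ψ, g, k1, k2, k3, (fpf_iff hψ.1 k4).2 (zero_notMem_olift _ _), by rw [← card_ev, k4, Multiset.card_map, card_olift]; simp⟩

theorem sub_fpf (n : Φ.Nondeg) (hg : g ∈ Φ.isom) (e : g ^ r = 1) (f : ∀ x, g x = x → x = 0) : c ∣ finrank F V ∧ ∀ k, c * k ≤ finrank F V →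
    ∃ (U : Type u) (_ : AddCommGroup U) (_ : Module F U) (_ : FiniteDimensional F U) (Ψ : Form κ U) (h : U ≃ₗ[F] U),
    Ψ.Nondeg ∧ h ∈ Ψ.isom ∧ h ^ r = 1 ∧ (∀ x, h x = x → x = 0) ∧ finrank F U = c * k ∧ Φ.Sub g Ψ h := by
  obtain ⟨w, ok, rfl, U, _, _, _, Ψ, h1, h2, h3⟩ := b
  obtain ⟨ψ, hψ⟩ := exists_char ok.ne
  obtain ⟨N, l, hN⟩ := exists_ev ok hψ n hg e
  have d : finrank F V = orderOf w * N.card := le_antisymm (Nat.sub_eq_zero_iff_le.1 (by simpa [zero_notMem_olift, Multiset.mem_replicate] using (fpf_iff hψ.1 hN).1 f)) l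
  refine ⟨⟨_, d⟩, fun k hk => ?_⟩
  obtain ⟨N, N', rfl, rfl⟩ := exists_le_card N (Nat.le_of_mul_le_mul_left (hk.trans d.le) (orderOf_pos w))
  obtain ⟨U, _, _, _, Ψ₁, g₁, k1, k2, k3, k4⟩ := exists_blocks ok hψ h1 h2 h3 N
  obtain ⟨U', _, _, _, Ψ₂, g₂, l1, l2, l3, l4⟩ := exists_blocks ok hψ h1 h2 h3 N'
  obtain ⟨i, hi⟩ := exists_intertw ok.ne (a := (g : End F V)) (by rw [coe_pow_end, e]; rfl) (b := (g₁.prodCongr g₂ : End F (U × U')))
    (by rw [coe_pow_end, prodCongr_pow, k3, l3]; rfl)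
    (by rw [hN, ← d, LinearEquiv.coe_prodCongr, ev_prod, k4, l4, olift_add]; simp)
  obtain ⟨m, hm⟩ := hr.out.odd_of_ne_two ok.odd
  obtain ⟨i, a1, a2⟩ := eqv_fpf n hg (prod_mem k2 l2) (k1.prod l1) i hi fun x hx => f x (by
    have : g * g ∈ MulAction.stabilizer _ x := hx
    have := pow_mem this m
    rwa [← sq, ← pow_mul, eq_inv_of_mul_eq_one_left ((pow_succ _ _).symm.trans (hm ▸ e)), inv_mem_iff] at this)
  exact ⟨U, _, _, ‹_›, Ψ₁, g₁, k1, k2, k3, (fpf_iff hψ.1 k4).2 (zero_notMem_olift _ _), by rw [← card_ev, k4, Multiset.card_map, card_olift],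
    (Eqv.sub ⟨i.symm, a1.symm, fun x => by rw [i.symm_apply_eq, a2, i.apply_symm_apply]⟩).trans sub_inl⟩

theorem dim (n : Φ.Nondeg) (hg : g ∈ Φ.isom) (e : g ^ r = 1) : ∃ k, finrank F V = c * k + finrank F (fixSp g) ∧ ∀ l ≤ k,
    ∃ (U : Type u) (_ : AddCommGroup U) (_ : Module F U) (_ : FiniteDimensional F U) (Ψ : Form κ U) (h : U ≃ₗ[F] U),
    Ψ.Nondeg ∧ h ∈ Ψ.isom ∧ h ^ r = 1 ∧ (∀ x, h x = x → x = 0) ∧ finrank F U = c * l ∧ ∀ {D : Type u} [AddCommGroup D] [Module F D] {Θ : Form κ D}, Θ.Nondeg →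
      (Φ.res (fixSp g)).Sub 1 Θ 1 → ∃ W : Submodule F V, (∀ v ∈ W, g v ∈ W) ∧ ∃ e, (Ψ.prod Θ).IsIso (Φ.res W) e := by
  obtain ⟨⟨k, hk⟩, h⟩ := b.sub_fpf (n.mv_nondeg hg b.ne e) (Φ.resAut_mem hg (mv_inv g)) (resAut_one _ e)
    fun x hx => Subtype.ext ((mv_inf_fixSp b.ne e).le ⟨x.2, congrArg Subtype.val hx⟩)
  refine ⟨k, by rw [← hk, finrank_mv_add], fun l hl => ?_⟩
  obtain ⟨U, _, _, _, Ψ, t, h1, h2, h3, h4, h5, h6⟩ := h l (hk ▸ Nat.mul_le_mul_left c hl)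
  exact ⟨U, _, _, ‹_›, Ψ, t, h1, h2, h3, h4, h5, fun a s => ((sub_pair (Φ.le_perp_comm.1 (n.perp_range_sub hg).ge) (mv_inv g)
    fun x hx => (hx : g x = x).symm ▸ hx).trans (h6.prod (s.one (c := 1) (h := 1) (fun x => Subtype.ext ((x.2 : g x = x).trans (one_smul _ _).symm)) (by simp)))).exists_W (h1.prod a)⟩

theorem dim_sub (hg : g ∈ Φ.isom) (e : g ^ r = 1) {W : Submodule F V} (n : (Φ.res W).Nondeg) (i : ∀ v ∈ W, g v ∈ W) :
    ∃ k f, finrank F W = c * k + f ∧ f ≤ finrank F (fixSp g) ∧ (f = 0 → ∀ x, resAut g W i x = x → x = 0) := by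
  obtain ⟨k, h, -⟩ := b.dim n (Φ.resAut_mem hg i) (resAut_one _ e)
  refine ⟨k, _, h, ?_, fun h x hx => (Submodule.finrank_eq_zero.1 h).le hx⟩
  rw [← Submodule.finrank_map_subtype_eq]
  exact Submodule.finrank_mono (by rintro _ ⟨x, hx, rfl⟩; exact congrArg Subtype.val hx)
end Blk

theorem blk_so (r2 : r ≠ 2) (p : ℕ) [Fact p.Prime] [CharP F p] (rp : r ≠ p) {i : ℕ} (hi : i = orderOf (Fintype.card F : ZMod r))
    (hc : c = if Even i then i else 2 * i) : Blk (.symp F) r c ∧ Blk (.orth F) r c ∧ ∃ j, c = 2 * j ∧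
      (∀ k, (Fintype.card F : ZMod r) ^ (j * k) = 1 ↔ Odd i ∨ Even k) ∧ ∀ a, r ∣ Fintype.card F ^ (2 * a) - 1 ↔ c ∣ 2 * a := by
  obtain ⟨t, ht⟩ : i ∣ r - 1 := hi ▸ ZMod.orderOf_dvd_card_sub_one (orderOf_pos_iff.1 (ord_pos hr.out (cast_ne p hr.out rp))).isUnit.ne_zero
  obtain ⟨w, j, ok, o, j0, q1, h⟩ := exists_w r2 (κ := .orth F) (fun _ => rfl) p rp hi (t := t) (by rw [ht, mul_comm])
  have e : c = 2 * j := by
    rw [hc]; by_cases k : Odd i <;> simp only [k, if_true, if_false] at h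
    · rw [if_neg (Nat.not_even_iff_odd.2 k), h.1]
    · rw [if_pos (Nat.not_odd_iff_even.1 k), h.1]
  refine ⟨⟨w, ⟨ok.1, ok.2, ok.3⟩, o.trans e.symm, _, _, _, inferInstance, sympF F j, sympF_nondeg j, by simp [e, two_mul], ?_⟩, ⟨w, ok, o.trans e.symm, ?_⟩,
    j, e, fun k => ?_, fun a => ?_⟩
  · rw [Form.card_isom_symp rfl (sympF_nondeg j) (m := j) (by simp [two_mul]), spOrd]
    refine Dvd.dvd.mul_left (.trans ((ZMod.natCast_eq_zero_iff _ _).1 ?_) (Finset.dvd_prod_of_mem _ (Finset.mem_range.2 (Nat.sub_one_lt j0.ne')))) _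
    rw [Nat.cast_sub (Nat.one_le_pow _ _ Fintype.card_pos), Nat.sub_add_cancel j0]; simp [q1]
  · obtain ⟨j, rfl⟩ := Nat.exists_eq_add_one_of_ne_zero j0.ne'
    exact e ▸ Form.orth_block q1
  · split_ifs at h with k
    · exact ⟨fun _ => .inl k, fun _ => by rw [h.1, hi, pow_mul, pow_orderOf_eq_one, one_pow]⟩
    · simp [k, h.2.2.2]
  · rw [dvd_pow_iff Fintype.card_pos, ← hi, hc]
    split_ifs with k
    · rfl
    · exact ⟨fun h => Nat.mul_dvd_mul_left 2 ((Nat.not_even_iff_odd.1 k).coprime_two_right.dvd_of_dvd_mul_left h), (Dvd.intro_left 2 rfl).trans⟩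

end H5
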