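import Cfsg.Agent.H5.Ess
import Cfsg.Agent.H5.Inv3
import Cfsg.Agent.H5.AsS
/-! Elements of prime order of orthogonal and symplectic groups: fixed-point-free witnesses, nonsingular points in characteristic two. -/
set_option autoImplicit false
namespace H5
open Module Matrix

universe u
variable {F : Type u} [Field F] [Fintype F] {V : Type u} [AddCommGroup V] [Module F V] [FiniteDimensional F V]

theorem card_lines (P : V → Prop) (h0 : ¬ P 0) (hP : ∀ (c : F) v, c ≠ 0 → P v → P (c • v)) :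
    Nat.card {L : Submodule F V // finrank F L = 1 ∧ ∃ v ∈ L, P v} * (Fintype.card F - 1) = Nat.card {v // P v} := by
  rw [← card_units_eq, ← Nat.card_prod]
  have (L : {L : Submodule F V // finrank F L = 1 ∧ ∃ v ∈ L, P v}) : ∃ v : V, P v ∧ L.1 = F ∙ v := by
    obtain ⟨v, h1, h2⟩ := L.2.2
    exact ⟨v, h2, (Submodule.eq_of_le_of_finrank_eq (by simpa) (by rw [L.2.1, finrank_span_singleton (by rintro rfl; exact h0 h2)])).symm⟩
  choose v v0 hv using this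
  refine Nat.card_eq_of_bijective (fun p => ⟨(p.2 : F) • v p.1, hP _ _ p.2.ne_zero (v0 _)⟩) ⟨?_, ?_⟩
  · rintro ⟨L, c⟩ ⟨L', c'⟩ e
    simp only [Subtype.mk.injEq] at e
    obtain rfl : L = L' := Subtype.ext (by
      rw [hv, hv, ← Submodule.span_singleton_smul_eq c.isUnit, ← Submodule.span_singleton_smul_eq c'.isUnit (v L'), e])
    rw [Units.ext (smul_left_injective F (fun h => h0 (h ▸ v0 L)) e)]
  · rintro ⟨y, y1⟩
    have y0 : y ≠ 0 := by rintro rfl; exact h0 y1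
    let L : {L : Submodule F V // finrank F L = 1 ∧ ∃ v ∈ L, P v} := ⟨F ∙ y, finrank_span_singleton y0, y, Submodule.mem_span_singleton_self y, y1⟩
    obtain ⟨c, e⟩ := Submodule.mem_span_singleton.1 (hv L ▸ Submodule.mem_span_singleton_self y : y ∈ F ∙ v L)
    exact ⟨(L, Units.mk0 c (by rintro rfl; exact y0 (by simpa using e.symm))), Subtype.ext e⟩

theorem two_zero (p : ℕ) [CharP F p] (h : p = 2) : (2 : F) = 0 := by subst h; exact CharP.cast_eq_zero F 2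

variable {r : ℕ} [hr : Fact r.Prime] (r2 : r ≠ 2) (p : ℕ) [Fact p.Prime] [CharP F p] (rp : r ≠ p)

theorem one_ne_neg (r2 : r ≠ 2) : (1 : ZMod r) ≠ -1 := fun h =>
  r2 ((Nat.prime_dvd_prime_iff_eq hr.out Nat.prime_two).1 ((ZMod.natCast_eq_zero_iff 2 r).1 (by push_cast; linear_combination h)))

include rp in
theorem card_ne_zero : (Fintype.card F : ZMod r) ≠ 0 := (orderOf_pos_iff.1 (ord_pos hr.out (cast_ne p hr.out rp))).isUnit.ne_zero

namespace Form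
variable {κ : Kind F} {Φ : Form κ V} {g : V ≃ₗ[F] V} {d : ℕ}

theorem IsIso.fpf {U : Type*} [AddCommGroup U] [Module F U] {Ψ : Form κ U} {e} (i : Ψ.IsIso Φ e) {h} (hh : h ∈ Ψ.isom) (k : h ^ r = 1)
    (f : ∀ x, h x = x → x = 0) : ∃ g ∈ Φ.isom, g ^ r = 1 ∧ ∀ x, g x = x → x = 0 :=
  ⟨_, (i.mem_iff h).1 hh, by rw [← map_pow, k, map_one], fun x hx => e.symm.map_eq_zero_iff.1 (f _ (e.eq_symm_apply.2 hx))⟩

include r2 rp
theorem exists_fpf_so (h : (Fintype.card F : ZMod r) ^ (2 * d) = 1) (hκ : κ = .symp F ∨ κ = .orth F) :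
    ∃ (U : Type u) (_ : AddCommGroup U) (_ : Module F U) (_ : FiniteDimensional F U) (Ψ : Form κ U) (h : U ≃ₗ[F] U),
    Ψ.Nondeg ∧ h ∈ Ψ.isom ∧ h ^ r = 1 ∧ (∀ x, h x = x → x = 0) ∧ finrank F U = 2 * d := by
  obtain ⟨b1, b2, -, -, -, k⟩ := blk_so (F := F) r2 p rp rfl rfl
  obtain ⟨k, hk⟩ := (k d).1 ((dvd_pow_iff Fintype.card_pos _).2 (orderOf_dvd_of_pow_eq_one h))
  rw [hk]; rcases hκ with rfl | rfl
  exacts [b1.exists_fpf k, b2.exists_fpf k]

theorem Nondeg.fpf_symp {Φ : Form (.symp F) V} (n : Φ.Nondeg) (e : finrank F V = 2 * d) (h : (Fintype.card F : ZMod r) ^ (2 * d) = 1) :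
    ∃ g ∈ Φ.isom, g ^ r = 1 ∧ ∀ x, g x = x → x = 0 := by
  obtain ⟨U, _, _, _, Ψ, t, h1, h2, h3, h4, h5⟩ := exists_fpf_so r2 p rp h (.inl rfl)
  obtain ⟨_, i⟩ := symp_iso h1 n (h5.trans e.symm)
  exact i.fpf h2 h3 h4

theorem Nondeg.fpf_orth {Φ : Form (.orth F) V} (n : Φ.Nondeg) (e : finrank F V = 2 * d) (h : (Fintype.card F : ZMod r) ^ (2 * d) = 1)
    (k : Φ.HasTS d ↔ (Fintype.card F : ZMod r) ^ d = 1) : ∃ g ∈ Φ.isom, g ^ r = 1 ∧ ∀ x, g x = x → x = 0 := by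
  obtain ⟨U, _, _, _, Ψ, t, h1, h2, h3, h4, h5⟩ := exists_fpf_so r2 p rp h (.inr rfl)
  obtain ⟨_, i⟩ := even_iso h1 n h5 e ((type_of_fpf h1 r2 (card_ne_zero p rp) h5 h2 h3 h4).trans k.symm)
  exact i.fpf h2 h3 h4
omit r2 rp

open Classical in
theorem Nondeg.card_nonsing {Φ : Form (.orth F) V} (n : Φ.Nondeg) (e : finrank F V = 2 * (d + 1)) :
    (Nat.card {L : Submodule F V // finrank F L = 1 ∧ ∃ v ∈ L, Φ.Q v ≠ 0} : ℤ) =
      Fintype.card F ^ d * (Fintype.card F ^ (d + 1) - if Φ.HasTS (d + 1) then 1 else -1) := by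
  haveI : Finite V := finite_of_fd (F := F)
  have a := card_lines (F := F) (fun v => Φ.Q v ≠ 0) (by simp) fun c v c0 h => by rwa [Ne, Φ.Q_smul_eq_zero_iff c0]
  have b : Φ.numSing + Nat.card {v // Φ.Q v ≠ 0} = Fintype.card F ^ (2 * (d + 1)) := by
    rw [numSing, ← Nat.card_sum, Nat.card_congr (Equiv.sumCompl _), natCard_eq_pow_finrank (K := F), e, Nat.card_eq_fintype_card]
  have q1 := Fintype.one_lt_card (α := F)
  generalize Nat.card {L : Submodule F V // finrank F L = 1 ∧ ∃ v ∈ L, Φ.Q v ≠ 0} = N at a ⊢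
  zify [q1.le] at a b
  refine mul_right_cancel₀ (b := (Fintype.card F : ℤ) * (Fintype.card F - 1)) (mul_ne_zero (by omega) (by omega)) ?_
  split_ifs with h
  · linear_combination Fintype.card F * (a + b) - numSing_plus rfl n e h
  · linear_combination Fintype.card F * (a + b - numSing_minus rfl n e h)

theorem OGood.nsp {Φ : Form (.orth F) V} (n : Φ.OGood) (hp : p = 2) (e : finrank F V = 2 * (d + 1))
    (h : r ∣ Nat.card {L : Submodule F V // finrank F L = 1 ∧ ∃ v ∈ L, Φ.Q v ≠ 0}) :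
    (∀ g ∈ Φ.Om, g ^ r = 1 → g ≠ 1 → ∃ v, Φ.Q v ≠ 0 ∧ g v = v) ↔ r = 2 ∧ (Φ.HasTS (d + 1) → Odd (d + 1)) := by
  have h2 : (2 : F) = 0 := two_zero p hp
  have c := c2_orth h2
  haveI : Nontrivial V := (finrank_pos_iff (R := F)).1 (by omega)
  refine ⟨fun H => ?_, ?_⟩
  · by_cases r2 : r = 2
    · refine ⟨r2, fun ⟨U, h1, h3⟩ => by_contra fun o => ?_⟩
      rw [Nat.not_odd_iff_even] at o
      obtain ⟨t, t1, t2, t3, -⟩ := c.exists_alt n.nd h3 (h1 ▸ o)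
      obtain ⟨v, v1, v2⟩ := H t ((n.nd.mem_Om_rank h2 n.RG t1).2 (by rwa [t3, h1])) (by rw [r2, sq, t2]) (by rintro rfl; rw [← t3, show mv (1 : V ≃ₗ[F] V) = ⊥ from LinearMap.range_eq_bot.2 (sub_self _)] at h1; simp at h1)
      exact v1 (h3.1 v ((n.nd.perp_eq_of_ts h3 (by omega)).le (t3 ▸ (n.nd.perp_range_sub t1).ge v2)))
    have rp : r ≠ p := hp ▸ r2
    have k := (ZMod.natCast_eq_zero_iff _ _).2 h
    rw [← Int.cast_natCast, n.nd.card_nonsing e] at k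
    push_cast at k
    replace k := sub_eq_zero.1 ((mul_eq_zero.1 k).resolve_left (pow_ne_zero _ (card_ne_zero p rp)))
    obtain ⟨g, g1, g2, g3⟩ := n.nd.fpf_orth r2 p rp e (by rw [pow_mul', k]; split_ifs <;> simp) (by rw [k]; split_ifs with h <;> simp [h, (one_ne_neg r2).symm])
    obtain ⟨v, v1, v2⟩ := H g (n.mem_of_odd g1 (hr.out.odd_of_ne_two r2) g2) g2 (by rintro rfl; obtain ⟨x, hx⟩ := exists_ne (0 : V); exact hx (g3 x rfl))
    simp [g3 v v2] at v1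
  rintro ⟨rfl, H⟩ g g1 g2 -
  by_contra! k
  have t : Φ.TS (fixSp g) := orth_ts.2 fun x hx => by_contra fun h => k x h hx
  have a := c.two_mul_le n.nd (Om_le_isom g1) (sq g ▸ g2)
  have b := finrank_mv_add g
  have := t.two_mul_le n.nd
  have := (n.nd.mem_Om_rank h2 n.RG (Om_le_isom g1)).1 g1
  have := H ⟨_, by omega, t⟩
  rw [Nat.even_iff, Nat.odd_iff] at *; omega
end Form

omit hr in
theorem scal_one {ι : Type} [Fintype ι] [DecidableEq ι] [Nonempty ι] {κ : Kind F} {Φ : Form κ (ι → F)} (n : Φ.Nondeg) (hσ : ∀ a, κ.σ a = a) {x : GL ι F}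
    (h : glEquiv x ∈ Φ.isom) {z : F} (e : x.1 = z • 1) : z * z = 1 := by
  obtain ⟨y, hy⟩ := exists_ne (0 : ι → F)
  obtain ⟨w, hw⟩ := n.exists_ne hy
  have := h.1 w y
  simp only [glEquiv_apply, e, smul_mulVec, one_mulVec, Form.B_smul_left, Form.B_smul_right, hσ, ← mul_assoc] at this
  exact (mul_eq_right₀ hw).1 this

omit hr [Fintype F] in
theorem eq_one_of_two (h2 : (2 : F) = 0) {z : F} (h : z * z = 1) : z = 1 :=
  sub_eq_zero.1 (pow_eq_zero_iff two_ne_zero |>.1 (by linear_combination h + (1 - z) * h2))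

theorem nsp_mat {ι : Type} [Fintype ι] [DecidableEq ι] {Φ : Form (.orth F) (ι → F)} (n : Φ.OGood) (hp : p = 2) {d : ℕ} (e : Fintype.card ι = 2 * (d + 1))
    (h : r ∣ Nat.card {L : Submodule F (ι → F) // finrank F L = 1 ∧ ∃ v ∈ L, Φ.Q v ≠ 0}) :
    (∀ x : GL ι F, x ∈ Cfsg.Geo.omegaGL Φ.Q → (∃ z : F, (x ^ r).1 = z • 1) → (∀ z : F, x.1 ≠ z • 1) →
      ∃ W : Submodule F (ι → F), (finrank F W = 1 ∧ ∃ v ∈ W, Φ.Q v ≠ 0) ∧ W.map (toLin' x.1) ≤ W) ↔ r = 2 ∧ (Φ.HasTS (d + 1) → Odd (d + 1)) := by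
  have h2 : (2 : F) = 0 := two_zero p hp
  haveI : Nonempty ι := Fintype.card_pos_iff.1 (by omega)
  have one : ∀ {x : GL ι F} {z : F}, glEquiv x ∈ Φ.Om → x.1 = z • 1 → x = 1 := fun h k => Units.ext (by
    rw [k, eq_one_of_two h2 (scal_one n.nd (fun _ => rfl) (Form.Om_le_isom h) k)]; simp)
  rw [← n.nsp p hp (by simpa) h]
  refine ⟨fun H g g1 g2 g3 => ?_, fun H x x1 ⟨z, x2⟩ x3 => ?_⟩
  · obtain ⟨x, rfl⟩ := glEquiv.surjective g
    obtain ⟨W, ⟨h1, v, v1, v2⟩, h3⟩ := H x (As.mem_omega.2 g1) ⟨1, by rw [← map_pow, map_eq_one_iff _ glEquiv.injective] at g2; simp [g2]⟩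
      fun z k => g3 (by rw [one g1 k, map_one])
    obtain ⟨c, hc⟩ := (finrank_eq_one_iff_of_nonzero' (⟨v, v1⟩ : W) (by rintro k; simp_all)).1 h1 ⟨_, map_le_iff.1 h3 v v1⟩
    replace hc : c • v = glEquiv x v := congrArg Subtype.val hc
    have := (Form.Om_le_isom g1).2 v
    rw [← hc, Form.orth_smul, mul_eq_right₀ v2] at this
    exact ⟨v, v2, by rw [← hc, eq_one_of_two h2 this, one_smul]⟩
  · rw [As.mem_omega] at x1
    obtain ⟨v, v1, v2⟩ := H _ x1 (by rw [← map_pow, one (map_pow glEquiv x r ▸ pow_mem x1 r) x2, map_one]) fun k =>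
      x3 1 (by rw [map_eq_one_iff _ glEquiv.injective] at k; simp [k])
    exact ⟨F ∙ v, ⟨finrank_span_singleton (by rintro rfl; simp at v1), v, Submodule.mem_span_singleton_self v, v1⟩, by
      rw [Submodule.map_span, ← glEquiv_coe]; simp [-glEquiv_apply, v2]⟩

end H5
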