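import Cfsg.Agent.H5.Para
import Cfsg.Agent.H5.SL2Tor

/-!
Tools for the exceptional isomorphisms of small orthogonal groups: `pomega_iso` (recognition of `PΩ` from a homomorphism),
`toIsom`, restriction to the orthogonal complement of a fixed vector (`perpHom`), descent along a semilinear involution (`Desc`).
-/

set_option autoImplicit false

namespace H5

open Module

section grp
variable {G H : Type*} [Group G] [Group H]

theorem quot_center_equiv (φ : G →* H) (hs : Function.Surjective φ) (hk : φ.ker ≤ Subgroup.center G)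
    (hc : Subgroup.center (G ⧸ Subgroup.center G) = ⊥) : Nonempty (H ⧸ Subgroup.center H ≃* G ⧸ Subgroup.center G) := by
  refine ⟨((QuotientGroup.quotientMulEquivOfEq (Subgroup.ext fun g => ?_)).trans (QuotientGroup.quotientKerEquivOfSurjective
    ((QuotientGroup.mk' _).comp φ) ((QuotientGroup.mk'_surjective _).comp hs))).symm⟩
  rw [MonoidHom.mem_ker, MonoidHom.comp_apply, QuotientGroup.mk'_apply, QuotientGroup.eq_one_iff]
  simp only [Subgroup.mem_center_iff, hs.forall, ← map_mul]
  refine ⟨fun h x => by rw [h], fun h => Subgroup.mem_center_iff.1 ((QuotientGroup.eq_one_iff g).1 (hc.le (Subgroup.mem_center_iff.2 fun x => ?_)))⟩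
  induction x using QuotientGroup.induction_on with | H x
  exact QuotientGroup.eq.2 (hk (by rw [MonoidHom.mem_ker, map_mul, map_inv, h, inv_mul_cancel]))

theorem center_quot_SL2 {F : Type*} [Field F] : Subgroup.center (SL2 F ⧸ Subgroup.center (SL2 F)) = ⊥ := by
  refine eq_bot_iff.2 fun g hg => ?_
  induction g using QuotientGroup.induction_on with | H g
  obtain ⟨a, b, c, d, h, rfl⟩ := exists_sl2 g
  have k : ∀ x : SL2 F, x.1.trace = 2 → x * sl2 a b c d h = sl2 a b c d h * x := fun x hx => by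
    rcases mem_center_SL2.1 (QuotientGroup.eq.1 (Subgroup.mem_center_iff.1 hg x)) with e | e
    · exact inv_mul_eq_one.1 e
    · have e2 : sl2 a b c d h * x * (sl2 a b c d h)⁻¹ = -x := by
        rw [show sl2 a b c d h * x = _ from inv_mul_eq_iff_eq_mul.1 e]; simp
      have := trace_conj (sl2 a b c d h) x
      rw [e2, Matrix.SpecialLinearGroup.coe_neg, Matrix.trace_neg, hx] at this
      have h2 : (2 : F) = 0 := by have : (2 : F) * 2 = 0 := by linear_combination -this
                                  simpa using this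
      exact inv_mul_eq_one.1 (e.trans (neg_one_eq_one_iff.2 h2))
  have k1 := k (sl2 1 1 0 1 (by simp)) (by simp [one_add_one_eq_two])
  have k2 := k (sl2 1 0 1 1 (by simp)) (by simp [one_add_one_eq_two])
  simp only [sl2_mul, sl2_eq_iff] at k1 k2
  obtain rfl : c = 0 := by linear_combination k1.1
  obtain rfl : b = 0 := by linear_combination -k2.1
  obtain rfl : a = d := by linear_combination -k1.2.1
  refine (QuotientGroup.eq_one_iff _).2 (mem_center_SL2.2 ?_)
  rcases mul_self_eq_one_iff.1 (show a * a = 1 by linear_combination h) with rfl | rfl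
  exacts [Or.inl one_eq_sl2.symm, Or.inr (by rw [one_eq_sl2, neg_sl2, sl2_eq_iff]; simp)]

/-- `(G × H)/Z ≅ G/Z × H/Z`. -/
noncomputable def quotCenterProd : (G × H) ⧸ Subgroup.center (G × H) ≃* (G ⧸ Subgroup.center G) × (H ⧸ Subgroup.center H) :=
  (QuotientGroup.quotientMulEquivOfEq (by rw [MonoidHom.ker_prodMap, QuotientGroup.ker_mk', QuotientGroup.ker_mk', Subgroup.center_prod])).trans
    (QuotientGroup.quotientKerEquivOfSurjective ((QuotientGroup.mk' _).prodMap (QuotientGroup.mk' _))
      ((QuotientGroup.mk'_surjective _).prodMap (QuotientGroup.mk'_surjective _)))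

theorem card_ker_le_two (φ : G →* H) {z : G} (hk : ∀ g, φ g = 1 → g = 1 ∨ g = z) : Nat.card φ.ker ≤ 2 := by
  have : (φ.ker : Set G) ⊆ {1, z} := hk
  exact (Set.ncard_le_ncard this).trans ((Set.ncard_insert_le _ _).trans (by simp))

theorem card_dvd_two_mul [Finite G] (φ : G →* H) {z : G} (hk : ∀ g, φ g = 1 → g = 1 ∨ g = z) : Nat.card G ∣ 2 * Nat.card H := by
  rw [← φ.ker.card_mul_index, Subgroup.index_ker]
  refine mul_dvd_mul ?_ φ.range.card_subgroup_dvd_card
  have := card_ker_le_two φ hk
  have := Nat.card_pos (α := φ.ker)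
  interval_cases Nat.card φ.ker <;> simp

end grp

namespace Form
variable {F : Type*} [Field F] {V W : Type*} [AddCommGroup V] [Module F V] [AddCommGroup W] [Module F W] {G : Type*} [Group G]

/-- A homomorphism into `End V` preserving `Q` as a homomorphism into the isometry group. -/
def toIsom (Φ : Form (Kind.orth F) V) (φ : G →* Module.End F V) (h : ∀ g v, Φ.Q (φ g v) = Φ.Q v) : G →* Φ.isom where
  toFun g := ⟨LinearEquiv.ofLinearMap (φ g) (φ g⁻¹) (by rw [← Module.End.mul_eq_comp, ← map_mul]; simp [Module.End.one_eq_id])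
    (by rw [← Module.End.mul_eq_comp, ← map_mul]; simp [Module.End.one_eq_id]), Φ.mem_isom_orth.2 (h g)⟩
  map_one' := Subtype.ext (LinearEquiv.ext fun v => by simp)
  map_mul' a b := Subtype.ext (LinearEquiv.ext fun v => by simp)

@[simp] theorem toIsom_apply (Φ : Form (Kind.orth F) V) (φ : G →* Module.End F V) (h) (g : G) (v : V) : (Φ.toIsom φ h g).1 v = φ g v := rfl

/-- Similar quadratic forms have the same isometry group. -/
def simCongr {Φ : Form (Kind.orth F) V} {Ψ : Form (Kind.orth F) W} {e : V ≃ₗ[F] W} {c : F} (hc : c ≠ 0)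
    (h : ∀ x, Ψ.Q (e x) = c * Φ.Q x) : Φ.isom ≃* Ψ.isom :=
  subEquiv (autCongr e) _ _ fun g => by
    rw [mem_isom_orth, mem_isom_orth, e.surjective.forall]; simp [h, hc]

variable [FiniteDimensional F V] {κ : Kind F} {Φ : Form κ V}

/-- Restriction to an invariant subspace. -/
noncomputable def resIsom (φ : G →* Φ.isom) (U : Submodule F V) (h : ∀ g, ∀ u ∈ U, (φ g).1 u ∈ U) : G →* (Φ.res U).isom where
  toFun g := ⟨resAut _ U (h g), Φ.resAut_mem (φ g).2 _⟩
  map_one' := Subtype.ext (LinearEquiv.ext fun v => Subtype.ext (by simp))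
  map_mul' a b := Subtype.ext (LinearEquiv.ext fun v => Subtype.ext (by simp))

/-- Restriction to the orthogonal complement of a fixed vector. -/
noncomputable def perpHom (φ : G →* Φ.isom) {v : V} (h : ∀ g, (φ g).1 v = v) : G →* (Φ.res (Φ.perp (F ∙ v))).isom :=
  resIsom φ _ fun g => isom_perp_mem (φ g).2 fun u hu => by
    obtain ⟨c, rfl⟩ := Submodule.mem_span_singleton.1 hu; rwa [map_smul, h]

theorem Nondeg.perpHom_ker (hΦ : Φ.Nondeg) {φ : G →* Φ.isom} {v : V} (h : ∀ g, (φ g).1 v = v) (hv : Φ.B v v ≠ 0) {g : G}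
    (e : perpHom φ h g = 1) : φ g = 1 :=
  Subtype.ext (hΦ.ext_of_compl (res_line_nondeg hv) (fun u hu => by
    obtain ⟨c, rfl⟩ := Submodule.mem_span_singleton.1 hu; simp [h]) fun u hu => congrArg (fun t => (t.1 ⟨u, hu⟩).1) e)

theorem Nondeg.range_eq [Finite F] {Φ : Form (Kind.orth F) V} (hΦ : Φ.Nondeg) (h2 : 2 ≤ finrank F V) (ρ : G →* Φ.isom)
    (h1 : ρ.range ≤ commutator Φ.isom) (hc : Nat.card Φ.isom = 2 * Nat.card G) {z : G} (hz : (2 : F) = 0 → z = 1)
    (hk : ∀ g, ρ g = 1 → g = 1 ∨ g = z) : ρ.range = commutator Φ.isom := by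
  haveI := finite_aut (F := F) (V := V)
  have e := ρ.range.card_mul_index
  have p := Nat.card_pos (α := ρ.range)
  rw [hc, ← ρ.ker.card_mul_index, Subgroup.index_ker, ← mul_assoc, mul_comm, Nat.mul_left_inj p.ne'] at e
  by_cases c2 : (2 : F) = 0
  · rw [ρ.ker_eq_bot_iff.2 ((injective_iff_map_eq_one _).2 fun g e => by simpa [hz c2] using hk g e), Subgroup.card_bot] at e
    exact le_antisymm h1 (commutator_le_of_index_two e)
  · have := hΦ.index_odd c2 h2
    have l := Nat.le_of_dvd (Nat.pos_of_ne_zero ρ.range.index_ne_zero_of_finite) (Subgroup.index_dvd_of_le h1)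
    have := card_ker_le_two ρ hk
    exact eq_of_le_of_index_eq h1 (by omega) (by omega)

theorem Nondeg.pomega_iso [Finite F] {Φ : Form (Kind.orth F) V} (hΦ : Φ.Nondeg) (h2 : 2 ≤ finrank F V) (ρ : G →* Φ.isom)
    (h1 : ρ.range ≤ commutator Φ.isom) (hc : Nat.card Φ.isom = 2 * Nat.card G) {z : G} (hz : (2 : F) = 0 → z = 1)
    (hk : ∀ g, ρ g = 1 → g = 1 ∨ g = z) (hz' : z ∈ Subgroup.center G) (hG : Subgroup.center (G ⧸ Subgroup.center G) = ⊥)
    {ι : Type} [Fintype ι] [DecidableEq ι] {Ψ : Form (Kind.orth F) (ι → F)} (e : Φ.isom ≃* Ψ.isom) :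
    Nonempty (Cfsg.POmega F Ψ.Q ≃* G ⧸ Subgroup.center G) := by
  obtain ⟨f⟩ := quot_center_equiv ρ.rangeRestrict ρ.rangeRestrict_surjective
    (fun g hg => (hk g (congrArg Subtype.val hg)).elim (fun e => e ▸ one_mem _) fun e => e ▸ hz') hG
  exact ⟨(quotCenterCongr ((commutatorCongr ((oEquiv Ψ).trans e.symm)).trans
    (MulEquiv.subgroupCongr (hΦ.range_eq h2 ρ h1 hc hz hk).symm))).trans f⟩

theorem range_le_commutator {H : Type*} [Group H] (ρ : G →* H) (h : commutator G = ⊤) : ρ.range ≤ commutator H := by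
  rw [MonoidHom.range_eq_map, ← h, commutator_def, Subgroup.map_commutator]
  exact Subgroup.commutator_mono le_top le_top

end Form

section desc
variable {F K : Type*} [Field F] [Fintype F] [Field K] [Fintype K] [Algebra F K] {q : ℕ} (hF : Fintype.card F = q)
  {hK : Fintype.card K = q ^ 2} {V : Type*} [AddCommGroup V] [Module K V] [Module F V] [IsScalarTower F K V]

variable (hK) in
/-- A semilinear involution compatible with a quadratic form. -/
structure Desc (Ψ : Form (Kind.orth K) V) (τ : V →+ V) : Prop where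
  smul : ∀ (c : K) v, τ (c • v) = conj hK c • τ v
  inv : ∀ v, τ (τ v) = v
  Q : ∀ v, Ψ.Q (τ v) = conj hK (Ψ.Q v)

namespace Desc
variable {Ψ : Form (Kind.orth K) V} {τ : V →+ V} (h : Desc hK Ψ τ)

/-- The fixed points of the involution. -/
def fix : Submodule F V where
  carrier := {v | τ v = v}
  add_mem' {a b} ha hb := by rw [Set.mem_ofPred_eq, map_add, ha, hb]
  zero_mem' := map_zero τ
  smul_mem' c v hv := by rw [Set.mem_ofPred_eq, ← algebraMap_smul K, h.smul, conj_algebraMap hF hK, hv]

/-- The descended form. -/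
noncomputable def form : Form (Kind.orth F) (h.fix hF) :=
  Form.ofQuadFun (fun w => retr F K (Ψ.Q w)) (LinearMap.mk₂ F (fun x y => retr F K (Ψ.B x y)) (by simp)
    (fun c x y => by rw [← map_smul, Submodule.coe_smul, ← algebraMap_smul K c (x : V)]; simp [Algebra.smul_def]) (by simp)
    (fun c x y => by rw [← map_smul, Submodule.coe_smul, ← algebraMap_smul K c (y : V), Form.B_smul_right]; simp [Algebra.smul_def]))
    (fun c x => by rw [Submodule.coe_smul, ← algebraMap_smul K c (x : V), Form.orth_smul, ← map_mul, ← Algebra.smul_def, map_smul, smul_eq_mul])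
    fun x y => by simp [Form.orth_add]

theorem form_B (x y : h.fix hF) : algebraMap F K ((h.form hF).B x y) = Ψ.B x y := by
  refine algebraMap_retr hF hK ?_
  have := h.Q (x + y)
  rw [map_add, x.2, y.2, Form.orth_add, map_add, map_add, ← h.Q, ← h.Q, x.2, y.2] at this
  linear_combination -this

include hF in
theorem decomp : ∃ θ : K, conj hK θ ≠ θ ∧ ∀ v, ∃ a b : h.fix hF, v = a + θ • b.1 := by
  obtain ⟨θ, hθ⟩ : ∃ θ, conj hK θ ≠ θ := by by_contra! e; exact conj_ne_id hK (RingHom.ext e)
  have n := sub_ne_zero.2 hθ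
  have n' := sub_ne_zero.2 hθ.symm
  refine ⟨θ, hθ, fun v => ⟨⟨(conj hK θ - θ)⁻¹ • (conj hK θ • v - θ • τ v), ?_⟩, ⟨(conj hK θ - θ)⁻¹ • (τ v - v), ?_⟩, ?_⟩⟩
  all_goals (try change τ _ = _); simp only [h.smul, map_sub, h.inv, map_inv₀, conj_conj]; match_scalars <;> field_simp <;> ring

theorem nondeg (hΨ : Ψ.Nondeg) : (h.form hF).Nondeg := fun y hy => Subtype.ext <| hΨ _ fun x => by
  obtain ⟨θ, -, e⟩ := h.decomp hF
  obtain ⟨a, b, rfl⟩ := e x
  simp [← h.form_B hF, hy]

theorem finrank_fix [FiniteDimensional K V] : finrank F (h.fix hF) = finrank K V := by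
  haveI : Finite V := finite_of_fd (F := K)
  obtain ⟨θ, hθ, e⟩ := h.decomp hF
  have := Nat.card_eq_of_bijective (fun p : h.fix hF × h.fix hF => p.1 + θ • p.2.1) ⟨fun p p' k => by
    have k' := congrArg τ k
    simp only [map_add, h.smul, show τ p.1 = _ from p.1.2, show τ p.2 = _ from p.2.2, show τ p'.1 = _ from p'.1.2,
      show τ p'.2 = _ from p'.2.2] at k'
    have : p.2.1 = p'.2.1 := smul_right_injective V (sub_ne_zero.2 hθ) (by linear_combination (norm := module) k' - k)
    exact Prod.ext (Subtype.ext (by simpa [this] using k)) (Subtype.ext this), fun v => let ⟨a, b, e⟩ := e v; ⟨(a, b), e.symm⟩⟩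
  rw [Nat.card_prod, Module.natCard_eq_pow_finrank (K := F), Module.natCard_eq_pow_finrank (K := K) (V := V), Nat.card_eq_fintype_card,
    Nat.card_eq_fintype_card, hF, hK, ← pow_add, ← pow_mul] at this
  have := Nat.pow_right_injective (two_le_of_card_sq hK) this
  omega

variable {G : Type*} [Group G] (φ : G →* Ψ.isom) (hφ : ∀ g v, τ ((φ g).1 v) = (φ g).1 (τ v))

/-- The action on the fixed points. -/
noncomputable def hom : G →* (h.form hF).isom :=
  (h.form hF).toIsom ⟨⟨fun g => ((φ g).1.toLinearMap.restrictScalars F).restrict fun v hv => (hφ g v).trans (congrArg _ hv),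
    by ext; simp⟩, fun a b => by ext; simp; rfl⟩ fun g v => congrArg (retr F K) ((φ g).2.2 v)

theorem hom_ker {g : G} (e : h.hom hF φ hφ g = 1) : φ g = 1 := Subtype.ext <| LinearEquiv.ext fun v => by
  obtain ⟨θ, -, k⟩ := h.decomp hF
  obtain ⟨a, b, rfl⟩ := k v
  have : ∀ w : h.fix hF, (φ g).1 w = w := fun w => congrArg (fun t => (t.1 w).1) e
  simp [this]

end Desc
end desc
end H5
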