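import Cfsg.Agent.H5.Nd5
/-! Invariant subspaces and flags of linear maps some prime power of which is scalar. -/
set_option autoImplicit false
namespace H5
open Module Pointwise Matrix Polynomial

universe u
variable {F : Type u} [Field F] {V : Type u} [AddCommGroup V] [Module F V] [FiniteDimensional F V] {r a b : ℕ} {g : V ≃ₗ[F] V} {z : Fˣ} {U W T : Submodule F V}

omit [FiniteDimensional F V] in
theorem aeval_scal (e : g ^ r = scal V z) : aeval (g : End F V) (X ^ r - C (z : F)) = 0 := by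
  rw [map_sub, aeval_X_pow, coe_pow_end, e, aeval_C]; ext; simp

omit [FiniteDimensional F V] in
theorem exists_inv_compl (r0 : (r : F) ≠ 0) (e : g ^ r = scal V z) (i : ∀ v ∈ W, g v ∈ W) : ∃ W', IsCompl W W' ∧ ∀ v ∈ W', g v ∈ W' :=
  let ⟨W', a, b⟩ := End.isSemisimple_iff.1 (End.isSemisimple_of_squarefree_aeval_eq_zero (separable_X_pow_sub_C _ r0 z.ne_zero).squarefree (aeval_scal e)) W i
  ⟨W', b, a⟩

omit [FiniteDimensional F V] in
theorem exists_cyc {P : F[X]} (m : P.Monic) (d : 0 < P.natDegree) {v : V} (hv : aeval (g : End F V) P v = 0) (i : ∀ v ∈ T, g v ∈ T) (h : v ∈ T) :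
    ∃ U ≤ T, v ∈ U ∧ (∀ v ∈ U, g v ∈ U) ∧ finrank F U ≤ P.natDegree := by
  let φ : F[X] →ₗ[F] V := LinearMap.applyₗ v ∘ₗ (aeval (g : End F V)).toLinearMap
  refine ⟨(degreeLT F P.natDegree).map φ, ?_, ⟨1, by simpa [mem_degreeLT], by simp [φ]⟩, ?_, ?_⟩
  · rintro _ ⟨f, -, rfl⟩
    exact aeval_apply_smul_mem_of_le_comap h f _ i
  · rintro _ ⟨f, -, rfl⟩
    refine ⟨(X * f) %ₘ P, mem_degreeLT.2 (degree_eq_natDegree m.ne_zero ▸ degree_modByMonic_lt _ m), ?_⟩
    rw [modByMonic_eq_sub_mul_div, mul_comm P]; simp [φ, hv]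
  · haveI := (degreeLTEquiv F P.natDegree).symm.finiteDimensional
    exact (Submodule.finrank_map_le _ _).trans (by simp [(degreeLTEquiv F P.natDegree).finrank_eq])

omit [FiniteDimensional F V] in
theorem exists_irr_vec (i : ∀ v ∈ T, g v ∈ T) (f : F[X]) (f0 : f ≠ 0) : (∃ v ∈ T, v ≠ 0 ∧ aeval (g : End F V) f v = 0) →
    ∃ P : F[X], Irreducible P ∧ P.Monic ∧ P ∣ f ∧ ∃ v ∈ T, v ≠ 0 ∧ aeval (g : End F V) P v = 0 := by
  classical
  induction f using WfDvdMonoid.induction_on_irreducible with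
  | zero => exact absurd rfl f0
  | unit u h =>
    obtain ⟨c, hc, rfl⟩ := Polynomial.isUnit_iff.1 h
    rintro ⟨v, -, a, b⟩
    simp [a, hc.ne_zero] at b
  | mul f P h hP ih =>
    rintro ⟨v, a, b, c⟩
    by_cases k : aeval (g : End F V) f v = 0
    · exact (ih h ⟨v, a, b, k⟩).imp fun Q h => ⟨h.1, h.2.1, h.2.2.1.mul_left _, h.2.2.2⟩
    have s := associated_normalize P
    refine ⟨normalize P, s.irreducible hP, monic_normalize hP.ne_zero, s.symm.dvd.mul_right _, _, aeval_apply_smul_mem_of_le_comap a f _ i, k, ?_⟩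
    rw [normalize_apply, mul_comm P, map_mul, End.mul_apply, ← End.mul_apply _ (aeval _ f), ← map_mul, c, map_zero]

theorem finrank_sup_disj (h : Disjoint U W) : finrank F ↥(U ⊔ W) = finrank F U + finrank F W := by
  rw [← Submodule.finrank_sup_add_finrank_inf_eq, h.eq_bot, finrank_bot, add_zero]

theorem inv_chain {e : ℕ} (r0 : (r : F) ≠ 0) (h : g ^ r = scal V z) (iT : ∀ v ∈ T, g v ∈ T)
    (blk : ∀ Y ≤ T, (∀ v ∈ Y, g v ∈ Y) → Y ≠ ⊥ → ∃ U ≤ Y, (∀ v ∈ U, g v ∈ U) ∧ finrank F U = e) (le : W ≤ T) (i : ∀ v ∈ W, g v ∈ W) (l : ℕ)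
    (hl : finrank F W + e * l ≤ finrank F T) : ∃ W', W ≤ W' ∧ W' ≤ T ∧ (∀ v ∈ W', g v ∈ W') ∧ finrank F W' = finrank F W + e * l := by
  induction l with
  | zero => exact ⟨W, le_rfl, le, i, rfl⟩
  | succ l ih =>
    obtain ⟨Y, y1, y2, y3, y4⟩ := ih (by rw [mul_add] at hl; omega)
    rcases e.eq_zero_or_pos with rfl | e0
    · exact ⟨Y, y1, y2, y3, by simpa using y4⟩
    obtain ⟨C, c1, c2⟩ := exists_inv_compl r0 h y3
    obtain ⟨U, u1, u2, u3⟩ := blk (C ⊓ T) inf_le_right (fun v hv => ⟨c2 v hv.1, iT v hv.2⟩) fun k => by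
      have := sup_inf_assoc_of_le C y2
      rw [k, c1.sup_eq_top, top_inf_eq, sup_bot_eq] at this
      rw [this, mul_add] at hl; omega
    refine ⟨Y ⊔ U, y1.trans le_sup_left, sup_le y2 (u1.trans inf_le_right), fun v hv => ?_, ?_⟩
    · obtain ⟨a, ha, b, hb, rfl⟩ := Submodule.mem_sup.1 hv
      exact map_add g a b ▸ Submodule.add_mem_sup (y3 a ha) (u2 b hb)
    · rw [finrank_sup_disj (c1.disjoint.mono_right (u1.trans inf_le_left)), mul_add]; omega

/-- `g` fixes a flag of subspaces of dimensions `a ≤ b`. -/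
def Fl (g : V ≃ₗ[F] V) (a b : ℕ) : Prop := ∃ U W : Submodule F V, U ≤ W ∧ finrank F U = a ∧ finrank F W = b ∧ (∀ v ∈ U, g v ∈ U) ∧ ∀ v ∈ W, g v ∈ W

omit [FiniteDimensional F V] in
theorem Fl.scal (h : Fl g a b) (c : Fˣ) : Fl (g * scal V c) a b :=
  let ⟨U, W, h1, h2, h3, h4, h5⟩ := h; ⟨U, W, h1, h2, h3, fun v hv => h4 _ (U.smul_mem _ hv), fun v hv => h5 _ (W.smul_mem _ hv)⟩

theorem finrank_map_nl (W : Submodule F V) : finrank F (W.map (nl g)) + finrank F ↥(W ⊓ fixSp g) = finrank F W := by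
  have := (nl g ∘ₗ W.subtype).finrank_range_add_finrank_ker
  rw [LinearMap.range_comp, Submodule.range_subtype, ← Submodule.finrank_map_subtype_eq _ (LinearMap.ker _), LinearMap.ker_comp, Submodule.map_comap_subtype] at this
  rwa [show LinearMap.ker (nl g) = fixSp g by ext; simp [mem_fixSp, sub_eq_zero]] at this

section ss
variable [Fintype F] [hr : Fact r.Prime] (r0 : (r : F) ≠ 0) {i : ℕ} (hi : i = orderOf (Fintype.card F : ZMod r))
include r0 hi

theorem ord_dvd_map (e : g ^ r = 1) (h : ∀ v ∈ W, g v ∈ W) : i ∣ finrank F (W.map (nl g)) := by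
  have := finrank_map_nl (g := g) W
  rw [hi, show finrank F (W.map (nl g)) = finrank F W - finrank F ↥(W ⊓ fixSp g) by omega]; exact ord_dvd_fix r0 e h

theorem ord_dvd_mv (e : g ^ r = 1) : i ∣ finrank F (mv g) := by
  have := ord_dvd_map r0 hi e (W := ⊤) fun _ _ => trivial
  rwa [Submodule.map_top] at this

theorem exists_blk (e : g ^ r = 1) : ∀ Y ≤ mv g, (∀ v ∈ Y, g v ∈ Y) → Y ≠ ⊥ → ∃ U ≤ Y, (∀ v ∈ U, g v ∈ U) ∧ finrank F U = i := fun Y le h y0 => by
  obtain ⟨v, hv, v0⟩ := Submodule.exists_mem_ne_zero_of_ne_bot y0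
  obtain ⟨P, p1, p2, p3, v, hv, v0, k⟩ := exists_irr_vec h _ (X_pow_sub_C_ne_zero hr.out.pos _) ⟨v, hv, v0, by rw [aeval_scal (z := 1) (by simpa)]; rfl⟩
  obtain ⟨U, u1, u2, u3, u4⟩ := exists_cyc p2 p1.natDegree_pos k h hv
  have i0 := hi ▸ ord_pos hr.out r0
  have d : P.natDegree ∣ i := p1.natDegree_dvd_of_dvd_X_pow_card_pow_sub_X (p3.trans (by
    obtain ⟨s, hs⟩ := (dvd_pow_iff Fintype.card_pos i).2 hi.symm.dvd
    rw [Nat.card_eq_fintype_card, ← Nat.sub_add_cancel (Nat.one_le_pow i _ Fintype.card_pos), hs, pow_succ, ← sub_one_mul, pow_mul]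
    rw [Units.val_one, C_1]; exact (sub_one_dvd_pow_sub_one (X ^ r : F[X]) s).mul_right _))
  have := ord_dvd_fix r0 e u3
  rw [eq_bot_iff.2 ((inf_le_inf_right _ (u1.trans le)).trans (mv_inf_fixSp r0 e).le), finrank_bot, Nat.sub_zero, ← hi] at this
  exact ⟨U, u1, u3, le_antisymm (u4.trans (Nat.le_of_dvd i0 d)) (Nat.le_of_dvd (Submodule.one_le_finrank_iff.2 fun h => v0 (h.le u2)) this)⟩

theorem fl_iff (e : g ^ r = 1) (ab : a ≤ b) (hb : b ≤ finrank F V) :
    Fl g a b ↔ finrank F (mv g) / i ≤ a / i + (b - a) / i + (finrank F V - b) / i := by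
  have i0 := hi ▸ ord_pos hr.out r0
  have s := finrank_mv_add g
  obtain ⟨k, hk⟩ := ord_dvd_mv r0 hi e
  rw [hk, Nat.mul_div_cancel_left _ i0]
  refine ⟨fun ⟨U, W, h1, h2, h3, h4, h5⟩ => ?_, fun h => ?_⟩
  · obtain ⟨l, hl⟩ := ord_dvd_map r0 hi e h4
    obtain ⟨l', hl'⟩ := ord_dvd_map r0 hi e h5
    have := finrank_map_nl (g := g) U
    have := finrank_map_nl (g := g) W
    have := Submodule.finrank_mono (inf_le_inf_right (fixSp g) h1)
    have := Submodule.finrank_mono (inf_le_right : W ⊓ fixSp g ≤ _)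
    have a1 := Submodule.finrank_mono (Submodule.map_mono (f := nl g) h1)
    have a2 := Submodule.finrank_mono (LinearMap.map_le_range (f := nl g) (p := W))
    rw [hl'] at a1 a2
    obtain ⟨x, rfl⟩ := Nat.exists_eq_add_of_le (Nat.le_of_mul_le_mul_left (hl ▸ a1) i0)
    obtain ⟨y, rfl⟩ := Nat.exists_eq_add_of_le (Nat.le_of_mul_le_mul_left (hk ▸ a2) i0)
    simp only [mul_add] at *
    gcongr <;> rw [Nat.le_div_iff_mul_le i0, mul_comm] <;> omega
  obtain ⟨x, y, w, rfl, h1, h2, h3⟩ : ∃ x y w, k = x + y + w ∧ x ≤ a / i ∧ y ≤ (b - a) / i ∧ w ≤ (finrank F V - b) / i := by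
    generalize a / i = A, (b - a) / i = B, (finrank F V - b) / i = C at h ⊢
    exact ⟨min k A, min (k - A) B, k - A - B, by omega⟩
  rw [Nat.le_div_iff_mul_le i0, mul_comm] at h1 h2 h3
  simp only [mul_add] at hk
  have e' : g ^ r = scal V 1 := by simpa
  obtain ⟨A, -, a1, a2, a3⟩ := inv_chain r0 e' (mv_inv g) (exists_blk r0 hi e) bot_le (by simp) x (by rw [finrank_bot]; omega)
  obtain ⟨A', b0, b1, b2, b3⟩ := inv_chain r0 e' (mv_inv g) (exists_blk r0 hi e) a1 a2 y (by rw [finrank_bot] at a3; omega)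
  obtain ⟨B', c1, c2⟩ := exists_le_finrank_eq (fixSp g) (show b - i * x - i * y ≤ _ by omega)
  obtain ⟨B, d1, d2⟩ := exists_le_finrank_eq B' (show a - i * x ≤ _ by omega)
  have k : ∀ A ≤ mv g, ∀ B ≤ fixSp g, (∀ v ∈ A, g v ∈ A) → finrank F ↥(A ⊔ B) = finrank F A + finrank F B ∧ ∀ v ∈ A ⊔ B, g v ∈ A ⊔ B := fun A h B k i =>
    ⟨finrank_sup_disj ((disjoint_iff.2 (mv_inf_fixSp r0 e)).mono h k), fun v hv => by
      obtain ⟨a, ha, b, hb, rfl⟩ := Submodule.mem_sup.1 hv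
      rw [map_add, mem_fixSp.1 (k hb)]; exact Submodule.add_mem_sup (i a ha) hb⟩
  rw [finrank_bot] at a3
  exact ⟨A ⊔ B, A' ⊔ B', sup_le_sup b0 d1, by rw [(k A a1 B (d1.trans c1) a2).1]; omega, by rw [(k A' b1 B' c1 b2).1]; omega, (k A a1 B (d1.trans c1) a2).2,
    (k A' b1 B' c1 b2).2⟩

theorem exists_mv {k : ℕ} (h : i * k ≤ finrank F V) : ∃ g : V ≃ₗ[F] V, g ^ r = 1 ∧ finrank F (mv g) = i * k := by
  have i0 := hi ▸ ord_pos hr.out r0
  obtain ⟨A, -, hA⟩ := exists_ord (F := F) i0 ((dvd_pow_iff Fintype.card_pos i).2 hi.symm.dvd)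
  obtain ⟨t, t1, t2⟩ : ∃ t : (Fin i → F) ≃ₗ[F] (Fin i → F), t ^ r = 1 ∧ t ≠ 1 := by
    obtain ⟨B, rfl⟩ := IsUnit.of_pow_eq_one ((hA r).2 dvd_rfl) hr.out.ne_zero
    refine ⟨glEquiv B, by rw [← map_pow, show B ^ r = 1 from Units.ext ((hA r).2 dvd_rfl), map_one], fun h => hr.out.ne_one (Nat.dvd_one.1 ((hA 1).1 ?_))⟩
    rw [(map_eq_one_iff _ glEquiv.injective).1 h]; simp
  have t3 : finrank F (mv t) = i := le_antisymm ((Submodule.finrank_le _).trans (by simp)) (Nat.le_of_dvd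
    (Submodule.one_le_finrank_iff.2 (mt mv_eq_bot.1 t2)) (ord_dvd_mv r0 hi t1))
  induction k generalizing V with
  | zero => exact ⟨1, one_pow _, by simp [mv_one]⟩
  | succ k ih =>
    rw [mul_add, mul_one] at h ⊢
    obtain ⟨W, -, w⟩ := exists_le_finrank_eq (⊤ : Submodule F V) (show i ≤ _ by simp; omega)
    obtain ⟨W', c⟩ := W.exists_isCompl
    have := Submodule.finrank_add_eq_of_isCompl c
    obtain ⟨s, s1, s2⟩ := ih (V := W') (by omega)
    let f := (finBasisOfFinrankEq F W w).equivFun.symm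
    refine ⟨sumAut c (autCongr f t, s), sumAut_pow c (by rw [← map_pow, t1, map_one]) s1, ?_⟩
    rw [finrank_mv_compl, s2, add_comm, add_right_inj]
    refine .trans ?_ t3
    rw [← LinearEquiv.finrank_map_eq f, ← LinearMap.range_comp, mv, ← LinearMap.range_comp_of_range_eq_top _ f.range,
      show ((autCongr f t).toLinearMap - .id) ∘ₗ f.toLinearMap = f.toLinearMap ∘ₗ (t.toLinearMap - .id) from LinearMap.ext fun x => by simp [autCongr_apply]]
end ss

section np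
variable [hr : Fact r.Prime] (np : ∀ b : F, b ^ r ≠ z)
include np
theorem det_npow (e : g ^ r = scal V z) : ∃ k, finrank F V = r * k ∧ (LinearEquiv.det g : F) = ((-1) ^ (r + 1) * z) ^ k := by
  let B := finBasis F V
  have i := X_pow_sub_C_irreducible_of_prime hr.out np
  have m := (LinearMap.charpoly_monic (g : End F V))
  obtain ⟨k, c, h1, h2⟩ := WfDvdMonoid.max_power_factor m.ne_zero i
  have m' := (monic_X_pow_sub_C (z : F) hr.out.ne_zero).pow k
  obtain rfl : c = 1 := (m'.of_mul_monic_left (h2 ▸ m)).eq_one_of_isUnit (by_contra fun u => by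
    obtain ⟨Q, q1, q2⟩ := WfDvdMonoid.exists_irreducible_factor u (by rintro rfl; exact h1 (dvd_zero _))
    refine h1 (((q1.dvd_irreducible_iff_associated i).1 (dvd_of_charpoly (A := LinearMap.toMatrixAlgEquiv B g) q1 ?_ ?_)).symm.dvd.trans q2)
    · rw [show (LinearMap.toMatrixAlgEquiv B g).charpoly = _ from LinearMap.charpoly_toMatrix _ B, h2]; exact q2.mul_left _
    · rw [aeval_algEquiv, AlgHom.comp_apply, aeval_scal e, map_zero])
  have d := LinearMap.charpoly_natDegree (g : End F V)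
  rw [h2, mul_one, natDegree_pow, natDegree_X_pow_sub_C] at d
  refine ⟨k, by rw [← d, mul_comm], ?_⟩
  rw [LinearEquiv.coe_det, ← LinearMap.det_toMatrix B, det_eq_sign_charpoly_coeff, LinearMap.charpoly_toMatrix, h2, Fintype.card_fin, ← d, mul_one,
    coeff_zero_eq_eval_zero, pow_mul', eval_pow, ← mul_pow]
  simp [hr.out.ne_zero, pow_succ]

theorem fl_npow (r0 : (r : F) ≠ 0) (e : g ^ r = scal V z) (ab : a ≤ b) (hb : b ≤ finrank F V) : Fl g a b ↔ r ∣ a ∧ r ∣ b := by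
  have d : ∀ U : Submodule F V, (∀ v ∈ U, g v ∈ U) → r ∣ finrank F U := fun U h =>
    let ⟨_, k, _⟩ := det_npow np (g := resAut g U h) (LinearEquiv.ext fun x => Subtype.ext (by simp [resAut_pow, e])); ⟨_, k⟩
  refine ⟨fun ⟨U, W, _, h2, h3, h4, h5⟩ => ⟨h2 ▸ d U h4, h3 ▸ d W h5⟩, ?_⟩
  rintro ⟨⟨a, rfl⟩, b, rfl⟩
  have blk : ∀ Y ≤ (⊤ : Submodule F V), (∀ v ∈ Y, g v ∈ Y) → Y ≠ ⊥ → ∃ U ≤ Y, (∀ v ∈ U, g v ∈ U) ∧ finrank F U = r := fun Y _ h y0 => by
    obtain ⟨v, hv, v0⟩ := Submodule.exists_mem_ne_zero_of_ne_bot y0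
    obtain ⟨U, u1, u2, u3, u4⟩ := exists_cyc (monic_X_pow_sub_C (z : F) hr.out.ne_zero) (by simp [hr.out.pos]) (by rw [aeval_scal e]; rfl) h hv
    exact ⟨U, u1, u3, le_antisymm (by simpa using u4) (Nat.le_of_dvd (Submodule.one_le_finrank_iff.2 fun h => v0 (h.le u2)) (d U u3))⟩
  obtain ⟨c, rfl⟩ := Nat.exists_eq_add_of_le (Nat.le_of_mul_le_mul_left ab hr.out.pos)
  rw [mul_add] at hb
  obtain ⟨A, -, a1, a2, a3⟩ := inv_chain (T := ⊤) r0 e (fun _ _ => trivial) blk bot_le (by simp) a (by simp; omega)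
  rw [finrank_bot] at a3
  obtain ⟨A', b0, b1, b2, b3⟩ := inv_chain (T := ⊤) r0 e (fun _ _ => trivial) blk a1 a2 c (by simp; omega)
  exact ⟨A, A', b0, by omega, by rw [mul_add]; omega, a2, b2⟩

omit np in
theorem exists_npow (z : Fˣ) {k : ℕ} (h : finrank F V = r * k) : ∃ g : V ≃ₗ[F] V, g ^ r = scal V z := by
  have m := monic_X_pow_sub_C (z : F) hr.out.ne_zero
  let K := AdjoinRoot (X ^ r - C (z : F))
  haveI := (AdjoinRoot.powerBasis' m).finite
  haveI : Free F K := .of_divisionRing ..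
  have e : AdjoinRoot.root _ ^ r = algebraMap F K z := root_X_pow_sub_C_pow ..
  obtain ⟨θ, hθ⟩ : IsUnit (AdjoinRoot.root _ : K) := (isUnit_pow_iff hr.out.ne_zero).1 (e ▸ z.isUnit.map _)
  obtain ⟨f⟩ := FiniteDimensional.nonempty_linearEquiv_of_finrank_eq (R := F) (M := Fin k → K) (M' := V) (by
    simp [finrank_pi_fintype, (AdjoinRoot.powerBasis' m).finrank, h, mul_comm, K])
  refine ⟨autCongr f (DistribMulAction.toModuleAut F (Fin k → K) θ), ?_⟩
  rw [← map_pow, ← map_pow]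
  ext x
  simp [autCongr_apply, Units.smul_def, hθ, e, algebraMap_smul K (z : F)]
end np
end H5
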