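import Cfsg.Agent.H5.Nd3
/-! Translation of subspace classes of orthogonal spaces, and the class of an odd-dimensional subspace fixed by a unipotent element. -/
set_option autoImplicit false
namespace H5
open Module Pointwise Matrix Cfsg.Geo

universe u
variable {F : Type u} [Field F] [Fintype F] {V : Type u} [AddCommGroup V] [Module F V] [FiniteDimensional F V] {U : Type u} [AddCommGroup U]
  [Module F U] [FiniteDimensional F U] {r c : ℕ} {g : V ≃ₗ[F] V} {μ : Multiset ℕ}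

theorem sum_count (l : ∀ a ∈ μ, 0 < a ∧ a ≤ 3) : μ.sum = μ.count 1 + 2 * μ.count 2 + 3 * μ.count 3 := by
  induction μ using Multiset.induction_on with
  | empty => simp
  | cons a s ih =>
    have := ih fun a h => l a (by simp [h])
    obtain ⟨h, h'⟩ := l a (by simp)
    interval_cases a <;> simp <;> omega

namespace Form
section mat
variable {ι : Type} [Fintype ι] [DecidableEq ι] {Φ : Form (.orth F) (ι → F)} {W₀ : Submodule F (ι → F)} {a m : ℕ}

theorem cl_plus (n₀ : (Φ.res W₀).Nondeg) (e : finrank F W₀ = 2 * a) (t : (Φ.res W₀).HasTS a ↔ True) (W : Submodule F (ι → F)) :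
    (finrank F W = 2 * a ∧ IsNondegenerateOn (QuadraticMap.polar Φ.Q) W ∧ IsPlusTypeOn Φ.Q W) ↔ Φ.Cl W₀ W := by
  rw [cl_even n₀ e t, As.ndOn, As.plus_iff, iff_true]

theorem cl_minus (n₀ : (Φ.res W₀).Nondeg) (e : finrank F W₀ = 2 * a) (t : (Φ.res W₀).HasTS a ↔ False) (W : Submodule F (ι → F)) :
    (finrank F W = 2 * a ∧ IsNondegenerateOn (QuadraticMap.polar Φ.Q) W ∧ ¬ IsPlusTypeOn Φ.Q W) ↔ Φ.Cl W₀ W := by
  rw [cl_even n₀ e t, As.ndOn, As.plus_iff, iff_false]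

theorem cl_iso (n₀ : (Φ.res W₀).Nondeg) (e : finrank F W₀ = m) (W : Submodule F (ι → F)) :
    (finrank F W = m ∧ IsNondegenerateOn (QuadraticMap.polar Φ.Q) W ∧ AreIsometricFor Φ.Q W W₀) ↔ Φ.Cl W₀ W :=
  ⟨fun ⟨_, _, f, h⟩ => Cl.symm ⟨f, isIso_orth h⟩, fun h => ⟨h.finrank.trans e, As.ndOn.2 (h.nd n₀), let ⟨f, i⟩ := h.symm; ⟨f, i.2⟩⟩⟩

theorem el_om {P : Submodule F (ι → F) → Prop} : (∀ x, x ∈ omegaGL Φ.Q → (∃ z : F, (x ^ r).1 = z • 1) → (∀ z : F, x.1 ≠ z • 1) →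
    ∃ W, P W ∧ W.map (toLin' x.1) ≤ W) ↔ El Φ.Om r P := el_gl fun _ => As.mem_omega

theorem el_ord [hr : Fact r.Prime] (n : Φ.Nondeg) (o : Odd (Fintype.card ι)) {P : Submodule F (ι → F) → Prop} (h₀ : P W₀) :
    (∀ x, x ∈ omegaGL Φ.Q → orderOf x = r → ∃ W, P W ∧ W.map (toLin' x.1) ≤ W) ↔ El Φ.Om r P := by
  haveI : Nonempty ι := Fintype.card_pos_iff.1 o.pos
  rw [el_iff n (fun _ => rfl) Om_le_isom h₀]
  refine ⟨fun H g a b => ?_, fun H x a b => (H _ (As.mem_omega.1 a) (.inl (by rw [← map_pow, ← b, pow_orderOf_eq_one, map_one]))).imp fun _ h => ⟨h.1, map_le_iff.2 h.2⟩⟩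
  obtain ⟨x, rfl⟩ := glEquiv.surjective g
  by_cases k : x = 1
  · exact ⟨W₀, h₀, by simp [k]⟩
  refine (H x (As.mem_omega.2 a) (orderOf_eq_prime (b.elim (fun b => glEquiv.injective (by simpa using b)) fun b => ?_) k)).imp fun _ h => ⟨h.1, map_le_iff.1 h.2⟩
  have e : (x ^ r).1 = -1 := matrix_ext_mulVec fun v => by simpa [neg_mulVec, ← map_pow] using b v
  have := As.omega_det (pow_mem (As.mem_omega.2 a) r)
  rw [e, det_neg, o.neg_one_pow, det_one, mul_one] at this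
  exact (n.orth_two_ne (by simpa using o) (by linear_combination -this)).elim
end mat

variable {Φ : Form (.orth F) V} {Ψ : Form (.orth F) U} {W₀ : Submodule F V} {β β' : F}
variable (Φ β) in
/-- An odd-dimensional space of shape `H^k ⊥ ⟨β⟩`. -/
def PB : Prop := ∃ T, Φ.TS T ∧ 2 * finrank F T + 1 = finrank F V ∧ ∀ w ∈ Φ.perp T, ∃ a, Φ.Q w = a * a * β

omit [Fintype F] in
theorem IsIso.pb {e} (i : Φ.IsIso Ψ e) (h : Φ.PB β) : Ψ.PB β := by
  obtain ⟨T, a, b, c⟩ := h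
  refine ⟨T.map e.toLinearMap, a.map_iso i, by rw [LinearEquiv.finrank_map_eq, b, e.finrank_eq], fun w hw => ?_⟩
  rw [← e.apply_symm_apply w, i.2]
  exact c _ fun x hx => by rw [← i.1, e.apply_symm_apply]; exact hw _ ⟨x, hx, rfl⟩

omit [Fintype F] in
theorem PB.uniq (n : Φ.Nondeg) (h : Φ.PB 1) (h' : Φ.PB β) : IsSquare β := by
  obtain ⟨T, a, b, c⟩ := h
  obtain ⟨T', a', b', c'⟩ := h'
  obtain ⟨f⟩ := FiniteDimensional.nonempty_linearEquiv_of_finrank_eq (R := F) (M := T) (M' := T') (by omega)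
  obtain ⟨g, g1, g2⟩ := n.witt' T (T'.subtype ∘ₗ f) (by simpa using f.injective) (fun u v => (a'.2 _ (f u).2 _ (f v).2).trans (a.2 _ u.2 _ v.2).symm)
    fun u => (a'.1 _ (f u).2).trans (a.1 _ u.2).symm
  obtain ⟨w, w1, w2⟩ : ∃ w ∈ Φ.perp T, Φ.Q w ≠ 0 := by
    by_contra! k
    have := (orth_ts.2 k).two_mul_le n
    have := n.finrank_perp T
    omega
  obtain ⟨x, hx⟩ := c w w1
  obtain ⟨y, hy⟩ := c' (g w) fun v hv => by
    obtain ⟨u, hu⟩ := f.surjective ⟨v, hv⟩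
    rw [show v = g u by simp [g2, hu], g1.1]; exact w1 _ u.2
  rw [g1.2] at hy
  have : y ≠ 0 := by rintro rfl; simp [w2] at hy
  exact ⟨x / y, by field_simp; linear_combination hx - hy⟩

variable (h2 : (2 : F) ≠ 0) (n : Φ.Nondeg)
include h2 n
omit [Fintype F] in
theorem Nondeg.pb (hg : g ∈ Φ.isom) (j : JE (nl g) μ) (s : μ.sum = finrank F V) (l : ∀ a ∈ μ, a ≤ 2) (c : μ.count 1 = 1)
    (f : ∀ w, g w = w → ∃ a, Φ.Q w = a * a * β) : Φ.PB β := by
  have a := j.finrank_inf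
  have b := n.perp_ker_pow hg 1
  have d : LinearMap.range (nl g) ≤ LinearMap.ker (nl g) := LinearMap.range_le_ker_iff.2 (by rw [← (j.pow_eq_zero s).2 l, sq]; rfl)
  rw [pow_one] at b
  rw [inf_eq_left.2 d] at a
  have := (nl g).finrank_range_add_finrank_ker
  refine ⟨LinearMap.range (nl g), orth_ts.2 fun x hx => (mul_eq_zero.1 ((orth_self _ x).symm.trans (b.ge hx x (d hx)))).resolve_left h2, by omega,
    fun w hw => f w (sub_eq_zero.1 ?_)⟩
  rwa [← b, n.perp_perp] at hw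

theorem Nondeg.exists_fixQ (b0 : β ≠ 0) (e : μ.sum + 1 = finrank F V) (h : ∀ j, Even j → Even (μ.count j)) {a} (ha : a ∈ μ) (o : Odd a) (c : μ.count 1 = 0) :
    ∃ g ∈ Φ.isom, JE (nl g) (1 ::ₘ μ) ∧ ∀ w, g w = w → ∃ a, Φ.Q w = a * a * β := by
  have := Multiset.single_le_sum (fun _ _ => Nat.zero_le _) a ha
  have := o.pos
  obtain ⟨u, rfl⟩ := n.orth_universal (by omega) β
  have nu : (Φ.res (F ∙ u)).Nondeg := res_line_nondeg (by rw [orth_self]; exact mul_ne_zero h2 b0)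
  have u1 := finrank_span_singleton (K := F) (show u ≠ 0 by rintro rfl; simp at b0)
  have := n.finrank_perp (F ∙ u)
  have np := n.perp_nondeg nu
  obtain ⟨t, t1, t2⟩ := exists_orth_je h2 np (by omega) h ha o
  have cp := n.isCompl_perp nu
  refine ⟨sumAut cp (1, t), (sumAut_mem_iff _ _ le_rfl _).2 ⟨one_mem _, t1⟩, ?_, fun w hw => ?_⟩
  · refine ((JE.reg (f := nl (1 : (F ∙ u) ≃ₗ[F] _)) u1 (by rw [pow_one]; exact sub_self _) (by rw [← u1]; exact Submodule.finrank_le _)).prod t2).congr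
      (Submodule.prodEquivOfIsCompl _ _ cp) fun x => by simp [sumAut_apply]
  obtain ⟨⟨x, y⟩, rfl⟩ := (Submodule.prodEquivOfIsCompl _ _ cp).surjective w
  have k := t2.finrank_inf
  have b := np.perp_ker_pow t1 1
  have y1 : y ∈ LinearMap.ker (nl t) := sub_eq_zero.2 (Subtype.ext (by simpa [sumAut_apply] using hw))
  have y2 := (inf_eq_right.1 (Submodule.eq_of_le_of_finrank_eq inf_le_right (c ▸ k :))) y1
  rw [pow_one] at b
  have y3 : Φ.Q y = 0 := (mul_eq_zero.1 ((orth_self _ y).symm.trans (b.ge y2 y y1))).resolve_left h2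
  obtain ⟨a, ha⟩ := Submodule.mem_span_singleton.1 x.2
  exact ⟨a, by rw [Submodule.coe_prodEquivOfIsCompl', Φ.Q_add_of_perp (Φ.B_zero_symm (y.2 _ x.2)), y3, ← ha, orth_smul, add_zero]⟩

omit n in
theorem OGood.el_pb [Nontrivial V] (n : Φ.OGood) (n₀ : (Φ.res W₀).Nondeg) (p : ℕ) [hp : Fact p.Prime] [CharP F p] (H : El Φ.Om p (Φ.Cl W₀)) (b0 : β ≠ 0) {k : ℕ}
    (e : finrank F V = 4 * k + 4) (o : Odd (finrank F W₀)) : if finrank F W₀ % 4 = 1 then (Φ.res W₀).PB β else (Φ.res (Φ.perp W₀)).PB β := by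
  have p3 := three_le p h2
  have o' := hp.out.odd_of_ne_two (by omega)
  obtain ⟨g, g1, j, f⟩ := n.nd.exists_fixQ h2 (μ := 3 ::ₘ .replicate (2 * k) 2) (a := 3) b0 (by simp; omega)
    (fun j h => by rw [Multiset.count_cons_of_ne (by rintro rfl; exact absurd h (by decide)), Multiset.count_replicate]; split_ifs <;> simp) (by simp) (by decide)
    (by simp [Multiset.count_replicate])
  have s : (1 ::ₘ 3 ::ₘ Multiset.replicate (2 * k) 2).sum = finrank F V := by simp; omega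
  have l : ∀ a ∈ 1 ::ₘ 3 ::ₘ Multiset.replicate (2 * k) 2, 0 < a ∧ a ≤ 3 := fun a h => by simp [Multiset.mem_replicate] at h; omega
  obtain ⟨W, w1, w2⟩ := (el_odd n.nd (fun _ => rfl) Om_le_isom Cl.refl o' fun g a b => n.mem_of_odd a o' b).1 H g g1 (j.pow_char p s fun a h => (l a h).2.trans p3)
  have w3 := isom_perp_mem g1 w2
  obtain ⟨ν, ν', h, a1, a2, a3, a4⟩ := j.split₂ (fun a h => (l a h).1) s (n.nd.isCompl_perp (w1.nd n₀)) (fun x hx => sub_mem (w2 x hx) hx)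
    fun x hx => sub_mem (w3 _ hx) hx
  have key : ∀ (X : Submodule F V) (i : ∀ v ∈ X, g v ∈ X) (ν ν' : Multiset ℕ), (Φ.res X).Nondeg → ν.sum = finrank F X → JE (nl (resAut g X i)) ν →
      1 ::ₘ 3 ::ₘ Multiset.replicate (2 * k) 2 = ν + ν' → finrank F X % 4 = 1 → (Φ.res X).PB β := fun X i ν ν' nX a b h m => by
    have c := fun a => congrArg (Multiset.count a) h
    have c1 := c 1
    have c3 := c 3
    have c2 := Nat.even_iff.1 (nX.even_count_orth h2 (Φ.resAut_mem g1 i) b even_two two_pos)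
    have := sum_count (μ := ν) fun a ha => l a (h ▸ Multiset.mem_add.2 (.inl ha))
    simp [Multiset.count_replicate] at c1 c3
    exact nX.pb h2 (Φ.resAut_mem g1 i) b a (fun a ha => by
      have := (l a (h ▸ Multiset.mem_add.2 (.inl ha))).2
      have : a ≠ 3 := by rintro rfl; have := Multiset.one_le_count_iff_mem.2 ha; omega
      omega) (by omega) fun w hw => f w (congrArg Subtype.val hw)
  have := n.nd.finrank_perp W
  have := w1.finrank
  have := Nat.odd_iff.1 o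
  split_ifs
  exacts [w1.choose_spec.symm.pb (key W w2 ν ν' (w1.nd n₀) a1 a3 h (by omega)),
    (w1.perp n.nd).choose_spec.symm.pb (key _ w3 ν' ν (n.nd.perp_nondeg (w1.nd n₀)) a2 a4 (h.trans (add_comm ..)) (by omega))]
end Form
end H5
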