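import Cfsg.Agent.H5.Li
import Cfsg.Agent.H5.Nd4
/-! Elements of prime projective order of `SL(V)` fixing flags; divisibility of the numbers of flags. -/
set_option autoImplicit false
namespace H5
open Module Pointwise Matrix

universe u
variable {F : Type u} [Field F] {V : Type u} [AddCommGroup V] [Module F V] [FiniteDimensional F V] {r a b : ℕ} {g : V ≃ₗ[F] V} {z : Fˣ} {U W T : Submodule F V}

/-- Every element of `G` of projective order `r` has property `P`. -/
def ElG (G : Subgroup (V ≃ₗ[F] V)) (r : ℕ) (P : (V ≃ₗ[F] V) → Prop) : Prop :=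
  ∀ g ∈ G, (∃ z : Fˣ, g ^ r = scal V z) → (∀ z : Fˣ, g ≠ scal V z) → P g

theorem elg_mat {ι : Type} [Fintype ι] [DecidableEq ι] [Nonempty ι] {H : Type*} [Group H] (φ : H →* GL ι F) {M : H → Prop} {G : Subgroup ((ι → F) ≃ₗ[F] (ι → F))}
    (h : ∀ g, g ∈ G ↔ ∃ x, M x ∧ glEquiv (φ x) = g) {P : ((ι → F) ≃ₗ[F] (ι → F)) → Prop} :
    (∀ x, M x → (∃ z : F, (φ (x ^ r)).1 = z • 1) → (∀ z : F, (φ x).1 ≠ z • 1) → P (glEquiv (φ x))) ↔ ElG G r P := by
  have k : ∀ x : GL ι F, (∃ z : F, x.1 = z • 1) ↔ ∃ z, glEquiv x = scal _ z := fun x =>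
    ⟨fun ⟨z, e⟩ => ⟨.mk0 z (by rintro rfl; simpa using x.ne_zero (e.trans (zero_smul ..))), LinearEquiv.ext fun v => by simp [e, smul_mulVec]⟩,
      fun ⟨z, e⟩ => ⟨z, matrix_ext_mulVec fun v => by simpa [smul_mulVec] using LinearEquiv.congr_fun e v⟩⟩
  simp only [ElG, h, ne_eq, ← not_exists, k, map_pow]
  exact ⟨fun H _ ⟨x, a, b⟩ => b ▸ H x a, fun H x a => H _ ⟨x, a, rfl⟩⟩

theorem elg_sl {n : ℕ} [NeZero n] {P : ((Fin n → F) ≃ₗ[F] (Fin n → F)) → Prop} : (∀ x : SpecialLinearGroup (Fin n) F, (∃ z : F, (x ^ r).1 = z • 1) → (∀ z : F, x.1 ≠ z • 1) →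
    P (glEquiv (SpecialLinearGroup.toGL x))) ↔ ElG LinearEquiv.det.ker r P := by
  rw [← elg_mat SpecialLinearGroup.toGL (M := fun _ => True) fun g => ⟨fun a => ⟨⟨(glEquiv.symm g).1, by
    rw [← det_glEquiv, MulEquiv.apply_symm_apply, ← LinearEquiv.coe_det, MonoidHom.mem_ker.1 a]; rfl⟩, trivial, glEquiv.eq_symm_apply.1 (Units.ext rfl)⟩,
    fun ⟨x, _, b⟩ => b ▸ (det_glEquiv' _).trans (Units.ext x.2)⟩]
  simp

theorem npow_iff {G : Type*} [CommGroup G] [Finite G] [IsCyclic G] [hr : Fact r.Prime] (h : r ∣ Nat.card G) (k : ℕ) :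
    (∃ z : G, (∀ b, b ^ r ≠ z) ∧ z ^ k = 1) ↔ r ^ padicValNat r (Nat.card G) ∣ k := by
  obtain ⟨γ, hγ⟩ := IsCyclic.exists_monoid_generator (α := G)
  have o : orderOf γ = Nat.card G := orderOf_eq_card_of_forall_mem_powers hγ
  refine ⟨fun ⟨z, a, b⟩ => ?_, fun ⟨t, ht⟩ => ?_⟩
  · obtain ⟨c, rfl⟩ := hγ z
    rw [← pow_mul, ← orderOf_dvd_iff_pow_eq_one, o] at b
    exact (Nat.Coprime.pow_left _ ((Nat.Prime.coprime_iff_not_dvd hr.out).2 fun ⟨d, e⟩ => a (γ ^ d) (by simp [e, ← pow_mul, mul_comm]))).dvd_of_dvd_mul_left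
      (pow_padicValNat_dvd.trans b)
  obtain ⟨s, hs⟩ := pow_padicValNat_dvd (p := r) (n := Nat.card G)
  refine ⟨γ ^ s, fun b e => ?_, by rw [← pow_mul, ← orderOf_dvd_iff_pow_eq_one, o, ht, ← mul_assoc, mul_comm s, ← hs]; exact dvd_mul_right ..⟩
  obtain ⟨c, rfl⟩ := hγ b
  rw [← pow_mul, pow_eq_pow_iff_modEq, o] at e
  refine pow_succ_padicValNat_not_dvd (p := r) (Nat.card_pos (α := G)).ne' ?_
  rw [pow_succ]
  exact (mul_dvd_mul_left _ (((e.of_dvd h).dvd_iff dvd_rfl).1 (dvd_mul_left ..))).trans hs.symm.dvd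

theorem pow_val_dvd [hr : Fact r.Prime] {k N : ℕ} (k0 : k ≠ 0) : r ^ N ∣ k ↔ ¬ padicValNat r (r * k) ≤ N := by
  rw [padicValNat_dvd_iff_le k0, padicValNat.mul hr.out.ne_zero k0, padicValNat_self]; omega

variable [Fintype F] [hr : Fact r.Prime]
theorem noz_iff {n : ℕ} (n0 : n ≠ 0) (h : r ∣ Fintype.card F - 1) : (∀ z : Fˣ, (∀ b : F, b ^ r ≠ z) → ∀ k, n = r * k → ((-1) ^ (r + 1) * z : F) ^ k ≠ 1) ↔
    padicValNat r n ≤ padicValNat r (Fintype.card F - 1) ∧ (r = 2 → Even n → Fintype.card F % 4 = 1) := by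
  classical
  by_cases d : ¬ r ∣ n
  · exact iff_of_true (fun _ _ k e => absurd ⟨k, e⟩ d) ⟨by simp [padicValNat.eq_zero_of_not_dvd d], by rintro rfl e; exact absurd e.two_dvd d⟩
  obtain ⟨k, rfl⟩ := not_not.1 d
  have u : ∀ z : Fˣ, (∀ b : F, b ^ r ≠ z) ↔ ∀ b : Fˣ, b ^ r ≠ z := fun z => ⟨fun h b e => h b (by simp [← e]), fun h b e =>
    h (.mk0 b (by rintro rfl; simp [hr.out.ne_zero] at e; exact z.ne_zero e.symm)) (Units.ext e)⟩
  have key := npow_iff (G := Fˣ) (r := r) (by rwa [Nat.card_units, Nat.card_eq_fintype_card]) k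
  rw [Nat.card_units, Nat.card_eq_fintype_card, pow_val_dvd (by simpa [hr.out.ne_zero] using n0)] at key
  simp only [u, mul_right_inj' hr.out.ne_zero, forall_eq']
  rw [← not_not (a := _ ≤ _), ← key]
  rcases hr.out.eq_two_or_odd' with rfl | o
  · have c := Nat.mod_two_eq_zero_or_one (Fintype.card F)
    have : 1 < Fintype.card F := Fintype.one_lt_card
    by_cases s : IsSquare (-1 : F)
    · have := FiniteField.isSquare_neg_one_iff.1 s
      obtain ⟨s, hs⟩ := s
      let t : Fˣ := .mk0 s (by rintro rfl; simp at hs)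
      have ht : t ^ 2 = -1 := Units.ext (by simp [t, sq, hs])
      refine ⟨fun H => ⟨fun ⟨z, a, b⟩ => H (-z) (fun c e => a (t * c) (by rw [mul_pow, ht, e]; simp)) (by simpa [pow_succ] using congrArg Units.val b), fun _ _ => by omega⟩,
        fun H z a b => H.1 ⟨-z, fun c e => a (t * c) (by rw [mul_pow, ht, e]; simp), Units.ext (by simpa [pow_succ] using b)⟩⟩
    · refine iff_of_false (fun H => H (-1) (fun c e => s ⟨c, by simpa [sq] using (congrArg Units.val e).symm⟩) (by simp [pow_succ])) fun H => ?_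
      have := H.2 rfl (by simp)
      exact s (FiniteField.isSquare_neg_one_iff.2 (by omega))
  · simp [o.add_one.neg_one_pow, (show r ≠ 2 by rintro rfl; exact absurd o (by decide)), ← Units.val_pow_eq_pow_val]

theorem elg_fl [Nontrivial V] (r0 : (r : F) ≠ 0) {i : ℕ} (hi : i = orderOf (Fintype.card F : ZMod r)) (ab : a ≤ b) (hb : b ≤ finrank F V) :
    ElG LinearEquiv.det.ker r (fun g : V ≃ₗ[F] V => Fl g a b) ↔ if i = 1 then (r ∣ a ∧ r ∣ b) ∨ padicValNat r (finrank F V) ≤ padicValNat r (Fintype.card F - 1) ∧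
      (r = 2 → Even (finrank F V) → Fintype.card F % 4 = 1) else finrank F V / i ≤ a / i + (b - a) / i + (finrank F V - b) / i := by
  have i0 := hi ▸ ord_pos hr.out r0
  have sc : ∀ (g : V ≃ₗ[F] V) c, g ^ r = scal V (c ^ r) → finrank F V / i ≤ a / i + (b - a) / i + (finrank F V - b) / i → Fl g a b := fun g c e h => by
    have := ((fl_iff r0 hi (g := g * scal V c⁻¹) (by rw [Commute.mul_pow (scal_comm _ _), e, ← map_pow, ← map_mul]; simp) ab hb).2
      ((Nat.div_le_div_right (Submodule.finrank_le _)).trans h)).scal c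
    rwa [mul_assoc, ← map_mul, inv_mul_cancel, map_one, mul_one] at this
  split_ifs with i1
  · rw [← noz_iff finrank_pos.ne' (by simpa using (dvd_pow_iff (q := Fintype.card F) (r := r) Fintype.card_pos 1).2 (by rw [← hi, i1]))]
    refine ⟨fun H => or_iff_not_imp_right.2 fun k => ?_, fun H g g1 ⟨z, g2⟩ _ => ?_⟩
    · push Not at k
      obtain ⟨z, np, k, h1, h2⟩ := k
      obtain ⟨g, e⟩ := exists_npow z h1
      obtain ⟨l, h3, h4⟩ := det_npow np e
      rw [h1, mul_right_inj' hr.out.ne_zero] at h3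
      exact (fl_npow np r0 e ab hb).1 (H g (Units.ext (by rw [h4, ← h3, h2]; rfl)) ⟨z, e⟩ fun c k => np c (by
        rw [k, ← map_pow] at e; simp [← scal_injective e]))
    by_cases np : ∀ b : F, b ^ r ≠ z
    · obtain ⟨l, h3, h4⟩ := det_npow np g2
      exact H.elim (fl_npow np r0 g2 ab hb).2 fun H => (H z np l h3 (by rw [← h4, MonoidHom.mem_ker.1 g1]; rfl)).elim
    push Not at np
    obtain ⟨c, hc⟩ := np
    exact sc g (.mk0 c (by rintro rfl; simp [hr.out.ne_zero] at hc; exact z.ne_zero hc.symm)) (g2.trans (congrArg _ (Units.ext hc.symm))) (by simp [i1]; omega)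
  have cop : (Nat.card Fˣ).Coprime r := by rw [Nat.card_units, Nat.card_eq_fintype_card]; exact (cop_of_ord Fintype.card_pos hr.out (hi ▸ i1)).symm
  refine ⟨fun H => ?_, fun H g _ ⟨z, g2⟩ _ => let ⟨c, hc⟩ := (powCoprime cop).surjective z; sc g c (g2.trans (congrArg _ hc.symm)) H⟩
  obtain ⟨g, g1, g2⟩ := exists_mv r0 hi (V := V) (Nat.mul_div_le _ i)
  have one : ∀ c : Fˣ, c ^ r = 1 → c = 1 := fun c h => (powCoprime cop).injective (h.trans (one_pow r).symm)
  by_cases k : g = 1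
  · rw [k, mv_one, finrank_bot] at g2; simp [(mul_eq_zero.1 g2.symm).resolve_left i0.ne']
  rw [← Nat.mul_div_cancel_left (finrank F V / i) i0, ← g2, ← fl_iff r0 hi g1 ab hb]
  exact H g (one _ (by rw [← map_pow, g1, map_one])) ⟨1, by simpa⟩ fun c e => k (by
    rw [e, one c (scal_injective (V := V) (by rw [map_pow, ← e, g1, map_one])), map_one])

theorem exists_mult_ord (r0 : (r : F) ≠ 0) {X : Type*} [MulAction (V ≃ₗ[F] V) X] (x : X) (P : X → Prop) (hP : ∀ y, P y ↔ ∃ g : V ≃ₗ[F] V, g • x = y)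
    (c : IsCompl U W) (h : ∀ t, sumAut c (t, 1) • x = x) (d : r ∣ Nat.card {y // P y}) :
    finrank F U / orderOf (Fintype.card F : ZMod r) < finrank F V / orderOf (Fintype.card F : ZMod r) := by
  have cd : ∀ (V : Type u) [AddCommGroup V] [Module F V] [FiniteDimensional F V], ∃ k, Nat.card (V ≃ₗ[F] V) =
      Fintype.card F ^ k * ∏ i ∈ Finset.Ioc 0 (finrank F V), (Fintype.card F ^ i - 1) := fun V _ _ _ => by
    rw [Nat.card_congr (autCongr (finBasis F V).equivFun).toEquiv, ← Nat.card_congr (glEquiv (F := F)).toEquiv]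
    exact card_GL' _
  haveI : Finite V := finite_of_fd (F := F)
  haveI := finite_aut (F := F) (V := V)
  have := card_eq_orbit_mul ⊤ x P (by simpa using hP)
  have dv := Subgroup.card_dvd_of_injective (((sumAut c).comp (.inl _ _)).codRestrict (⊤ ⊓ MulAction.stabilizer _ x) fun t => ⟨trivial, h t⟩)
    fun _ _ e => congrArg Prod.fst (sumAut_injective c (congrArg Subtype.val e))
  obtain ⟨a, ha⟩ := cd U
  obtain ⟨b, hb⟩ := cd V
  have q1 : 1 < Fintype.card F := Fintype.one_lt_card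
  have := this ▸ mul_dvd_mul d ((Dvd.intro_left _ ha.symm).trans dv)
  rw [Subgroup.card_top, hb, ← Finset.prod_Ioc_consecutive _ (Nat.zero_le _) U.finrank_le, mul_comm (∏ _ ∈ _, _), ← mul_assoc,
    Nat.mul_dvd_mul_iff_right (Finset.prod_pos fun i h => Nat.sub_pos_of_lt (Nat.one_lt_pow (by simp at h; omega) q1)), hr.out.dvd_mul] at this
  rcases this with h | h
  · exact absurd (ord_pos hr.out r0) (by simp [(ZMod.natCast_eq_zero_iff _ _).2 (hr.out.dvd_of_dvd_pow h)])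
  obtain ⟨j, hj, h⟩ := (Prime.dvd_finsetProd_iff hr.out.prime _).1 h
  exact (Nat.div_lt_div_of_lt_of_dvd ((dvd_pow_iff Fintype.card_pos j).1 h) (Finset.mem_Ioc.1 hj).1).trans_le (Nat.div_le_div_right (Finset.mem_Ioc.1 hj).2)

omit [Fintype F] hr in
theorem exists_flag_map {U' W' : Submodule F V} (h : U ≤ W) (h' : U' ≤ W') (e : finrank F U = finrank F U') (e' : finrank F W = finrank F W') :
    ∃ g : V ≃ₗ[F] V, g • U = U' ∧ g • W = W' := by
  obtain ⟨φ⟩ := FiniteDimensional.nonempty_linearEquiv_of_finrank_eq e'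
  obtain ⟨ψ⟩ := FiniteDimensional.nonempty_linearEquiv_of_finrank_eq (R := F) (M := (U.comap W.subtype).map φ.toLinearMap) (M' := U'.comap W'.subtype) (by
    rw [LinearEquiv.finrank_map_eq, (Submodule.comapSubtypeEquivOfLe h).finrank_eq, (Submodule.comapSubtypeEquivOfLe h').finrank_eq, e])
  obtain ⟨t, ht⟩ := Submodule.exists_linearEquiv_restrict_eq ψ
  obtain ⟨g, hg⟩ := Submodule.exists_linearEquiv_restrict_eq (φ.trans t)
  exact ⟨g, smul_eq_of_le (fun v hv => hg ⟨v, h hv⟩ ▸ (ht ⟨_, ⟨v, h hv⟩, hv, rfl⟩ ▸ (ψ _).2 :)) e, smul_eq_of_le (fun v hv => hg ⟨v, hv⟩ ▸ (t _).2) e'⟩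

omit hr in
theorem not_dvd_flags (p : ℕ) [hp : Fact p.Prime] [CharP F p] {n : ℕ} (ab : a ≤ b) (hb : b ≤ n) :
    ¬ p ∣ Nat.card {P : Submodule F (Fin n → F) × Submodule F (Fin n → F) // P.1 ≤ P.2 ∧ finrank F P.1 = a ∧ finrank F P.2 = b} := by
  classical
  obtain ⟨g, hg⟩ := exists_reg (F := F) n
  haveI : Finite (Submodule F (Fin n → F)) := .of_injective _ SetLike.coe_injective
  have := Fintype.ofFinite {P : Submodule F (Fin n → F) × Submodule F (Fin n → F) // P.1 ≤ P.2 ∧ finrank F P.1 = a ∧ finrank F P.2 = b}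
  let f : Function.End {P : Submodule F (Fin n → F) × Submodule F (Fin n → F) // P.1 ≤ P.2 ∧ finrank F P.1 = a ∧ finrank F P.2 = b} := fun P =>
    ⟨g • P.1, Submodule.map_mono P.2.1, (LinearEquiv.finrank_map_eq ..).trans P.2.2.1, (LinearEquiv.finrank_map_eq ..).trans P.2.2.2⟩
  have h : ∀ n W, ((f ^ n) W).1 = g ^ n • W.1 := fun n W => by
    induction n with
    | zero => exact (one_smul _ _).symm
    | succ n ih => rw [pow_succ', pow_succ', mul_smul, ← ih]; rfl
  have e : g ^ p ^ n = 1 := by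
    rcases subsingleton_or_nontrivial (Fin n → F) with _ | _
    · exact Subsingleton.elim _ _
    haveI := charP_of_injective_algebraMap (FaithfulSMul.algebraMap_injective F (End F (Fin n → F))) p
    have := (hg.pow_eq_zero (by simp) (k := p ^ n)).2 (by simpa using (Nat.lt_pow_self hp.out.one_lt).le)
    rw [sub_pow_char_pow_of_commute _ _ (.one_right _), one_pow, sub_eq_zero, coe_pow_end] at this
    exact LinearEquiv.toLinearMap_injective this
  have := Equiv.Perm.card_fixedPoints_modEq (f := f) (p := p) (n := n) (funext fun W => Subtype.ext (by rw [h, e, one_smul]; rfl))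
  have u : ∀ W : Submodule F (Fin n → F), g • W = W → W = LinearMap.ker (nl g ^ finrank F W) := fun W k => by
    have := JT.eq_ker (N := LinearMap.toMatrix' (nl g)) (jt_iff_je.2 (by rwa [toLin'_toMatrix'])) (by simp) (W := W)
      fun v hv => by rw [LinearMap.toMatrix'_mulVec]; exact sub_mem (smul_eq_iff.1 k v hv) hv
    rwa [← toLin'_apply', toLin'_pow, toLin'_toMatrix'] at this
  have iv : ∀ k, g • LinearMap.ker (nl g ^ k) = LinearMap.ker (nl g ^ k) := fun k => smul_eq_iff.2 fun v hv => by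
    have := LinearMap.congr_fun ((pow_succ (nl g) k).symm.trans (pow_succ' ..)) v
    simpa [LinearMap.mem_ker.1 hv] using this
  rw [(Fintype.card_eq_one_iff (α := Function.fixedPoints f)).2 ⟨⟨⟨(LinearMap.ker (nl g ^ a), LinearMap.ker (nl g ^ b)), (nl g).iterateKer.monotone ab,
    (hg a).trans (by simpa using ab.trans hb), (hg b).trans (by simpa)⟩, Subtype.ext (Prod.ext (iv a) (iv b))⟩, fun P => Subtype.ext (Subtype.ext (Prod.ext
    ((u _ (congrArg Prod.fst (congrArg Subtype.val P.2))).trans (by rw [P.1.2.2.1])) ((u _ (congrArg Prod.snd (congrArg Subtype.val P.2))).trans (by rw [P.1.2.2.2]))))⟩] at this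
  rw [Nat.card_eq_fintype_card, this.dvd_iff dvd_rfl, Nat.dvd_one]
  exact hp.out.ne_one

omit [Fintype F] hr in
theorem exists_compl_map {U' W' : Submodule F V} (h : IsCompl U W) (h' : IsCompl U' W') (e : finrank F U = finrank F U') : ∃ g : V ≃ₗ[F] V, g • U = U' ∧ g • W = W' := by
  have := Submodule.finrank_add_eq_of_isCompl h
  have := Submodule.finrank_add_eq_of_isCompl h'
  obtain ⟨φ⟩ := FiniteDimensional.nonempty_linearEquiv_of_finrank_eq e
  obtain ⟨ψ⟩ := FiniteDimensional.nonempty_linearEquiv_of_finrank_eq (R := F) (M := W) (M' := W') (by omega)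
  exact ⟨(U.prodEquivOfIsCompl W h).symm.trans ((φ.prodCongr ψ).trans (U'.prodEquivOfIsCompl W' h')),
    smul_eq_of_le (fun v hv => by simp [Submodule.projectionOnto_apply_of_mem_right h.symm hv]) e,
    smul_eq_of_le (fun v hv => by simp [Submodule.projectionOnto_apply_of_mem_right h hv]) (by omega)⟩

/-- `g` fixes a pair of complementary subspaces, the first of dimension `a`. -/
def Sp (g : V ≃ₗ[F] V) (a : ℕ) : Prop := ∃ U W : Submodule F V, IsCompl U W ∧ finrank F U = a ∧ (∀ v ∈ U, g v ∈ U) ∧ ∀ v ∈ W, g v ∈ W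

omit [Fintype F] hr in
theorem sp_iff (r0 : (r : F) ≠ 0) (e : g ^ r = scal V z) : Sp g a ↔ Fl g a a :=
  ⟨fun ⟨U, _, _, b, c, _⟩ => ⟨U, U, le_rfl, b, b, c, c⟩, fun ⟨U, _, _, b, _, c, _⟩ => let ⟨W, d, f⟩ := exists_inv_compl r0 e c; ⟨U, W, d, b, c, f⟩⟩

omit hr in
theorem exists_unip (p : ℕ) [hp : Fact p.Prime] [CharP F p] (e : g ^ p = scal V z) : ∃ (u : V ≃ₗ[F] V) (c : Fˣ), u ^ p = 1 ∧ g = u * scal V c := by
  obtain ⟨c, hc⟩ := (powCoprime (G := Fˣ) (n := p) (by rw [Nat.card_units, Nat.card_eq_fintype_card]; exact (cop_char p).symm)).surjective z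
  exact ⟨g * scal V c⁻¹, c, by rw [Commute.mul_pow (scal_comm _ _), e, ← map_pow, ← map_mul, ← hc]; simp, by simp [mul_assoc]⟩

omit hr in
theorem exists_je_aut (p : ℕ) [hp : Fact p.Prime] [CharP F p] {μ : Multiset ℕ} (l : ∀ a ∈ μ, a ≤ p) (s : μ.sum = finrank F V) :
    ∃ g : V ≃ₗ[F] V, JE (nl g) μ ∧ g ^ p = 1 ∧ LinearEquiv.det g = 1 ∧ ∀ c, g = scal V c → ∀ a ∈ μ, a ≤ 1 := by
  obtain ⟨A, hA⟩ := exists_of_jt (F := F) (ι := Fin (finrank F V)) μ (by simpa)
  obtain ⟨A, rfl⟩ : ∃ B : GL (Fin (finrank F V)) F, B.1 - 1 = A := by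
    obtain ⟨B, hB⟩ := IsNilpotent.isUnit_add_one ⟨_, (hA.isNilpotent (by simpa)).2 l⟩
    exact ⟨B, by simp [hB]⟩
  have j : JE (nl (autCongr (finBasis F V).equivFun.symm (glEquiv A))) μ := ((jt_gl _).1 hA).congr (finBasis F V).equivFun.symm fun x => by
    simp only [LinearMap.sub_apply, End.one_apply, map_sub, LinearEquiv.coe_coe, autCongr_apply, LinearEquiv.symm_apply_apply]
  have e := j.pow_char p s l
  generalize autCongr (finBasis F V).equivFun.symm (glEquiv A) = g at j e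
  have one : ∀ c : Fˣ, c ^ p = 1 → c = 1 := fun c h =>
    (powCoprime (n := p) (by rw [Nat.card_units, Nat.card_eq_fintype_card]; exact (cop_char p).symm)).injective (h.trans (one_pow p).symm)
  refine ⟨g, j, e, one _ (by rw [← map_pow, e, map_one]), fun c k => (j.pow_eq_zero s).1 ?_⟩
  rcases subsingleton_or_nontrivial V with _ | _
  · exact Subsingleton.elim _ _
  rw [k, one c (scal_injective (V := V) (by rw [map_pow, ← k, e, map_one])), map_one, pow_one]; exact sub_self _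

omit hr in
theorem elg_sp (p : ℕ) [hp : Fact p.Prime] [CharP F p] (h : a ≤ finrank F V) : ElG LinearEquiv.det.ker p (fun g : V ≃ₗ[F] V => Sp g a) ↔
    ∀ μ : Multiset ℕ, (∀ a ∈ μ, 0 < a ∧ a ≤ p) → μ.sum = finrank F V → ∃ ν ≤ μ, ν.sum = a := by
  refine ⟨fun H μ l s => ?_, fun H g _ ⟨z, e⟩ _ => ?_⟩
  · by_cases o : ∀ a ∈ μ, a ≤ 1
    · exact ⟨_, sub_ones (fun a h => (l a h).1) o (s ▸ h), by simp⟩
    obtain ⟨g, j, g1, g2, g3⟩ := exists_je_aut p (fun a h => (l a h).2) s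
    obtain ⟨U, W, c, rfl, u, w⟩ := H g g2 ⟨1, by simpa⟩ fun c k => o (g3 c k)
    exact (j.split (fun a h => (l a h).1) s c (fun x hx => sub_mem (u x hx) hx) fun x hx => sub_mem (w x hx) hx).imp fun _ h => ⟨h.1, h.2.1⟩
  obtain ⟨u, c, e', rfl⟩ := exists_unip p e
  obtain ⟨μ, l, s, j⟩ := exists_je_of_pow p e'
  obtain ⟨ν, a1, rfl⟩ := H μ l s
  obtain ⟨U, W, c1, c2, c3, c4⟩ := j.exists_split s a1
  exact ⟨U, W, c1, c2, fun v hv => by simpa using add_mem (c3 v hv) hv, fun v hv => by simpa using add_mem (c4 v hv) hv⟩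

theorem part_two {n m : ℕ} (hmn : 2 * m < n) : (∀ μ : Multiset ℕ, (∀ a ∈ μ, 0 < a ∧ a ≤ 2) → μ.sum = n → ∃ ν ≤ μ, ν.sum = m) ↔ Odd n ∨ Even m := by
  refine ⟨fun H => by_contra fun k => ?_, fun H μ l s => ?_⟩
  · obtain ⟨ν, a, b⟩ := H (.replicate (n / 2) 2) (fun a h => by simp [Multiset.eq_of_mem_replicate h]) (by simp [Nat.even_iff, Nat.odd_iff] at k ⊢; omega)
    obtain ⟨j, -, rfl⟩ := Multiset.le_replicate_iff.1 a
    simp [← b] at k
  have := sum_count (μ := μ) fun a h => by have := l a h; omega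
  have c3 : μ.count 3 = 0 := Multiset.count_eq_zero.2 fun h => by simpa using l 3 h
  refine ⟨.replicate (m - 2 * min (m / 2) (μ.count 2)) 1 + .replicate (min (m / 2) (μ.count 2)) 2, Multiset.le_iff_count.2 fun a => ?_, by simp; omega⟩
  rw [Nat.even_iff, Nat.odd_iff] at H
  simp only [Multiset.count_add, Multiset.count_replicate]
  split_ifs with h1 h2 h2 <;> first | omega | (subst_vars; omega)
end H5
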