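import Cfsg.Agent.H5.Ev2
/-! Invariant subspaces of a given isometry class: fixed point congruences, the criterion `Blk.all_fix_iff` for semisimple elements of odd prime order. -/
set_option autoImplicit false
namespace H5
open Module Pointwise

universe u
variable {F : Type u} [Field F] {κ : Kind F} {V : Type u} [AddCommGroup V] [Module F V] [FiniteDimensional F V] {U : Type*} [AddCommGroup U] [Module F U]
  {D : Type*} [AddCommGroup D] [Module F D] {r c : ℕ} {g : V ≃ₗ[F] V}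

theorem card_fix_mod [Finite F] [Fact r.Prime] {X : Type*} [MulAction (V ≃ₗ[F] V) X] [Finite X] (e : g ^ r = 1) (P : X → Prop) (hP : ∀ W, P W → P (g • W)) :
    Nat.card {W // P W} ≡ Nat.card {W // P W ∧ g • W = W} [MOD r] := by
  classical
  have := Fintype.ofFinite X
  let f : Function.End {W // P W} := fun W => ⟨g • W.1, hP _ W.2⟩
  have h : ∀ n W, ((f ^ n) W).1 = g ^ n • W.1 := fun n W => by
    induction n with
    | zero => exact (one_smul _ _).symm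
    | succ n ih => rw [pow_succ', pow_succ', mul_smul, ← ih]; rfl
  have := Equiv.Perm.card_fixedPoints_modEq (f := f) (p := r) (n := 1) (funext fun W => Subtype.ext (by rw [h, pow_one, e, one_smul]; rfl))
  rw [← Nat.card_eq_fintype_card, ← Nat.card_eq_fintype_card] at this
  exact Nat.card_congr (α := Function.fixedPoints f) (β := {W // P W ∧ g • W = W}) ⟨fun W => ⟨W.1.1, W.1.2, congrArg Subtype.val W.2⟩, fun W => ⟨⟨W.1, W.2.1⟩, Subtype.ext W.2.2⟩,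
    fun _ => rfl, fun _ => rfl⟩ ▸ this

theorem smul_eq_iff {W : Submodule F V} : g • W = W ↔ ∀ v ∈ W, g v ∈ W := mem_stabSub_iff_map.symm.trans mem_stabSub'

theorem finrank_mv_compl {W W' : Submodule F V} (h : IsCompl W W') (a : W ≃ₗ[F] W) (b : W' ≃ₗ[F] W') :
    finrank F (mv (sumAut h (a, b))) = finrank F (mv a) + finrank F (mv b) := by
  have : mv (sumAut h (a, b)) = LinearMap.range ((Submodule.prodEquivOfIsCompl W W' h : W × W' →ₗ[F] V) ∘ₗ (mv a).subtype.prodMap (mv b).subtype) := by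
    rw [LinearMap.range_comp, LinearMap.range_prodMap, Submodule.range_subtype, Submodule.range_subtype,
      ← LinearMap.range_prodMap, ← LinearMap.range_comp, mv, ← LinearMap.range_comp_of_range_eq_top _ (Submodule.prodEquivOfIsCompl W W' h).range]
    congr 1; ext <;> simp
  rw [this, LinearMap.finrank_range_of_inj (by
    rw [LinearMap.coe_comp]; exact (LinearEquiv.injective _).comp (Subtype.val_injective.prodMap Subtype.val_injective)), finrank_prod]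

theorem sumAut_pow {W W' : Submodule F V} (h : IsCompl W W') {a : W ≃ₗ[F] W} {b : W' ≃ₗ[F] W'} {n : ℕ} (ha : a ^ n = 1) (hb : b ^ n = 1) :
    sumAut h (a, b) ^ n = 1 := by rw [← map_pow, Prod.pow_mk, ha, hb]; exact map_one _

theorem mv_one : mv (1 : V ≃ₗ[F] V) = ⊥ := LinearMap.range_eq_bot.2 (sub_self _)
theorem mv_eq_bot : mv g = ⊥ ↔ g = 1 := ⟨fun h => LinearEquiv.toLinearMap_injective (sub_eq_zero.1 (LinearMap.range_eq_bot.1 h)), fun h => h ▸ mv_one⟩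
theorem finrank_mv_fpf (f : ∀ x, g x = x → x = 0) : finrank F (mv g) = finrank F V := by
  rw [← finrank_mv_add g, show fixSp g = ⊥ from eq_bot_iff.2 f]; simp

namespace Form
variable {Φ : Form κ V} {Ψ : Form κ U} {Θ : Form κ D} {W W₀ : Submodule F V}

/-- Isometric embedding. -/
abbrev Em (Φ : Form κ V) (Ψ : Form κ U) : Prop := Φ.Sub 1 Ψ 1
omit [FiniteDimensional F V] in
theorem Sub.em {h} (s : Φ.Sub g Ψ h) : Φ.Em Ψ := s.imp fun _ s => ⟨s.1, s.2.1, fun _ => rfl⟩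
omit [FiniteDimensional F V] in
theorem IsIso.em {e} (i : Ψ.IsIso Φ e) : Φ.Em Ψ := ⟨e, i.1, i.2, fun _ => rfl⟩
omit [FiniteDimensional F V] in
theorem em_res (W : Submodule F V) : Φ.Em (Φ.res W) := ⟨W.subtype, fun _ _ => rfl, fun _ => rfl, fun _ => rfl⟩
omit [FiniteDimensional F V] in
theorem em_of_le (h : W ≤ W₀) : (Φ.res W₀).Em (Φ.res W) := ⟨Submodule.inclusion h, fun _ _ => rfl, fun _ => rfl, fun _ => rfl⟩

theorem Nondeg.prod_iso (n : Φ.Nondeg) (h : (Φ.res W).Nondeg) : ((Φ.res W).prod (Φ.res (Φ.perp W))).IsIso Φ (Submodule.prodEquivOfIsCompl _ _ (n.isCompl_perp h)) :=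
  ⟨fun x y => by simp [prod_B, y.2.2 _ x.1.2, x.2.2 _ y.1.2, Φ.B_zero_symm (y.2.2 _ x.1.2)], fun x => Φ.Q_add_of_perp (Φ.B_zero_symm (x.2.2 _ x.1.2))⟩

theorem Nondeg.em_cancel (n : Φ.Nondeg) (h : (Φ.res W).Nondeg) {e} (i : (Φ.res W).IsIso Ψ e) (s : Φ.Em (Ψ.prod Θ)) : (Φ.res (Φ.perp W)).Em Θ := by
  obtain ⟨j, h1, h2, -⟩ := s
  obtain ⟨g, g1, g2⟩ := n.witt' W (j ∘ₗ .inl _ _ _ ∘ₗ e) ((injective_iff_map_eq_zero _).2 fun y hy => h y fun x => by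
    rw [← i.1, show Ψ.B (e x) (e y) = Φ.B (j (e x, 0)) (j (e y, 0)) by simp [h1, prod_B], show j (e y, 0) = 0 from hy, map_zero])
    (fun u v => by simp [h1, prod_B, i.1]) fun u => by simp [h2, prod_Q, i.2]
  exact ⟨(g.symm.toLinearMap ∘ₗ j ∘ₗ .inr _ _ _).codRestrict _ fun d w hw => by simp [← isom_B_symm' g1, g2 ⟨w, hw⟩, h1, prod_B], fun x y =>
    ((inv_mem g1).1 _ _).trans (by simp [h1, prod_B]), fun x => ((inv_mem g1).2 _).trans (by simp [h2, prod_Q]), fun _ => rfl⟩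

variable (Φ) in
/-- `W` is isometric to `W₀`. -/
def Cl (W₀ W : Submodule F V) : Prop := ∃ e, (Φ.res W₀).IsIso (Φ.res W) e

theorem Cl.refl : Φ.Cl W W := ⟨.refl _ _, fun _ _ => rfl, fun _ => rfl⟩
theorem Cl.map (h : Φ.Cl W₀ W) (hg : g ∈ Φ.isom) : Φ.Cl W₀ (g • W) :=
  let ⟨e, h⟩ := h; ⟨e.trans (g.submoduleMap W), fun x y => (hg.1 _ _).trans (h.1 x y), fun x => (hg.2 _).trans (h.2 x)⟩
theorem Cl.finrank (h : Φ.Cl W₀ W) : finrank F W = finrank F W₀ := h.choose.finrank_eq.symm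
theorem Cl.nd (h : Φ.Cl W₀ W) (n : (Φ.res W₀).Nondeg) : (Φ.res W).Nondeg := h.choose_spec.nondeg n
theorem Cl.perp (h : Φ.Cl W₀ W) (n : Φ.Nondeg) : Φ.Cl (Φ.perp W₀) (Φ.perp W) :=
  exists_cancel n h.choose_spec ⟨.refl _ _, fun _ _ => rfl, fun _ => rfl⟩

theorem Nondeg.exists_move (n : Φ.Nondeg) {Y W W' : Submodule F V} (hY : (Φ.res Y).Nondeg) (h : W ≤ Φ.perp Y) (h' : W' ≤ Φ.perp Y) (c : Φ.Cl W W') :
    ∃ g ∈ Φ.isom ⊓ fixSub Y, g • W = W' := by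
  obtain ⟨e, c⟩ := c
  obtain ⟨i, hi⟩ : ∃ i : W.comap (Φ.perp Y).subtype ≃ₗ[F] W, ∀ u, (i u : V) = u := ⟨Submodule.comapSubtypeEquivOfLe h, fun _ => rfl⟩
  obtain ⟨g, g1, g2⟩ := (n.perp_nondeg hY).witt' (W.comap (Φ.perp Y).subtype) (Submodule.inclusion h' ∘ₗ (i.trans e).toLinearMap)
    (by rw [LinearMap.coe_comp]; exact (Submodule.inclusion_injective h').comp (i.trans e).injective)
    (fun u v => by simpa [hi] using c.1 (i u) (i v)) fun u => by simpa [hi] using c.2 (i u)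
  have k : W.map (n.extend hY g : V →ₗ[F] V) ≤ W' := by
    rintro _ ⟨v, hv, rfl⟩
    rw [LinearEquiv.coe_coe, n.extend_right hY g ⟨v, h hv⟩, g2 ⟨⟨v, h hv⟩, hv⟩]
    exact (e (i ⟨⟨v, h hv⟩, hv⟩)).2
  have a : n.extend hY g ∈ Φ.isom ⊓ fixSub Y := Subgroup.mem_inf.2 ⟨(n.extend_mem_iff hY g).2 g1, mem_fixSub.2 fun v => n.extend_left hY g⟩
  generalize n.extend hY g = t at a k
  exact ⟨t, a, Submodule.eq_of_le_of_finrank_eq k ((LinearEquiv.finrank_map_eq _ W).trans e.finrank_eq)⟩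

theorem Nondeg.exists_not_le [Finite F] [hr : Fact r.Prime] (n : Φ.Nondeg) (r0 : (r : F) ≠ 0) (h : r ∣ Nat.card {W // Φ.Cl W₀ W})
    (H : ∀ g ∈ Φ.isom, g ^ r = 1 → ∃ W, Φ.Cl W₀ W ∧ ∀ v ∈ W, g v ∈ W) :
    ∃ g ∈ Φ.isom, g ^ r = 1 ∧ ∃ W, Φ.Cl W₀ W ∧ (∀ v ∈ W, g v ∈ W) ∧ ¬ W ≤ fixSp g := by
  haveI : Finite V := finite_of_fd (F := F)
  haveI := finite_aut (F := F) (V := V)
  obtain ⟨g, ⟨g1, g2⟩, m⟩ := Set.exists_min_image {g ∈ Φ.isom | g ^ r = 1} (fun g => finrank F (fixSp g)) (Set.toFinite _) ⟨1, one_mem _, one_pow _⟩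
  refine ⟨g, g1, g2, by_contra fun k => ?_⟩
  push Not at k
  obtain ⟨W, h1, h2⟩ := H g g1 g2
  have p := n.perp_range_sub g1
  have y := n.mv_nondeg g1 r0 g2
  have := card_eq_orbit_mul (Φ.isom ⊓ fixSub (mv g)) W (fun W => Φ.Cl W₀ W ∧ g • W = W) fun W' => ⟨fun ⟨a, b⟩ => n.exists_move y (p ▸ k W h1 h2)
    (p ▸ k W' a (smul_eq_iff.1 b)) (let ⟨_, c⟩ := h1; let ⟨_, d⟩ := a; ⟨_, c.symm.trans d⟩), by
      rintro ⟨t, t1, rfl⟩
      refine ⟨h1.map t1.1, smul_eq_iff.2 ?_⟩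
      rintro _ ⟨v, hv, rfl⟩
      have : t v ∈ fixSp g := p ▸ isom_perp_mem t1.1 (fun u hu => (t1.2 u hu).symm ▸ hu) v (p ▸ k W h1 h2 hv)
      exact ⟨v, hv, this.symm⟩⟩
  obtain ⟨⟨t, t1, t2⟩, ht⟩ := exists_prime_orderOf_dvd_card' r (this ▸ (((card_fix_mod g2 _ fun W h => Cl.map h g1).dvd_iff dvd_rfl).1 h).mul_right _)
  have t3 : ∀ v ∈ fixSp g, t v ∈ fixSp g := p ▸ isom_perp_mem t1 fun u hu => (t2 u hu).symm ▸ hu
  have cm : Commute g t := n.ext_of_compl y (fun u hu => by simp [t2 u hu, t2 _ (mv_inv g u hu)]) fun u hu => by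
    have := p ▸ hu; simp [mem_fixSp.1 this, mem_fixSp.1 (t3 u this)]
  have tr : t ^ r = 1 := congrArg Subtype.val (ht ▸ pow_orderOf_eq_one (⟨t, t1, t2⟩ : ↥(Φ.isom ⊓ fixSub (mv g))))
  have le : fixSp (g * t) ≤ fixSp g ⊓ fixSp t := fun v hv => by
    obtain ⟨a, b, rfl⟩ := exists_add_of_isCompl (n.isCompl_perp y) v
    have b2 : b.1 ∈ fixSp g := p.le b.2
    have hb := t3 _ b2
    have e : g a - a = b - t b := by
      have : g (t (a + b)) = a + b := hv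
      rw [map_add, t2 _ a.2, map_add, mem_fixSp.1 hb] at this
      rw [sub_eq_sub_iff_add_eq_add, this, add_comm]
    have : g a - a = 0 := (mv_inf_fixSp r0 g2).le ⟨⟨a, rfl⟩, e ▸ sub_mem b2 hb⟩
    have a0 : a.1 = 0 := (mv_inf_fixSp r0 g2).le ⟨a.2, sub_eq_zero.1 this⟩
    exact ⟨by simpa [a0] using b2, by simpa [a0, mem_fixSp] using (sub_eq_zero.1 (e.symm.trans this)).symm⟩
  have := Submodule.eq_of_le_of_finrank_le (le.trans inf_le_left) (m _ ⟨mul_mem g1 t1, by rw [cm.mul_pow, g2, tr, one_mul]⟩)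
  obtain rfl : t = 1 := n.ext_of_compl y t2 fun u hu => (le (this.ge (p ▸ hu))).2
  exact hr.out.one_lt.ne (orderOf_one.symm.trans ht)

variable (Φ r) in
/-- There is a fixed-point-free isometry of order `r`. -/
def Fpf : Prop := ∃ h ∈ Φ.isom, h ^ r = 1 ∧ ∀ x, h x = x → x = 0
variable (Φ r c) in
/-- `Φ` has a nondegenerate subspace of dimension `c` with a fixed-point-free isometry of order `r`. -/
def HasB : Prop := ∃ X : Submodule F V, (Φ.res X).Nondeg ∧ finrank F X = c ∧ (Φ.res X).Fpf r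

variable {V' : Type u} [AddCommGroup V'] [Module F V'] [FiniteDimensional F V'] {Φ' : Form κ V'}
theorem Em.hasB' [Fintype F] [Fact r.Prime] (s : Φ.Em Φ') (n : Φ'.Nondeg) (f : Φ'.Fpf r) : Φ.HasB r (finrank F V') :=
  let ⟨W, _, e, i⟩ := s.exists_W n; let ⟨_, a, b, c⟩ := f; ⟨W, i.nondeg n, e.finrank_eq.symm, i.fpf a b c⟩
theorem Em.hasB [Fintype F] [Fact r.Prime] (s : Φ.Em Φ') (h : Φ'.HasB r c) : Φ.HasB r c := let ⟨X, a, b, f⟩ := h; b ▸ Em.hasB' (s.trans (em_res X)) a f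
theorem HasB.le (h : Φ.HasB r c) : c ≤ finrank F V := let ⟨X, _, b, _⟩ := h; b ▸ X.finrank_le
theorem hasB_zero : Φ.HasB r 0 := ⟨⊥, fun _ _ => Subsingleton.elim _ _, finrank_bot F V, 1, one_mem _, one_pow _, fun _ _ => Subsingleton.elim _ _⟩
theorem Fpf.prod (h : Φ.Fpf r) (k : Φ'.Fpf r) : (Φ.prod Φ').Fpf r := let ⟨a, a1, a2, a3⟩ := h; let ⟨b, b1, b2, b3⟩ := k
  ⟨_, prod_mem a1 b1, by rw [prodCongr_pow, a2, b2]; rfl, fun x hx => Prod.ext (a3 _ (congrArg Prod.fst hx)) (b3 _ (congrArg Prod.snd hx))⟩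
theorem Nondeg.hasB_mv (n : Φ.Nondeg) (r0 : (r : F) ≠ 0) (hg : g ∈ Φ.isom) (e : g ^ r = 1) : Φ.HasB r (finrank F (mv g)) :=
  ⟨_, n.mv_nondeg hg r0 e, rfl, _, Φ.resAut_mem hg (mv_inv g), resAut_one _ e, fun x hx => Subtype.ext ((mv_inf_fixSp r0 e).le ⟨x.2, congrArg Subtype.val hx⟩)⟩
theorem HasB.exists (n : Φ.Nondeg) (h : Φ.HasB r c) : ∃ g ∈ Φ.isom, g ^ r = 1 ∧ finrank F (mv g) = c := by
  obtain ⟨X, a, b, h, h1, h2, h3⟩ := h
  exact ⟨sumAut (n.isCompl_perp a) (h, 1), (Φ.sumAut_mem_iff _ le_rfl _).2 ⟨h1, one_mem _⟩, sumAut_pow _ h2 (one_pow _), by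
    rw [finrank_mv_compl, mv_one, finrank_mv_fpf h3, b]; simp⟩
end Form

variable (κ r) in
/-- Spaces with a fixed-point-free isometry of order `r` are determined by their dimension. -/
def Uniq : Prop := ∀ {V V' : Type u} [AddCommGroup V] [Module F V] [FiniteDimensional F V] [AddCommGroup V'] [Module F V'] [FiniteDimensional F V']
  {Φ : Form κ V} {Φ' : Form κ V'}, Φ.Nondeg → Φ'.Nondeg → Φ.Fpf r → Φ'.Fpf r → finrank F V = finrank F V' → ∃ e, Φ.IsIso Φ' e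

namespace Blk
open Form
variable [Fintype F] [hr : Fact r.Prime] (b : Blk κ r c) {Φ : Form κ V} {W₀ : Submodule F V}
include b

theorem dvd {k : ℕ} (h : Φ.HasB r k) : c ∣ k := let ⟨_, a, e, _, f1, f2, f3⟩ := h; e ▸ (b.sub_fpf a f1 f2 f3).1
theorem mono {k l : ℕ} (h : Φ.HasB r (c * k)) (e : l ≤ k) : Φ.HasB r (c * l) := by
  obtain ⟨X, a, e', _, f1, f2, f3⟩ := h
  obtain ⟨U, _, _, _, Ψ, t, h1, h2, h3, h4, h5, h6⟩ := (b.sub_fpf a f1 f2 f3).2 l (e' ▸ Nat.mul_le_mul_left c e)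
  exact h5 ▸ Em.hasB' ((em_res X).trans h6.em) h1 ⟨t, h2, h3, h4⟩

theorem all_fix_iff (u : Uniq κ r) (n : Φ.Nondeg) (n₀ : (Φ.res W₀).Nondeg) : (∀ g ∈ Φ.isom, g ^ r = 1 → ∃ W, Φ.Cl W₀ W ∧ ∀ v ∈ W, g v ∈ W) ↔
    ∀ k, Φ.HasB r (c * k) → ∃ l l', k = l + l' ∧ (Φ.res W₀).HasB r (c * l) ∧ (Φ.res (Φ.perp W₀)).HasB r (c * l') := by
  refine ⟨fun H k h => ?_, fun H g g1 g2 => ?_⟩
  · obtain ⟨g, g1, g2, g3⟩ := h.exists n
    obtain ⟨W, h1, h2⟩ := H g g1 g2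
    have nW := h1.nd n₀
    have h3 := isom_perp_mem g1 h2
    have a := nW.hasB_mv b.ne (Φ.resAut_mem g1 h2) (resAut_one _ g2)
    have a' := (n.perp_nondeg nW).hasB_mv b.ne (Φ.resAut_mem g1 h3) (resAut_one _ g2)
    rw [eq_sumAut (n.isCompl_perp nW) g h2 h3, finrank_mv_compl] at g3
    obtain ⟨l, hl⟩ := b.dvd a
    obtain ⟨l', hl'⟩ := b.dvd a'
    rw [hl] at a g3; rw [hl'] at a' g3
    exact ⟨l, l', Nat.eq_of_mul_eq_mul_left b.pos (by rw [← g3, mul_add]), h1.choose_spec.symm.em.hasB a, (h1.perp n).choose_spec.symm.em.hasB a'⟩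
  obtain ⟨k, hk, h⟩ := b.dim n g1 g2
  have e : finrank F (mv g) = c * k := by have := finrank_mv_add g; omega
  obtain ⟨X, x1, x2, x3⟩ : ∃ X : Submodule F V, (Φ.res X).Nondeg ∧ (Φ.res X).Fpf r ∧ X = mv g :=
    ⟨_, n.mv_nondeg g1 b.ne g2, ⟨_, Φ.resAut_mem g1 (mv_inv g), resAut_one _ g2,
      fun x hx => Subtype.ext ((mv_inf_fixSp b.ne g2).le ⟨x.2, congrArg Subtype.val hx⟩)⟩, rfl⟩
  obtain ⟨l, l', rfl, ⟨Y, y1, y2, y3⟩, ⟨Z, z1, z2, z3⟩⟩ := H k ⟨X, x1, x3 ▸ e, x2⟩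
  obtain ⟨U, _, _, _, Ψ, t, h1, h2, h3, h4, h5, h6⟩ := h l (by omega)
  obtain ⟨_, i⟩ := u x1 (y1.prod z1) x2 (y3.prod z3) (by rw [x3, e]; simp [y2, z2, mul_add])
  obtain ⟨f, i'⟩ := u y1 h1 y3 ⟨t, h2, h3, h4⟩ (y2.trans h5.symm)
  obtain ⟨W, w1, _, w2⟩ := h6 (n₀.perp_nondeg y1) ((show fixSp g = Φ.perp X from x3 ▸ (n.perp_range_sub g1).symm) ▸ n.em_cancel x1 i ((n.prod_iso n₀).em.trans
    (((n₀.prod_iso y1).em.prod (em_res Z)).em.trans ⟨((LinearMap.fst _ _ _ ∘ₗ .fst _ _ _).prod (.snd _ _ _)).prod (.snd _ _ _ ∘ₗ .fst _ _ _),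
      fun x y => by simp [prod_B]; ring, fun x => by simp [prod_Q]; ring, fun _ => rfl⟩)))
  exact ⟨W, ⟨_, ((n₀.prod_iso y1).symm.trans (e' := f.prodCongr (.refl _ _)) ⟨fun x y => by simp [prod_B, i'.1], fun x => by simp [prod_Q, i'.2]⟩).trans w2⟩, w1⟩

theorem hasB_of_dvd (n : Φ.Nondeg) (n₀ : (Φ.res W₀).Nondeg) (h : r ∣ Nat.card {W // Φ.Cl W₀ W})
    (H : ∀ g ∈ Φ.isom, g ^ r = 1 → ∃ W, Φ.Cl W₀ W ∧ ∀ v ∈ W, g v ∈ W) : (Φ.res W₀).HasB r (c * 1) := by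
  obtain ⟨g, g1, g2, W, h1, h2, h3⟩ := n.exists_not_le b.ne h H
  have a := (h1.nd n₀).hasB_mv b.ne (Φ.resAut_mem g1 h2) (resAut_one _ g2)
  obtain ⟨l, hl⟩ := b.dvd a
  refine h1.choose_spec.symm.em.hasB (b.mono (hl ▸ a) (Nat.one_le_iff_ne_zero.2 ?_))
  rintro rfl
  exact h3 fun v hv => congrArg Subtype.val (LinearEquiv.congr_fun (mv_eq_bot.1 (Submodule.finrank_eq_zero.1 hl)) ⟨v, hv⟩)
end Blk
end H5
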