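import Cfsg.Agent.H5.Nd
/-! Embeddings of nondegenerate spaces, blocks of semisimple elements in symplectic and orthogonal spaces, chains of invariant planes, the predicate `El`. -/
set_option autoImplicit false
namespace H5
open Module Pointwise Matrix

universe u
variable {F : Type u} [Field F] {κ : Kind F} {V : Type u} [AddCommGroup V] [Module F V] [FiniteDimensional F V] {U : Type u} [AddCommGroup U] [Module F U]
  [FiniteDimensional F U] {r c : ℕ} {g : V ≃ₗ[F] V}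

theorem isSquare_pow_iff {a : F} (h : a ≠ 0) (k : ℕ) : IsSquare (a ^ k) ↔ Even k ∨ IsSquare a := by
  obtain ⟨j, rfl | rfl⟩ := k.even_or_odd'
  · simp [pow_mul', IsSquare.sq]
  · rw [pow_succ, pow_mul', sq, isSquare_sq_mul (pow_ne_zero _ h)]; simp

namespace Form
variable {Φ : Form κ V} {W W₀ P : Submodule F V}

theorem sup_nondeg (h : (Φ.res W).Nondeg) (k : (Φ.res P).Nondeg) (l : P ≤ Φ.perp W) :
    (Φ.res (W ⊔ P)).Nondeg ∧ finrank F ↥(W ⊔ P) = finrank F W + finrank F P := by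
  have d : W ⊓ P = ⊥ := eq_bot_iff.2 ((inf_le_inf_left _ l).trans ((res_nondeg_iff _ _).1 h).le)
  refine ⟨(res_nondeg_iff _ _).2 (eq_bot_iff.2 fun x ⟨h1, h2⟩ => ?_), by rw [← Submodule.finrank_sup_add_finrank_inf_eq, d]; simp⟩
  obtain ⟨a, ha, b, hb, rfl⟩ := Submodule.mem_sup.1 h1
  rw [perp_sup] at h2
  obtain rfl : a = 0 := ((res_nondeg_iff _ _).1 h).le ⟨ha, by simpa using sub_mem h2.1 (l hb)⟩
  exact ((res_nondeg_iff _ _).1 k).le ⟨by simpa, h2.2⟩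

theorem Nondeg.chain (n : Φ.Nondeg) (R : ℕ → Submodule F V → Prop) (h0 : R 0 ⊥) (step : ∀ k W, (Φ.res W).Nondeg → (∀ v ∈ W, g v ∈ W) → Φ.perp W ≠ ⊥ → R k W →
    ∃ P ≤ Φ.perp W, (Φ.res P).Nondeg ∧ (∀ v ∈ P, g v ∈ P) ∧ finrank F P = 2 ∧ R (k + 1) (W ⊔ P)) (k : ℕ) (hk : 2 * k < finrank F V + 2) :
    ∃ W, (Φ.res W).Nondeg ∧ (∀ v ∈ W, g v ∈ W) ∧ finrank F W = 2 * k ∧ R k W := by
  induction k with
  | zero => exact ⟨⊥, fun _ _ => Subsingleton.elim _ _, by simp, by simp, h0⟩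
  | succ k ih =>
    obtain ⟨W, h1, h2, h3, h4⟩ := ih (by omega)
    obtain ⟨P, p1, p2, p3, p4, p5⟩ := step k W h1 h2 (fun h => by have := n.finrank_perp W; rw [h, finrank_bot] at this; omega) h4
    refine ⟨_, (sup_nondeg h1 p2 p1).1, fun v hv => ?_, by rw [(sup_nondeg h1 p2 p1).2]; omega, p5⟩
    obtain ⟨a, ha, b, hb, rfl⟩ := Submodule.mem_sup.1 hv
    exact map_add g a b ▸ Submodule.add_mem_sup (h2 a ha) (p3 b hb)

theorem symp_plane {Φ : Form (.symp F) V} {v w : V} (h : Φ.B v w ≠ 0) : (Φ.res (.span F {v, w})).Nondeg ∧ finrank F (Submodule.span F {v, w}) = 2 := by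
  have k := exists_hyp_of_B_ne (Φ.symp_Q v) (Φ.symp_Q w) h
  rw [show Submodule.span F {v, w} = .span F {v, (Kind.symp F).σ (Φ.B v w)⁻¹ • w} by
    rw [Submodule.span_insert, Submodule.span_insert, Submodule.span_singleton_smul_eq (by simpa)]]
  exact ⟨k.nondeg, k.finrank_span⟩

theorem span_pair_inv {v w : V} (h : g v ∈ Submodule.span F {v, w}) (k : g w ∈ Submodule.span F {v, w}) : ∀ x ∈ Submodule.span F {v, w}, g x ∈ Submodule.span F {v, w} :=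
  fun x hx => by obtain ⟨a, b, rfl⟩ := Submodule.mem_span_pair.1 hx; simpa using add_mem (Submodule.smul_mem _ a h) (Submodule.smul_mem _ b k)

/-- An isometry of a symplectic space with square `±1` has an invariant pair spanning a hyperbolic plane. -/
theorem Nondeg.symp_pair {Φ : Form (.symp F) V} (h2 : (2 : F) ≠ 0) (hg : g ∈ Φ.isom) (n : (Φ.res W).Nondeg) (i : ∀ v ∈ W, g v ∈ W) (h : W ≠ ⊥) :
    ((∀ x, g (g x) = x) → ∃ v ∈ W, ∃ w ∈ W, Φ.B v w ≠ 0 ∧ ∃ e : F, g v = e • v ∧ g w = e • w) ∧ ((∀ x, g (g x) = -x) → ∃ v ∈ W, Φ.B v (g v) ≠ 0) := by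
  obtain ⟨x, hx, x0⟩ := Submodule.exists_mem_ne_zero_of_ne_bot h
  refine ⟨fun e => ?_, fun e => ?_⟩
  · obtain ⟨v, hv, v0, a, a1, a2⟩ : ∃ v ∈ W, v ≠ 0 ∧ ∃ a : F, a * a = 1 ∧ g v = a • v := by
      by_cases k : g x = x
      exacts [⟨x, hx, x0, 1, by simp, by simpa⟩, ⟨g x - x, sub_mem (i x hx) hx, sub_ne_zero.2 k, -1, by simp, by simp [e]⟩]
    obtain ⟨w, hw⟩ := n.exists_ne (y := ⟨v, hv⟩) (by simpa)
    have : Φ.B v (g w) = a * Φ.B v w := by rw [← hg.1, e, a2, B_smul_left]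
    refine ⟨v, hv, w + a • g w, add_mem w.2 (W.smul_mem _ (i _ w.2)), ?_, a, a2, by simp [e, smul_smul, a1, add_comm]⟩
    rw [map_add, B_smul_right, this, Kind.symp_σ, ← mul_assoc, a1, one_mul, ← two_mul]
    exact mul_ne_zero h2 fun h => hw (Φ.B_zero_symm h)
  by_contra! k
  refine x0 (g.map_eq_zero_iff.1 (congrArg Subtype.val (n ⟨_, i x hx⟩ fun y => ?_)))
  have := k _ (add_mem hx y.2)
  simp only [map_add, LinearMap.add_apply, k x hx, k y y.2] at this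
  rw [← hg.1 x, e, map_neg, symp_symm _ y.1 (g x)] at this
  exact (mul_eq_zero.1 (show 2 * Φ.B y (g x) = 0 by linear_combination this)).resolve_left h2

theorem Nondeg.symp_inv {Φ : Form (.symp F) V} (n : Φ.Nondeg) (h2 : (2 : F) ≠ 0) (hg : g ∈ Φ.isom) (e : (∀ x, g (g x) = x) ∨ ∀ x, g (g x) = -x) {k : ℕ}
    (hk : 2 * k ≤ finrank F V) : ∃ W, (Φ.res W).Nondeg ∧ (∀ v ∈ W, g v ∈ W) ∧ finrank F W = 2 * k := by
  refine (n.chain (g := g) (fun _ _ => True) trivial (fun k W h1 h3 h4 _ => ?_) k (by omega)).imp fun W h => ⟨h.1, h.2.1, h.2.2.1⟩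
  have i := isom_perp_mem hg h3
  have := Nondeg.symp_pair h2 hg (n.perp_nondeg h1) i h4
  rcases e with e | e
  · obtain ⟨v, hv, w, hw, a, b, c, d⟩ := this.1 e
    exact ⟨_, Submodule.span_le.2 (Set.pair_subset hv hw), (symp_plane a).1, span_pair_inv (c ▸ Submodule.smul_mem _ _ (Submodule.subset_span (by simp)))
      (d ▸ Submodule.smul_mem _ _ (Submodule.subset_span (by simp))), (symp_plane a).2, trivial⟩
  · obtain ⟨v, hv, a⟩ := this.2 e
    exact ⟨_, Submodule.span_le.2 (Set.pair_subset hv (i v hv)), (symp_plane a).1, span_pair_inv (Submodule.subset_span (by simp))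
      (e v ▸ neg_mem (Submodule.subset_span (by simp))), (symp_plane a).2, trivial⟩

theorem Nondeg.neg_sq [Fintype F] {Φ : Form (.orth F) V} (n : Φ.Nondeg) (h2 : (2 : F) ≠ 0) (hg : g ∈ Φ.isom) (e : ∀ x, g (g x) = -x) :
    ∃ d, finrank F V = 2 * d ∧ (Φ.HasTS d ↔ IsSquare ((-1 : F) ^ d)) ∧ (g ∈ Φ.Om ↔ IsSquare ((2 : F) ^ d)) ∧
      ∀ k ≤ d, ∃ W, (Φ.res W).Nondeg ∧ (∀ v ∈ W, g v ∈ W) ∧ finrank F W = 2 * k := by
  have key := n.chain (g := g) (fun k W => ∃ l : List V, (∀ v ∈ l, Φ.Q v ≠ 0) ∧ l.length = 2 * k ∧ (∃ s, (l.map Φ.Q).prod = s * s * 2 ^ k ∧ s ≠ 0) ∧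
      (∀ w ∈ W, (l.map Φ.r).prod w = g w) ∧ ∀ y ∈ Φ.perp W, (l.map Φ.r).prod y = y) ⟨[], by simp, rfl, ⟨1, by simp⟩, by simp, by simp⟩
    fun k W h1 h3 h4 ⟨l, l1, l2, ⟨s, l3, s0⟩, l4, l5⟩ => by
      haveI := Submodule.nontrivial_iff_ne_bot.2 h4
      obtain ⟨⟨v, hv⟩, v0⟩ := (n.perp_nondeg h1).orth_exists_Q_ne
      replace v0 : Φ.Q v ≠ 0 := v0
      have gv := isom_perp_mem hg h3 v hv
      have b : Φ.B (g v) v = 0 := (mul_eq_zero.1 (show 2 * Φ.B (g v) v = 0 by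
        have := hg.1 (g v) v; rw [e, map_neg, LinearMap.neg_apply, orth_symm] at this; linear_combination -this)).resolve_left h2
      have q : Φ.Q (v + g v) = 2 * Φ.Q v := by rw [orth_add, hg.2, orth_symm, b]; ring
      have s := sup_nondeg (res_line_nondeg (Φ := Φ) (v := v) (by simp [orth_self, h2, v0])) (res_line_nondeg (Φ := Φ) (v := g v) (by simp [orth_self, h2, v0, hg.2]))
        (Submodule.span_le.2 (by simpa [mem_perp_singleton]))
      rw [← Submodule.span_insert, finrank_span_singleton (v := v) (by rintro rfl; simp at v0), finrank_span_singleton (by simpa using by rintro rfl; simp at v0)] at s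
      have fx : ∀ y, Φ.B y v = 0 → Φ.B y (g v) = 0 → Φ.r (v + g v) (Φ.r v y) = y := fun y a b => by rw [r_of_perp a, r_of_perp (by simp [a, b])]
      refine ⟨_, Submodule.span_le.2 (Set.pair_subset hv gv), s.1, span_pair_inv (Submodule.subset_span (by simp))
        (e v ▸ neg_mem (Submodule.subset_span (by simp))), s.2, l ++ [v + g v, v], by simpa [or_imp, forall_and, q, h2, v0] using l1, by simp [l2]; ring,
        ⟨_, by simp [l3, q]; ring, mul_ne_zero s0 v0⟩, fun w hw => ?_, fun y hy => ?_⟩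
      · obtain ⟨a, ha, _, hb, rfl⟩ := Submodule.mem_sup.1 hw
        obtain ⟨x, y, rfl⟩ := Submodule.mem_span_pair.1 hb
        have e1 : Φ.r (v + g v) v = -g v := by rw [r_apply, q, map_add, orth_symm _ (g v), b, orth_self, add_zero, inv_mul_cancel₀ (by simp [h2, v0])]; simp
        have e2 : Φ.r (v + g v) (g v) = -v := by rw [r_apply, q, map_add, b, orth_self, zero_add, hg.2, inv_mul_cancel₀ (by simp [h2, v0])]; simp
        simp [fx a (Φ.B_zero_symm (hv a ha)) (Φ.B_zero_symm (gv a ha)), r_self v0, r_of_perp b, e1, e2, l4 a ha, l5 _ hv, l5 _ gv, e]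
      · rw [perp_sup, Submodule.mem_inf, mem_perp_pair] at hy
        simp [fx y hy.2.1 hy.2.2, l5 y hy.1]
  obtain ⟨W, -, -, h3, l, l1, l2, ⟨s, l3, s0⟩, l4, -⟩ := key ((finrank F V + 1) / 2) (by omega)
  have := W.finrank_le
  obtain rfl : W = ⊤ := Submodule.eq_top_of_finrank_eq (by omega)
  rw [finrank_top] at h3
  obtain rfl : (l.map Φ.r).prod = g := LinearEquiv.ext fun x => l4 x trivial
  refine ⟨_, h3, ?_, ?_, fun k hk => (key k (by omega)).imp fun W h => ⟨h.1, h.2.1, h.2.2.1⟩⟩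
  · rw [NegProd.hasTS_iff n h2 h3 ⟨l ++ l, by simpa using l1, by simpa using e, rfl⟩, List.map_append, List.prod_append, mul_comm,
      isSquare_sq_mul (by simp [l3, s0, h2])]
  · rw [(n.good h2).mem_Om hg, (n.ab_list l1).2, l2, l3, Prod.mk_eq_one, sgn_eq_one, isSquare_sq_mul s0]; simp

section em
variable [Finite F]
theorem Nondeg.symp_em {Φ : Form (.symp F) V} {Ψ : Form (.symp F) U} (n : Φ.Nondeg) (n' : Ψ.Nondeg) (h : finrank F U ≤ finrank F V) : Φ.Em Ψ := by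
  obtain ⟨a, ha, -⟩ := n.symp_hasTS
  obtain ⟨b, hb, -⟩ := n'.symp_hasTS
  exact (symp_iso (n'.prod (sympF_nondeg (a - b))) n (by simp; omega)).choose_spec.sub

theorem Nondeg.orth_compl {Φ : Form (.orth F) V} {Ψ : Form (.orth F) U} (n : Φ.Nondeg) (n' : Ψ.Nondeg) (h : finrank F U < finrank F V) :
    ∃ (D : Type u) (_ : AddCommGroup D) (_ : Module F D) (_ : FiniteDimensional F D) (Θ : Form (.orth F) D), Θ.Nondeg ∧ ∃ e, (Ψ.prod Θ).IsIso Φ e := by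
  have := Fintype.ofFinite F
  by_cases h2 : (2 : F) = 0
  · obtain ⟨a, ha⟩ := (Nat.not_odd_iff_even.1 fun o => n.orth_two_ne o h2).two_dvd
    obtain ⟨b, hb⟩ := (Nat.not_odd_iff_even.1 fun o => n'.orth_two_ne o h2).two_dvd
    obtain ⟨x, y, k⟩ := exists_aniso' F
    have n1 := plusF_nondeg (F := F) (a - b - 1 + 1)
    have n2 := minusF_nondeg (a - b - 1) (disc_ne_zero_of_aniso k)
    by_contra! l
    have s1 := mt (even_iso (n'.prod n1) n (m := a) (by simp; omega) ha) (not_exists.2 (l _ _ _ inferInstance _ n1))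
    have s2 := mt (even_iso (n'.prod n2) n (m := a) (by simp; omega) ha) (not_exists.2 (l _ _ _ inferInstance _ n2))
    obtain ⟨_, i⟩ := even_iso (n'.prod n1) (n'.prod n2) (m := a) (by simp; omega) (by simp; omega) (by tauto)
    exact minusF_not_hasTS _ k ((prod_cancel n' n1 i).choose_spec.hasTS (plusF_hasTS _))
  obtain ⟨D, _, _, _, Θ, Θ', n1, n2, d, k⟩ := (cls_orth h2).ex (finrank F V - finrank F U) (by simp)
  by_contra! l
  have s1 := mt ((cls_orth h2).iso (n'.prod n1) n (by simp; omega)) (not_exists.2 (l _ _ _ inferInstance _ n1))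
  have s2 := mt ((cls_orth h2).iso (n'.prod n2) n (by simp; omega)) (not_exists.2 (l _ _ _ inferInstance _ n2))
  obtain ⟨_, i⟩ := (cls_orth h2).iso (n'.prod n1) (n'.prod n2) rfl (by tauto)
  exact k trivial (by omega) (prod_cancel n' n1 i)

theorem Nondeg.orth_em {Φ : Form (.orth F) V} {Ψ : Form (.orth F) U} (n : Φ.Nondeg) (n' : Ψ.Nondeg) (h : finrank F U < finrank F V) : Φ.Em Ψ :=
  let ⟨_, _, _, _, _, _, _, i⟩ := n.orth_compl n' h; i.sub

theorem Nondeg.inv_fix {Φ : Form (.orth F) V} (n : Φ.Nondeg) (n₀ : (Φ.res W₀).Nondeg) (h2 : (2 : F) ≠ 0) (hg : g ∈ Φ.isom) (e : g ^ 2 = 1)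
    (m0 : 0 < finrank F W₀) (m1 : finrank F W₀ < finrank F V) (s : 2 ≤ finrank F (mv g)) : ∃ W, Φ.Cl W₀ W ∧ ∀ v ∈ W, g v ∈ W := by
  have a := finrank_mv_add g
  have nf := n.fix_nondeg hg (n := 2) (by simpa) e
  have nm := n.mv_nondeg hg (n := 2) (by simpa) e
  obtain ⟨X, _, _, _, Ψ, x1, x2, x3⟩ : ∃ (X : Type u) (_ : AddCommGroup X) (_ : Module F X) (_ : FiniteDimensional F X) (Ψ : Form (.orth F) X), Ψ.Nondeg ∧
      finrank F X = min (finrank F W₀ - 1) (finrank F (fixSp g)) ∧ (Φ.res (fixSp g)).Em Ψ := by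
    by_cases k : finrank F W₀ - 1 < finrank F (fixSp g)
    · obtain ⟨X, _, _, _, Ψ, x1, x2⟩ := exists_orth h2 (finrank F W₀ - 1)
      exact ⟨X, _, _, ‹_›, Ψ, x1, by omega, nf.orth_em x1 (by omega)⟩
    · exact ⟨_, _, _, inferInstance, _, nf, by omega, .id, fun _ _ => rfl, fun _ => rfl, fun _ => rfl⟩
  obtain ⟨D, _, _, _, Θ, d1, f, d2⟩ := n₀.orth_compl x1 (by omega)
  have := f.finrank_eq
  rw [finrank_prod] at this
  obtain ⟨W, w1, _, w2⟩ := ((sub_pair (n.perp_range_sub hg).ge (fun x hx => (hx : g x = x).symm ▸ hx) (mv_inv g)).trans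
    ((x3.one (c := 1) (h := 1) (fun x => Subtype.ext ((x.2 : g x = x).trans (one_smul _ _).symm)) (by simp)).prod
    ((nm.orth_em d1 (by omega)).one (c := -1) (h := .neg F) (fun ⟨_, x, rfl⟩ => Subtype.ext (by
      have : g (g x) = x := LinearEquiv.congr_fun (sq g ▸ e) x
      simp [this])) (by simp)))).exists_W (x1.prod d1)
  exact ⟨W, ⟨_, d2.symm.trans w2⟩, w1⟩
end em
end Form

/-- The largest number of blocks of dimension `c` in a space of dimension `n`; `P` says that the type is right. -/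
def am (c n : ℕ) (P : Prop) [Decidable P] : ℕ := if n % c = 0 ∧ ¬ P then n / c - 1 else n / c

theorem le_am {n k : ℕ} (c0 : 0 < c) (n0 : 0 < n) (P : ℕ → Prop) [DecidablePred P] : (c * k < n ∨ c * k = n ∧ P k) ↔ k ≤ am c n (P (n / c)) := by
  have a := Nat.div_add_mod n c
  have b := Nat.mod_lt n c0
  have l : k < n / c → c * k + c ≤ c * (n / c) := fun h => Nat.mul_le_mul_left c h
  have l' : n / c < k → c * (n / c) + c ≤ c * k := fun h => Nat.mul_le_mul_left c h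
  have z : n / c = 0 → c * (n / c) = 0 := fun h => by simp [h]
  unfold am
  generalize n / c = N at *
  rcases lt_trichotomy k N with h | rfl | h
  · split_ifs <;> simp only [show c * k < n by omega, true_or, true_iff] <;> omega
  · by_cases p : P k <;> simp [p] <;> (try split_ifs) <;> omega
  · split_ifs <;> simp only [show ¬ c * k < n by omega, show ¬ c * k = n by omega, false_or, false_and, false_iff] <;> omega

theorem split_iff {a b e : ℕ} : (∀ k, k ≤ a → ∃ l l', k = l + l' ∧ l ≤ b ∧ l' ≤ e) ↔ a ≤ b + e :=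
  ⟨fun h => let ⟨_, _, _, _, _⟩ := h a le_rfl; by omega, fun h k hk => ⟨min k b, k - min k b, by omega, by omega, by omega⟩⟩

theorem div_split (c0 : 0 < c) {n m : ℕ} (h : m ≤ n) : n % c < c ∧ m % c < c ∧ (n - m) % c < c ∧ (c ≤ m ↔ 1 ≤ m / c) ∧
    (n / c = m / c + (n - m) / c ∧ n % c = m % c + (n - m) % c ∨ n / c = m / c + (n - m) / c + 1 ∧ n % c + c = m % c + (n - m) % c) := by
  obtain ⟨s, rfl⟩ := Nat.exists_eq_add_of_le h
  refine ⟨Nat.mod_lt _ c0, Nat.mod_lt _ c0, Nat.mod_lt _ c0, by rw [Nat.one_le_div_iff c0], ?_⟩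
  rw [Nat.add_sub_cancel_left, Nat.add_div c0]
  split_ifs with h
  exacts [.inr ⟨rfl, Nat.add_mod_add_of_le_add_mod h⟩, .inl ⟨rfl, Nat.add_mod_of_add_mod_lt (not_le.1 h)⟩]

section ss
open Form
variable [Fintype F] [hr : Fact r.Prime]
theorem uniq_symp : Uniq (.symp F) r := fun n n' _ _ e => symp_iso n n' e

theorem Blk.hasB_iff (b : Blk κ r c) {Φ : Form κ V} (h : ∀ {U : Type u} [AddCommGroup U] [Module F U] [FiniteDimensional F U] {Ψ : Form κ U}, Ψ.Nondeg →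
    finrank F U ≤ finrank F V → Φ.Em Ψ) (k : ℕ) : Φ.HasB r (c * k) ↔ k ≤ finrank F V / c := by
  rw [Nat.le_div_iff_mul_le b.pos, mul_comm k]
  refine ⟨HasB.le, fun e => ?_⟩
  obtain ⟨U, _, _, _, Ψ, t, h1, h2, h3, h4, h5⟩ := b.exists_fpf k
  exact h5 ▸ (h h1 (h5 ▸ e)).hasB' h1 ⟨t, h2, h3, h4⟩

theorem Blk.el_iff (b : Blk κ r c) (u : Uniq κ r) {Φ : Form κ V} {W₀ : Submodule F V} (n : Φ.Nondeg) (n₀ : (Φ.res W₀).Nondeg) (h : r ∣ Nat.card {W // Φ.Cl W₀ W})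
    {a a₀ a₁ : ℕ} (e : ∀ k, Φ.HasB r (c * k) ↔ k ≤ a) (e₀ : ∀ k, (Φ.res W₀).HasB r (c * k) ↔ k ≤ a₀) (e₁ : ∀ k, (Φ.res (Φ.perp W₀)).HasB r (c * k) ↔ k ≤ a₁) :
    (∀ g ∈ Φ.isom, g ^ r = 1 → ∃ W, Φ.Cl W₀ W ∧ ∀ v ∈ W, g v ∈ W) ↔ a ≤ a₀ + a₁ ∧ 1 ≤ a₀ := by
  have := b.all_fix_iff u n n₀
  simp only [e, e₀, e₁, split_iff] at this
  exact ⟨fun H => ⟨this.1 H, (e₀ 1).1 (b.hasB_of_dvd n n₀ h H)⟩, fun H => this.2 H.1⟩

variable (r2 : r ≠ 2) (p : ℕ) [Fact p.Prime] [CharP F p] (rp : r ≠ p) {i : ℕ} (hi : i = orderOf (Fintype.card F : ZMod r)) (hc : c = if Even i then i else 2 * i)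
include r2 rp
theorem uniq_orth : Uniq (.orth F) r := fun {V V' _ _ _ _ _ _ Φ Φ'} n n' ⟨a, a1, a2, a3⟩ ⟨b, b1, b2, b3⟩ e => by
  obtain ⟨-, k, j, h, -⟩ := blk_so (F := F) r2 p rp rfl rfl
  obtain ⟨l, hl⟩ := (k.sub_fpf n a1 a2 a3).1
  rw [h, mul_assoc] at hl
  exact even_iso n n' hl (e ▸ hl) ((type_of_fpf n r2 (card_ne_zero p rp) hl a1 a2 a3).trans (type_of_fpf n' r2 (card_ne_zero p rp) (e ▸ hl) b1 b2 b3).symm)

include hi hc
open Classical in
theorem hasB_orth {Φ : Form (.orth F) V} (n : Φ.Nondeg) (n0 : 0 < finrank F V) (k : ℕ) :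
    Φ.HasB r (c * k) ↔ k ≤ am c (finrank F V) (Φ.HasTS (finrank F V / 2) ↔ Odd i ∨ Even (finrank F V / c)) := by
  obtain ⟨-, b, j, h, t, -⟩ := blk_so (F := F) r2 p rp hi hc
  rw [← le_am b.pos n0 fun k => Φ.HasTS (finrank F V / 2) ↔ Odd i ∨ Even k]
  obtain ⟨U, _, _, _, Ψ, g, h1, h2, h3, h4, h5⟩ := b.exists_fpf k
  have e : c * k = 2 * (j * k) := by rw [h, mul_assoc]
  have ty := (type_of_fpf h1 r2 (card_ne_zero p rp) (h5.trans e) h2 h3 h4).trans (t k)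
  refine ⟨fun H => H.le.lt_or_eq.imp_right fun l => ⟨l, ?_⟩, fun H => h5 ▸ Em.hasB' ?_ h1 ⟨g, h2, h3, h4⟩⟩
  · obtain ⟨X, x1, x2, x3⟩ := H
    obtain rfl := Submodule.eq_top_of_finrank_eq (x2.trans l)
    obtain ⟨_, i⟩ := uniq_orth r2 p rp x1 h1 x3 ⟨g, h2, h3, h4⟩ (x2.trans h5.symm)
    rw [← ty, ← i.hasTS_iff, ← l, e, Nat.mul_div_cancel_left _ two_pos]
    exact IsIso.hasTS_iff (e := Submodule.topEquiv.symm) ⟨fun _ _ => rfl, fun _ => rfl⟩
  · refine H.elim (fun l => n.orth_em h1 (h5 ▸ l)) fun ⟨l, H⟩ => (even_iso h1 n (h5.trans e) (l ▸ e) ?_).choose_spec.em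
    rw [ty, ← H, ← l, e, Nat.mul_div_cancel_left _ two_pos]
end ss

/-- Every element of `G` of projective order `r` fixes a subspace with property `P`. -/
def El (G : Subgroup (V ≃ₗ[F] V)) (r : ℕ) (P : Submodule F V → Prop) : Prop :=
  ∀ g ∈ G, (∃ z : F, ∀ v, (g ^ r) v = z • v) → (∀ z : F, ¬ ∀ v, g v = z • v) → ∃ W, P W ∧ ∀ v ∈ W, g v ∈ W

theorem el_mat {ι : Type} [Fintype ι] [DecidableEq ι] {H : Type*} [Group H] (φ : H →* GL ι F) {M : H → Prop} {G : Subgroup ((ι → F) ≃ₗ[F] (ι → F))}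
    (h : ∀ g, g ∈ G ↔ ∃ x, M x ∧ glEquiv (φ x) = g) {P : Submodule F (ι → F) → Prop} :
    (∀ x, M x → (∃ z : F, (φ (x ^ r)).1 = z • 1) → (∀ z : F, (φ x).1 ≠ z • 1) → ∃ W, P W ∧ W.map (toLin' (φ x).1) ≤ W) ↔ El G r P := by
  have k : ∀ (x : GL ι F) (z : F), x.1 = z • 1 ↔ ∀ v, glEquiv x v = z • v := fun x z =>
    ⟨fun e v => by simp [e, smul_mulVec], fun e => matrix_ext_mulVec fun v => by simpa [smul_mulVec] using e v⟩
  simp only [El, h, k, map_le_iff, map_pow, ne_eq]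
  exact ⟨fun H _ ⟨x, a, b⟩ => b ▸ H x a, fun H x a => H _ ⟨x, a, rfl⟩⟩

theorem el_gl {ι : Type} [Fintype ι] [DecidableEq ι] {M : Subgroup (GL ι F)} {G : Subgroup ((ι → F) ≃ₗ[F] (ι → F))}
    (h : ∀ g, g ∈ M ↔ glEquiv g ∈ G) {P : Submodule F (ι → F) → Prop} :
    (∀ x, x ∈ M → (∃ z : F, (x ^ r).1 = z • 1) → (∀ z : F, x.1 ≠ z • 1) → ∃ W, P W ∧ W.map (toLin' x.1) ≤ W) ↔ El G r P :=
  el_mat (.id _) fun g => ⟨fun a => ⟨glEquiv.symm g, (h _).2 (by simpa), by simp⟩, fun ⟨x, a, b⟩ => b ▸ (h x).1 a⟩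

theorem el_sp {d : ℕ} {P : Submodule F (Fin d ⊕ Fin d → F) → Prop} : (∀ x : symplecticGroup (Fin d) F, (∃ z : F, (x ^ r).1 = z • 1) → (∀ z : F, x.1 ≠ z • 1) →
    ∃ W, P W ∧ W.map (toLin' x.1) ≤ W) ↔ El (sympF F d).isom r P := by
  rw [← el_mat (spToGL d) (M := fun _ => True) fun g => ⟨fun a => ⟨(spEquiv d).symm ⟨g, a⟩, trivial, LinearEquiv.ext (spEquiv_symm_mulVec d _)⟩,
    fun ⟨x, _, b⟩ => b ▸ (mem_spGL_iff _ _).1 (spEquivSpGL d x).2⟩]
  simp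

section el
variable {Φ : Form κ V} (n : Φ.Nondeg) (hσ : ∀ a, κ.σ a = a) {G : Subgroup (V ≃ₗ[F] V)} (hG : G ≤ Φ.isom) {P : Submodule F V → Prop} {W₀ : Submodule F V} (h₀ : P W₀)
include n hσ hG h₀

omit hG h₀ in
theorem scal_sq [Nontrivial V] (hg : g ∈ Φ.isom) {z : F} (e : ∀ v, g v = z • v) : z = 1 ∨ z = -1 := by
  obtain ⟨y, hy⟩ := exists_ne (0 : V)
  obtain ⟨w, hw⟩ := n.exists_ne hy
  have := hg.1 w y
  rw [e, e, Form.B_smul_left, Form.B_smul_right, hσ, ← mul_assoc, mul_eq_right₀ hw] at this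
  exact mul_self_eq_one_iff.1 this

theorem el_iff [Nontrivial V] : El G r P ↔ ∀ g ∈ G, g ^ r = 1 ∨ (∀ v, (g ^ r) v = -v) → ∃ W, P W ∧ ∀ v ∈ W, g v ∈ W := by
  refine ⟨fun H g a b => ?_, fun H g a ⟨z, b⟩ _ => H g a ((scal_sq n hσ (pow_mem (hG a) r) b).imp (fun e => LinearEquiv.ext (by simpa [e] using b))
    fun e => by simpa [e] using b)⟩
  by_cases k : ∃ z : F, ∀ v, g v = z • v
  · exact ⟨W₀, h₀, fun v hv => k.choose_spec v ▸ W₀.smul_mem _ hv⟩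
  · exact H g a (b.elim (fun e => ⟨1, by simp [e]⟩) fun e => ⟨-1, by simpa⟩) (not_exists.1 k)

theorem el_odd [Nontrivial V] (o : Odd r) (h : ∀ g ∈ Φ.isom, g ^ r = 1 → g ∈ G) : El G r P ↔ ∀ g ∈ Φ.isom, g ^ r = 1 → ∃ W, P W ∧ ∀ v ∈ W, g v ∈ W := by
  rw [el_iff n hσ hG h₀]
  refine ⟨fun H g a b => H g (h g a b) (.inl b), fun H g a b => b.elim (H g (hG a)) fun e => ?_⟩
  refine (H (g * scal V (-1)) (mul_mem (hG a) ((Form.scal_mem_iff n).2 (by simp [hσ]))) ?_).imp fun W h => ⟨h.1, fun v hv => by simpa using h.2 v hv⟩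
  rw [Commute.mul_pow (scal_comm _ _), ← map_pow, o.neg_one_pow]
  exact LinearEquiv.ext fun v => by simp [e]

theorem el_two [Nontrivial V] (h2 : (2 : F) = 0) : El G 2 P ↔ ∀ g ∈ G, g * g = 1 → ∃ W, P W ∧ ∀ v ∈ W, g v ∈ W := by
  rw [el_iff n hσ hG h₀]
  refine forall₂_congr fun g _ => imp_congr_left ?_
  rw [sq, or_iff_left_iff_imp]
  exact fun e => LinearEquiv.ext fun v => (e v).trans (neg_eq_of_add_eq_zero_left (by rw [LinearEquiv.coe_one, id, ← two_smul F, h2, zero_smul]))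
end el
end H5
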