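import Cfsg.Agent.H5.Nd2
/-! The predicate `El` for nondegenerate subspaces of symplectic and orthogonal spaces: types of orthogonal sums, involutions, unipotent elements. -/
set_option autoImplicit false
namespace H5
open Module Pointwise Matrix

universe u
variable {F : Type u} [Field F] [Fintype F] {κ : Kind F} {V : Type u} [AddCommGroup V] [Module F V] [FiniteDimensional F V] {U : Type u} [AddCommGroup U]
  [Module F U] [FiniteDimensional F U] {r c : ℕ} {g : V ≃ₗ[F] V} {μ : Multiset ℕ}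

omit [Fintype F] in
theorem JE.split₂ [Finite F] {N : End F V} (h : JE N μ) (p : ∀ a ∈ μ, 0 < a) (e : μ.sum = finrank F V) {U W : Submodule F V} (c : IsCompl U W) (hU : ∀ x ∈ U, N x ∈ U)
    (hW : ∀ x ∈ W, N x ∈ W) : ∃ ν ν', μ = ν + ν' ∧ ν.sum = finrank F U ∧ ν'.sum = finrank F W ∧ JE (N.restrict hU) ν ∧ JE (N.restrict hW) ν' := by
  obtain ⟨ν, h1, h2, h3⟩ := exists_je (End.isNilpotent.restrict hU ⟨_, h.nil e⟩)
  obtain ⟨ν', k1, k2, k3⟩ := exists_je (End.isNilpotent.restrict hW ⟨_, h.nil e⟩)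
  have := (h3.prod k3).congr (U.prodEquivOfIsCompl W c) (g := N) fun x => by simp
  exact ⟨ν, ν', parts_inj p (by simp only [Multiset.mem_add]; rintro a (h | h); exacts [h1 a h, k1 a h]) fun i => (h i).symm.trans (this i), h2, k2, h3, k3⟩

omit [Fintype F] in
theorem JE.pow_char (p : ℕ) [hp : Fact p.Prime] [CharP F p] (h : JE (nl g) μ) (e : μ.sum = finrank F V) (l : ∀ a ∈ μ, a ≤ p) : g ^ p = 1 := by
  rcases subsingleton_or_nontrivial V with _ | _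
  · exact Subsingleton.elim _ _
  haveI := charP_of_injective_algebraMap (FaithfulSMul.algebraMap_injective F (End F V)) p
  have := (h.pow_eq_zero e).2 l
  rw [sub_pow_char_of_commute _ (.one_right _), one_pow, sub_eq_zero, coe_pow_end] at this
  exact LinearEquiv.toLinearMap_injective this

omit [Fintype F] in
theorem exists_je_of_pow [Finite F] (p : ℕ) [hp : Fact p.Prime] [CharP F p] (h : g ^ p = 1) : ∃ μ : Multiset ℕ, (∀ a ∈ μ, 0 < a ∧ a ≤ p) ∧ μ.sum = finrank F V ∧ JE (nl g) μ := by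
  have : nl g ^ p = 0 := by
    rcases subsingleton_or_nontrivial V with _ | _
    · exact Subsingleton.elim _ _
    haveI := charP_of_injective_algebraMap (FaithfulSMul.algebraMap_injective F (End F V)) p
    rw [sub_pow_char_of_commute _ (.one_right _), one_pow, sub_eq_zero, coe_pow_end, h]; rfl
  obtain ⟨μ, h1, h2, h3⟩ := exists_je ⟨_, this⟩
  exact ⟨μ, fun a ha => ⟨h1 a ha, (h3.pow_eq_zero h2).1 this a ha⟩, h2, h3⟩

theorem odd_of_two_ne (h2 : (2 : F) ≠ 0) : Fintype.card F % 2 = 1 := FiniteField.odd_card_of_char_ne_two fun e => h2 (by simpa [e] using ringChar.Nat.cast_ringChar (R := F))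
theorem even_of_two (h2 : (2 : F) = 0) : Fintype.card F % 2 = 0 := by_contra fun h => two_ne_zero_of_odd (Nat.odd_iff.2 (by omega)) h2
theorem two_iff (p : ℕ) [hp : Fact p.Prime] [CharP F p] : (2 : F) = 0 ↔ p = 2 :=
  ⟨fun h => (Nat.prime_dvd_prime_iff_eq hp.out Nat.prime_two).1 ((CharP.cast_eq_zero_iff F p 2).1 h), two_zero p⟩

theorem c_pos [hr : Fact r.Prime] (p : ℕ) [Fact p.Prime] [CharP F p] (rp : r ≠ p) {i : ℕ} (hi : i = orderOf (Fintype.card F : ZMod r))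
    (hc : c = if Even i then i else 2 * i) : 0 < c ∧ c % 2 = 0 := by
  have := hi ▸ ord_pos hr.out (cast_ne (F := F) p hr.out rp)
  simp only [Nat.even_iff] at hc; split_ifs at hc <;> omega

theorem div_key {n m : ℕ} (c0 : 0 < c) (h : n % c = m % c) : (n + m - 2 * (n % c)) / c = n / c + m / c :=
  Nat.div_eq_of_eq_mul_right c0 (by have := Nat.div_add_mod n c; have := Nat.div_add_mod m c; rw [mul_add]; omega)

theorem Blk.el_iff' [Fact r.Prime] (b : Blk κ r c) (u : Uniq κ r) {Φ : Form κ V} {W₀ : Submodule F V} (n : Φ.Nondeg) (n₀ : (Φ.res W₀).Nondeg) (h : r ∣ Nat.card {W // Φ.Cl W₀ W})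
    {a a₀ a₁ : ℕ} (e : ∀ k, Φ.HasB r (c * k) ↔ k ≤ a) (e₀ : ∀ k, (Φ.res W₀).HasB r (c * k) ↔ k ≤ a₀) (e₁ : ∀ k, (Φ.res (Φ.perp W₀)).HasB r (c * k) ↔ k ≤ a₁) :
    ((∀ g ∈ Φ.isom, g ^ r = 1 → ∃ W, Φ.Cl W₀ W ∧ ∀ v ∈ W, g v ∈ W) ↔ a ≤ a₀ + a₁) ∧ (a ≤ a₀ + a₁ → 1 ≤ a₀) := by
  have := b.all_fix_iff u n n₀
  simp only [e, e₀, e₁, split_iff] at this
  exact ⟨this, fun H => (e₀ 1).1 (b.hasB_of_dvd n n₀ h (this.2 H))⟩

omit [Fintype F] [FiniteDimensional F V] in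
theorem nd_iff {Φ : Form κ V} {W : Submodule F V} : (∀ u ∈ W, u ≠ 0 → ∃ v ∈ W, Φ.B u v ≠ 0) ↔ (Φ.res W).Nondeg :=
  ⟨fun h y hy => Subtype.ext (by_contra fun h0 => let ⟨x, hx, e⟩ := h y y.2 h0; e (Φ.B_zero_symm (hy ⟨x, hx⟩))), fun h w hw h0 =>
    let ⟨x, hx⟩ := h.exists_ne (y := ⟨w, hw⟩) (by simpa using h0); ⟨x, x.2, fun e => hx (Φ.B_zero_symm e)⟩⟩

namespace Form
section gen
variable {Φ : Form κ V} {Ψ : Form κ U} {W W₀ : Submodule F V} {a b : ℕ}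
omit [Fintype F]
theorem Em.hasTS (s : Φ.Em Ψ) (n : Ψ.Nondeg) (h : Ψ.HasTS a) : Φ.HasTS a := let ⟨_, _, _, i⟩ := s.exists_W n; (i.hasTS h).of_res

theorem HasTS.prod (h : Φ.HasTS a) (k : Ψ.HasTS b) : (Φ.prod Ψ).HasTS (a + b) := by
  obtain ⟨T, rfl, t⟩ := h
  obtain ⟨S, rfl, s⟩ := k
  refine ⟨LinearMap.range (T.subtype.prodMap S.subtype), by
    rw [LinearMap.finrank_range_of_inj (by exact Subtype.val_injective.prodMap Subtype.val_injective), finrank_prod], ?_, ?_⟩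
  · rintro _ ⟨x, rfl⟩; simp [prod_Q, t.1 _ x.1.2, s.1 _ x.2.2]
  · rintro _ ⟨x, rfl⟩ _ ⟨y, rfl⟩; simp [prod_B, t.2 _ x.1.2 _ y.1.2, s.2 _ x.2.2 _ y.2.2]

theorem prod_comm : (Φ.prod Ψ).IsIso (Ψ.prod Φ) (.prodComm ..) := ⟨fun x y => by simp [prod_B, add_comm], fun x => by simp [prod_Q, add_comm]⟩

theorem cl_of_conj {t : V ≃ₗ[F] V} (ht : t ∈ Φ.isom) (hg : g ∈ Φ.isom) (h : IsConj (⟨t, ht⟩ : Φ.isom) ⟨g, hg⟩) (i : ∀ v ∈ W₀, t v ∈ W₀) :
    ∃ W, Φ.Cl W₀ W ∧ ∀ v ∈ W, g v ∈ W := by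
  obtain ⟨s, hs⟩ := isConj_iff.1 h
  obtain rfl : s.1 * t * s.1⁻¹ = g := congrArg Subtype.val hs
  exact ⟨_, Cl.refl.map s.2, by rintro _ ⟨v, hv, rfl⟩; exact ⟨_, i v hv, by simp⟩⟩

theorem Cl.symm (h : Φ.Cl W₀ W) : Φ.Cl W W₀ := ⟨_, h.choose_spec.symm⟩

theorem _root_.H5.C2.el_iff [Finite F] (c : C2 κ) (n : Φ.Nondeg) (n₀ : (Φ.res W₀).Nondeg) {G : Subgroup (V ≃ₗ[F] V)} (hG : G ≤ Φ.isom)
    (hG' : ∀ t ∈ Φ.isom, Even (finrank F (mv t)) → t ∈ G) (na : ∀ X : Submodule F V, (Φ.res X).Nondeg → ∀ k, 2 * k < finrank F X →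
      ∃ t ∈ (Φ.res X).isom, t * t = 1 ∧ finrank F (mv t) = k + 1 ∧ ¬ (Φ.res X).Alt t) {w w₀ w₁ : ℕ} (e : ∀ k, Φ.HasTS k ↔ k ≤ w)
    (e₀ : ∀ k, (Φ.res W₀).HasTS k ↔ k ≤ w₀) (e₁ : ∀ k, (Φ.res (Φ.perp W₀)).HasTS k ↔ k ≤ w₁) :
    (∀ g ∈ G, g * g = 1 → ∃ W, Φ.Cl W₀ W ∧ ∀ v ∈ W, g v ∈ W) ↔ w / 2 ≤ w₀ / 2 + w₁ / 2 := by
  have n₁ := n.perp_nondeg n₀
  refine ⟨fun H => ?_, fun H t t1 t2 => ?_⟩
  · obtain ⟨T, h1, h2⟩ := (e (2 * (w / 2))).2 (by omega)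
    obtain ⟨t, t1, t2, t3, t4⟩ := c.exists_alt n h2 (by simp [h1])
    obtain ⟨W, w1, w2⟩ := H t (hG' t t1 (by rw [t3, h1]; simp)) t2
    have w3 := isom_perp_mem t1 w2
    have k : ∀ (X : Submodule F V) (i : ∀ v ∈ X, t v ∈ X), (Φ.res X).Nondeg → (Φ.res X).HasTS (finrank F (mv (resAut t X i))) ∧ Even (finrank F (mv (resAut t X i))) :=
      fun X i nX => (c.alt_iff_ts nX (Φ.resAut_mem t1 i) (sq (resAut t X i) ▸ resAut_one i (sq t ▸ t2)) fun x => t4 x).imp_left fun h => ⟨_, rfl, h⟩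
    have a := k W w2 (w1.nd n₀)
    have b := k _ w3 (n.perp_nondeg (w1.nd n₀))
    rw [← t3, eq_sumAut (n.isCompl_perp (w1.nd n₀)) t w2 w3, finrank_mv_compl] at h1
    have := (e₀ _).1 (w1.choose_spec.symm.hasTS a.1)
    have := (e₁ _).1 ((w1.perp n).choose_spec.symm.hasTS b.1)
    rw [Nat.even_iff] at a b; omega
  replace t1 := hG t1
  obtain ⟨a, a1, a2, b, b1, b2, h1, h2⟩ : ∃ a ∈ (Φ.res W₀).isom, a * a = 1 ∧ ∃ b ∈ (Φ.res (Φ.perp W₀)).isom, b * b = 1 ∧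
      finrank F (mv a) + finrank F (mv b) = finrank F (mv t) ∧ ((Φ.res W₀).Alt a ∧ (Φ.res _).Alt b ↔ Φ.Alt t) := by
    by_cases k : Φ.Alt t
    · obtain ⟨l1, l, l2⟩ := c.alt_iff_ts n t1 t2 k
      have := (e _).1 ⟨_, rfl, l1⟩
      obtain ⟨T, h1, h2⟩ := (e₀ (2 * min l (w₀ / 2))).2 (by omega)
      obtain ⟨S, h3, h4⟩ := (e₁ (2 * (l - min l (w₀ / 2)))).2 (by omega)
      obtain ⟨a, a1, a2, a3, a4⟩ := c.exists_alt n₀ h2 (by simp [h1])
      obtain ⟨b, b1, b2, b3, b4⟩ := c.exists_alt n₁ h4 (by simp [h3])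
      exact ⟨a, a1, a2, b, b1, b2, by rw [a3, b3]; omega, by simp [k, a4, b4]⟩
    have l : ∀ X : Submodule F V, (Φ.res X).Nondeg → ∀ k, 2 * k ≤ finrank F X + 1 →
        ∃ t ∈ (Φ.res X).isom, t * t = 1 ∧ finrank F (mv t) = k ∧ (k ≠ 0 → ¬ (Φ.res X).Alt t) := fun X nX k hk => by
      rcases k with _ | k
      · exact ⟨1, one_mem _, one_mul _, by simp [mv_one], by simp⟩
      · exact (na X nX k (by omega)).imp fun t h => ⟨h.1, h.2.1, h.2.2.1, fun _ => h.2.2.2⟩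
    have := c.two_mul_le n t1 t2
    have := n.finrank_perp W₀
    have : finrank F (mv t) ≠ 0 := fun h => k (by rw [mv_eq_bot.1 (Submodule.finrank_eq_zero.1 h)]; exact c.self)
    obtain ⟨a, a1, a2, a3, a4⟩ := l _ n₀ (min (finrank F (mv t)) (finrank F W₀ / 2)) (by omega)
    obtain ⟨b, b1, b2, b3, b4⟩ := l _ n₁ (finrank F (mv t) - min (finrank F (mv t)) (finrank F W₀ / 2)) (by omega)
    exact ⟨a, a1, a2, b, b1, b2, by omega, iff_of_false (fun h => by have := mt a4 (not_not.2 h.1); have := mt b4 (not_not.2 h.2); omega) k⟩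
  have s := (Φ.sumAut_mem_iff (n.isCompl_perp n₀) le_rfl (a, b)).2 ⟨a1, b1⟩
  refine cl_of_conj s t1 ((c.conj_iff n (by rw [← map_mul, Prod.mk_mul_mk, a2, b2]; exact map_one _) t2).2 ⟨(finrank_mv_compl _ a b).trans h1, .trans ?_ h2⟩)
    fun v hv => sumAut_left _ (a, b) ⟨v, hv⟩ ▸ Subtype.mem _
  refine ⟨fun h => ⟨fun x => by simpa using h x, fun x => by simpa using h x⟩, fun h x => ?_⟩
  obtain ⟨x, y, rfl⟩ := exists_add_of_isCompl (n.isCompl_perp n₀) x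
  simpa [sumAut_apply, y.2 _ (a x).2, Φ.B_zero_symm ((b y).2 _ x.2), show Φ.B x (a x) = 0 from h.1 x] using h.2 y

theorem Nondeg.hasTS_symp {Φ : Form (.symp F) V} (n : Φ.Nondeg) (k : ℕ) : Φ.HasTS k ↔ k ≤ finrank F V / 2 :=
  ⟨fun ⟨_, a, b⟩ => by have := b.two_mul_le n; omega, fun h => let ⟨_, a, b⟩ := n.symp_hasTS; b.mono (by omega)⟩
end gen

section orth
variable {Φ : Form (.orth F) V} {Ψ : Form (.orth F) U} {W W₀ : Submodule F V} {a b : ℕ}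

theorem type_mul (n : Φ.Nondeg) (n' : Ψ.Nondeg) (e : finrank F V = 2 * a) (e' : finrank F U = 2 * b) : (Φ.prod Ψ).HasTS (a + b) ↔ (Φ.HasTS a ↔ Ψ.HasTS b) := by
  have k : ∀ {V U : Type u} [AddCommGroup V] [Module F V] [FiniteDimensional F V] [AddCommGroup U] [Module F U] [FiniteDimensional F U] {Φ : Form (.orth F) V}
      {Ψ : Form (.orth F) U} {a b}, Φ.Nondeg → Ψ.Nondeg → finrank F V = 2 * a → finrank F U = 2 * b →
      ((Φ.prod Ψ).HasTS (a + b) ↔ (Φ.prod (plusF F b)).HasTS (a + b)) → Ψ.HasTS b := fun n n' e e' h =>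
    (prod_cancel n n' (even_iso (n.prod n') (n.prod (plusF_nondeg _)) (by simp [e, e', mul_add]) (by simp [e, mul_add, two_mul]) h).choose_spec).choose_spec.symm.hasTS
      (plusF_hasTS _)
  have l : ∀ {U : Type u} [AddCommGroup U] [Module F U] [FiniteDimensional F U] {Ψ : Form (.orth F) U}, Ψ.Nondeg → finrank F U = 2 * b → Ψ.HasTS b →
      (Φ.prod Ψ).HasTS (a + b) → Φ.HasTS a := fun n' e' h h' => k n' n e' e (iff_of_true (add_comm a b ▸ prod_comm.hasTS h') (h.prod (plusF_hasTS a)))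
  by_cases h : Φ.HasTS a
  · exact ⟨fun h' => iff_of_true h (k n n' e e' (iff_of_true h' (h.prod (plusF_hasTS b)))), fun h' => h.prod (h'.1 h)⟩
  · exact ⟨fun h' => iff_of_false h fun t => h (l n' e' t h'), fun h' => by_contra fun t => h (h'.2 (k n n' e e' (iff_of_false t fun s =>
      h (l (plusF_nondeg b) (by simp [two_mul]) (plusF_hasTS b) s))))⟩

theorem Nondeg.type_perp (n : Φ.Nondeg) (n₀ : (Φ.res W).Nondeg) (e : finrank F V = 2 * a) (e' : finrank F W = 2 * b) :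
    (Φ.res (Φ.perp W)).HasTS (a - b) ↔ (Φ.HasTS a ↔ (Φ.res W).HasTS b) := by
  have := n.finrank_perp W
  have k := type_mul n₀ (n.perp_nondeg n₀) e' (b := a - b) (by omega)
  rw [(n.prod_iso n₀).hasTS_iff, show b + (a - b) = a by omega] at k
  tauto

theorem cl_even (n₀ : (Φ.res W₀).Nondeg) (e : finrank F W₀ = 2 * a) {τ : Prop} (t : (Φ.res W₀).HasTS a ↔ τ) (W : Submodule F V) :
    Φ.Cl W₀ W ↔ finrank F W = 2 * a ∧ (Φ.res W).Nondeg ∧ (Φ.PlusOn W ↔ τ) :=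
  ⟨fun h => ⟨h.finrank.trans e, h.nd n₀, (plusOn_iff (h.finrank.trans e)).trans (h.choose_spec.hasTS_iff.symm.trans t)⟩,
    fun ⟨h1, h2, h3⟩ => even_iso n₀ h2 e h1 (t.trans (h3.symm.trans (plusOn_iff h1)))⟩

theorem exists_type (τ : Prop) (a0 : 0 < a) : ∃ (D : Type u) (_ : AddCommGroup D) (_ : Module F D) (_ : FiniteDimensional F D) (Θ : Form (.orth F) D),
    Θ.Nondeg ∧ finrank F D = 2 * a ∧ (Θ.HasTS a ↔ τ) := by
  obtain ⟨a, rfl⟩ := Nat.exists_eq_add_one_of_ne_zero a0.ne'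
  obtain ⟨x, y, k⟩ := exists_aniso' F
  by_cases h : τ
  exacts [⟨_, _, _, inferInstance, _, plusF_nondeg (a + 1), by simp; omega, iff_of_true (plusF_hasTS _) h⟩,
    ⟨_, _, _, inferInstance, _, minusF_nondeg a (disc_ne_zero_of_aniso k), by simp; omega, iff_of_false (minusF_not_hasTS _ k) h⟩]

theorem Nondeg.exists_type (n : Φ.Nondeg) (τ : Prop) (a0 : 0 < a) (h : 2 * a < finrank F V) :
    ∃ W : Submodule F V, (Φ.res W).Nondeg ∧ finrank F W = 2 * a ∧ ((Φ.res W).HasTS a ↔ τ) := by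
  obtain ⟨D, _, _, _, Θ, h1, h2, h3⟩ := Form.exists_type (F := F) τ a0
  obtain ⟨W, -, e, i⟩ := (n.orth_em h1 (by omega)).exists_W h1
  exact ⟨W, i.nondeg h1, e.finrank_eq ▸ h2, i.hasTS_iff.symm.trans h3⟩

theorem Nondeg.hasTS_orth (n : Φ.Nondeg) (e : finrank F V = 2 * a) {τ : Prop} [Decidable τ] (t : Φ.HasTS a ↔ τ) (k : ℕ) : Φ.HasTS k ↔ k ≤ if τ then a else a - 1 := by
  refine ⟨fun ⟨T, h1, h2⟩ => ?_, fun h => ?_⟩
  · have := h2.two_mul_le n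
    have := mt t.1
    split_ifs with h
    · omega
    · by_contra l; exact this h ⟨T, by rcases a with _ | a; exacts [(h (t.1 hasTS_zero)).elim, by omega], h2⟩
  · split_ifs at h with l
    · exact (t.2 l).mono h
    · rcases k with _ | k
      exacts [hasTS_zero, n.orth_hasTS (by omega)]

variable (n : Φ.OGood) (n₀ : (Φ.res W₀).Nondeg) {N m : ℕ} (e : finrank F V = N) (e₀ : finrank F W₀ = m) (m0 : 0 < m) (m1 : m < N) {τ τ₀ : Prop} [Decidable τ] [Decidable τ₀]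
  (t : Even N → (Φ.HasTS (N / 2) ↔ τ)) (t₀ : Even m → ((Φ.res W₀).HasTS (m / 2) ↔ τ₀))
include n n₀ e e₀ m0 m1 t t₀

theorem OGood.el_ss [hr : Fact r.Prime] (r2 : r ≠ 2) (p : ℕ) [Fact p.Prime] [CharP F p] (rp : r ≠ p) {i : ℕ} (hi : i = orderOf (Fintype.card F : ZMod r))
    (hc : c = if Even i then i else 2 * i) (h : r ∣ Nat.card {W // Φ.Cl W₀ W}) {τ₁ : Prop} [Decidable τ₁]
    (t₁ : Even (N - m) → ((Φ.res (Φ.perp W₀)).HasTS ((N - m) / 2) ↔ τ₁)) :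
    (El Φ.Om r (Φ.Cl W₀) ↔ am c N (τ ↔ Odd i ∨ Even (N / c)) ≤ am c m (τ₀ ↔ Odd i ∨ Even (m / c)) + am c (N - m) (τ₁ ↔ Odd i ∨ Even ((N - m) / c))) ∧
      (am c N (τ ↔ Odd i ∨ Even (N / c)) ≤ am c m (τ₀ ↔ Odd i ∨ Even (m / c)) + am c (N - m) (τ₁ ↔ Odd i ∨ Even ((N - m) / c)) →
        1 ≤ am c m (τ₀ ↔ Odd i ∨ Even (m / c))) := by
  haveI : Nontrivial V := (finrank_pos_iff (R := F)).1 (by omega)
  obtain ⟨-, b, j, hj, -⟩ := blk_so (F := F) r2 p rp hi hc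
  have k : ∀ {U : Type u} [AddCommGroup U] [Module F U] [FiniteDimensional F U] {Ψ : Form (.orth F) U} {N} {τ : Prop} [Decidable τ], Ψ.Nondeg → finrank F U = N → 0 < N →
      (Even N → (Ψ.HasTS (N / 2) ↔ τ)) → ∀ k, Ψ.HasB r (c * k) ↔ k ≤ am c N (τ ↔ Odd i ∨ Even (N / c)) := fun n e h t k => by
    subst e
    rw [hasB_orth r2 p rp hi hc n h, am, am]
    congr! 2
    refine and_congr_right fun l => ?_
    rw [t (even_iff_two_dvd.2 ((Dvd.intro _ hj.symm).trans (Nat.dvd_of_mod_eq_zero l)))]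
  have := n.nd.finrank_perp W₀
  rw [el_odd n.nd (fun _ => rfl) Om_le_isom Cl.refl (hr.out.odd_of_ne_two r2) fun g a b => n.mem_of_odd a (hr.out.odd_of_ne_two r2) b]
  exact b.el_iff' (uniq_orth r2 p rp) n.nd n₀ h (k n.nd e (by omega) t) (k n₀ e₀ m0 t₀) (k (n.nd.perp_nondeg n₀) (by omega) (by omega) t₁)

theorem OGood.el_two_odd (h2 : (2 : F) ≠ 0) {q : ℕ} (hq : Fintype.card F = q) : El Φ.Om 2 (Φ.Cl W₀) ↔
    (Even N → (τ ↔ Even (N / 2) ∨ q % 4 = 1) → (Even (N / 2) ∨ q % 8 = 1 ∨ q % 8 = 7) → Even m ∧ (τ₀ ↔ Even (m / 2) ∨ q % 4 = 1)) := by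
  haveI : Nontrivial V := (finrank_pos_iff (R := F)).1 (by omega)
  have s1 : ∀ k, IsSquare ((-1 : F) ^ k) ↔ Even k ∨ q % 4 = 1 := fun k => by
    rw [isSquare_pow_iff (by simp), ← pow_one (-1 : F), isSquare_neg_one_pow_iff h2, pow_one, hq]
  have s2 : ∀ k, IsSquare ((2 : F) ^ k) ↔ Even k ∨ q % 8 = 1 ∨ q % 8 = 7 := fun k => by
    have := hq ▸ odd_of_two_ne h2
    rw [isSquare_pow_iff h2, FiniteField.isSquare_two_iff, hq]; exact or_congr_right (by omega)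
  rw [el_iff n.nd (fun _ => rfl) Om_le_isom Cl.refl]
  refine ⟨fun H ⟨d, hd⟩ a b => ?_, fun H g g1 g2 => g2.elim (fun g2 => ?_) fun g2 => ?_⟩
  · obtain ⟨D, _, _, _, Θ, d1, d2⟩ := exists_orth h2 d
    let s : (D × D) ≃ₗ[F] D × D := (LinearEquiv.prodComm ..).trans ((LinearEquiv.neg F).prodCongr (.refl ..))
    have s3 : s ∈ (Θ.prod Θ).isom := (mem_isom_orth _).2 fun x => by simp [s, prod_Q, add_comm]
    have s4 : ∀ x, s (s x) = -x := fun x => rfl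
    obtain ⟨d', k1, k2, -⟩ := (d1.prod d1).neg_sq h2 s3 s4
    obtain rfl : d' = N / 2 := by simp at k1; omega
    obtain ⟨f, i⟩ := even_iso (d1.prod d1) n.nd k1 (by omega) (by rw [k2, s1, t ⟨d, hd⟩, a])
    have g1 := (i.mem_iff s).1 s3
    have g2 : ∀ x, autCongr f s (autCongr f s x) = -x := fun x => by simp [s4]
    obtain ⟨d', l1, -, l3, -⟩ := n.nd.neg_sq h2 g1 g2
    obtain rfl : d' = N / 2 := by omega
    obtain ⟨W, w1, w2⟩ := H _ (l3.2 ((s2 _).2 b)) (.inr g2)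
    obtain ⟨k, a1, a2, -⟩ := (w1.nd n₀).neg_sq h2 (Φ.resAut_mem g1 w2) fun x => Subtype.ext (g2 x)
    rw [w1.finrank, e₀] at a1
    rw [← t₀ ⟨k, by omega⟩, w1.choose_spec.hasTS_iff, show m / 2 = k by omega, a2, s1]
    exact ⟨⟨k, by omega⟩, .rfl⟩
  · by_cases k : g = 1
    · exact ⟨W₀, .refl, by simp [k]⟩
    have := (dick_eq_one_iff_rank g).1 (n.nd.dick_of_mem_Om n.RG g1)
    have : finrank F (mv g) ≠ 0 := fun h => k (mv_eq_bot.1 (Submodule.finrank_eq_zero.1 h))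
    exact n.nd.inv_fix n₀ h2 (Om_le_isom g1) g2 (by omega) (by omega) (by rw [Nat.even_iff] at *; change finrank F (mv g) % 2 = 0 at *; omega)
  obtain ⟨d, k1, k2, k3, k4⟩ := n.nd.neg_sq h2 (Om_le_isom g1) g2
  obtain rfl : d = N / 2 := by omega
  obtain ⟨⟨k, a⟩, b⟩ := H ⟨N / 2, by omega⟩ (by rw [← t ⟨N / 2, by omega⟩, k2, s1]) ((s2 _).1 (k3.1 g1))
  obtain ⟨W, w1, w2, w3⟩ := k4 k (by omega)
  obtain ⟨l, a1, a2, -⟩ := w1.neg_sq h2 (Φ.resAut_mem (Om_le_isom g1) w2) fun x => Subtype.ext (g2 x)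
  obtain rfl : l = m / 2 := by omega
  exact ⟨W, even_iso n₀ w1 (by omega) a1 (by rw [t₀ ⟨k, a⟩, b, a2, s1]), w2⟩

theorem OGood.el_two_even (h2 : (2 : F) = 0) : El Φ.Om 2 (Φ.Cl W₀) ↔
    (if τ then N / 2 else N / 2 - 1) / 2 ≤ (if τ₀ then m / 2 else m / 2 - 1) / 2 + (if τ ↔ τ₀ then N / 2 - m / 2 else N / 2 - m / 2 - 1) / 2 := by
  haveI : Nontrivial V := (finrank_pos_iff (R := F)).1 (by omega)
  have ev : ∀ {U : Type u} [AddCommGroup U] [Module F U] [FiniteDimensional F U] {Ψ : Form (.orth F) U}, Ψ.Nondeg → Even (finrank F U) := fun n =>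
    Nat.not_odd_iff_even.1 fun o => n.orth_two_ne o h2
  have a := e ▸ ev n.nd
  have b := e₀ ▸ ev n₀
  have := n.nd.finrank_perp W₀
  have a' := Nat.even_iff.1 a
  have b' := Nat.even_iff.1 b
  rw [el_two n.nd (fun _ => rfl) Om_le_isom Cl.refl h2]
  refine (c2_orth h2).el_iff n.nd n₀ Om_le_isom (fun t h => (n.nd.mem_Om_rank h2 n.RG h).2) (fun X nX k hk => ?_) (n.nd.hasTS_orth (by omega) (t a))
    (n₀.hasTS_orth (by omega) (t₀ b)) ((n.nd.perp_nondeg n₀).hasTS_orth (by omega) (by rw [n.nd.type_perp n₀ (by omega) (by omega), t a, t₀ b]))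
  obtain ⟨j, hj⟩ := (ev nX).two_dvd
  exact nX.orth_nalt h2 hj (nX.orth_hasTS (by omega)) k (by omega)

omit e m0 m1 t t₀ in
theorem OGood.el_unip [Nontrivial V] (h2 : (2 : F) ≠ 0) (p : ℕ) [hp : Fact p.Prime] [CharP F p] (H : El Φ.Om p (Φ.Cl W₀)) (l : ∀ a ∈ μ, 0 < a ∧ a ≤ 3)
    (s : μ.sum = finrank F V) (ex : ∃ g ∈ Φ.isom, JE (nl g) μ) : ∃ ν ν', μ = ν + ν' ∧ ν.sum = m ∧ Even (ν.count 2) ∧
      ((∀ a ∈ ν, a = 2) → (Φ.res W₀).HasTS (m / 2)) ∧ ((∀ a ∈ ν', a = 2) → (Φ.res (Φ.perp W₀)).HasTS ((finrank F V - m) / 2)) := by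
  have p3 := three_le p h2
  have o := hp.out.odd_of_ne_two (by omega)
  obtain ⟨g, g1, j⟩ := ex
  obtain ⟨W, w1, w2⟩ := (el_odd n.nd (fun _ => rfl) Om_le_isom Cl.refl o fun g a b => n.mem_of_odd a o b).1 H g g1 (j.pow_char p s fun a h => (l a h).2.trans p3)
  have w3 := isom_perp_mem g1 w2
  obtain ⟨ν, ν', rfl, a1, a2, a3, a4⟩ := j.split₂ (fun a h => (l a h).1) s (n.nd.isCompl_perp (w1.nd n₀)) (fun x hx => sub_mem (w2 x hx) hx)
    fun x hx => sub_mem (w3 _ hx) hx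
  have k : ∀ (X : Submodule F V) (i : ∀ v ∈ X, g v ∈ X) (ν : Multiset ℕ), (Φ.res X).Nondeg → ν.sum = finrank F X → JE (nl (resAut g X i)) ν →
      (∀ a ∈ ν, a = 2) → (Φ.res X).HasTS (finrank F X / 2) := fun X i ν nX a b c => by
    obtain ⟨ν', b1, -, -, b4⟩ := unip_sub h2 nX (Φ.resAut_mem g1 i) b (fun a h => by simp [c a h]) a (W := ⊤) (IsIso.nondeg (e := Submodule.topEquiv.symm)
      ⟨fun _ _ => rfl, fun _ => rfl⟩ nX) (by simp)
    obtain ⟨T, -, c2, c3⟩ := b4 fun a h => c a (Multiset.mem_of_le b1 h)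
    exact ⟨T, by rw [finrank_top] at c3; omega, c2⟩
  have := n.nd.finrank_perp W
  have := w1.finrank
  exact ⟨ν, ν', rfl, by omega, (w1.nd n₀).even_count_orth h2 (Φ.resAut_mem g1 w2) a3 even_two two_pos,
    fun h => w1.choose_spec.symm.hasTS (by convert k W w2 ν (w1.nd n₀) a1 a3 h; omega),
    fun h => (w1.perp n.nd).choose_spec.symm.hasTS (by convert k _ w3 ν' (n.nd.perp_nondeg (w1.nd n₀)) a2 a4 h; omega)⟩
end orth
end Form
end H5
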