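import Cfsg.Agent.H5.Nd3
/-! Pairs of complementary totally isotropic subspaces of a symplectic space. -/
set_option autoImplicit false
namespace H5
open Module Pointwise Matrix

universe u
variable {F : Type u} [Field F] {V : Type u} [AddCommGroup V] [Module F V] [FiniteDimensional F V] {r c : ℕ} {g : V ≃ₗ[F] V}

theorem smul_eq_of_le {U W : Submodule F V} (h : ∀ v ∈ U, g v ∈ W) (e : finrank F U = finrank F W) : g • U = W :=
  Submodule.eq_of_le_of_finrank_eq (by rintro _ ⟨v, hv, rfl⟩; exact h v hv) ((LinearEquiv.finrank_map_eq _ U).trans e)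

theorem pow_fix_mod [Fintype F] [Fact r.Prime] (e : g ^ r = 1) {W : Submodule F V} (i : ∀ v ∈ W, g v ∈ W) :
    Fintype.card F ^ finrank F W ≡ Fintype.card F ^ finrank F ↥(W ⊓ fixSp g) [MOD r] := by
  haveI : Finite V := finite_of_fd (F := F)
  have := card_fix_mod e (fun v : V => v ∈ W) i
  rwa [← Nat.card_eq_fintype_card, ← natCard_eq_pow_finrank, ← natCard_eq_pow_finrank]

theorem ord_dvd_fix [Fintype F] [hr : Fact r.Prime] (r0 : (r : F) ≠ 0) (e : g ^ r = 1) {W : Submodule F V} (i : ∀ v ∈ W, g v ∈ W) :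
    orderOf (Fintype.card F : ZMod r) ∣ finrank F W - finrank F ↥(W ⊓ fixSp g) := by
  have := (ZMod.natCast_eq_natCast_iff _ _ _).2 (pow_fix_mod e i)
  obtain ⟨k, hk⟩ := Nat.exists_eq_add_of_le (Submodule.finrank_mono (inf_le_left : W ⊓ fixSp g ≤ W))
  rw [hk, pow_add, Nat.cast_mul, mul_eq_left₀ (by simpa using fun h => absurd (ord_pos hr.out r0) (by simp [h]))] at this
  rw [hk, Nat.add_sub_cancel_left, orderOf_dvd_iff_pow_eq_one, ← this, Nat.cast_pow]

namespace Form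
variable {Φ : Form (.symp F) V} {U W U' W' : Submodule F V}
variable (Φ U W) in
/-- Complementary totally isotropic subspaces. -/
def Pol : Prop := IsCompl U W ∧ Φ.TS U ∧ Φ.TS W

theorem Pol.dim (n : Φ.Nondeg) (h : Φ.Pol U W) : 2 * finrank F U = finrank F V ∧ 2 * finrank F W = finrank F V := by
  have := h.2.1.two_mul_le n
  have := h.2.2.two_mul_le n
  have := Submodule.finrank_add_eq_of_isCompl h.1
  omega

omit [FiniteDimensional F V] in
theorem Pol.smul (h : Φ.Pol U W) (hg : g ∈ Φ.isom) : Φ.Pol (g • U) (g • W) :=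
  ⟨(Submodule.orderIsoMapComap g).isCompl h.1, h.2.1.map_iso (Ψ := Φ) hg, h.2.2.map_iso (Ψ := Φ) hg⟩

theorem Pol.move (n : Φ.Nondeg) (h : Φ.Pol U W) (h' : Φ.Pol U' W') (φ : U ≃ₗ[F] U') : ∃ g ∈ Φ.isom, (∀ u : U, g u = φ u) ∧ g • U = U' ∧ g • W = W' := by
  obtain ⟨g, g1, g2⟩ := n.ts_conj h.2.1 h'.2.1 φ
  have e : g • U = U' := smul_eq_of_le (fun v hv => (g2 ⟨v, hv⟩).symm ▸ (φ _).2) φ.finrank_eq
  have k := h.smul g1
  rw [e] at k
  have b : ∀ x y, Φ.B (U'.projection _ k.1 x + (x - U'.projection _ h'.1 x)) (U'.projection _ k.1 y + (y - U'.projection _ h'.1 y)) = Φ.B x y := fun x y => by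
    have a1 := k.2.2.2 _ (Submodule.sub_projection_mem k.1 x) _ (Submodule.sub_projection_mem k.1 y)
    have a2 := h'.2.2.2 _ (Submodule.sub_projection_mem h'.1 x) _ (Submodule.sub_projection_mem h'.1 y)
    have a3 := fun {A B} (a : IsCompl U' A) (b : IsCompl U' B) => k.2.1.2 _ (Submodule.projection_apply_mem a x) _ (Submodule.projection_apply_mem b y)
    simp only [map_add, map_sub, LinearMap.add_apply, LinearMap.sub_apply, a3] at *
    linear_combination a2 - a1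
  obtain ⟨t, t1, t2⟩ := n.witt ⊤ (U'.projection _ k.1 + (.id - U'.projection _ h'.1)) (fun u _ h0 => n u fun x => by
    rw [← b, show U'.projection _ k.1 u + (u - U'.projection _ h'.1 u) = 0 from h0, map_zero]) (fun x _ y _ => b x y) (by simp [symp_Q])
  have t3 : ∀ u ∈ U', t u = u := fun u hu => by simp [t2, Submodule.projection_apply_of_mem_left _ hu]
  refine ⟨t * g, mul_mem t1 g1, fun u => by simp [g2, t3], by rw [mul_smul, e]; exact smul_eq_iff.2 fun v hv => (t3 v hv).symm ▸ hv, ?_⟩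
  rw [mul_smul]
  exact smul_eq_of_le (fun v hv => by simp [t2, Submodule.projection_apply_of_mem_right _ hv, Submodule.sub_projection_mem]) (by
    have := k.dim n; have := h'.dim n; omega)

theorem Nondeg.symp_pol (n : Φ.Nondeg) (h2 : (2 : F) ≠ 0) (hg : g ∈ Φ.isom) (e : (∀ x, g (g x) = x) ∨ ∀ x, g (g x) = -x) :
    ∃ U W, Φ.Pol U W ∧ (g • U = U ∧ g • W = W ∨ g • U = W ∧ g • W = U) := by
  obtain ⟨d, hd, -⟩ := n.symp_hasTS
  have st : ∀ {X U U' : Submodule F V} {v w}, U ⊔ U' = X → Φ.TS U → Φ.TS U' → v ∈ Φ.perp X → w ∈ Φ.perp X →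
      (U ⊔ F ∙ v) ⊔ (U' ⊔ F ∙ w) = X ⊔ .span F {v, w} ∧ Φ.TS (U ⊔ F ∙ v) ∧ Φ.TS (U' ⊔ F ∙ w) := fun h a b hv hw => by
    subst h
    rw [perp_sup] at hv hw
    exact ⟨by rw [Submodule.span_insert, sup_sup_sup_comm], a.sup_singleton (Φ.symp_Q _) hv.1, b.sup_singleton (Φ.symp_Q _) hw.2⟩
  have sp : ∀ {A B : Submodule F V} {v w}, (∀ x ∈ A, g x ∈ B) → g v ∈ F ∙ w → ∀ x ∈ A ⊔ F ∙ v, g x ∈ B ⊔ F ∙ w := fun h k x hx => by
    obtain ⟨a, ha, _, hb, rfl⟩ := Submodule.mem_sup.1 hx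
    obtain ⟨c, rfl⟩ := Submodule.mem_span_singleton.1 hb
    simpa using Submodule.add_mem_sup (h a ha) (Submodule.smul_mem _ c k)
  have fin : ∀ {X U U' : Submodule F V}, finrank F X = 2 * d → U ⊔ U' = X → Φ.TS U → Φ.TS U' → Φ.Pol U U' := fun {X U U'} a b c e => by
    obtain rfl := Submodule.eq_top_of_finrank_eq (a.trans hd.symm)
    have := c.two_mul_le n
    have := e.two_mul_le n
    have := Submodule.finrank_sup_add_finrank_inf_eq U U'
    exact ⟨⟨disjoint_iff.2 (Submodule.finrank_eq_zero.1 (by rw [b] at this; omega)), codisjoint_iff.2 b⟩, c, e⟩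
  have z : Φ.TS ⊥ := symp_ts.2 (by simp)
  rcases e with e | e
  · obtain ⟨X, -, -, x1, U, U', a, b, c, k, l⟩ := n.chain (g := g) (fun _ X => ∃ U U', U ⊔ U' = X ∧ Φ.TS U ∧ Φ.TS U' ∧ (∀ x ∈ U, g x ∈ U) ∧ ∀ x ∈ U', g x ∈ U')
      ⟨⊥, ⊥, by simp, z, z, by simp⟩ (fun k W h1 h3 h4 ⟨U, U', u1, u2, u3, u4, u5⟩ => by
        obtain ⟨v, hv, w, hw, a, b, c, d⟩ := (Nondeg.symp_pair h2 hg (n.perp_nondeg h1) (isom_perp_mem hg h3) h4).1 e
        have s := st u1 u2 u3 hv hw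
        exact ⟨_, Submodule.span_le.2 (Set.pair_subset hv hw), (symp_plane a).1, span_pair_inv (c ▸ Submodule.smul_mem _ _ (Submodule.subset_span (by simp)))
          (d ▸ Submodule.smul_mem _ _ (Submodule.subset_span (by simp))), (symp_plane a).2, _, _, s.1, s.2.1, s.2.2,
          sp u4 (c ▸ Submodule.smul_mem _ _ (Submodule.mem_span_singleton_self _)), sp u5 (d ▸ Submodule.smul_mem _ _ (Submodule.mem_span_singleton_self _))⟩) d (by omega)
    exact ⟨U, U', fin x1 a b c, .inl ⟨smul_eq_iff.2 k, smul_eq_iff.2 l⟩⟩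
  · obtain ⟨X, -, -, x1, U, U', a, b, c, k, l⟩ := n.chain (g := g) (fun _ X => ∃ U U', U ⊔ U' = X ∧ Φ.TS U ∧ Φ.TS U' ∧ (∀ x ∈ U, g x ∈ U') ∧ ∀ x ∈ U', g x ∈ U)
      ⟨⊥, ⊥, by simp, z, z, by simp⟩ (fun k W h1 h3 h4 ⟨U, U', u1, u2, u3, u4, u5⟩ => by
        have i := isom_perp_mem hg h3
        obtain ⟨v, hv, a⟩ := (Nondeg.symp_pair h2 hg (n.perp_nondeg h1) i h4).2 e
        have s := st u1 u2 u3 hv (i v hv)
        exact ⟨_, Submodule.span_le.2 (Set.pair_subset hv (i v hv)), (symp_plane a).1, span_pair_inv (Submodule.subset_span (by simp))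
          (e v ▸ neg_mem (Submodule.subset_span (by simp))), (symp_plane a).2, _, _, s.1, s.2.1, s.2.2,
          sp u4 (Submodule.mem_span_singleton_self _), sp u5 (e v ▸ neg_mem (Submodule.mem_span_singleton_self _))⟩) d (by omega)
    have := (fin x1 a b c).dim n
    exact ⟨U, U', fin x1 a b c, .inr ⟨smul_eq_of_le k (by omega), smul_eq_of_le l (by omega)⟩⟩

theorem Nondeg.card_pol [Fintype F] [hr : Fact r.Prime] (n : Φ.Nondeg) (h2 : (2 : F) ≠ 0) {d : ℕ} (e : finrank F V = 2 * d) (r0 : (r : F) ≠ 0)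
    (h : r ∣ Nat.card {P : Submodule F V × Submodule F V // Φ.Pol P.1 P.2}) : ∃ j, 0 < j ∧ j ≤ d ∧ (Fintype.card F : ZMod r) ^ j = -1 := by
  haveI : Finite V := finite_of_fd (F := F)
  haveI := finite_aut (F := F) (V := V)
  obtain ⟨U, W, k, -⟩ := n.symp_pol h2 (one_mem _) (.inl fun _ => rfl)
  have := card_eq_orbit_mul Φ.isom (U, W) (fun P => Φ.Pol P.1 P.2) fun P => ⟨fun a => by
    obtain ⟨φ⟩ := FiniteDimensional.nonempty_linearEquiv_of_finrank_eq (R := F) (M := U) (M' := P.1) (by have := k.dim n; have := a.dim n; omega)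
    obtain ⟨g, g1, -, g2, g3⟩ := k.move n a φ
    exact ⟨g, g1, Prod.ext g2 g3⟩, by rintro ⟨g, g1, rfl⟩; exact k.smul g1⟩
  have le : Φ.isom ⊓ MulAction.stabilizer _ (U, W) ≤ Φ.isom ⊓ stabSub U := inf_le_inf_left _ fun g hg => mem_stabSub_iff_map.2 (congrArg Prod.fst hg)
  have dv := Subgroup.card_dvd_of_surjective ((resHom Φ.isom U).comp (Subgroup.inclusion le)) fun φ => by
    obtain ⟨g, g1, g2, g3, g4⟩ := k.move n k φ
    exact ⟨⟨g, g1, Prod.ext g3 g4⟩, LinearEquiv.ext fun v => Subtype.ext (g2 v)⟩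
  have u : finrank F U = d := by have := k.dim n; omega
  obtain ⟨a, ha⟩ := card_GL' (F := F) d
  rw [Nat.card_congr (autCongr (finBasisOfFinrankEq F U u).equivFun).toEquiv, ← Nat.card_congr (glEquiv (ι := Fin d) (F := F)).toEquiv, ha] at dv
  have q1 : 1 < Fintype.card F := Fintype.one_lt_card
  have := this ▸ mul_dvd_mul h ((Dvd.intro_left _ rfl).trans dv)
  have sp : ∏ i ∈ Finset.range d, (Fintype.card F ^ (2 * (i + 1)) - 1) = (∏ i ∈ Finset.range d, (Fintype.card F ^ (1 + i) + 1)) *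
      ∏ i ∈ Finset.range d, (Fintype.card F ^ (1 + i) - 1) := by
    rw [← Finset.prod_mul_distrib]; exact Finset.prod_congr rfl fun i _ => by rw [← Nat.sq_sub_sq, ← pow_mul, one_pow]; congr 2; ring
  rw [card_isom_symp rfl n e, spOrd, ← Finset.Ico_add_one_right_eq_Icc, Finset.prod_Ico_eq_prod_range, Nat.add_sub_cancel, sp, ← mul_assoc,
    Nat.mul_dvd_mul_iff_right (Finset.prod_pos fun i _ => Nat.sub_pos_of_lt (Nat.one_lt_pow (by omega) q1)), hr.out.dvd_mul] at this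
  rcases this with h | h
  · exact absurd (ord_pos hr.out r0) (by simp [(ZMod.natCast_eq_zero_iff _ _).2 (hr.out.dvd_of_dvd_pow h)])
  obtain ⟨j, hj, h⟩ := (Prime.dvd_finsetProd_iff hr.out.prime _).1 h
  exact ⟨1 + j, by omega, by simp at hj; omega, eq_neg_of_add_eq_zero_left (by simpa using (ZMod.natCast_eq_zero_iff _ _).2 h)⟩

theorem Nondeg.pol_der [Fintype F] [hr : Fact r.Prime] (n : Φ.Nondeg) (h2 : (2 : F) ≠ 0) {d : ℕ} (e : finrank F V = 2 * d) (r2 : r ≠ 2) (p : ℕ) [Fact p.Prime] [CharP F p] (rp : r ≠ p)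
    (h : r ∣ Nat.card {P : Submodule F V × Submodule F V // Φ.Pol P.1 P.2}) :
    ∃ g ∈ Φ.isom, g ^ r = 1 ∧ g ≠ 1 ∧ ∀ U W, Φ.Pol U W → ¬ (g • U = U ∧ g • W = W ∨ g • U = W ∧ g • W = U) := by
  have r0 := cast_ne (F := F) p hr.out rp
  obtain ⟨j, j0, j1, j2⟩ := n.card_pol h2 e r0 h
  have i0 := ord_pos hr.out r0
  have i1 : orderOf (Fintype.card F : ZMod r) ∣ j * 2 := by rw [orderOf_dvd_iff_pow_eq_one, pow_mul, j2]; simp
  have i2 : Even (orderOf (Fintype.card F : ZMod r)) := Nat.not_odd_iff_even.1 fun o => by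
    have := orderOf_dvd_iff_pow_eq_one.1 ((Nat.coprime_two_right.2 o).dvd_of_dvd_mul_right i1)
    exact one_ne_neg r2 (this.symm.trans j2)
  have := Nat.le_of_dvd (by omega) i1
  obtain ⟨X, _, _, _, Ψ, t, x1, x2, x3, x4, x5⟩ := (blk_so (F := F) r2 p rp rfl (if_pos i2).symm).1.exists_fpf 1
  obtain ⟨a, ha⟩ := i2
  obtain ⟨_, i⟩ := symp_iso (x1.prod (sympF_nondeg (d - a))) n (by simp; omega)
  obtain ⟨g, g1, g2, g3⟩ := i.exists_wit x2 x3 x4
  have key : ∀ U W, Φ.Pol U W → ¬ U ≤ fixSp g := fun U W k l => by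
    have := k.2.1.comap_subtype (fixSp g) |>.two_mul_le (n.fix_nondeg g1 r0 g2)
    rw [(Submodule.comapSubtypeEquivOfLe l).finrank_eq] at this
    have := k.dim n
    omega
  refine ⟨g, g1, g2, by rintro rfl; rw [show fixSp (1 : V ≃ₗ[F] V) = ⊤ from eq_top_iff.2 fun _ _ => rfl, finrank_top] at g3; omega, fun U W k l => ?_⟩
  have dm := k.dim n
  rcases l with ⟨l, l'⟩ | ⟨l, l'⟩
  · have a1 := ord_dvd_fix r0 g2 (smul_eq_iff.1 l)
    have a2 := ord_dvd_fix r0 g2 (smul_eq_iff.1 l')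
    have le : fixSp g ≤ U ⊓ fixSp g ⊔ W ⊓ fixSp g := fun v hv => by
      obtain ⟨a, b, rfl⟩ := exists_add_of_isCompl k.1 v
      have : g a - a = b - g b := by rw [sub_eq_sub_iff_add_eq_add, ← map_add, mem_fixSp.1 hv, add_comm]
      have z : g a - a = 0 := k.1.disjoint.le_bot ⟨sub_mem (smul_eq_iff.1 l _ a.2) a.2, this ▸ sub_mem b.2 (smul_eq_iff.1 l' _ b.2)⟩
      exact Submodule.add_mem_sup ⟨a.2, sub_eq_zero.1 z⟩ ⟨b.2, (sub_eq_zero.1 (this ▸ z)).symm⟩
    have := (Submodule.finrank_mono le).trans (Submodule.finrank_add_le_finrank_add_finrank _ _)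
    have b : ∀ U W, Φ.Pol U W → finrank F ↥(U ⊓ fixSp g) < finrank F U := fun U W k => Submodule.finrank_lt_finrank_of_lt (inf_lt_left.2 (key U W k))
    have b1 := b U W k
    have b2 := b W U ⟨k.1.symm, k.2.2, k.2.1⟩
    have := Nat.le_of_dvd (by omega) a1
    have := Nat.le_of_dvd (by omega) a2
    omega
  obtain ⟨s, hs⟩ := hr.out.odd_of_ne_two r2
  have : (g * g) ^ s • U = U := MulAction.mem_stabilizer_iff.1 (pow_mem (show (g * g) • U = U by rw [mul_smul, l, l']) s)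
  rw [← sq, ← pow_mul] at this
  have : U = W := by rw [← l, ← this, ← mul_smul, ← pow_succ', ← hs, g2, one_smul, this]
  have := disjoint_self.1 (this ▸ k.1.disjoint)
  rw [this, finrank_bot] at dm; omega
end Form
end H5
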