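import Cfsg.Agent.H5.Adj

/-!
Semisimple elements of the symplectic and unitary groups: conjugacy and characteristic polynomials.
-/

set_option autoImplicit false

namespace H5

open Module Matrix Polynomial

section mat
variable {F : Type*} [Field F] {ι : Type*} [Fintype ι] [DecidableEq ι]

theorem exists_ss_part [Finite F] (p : ℕ) [hp : Fact p.Prime] [CharP F p] {G : Type*} [Group G] [Finite G] (φ : G →* Matrix ι ι F) (g : G) :
    ∃ g' : G, (orderOf g').Coprime p ∧ (φ g').charpoly = (φ g).charpoly := by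
  letI := Fintype.ofFinite F
  obtain ⟨k, -, hk⟩ := FiniteField.card F p
  refine ⟨g ^ Fintype.card F ^ orderOf g, ?_, ?_⟩
  · obtain ⟨a, b, h1, h2⟩ := Nat.exists_eq_pow_mul_and_not_dvd (orderOf_pos g).ne' p hp.out.ne_one
    refine (hp.out.coprime_iff_not_dvd.2 h1).symm.coprime_dvd_left (orderOf_dvd_of_pow_eq_one ?_)
    rw [← pow_mul, ← orderOf_dvd_iff_pow_eq_one, hk, ← pow_mul]
    refine h2.dvd.trans (Nat.mul_dvd_mul_right (pow_dvd_pow _ ?_) _)
    have := Nat.lt_pow_self (n := a) hp.out.one_lt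
    have := Nat.le_of_dvd (orderOf_pos g) (Dvd.intro _ h2.symm)
    exact le_trans (by omega) (Nat.le_mul_of_pos_left (orderOf g) k.2)
  induction orderOf g with
  | zero => simp
  | succ k ih => rw [pow_succ, pow_mul, map_pow, FiniteField.Matrix.charpoly_pow_card, ih]

theorem coeff_charpoly_inv {A : Matrix ι ι F} (h : A.det = 1) {i : ℕ} (hi : i ≤ Fintype.card ι) :
    A⁻¹.charpoly.coeff i = (-1) ^ Fintype.card ι * A.charpoly.coeff (Fintype.card ι - i) := by
  rw [charpoly_inv A ((isUnit_iff_isUnit_det _).2 (by simp [h])), h, ← reverse_charpoly, Ring.inverse_one, C_1, mul_one, ← C_1, ← C_neg,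
    ← C_pow, coeff_C_mul, coeff_reverse, charpoly_natDegree_eq_dim, revAt_le hi]

theorem exists_sym_pair {n : ℕ} {f : F[X]} (hf : f.Monic) (hn : f.natDegree = n) :
    ∃ P A : Matrix (Fin n) (Fin n) F, Pᵀ = P ∧ P.det ≠ 0 ∧ Aᵀ * P = P * A ∧ A.charpoly = f := by
  have m : minpoly F (AdjoinRoot.root f) = f := by simpa [hf.leadingCoeff] using AdjoinRoot.minpoly_root hf.ne_zero
  let b := AdjoinRoot.powerBasis hf.ne_zero
  obtain rfl : b.dim = n := hn
  let l := lcoeff F (f.natDegree - 1) ∘ₗ AdjoinRoot.modByMonicHom hf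
  let β : LinearMap.BilinForm F (AdjoinRoot f) := (LinearMap.mul F _).compr₂ l
  refine ⟨LinearMap.BilinForm.toMatrix b.basis β, Algebra.leftMulMatrix b.basis b.gen, ?_, ?_, ?_, (charpoly_leftMulMatrix b).trans m⟩
  · ext i j; simp [LinearMap.BilinForm.toMatrix_apply, β, mul_comm]
  · refine (LinearMap.BilinForm.nondegenerate_iff_det_ne_zero b.basis).1 (LinearMap.IsRefl.nondegenerate_iff_separatingLeft
      (fun x y h => by simpa [β, mul_comm] using h) |>.2 fun u hu => ?_)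
    rw [← AdjoinRoot.mk_leftInverse hf u] at hu ⊢
    have d : (AdjoinRoot.modByMonicHom hf u).degree < f.degree := by
      obtain ⟨p, rfl⟩ := AdjoinRoot.mk_surjective u; exact degree_modByMonic_lt _ hf
    generalize AdjoinRoot.modByMonicHom hf u = p at hu d
    by_cases p0 : p = 0
    · simp [p0]
    have d' := natDegree_lt_natDegree p0 d
    have := hu (AdjoinRoot.mk f (X ^ (f.natDegree - 1 - p.natDegree)))
    simp only [β, LinearMap.compr₂_apply, LinearMap.mul_apply', ← map_mul, l, LinearMap.comp_apply, AdjoinRoot.modByMonicHom_mk,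
      lcoeff_apply] at this
    rw [(modByMonic_eq_self_iff hf).2 (degree_lt_degree (by rw [natDegree_mul_X_pow _ p0]; omega)), coeff_mul_X_pow',
      if_pos (by omega), show f.natDegree - 1 - (f.natDegree - 1 - p.natDegree) = p.natDegree by omega] at this
    exact (p0 (leadingCoeff_eq_zero.1 this)).elim
  · rw [Algebra.leftMulMatrix_apply, ← LinearMap.BilinForm.toMatrix_compLeft, ← LinearMap.BilinForm.toMatrix_compRight]
    congr 1; ext; simp [β, mul_comm, mul_left_comm]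

theorem exists_sp_charpoly {n : ℕ} {f : F[X]} (hf : f.Monic) (hn : f.natDegree = n) : ∃ g : symplecticGroup (Fin n) F,
    ∀ x : AlgebraicClosure F, x ≠ 0 → aeval x g.1.charpoly = x ^ n * aeval (x + x⁻¹) f := by
  obtain ⟨P, A, h1, h2, h3, rfl⟩ := exists_sym_pair hf hn
  have i1 := mul_nonsing_inv P (Ne.isUnit h2)
  have i2 := nonsing_inv_mul P (Ne.isUnit h2)
  refine ⟨⟨fromBlocks 0 (-P⁻¹) P Aᵀ, SymplecticGroup.mem_iff.2 ?_⟩, fun x hx => ?_⟩
  · simp [J, fromBlocks_transpose, fromBlocks_multiply, transpose_nonsing_inv, h1, i1, i2, h3]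
  let φ := algebraMap F (AlgebraicClosure F)
  have k : ∀ {ι : Type} [Fintype ι] [DecidableEq ι] (M : Matrix ι ι F) (x : AlgebraicClosure F),
      aeval x M.charpoly = (scalar ι x - M.map φ).det := fun M x => by rw [aeval_def, ← eval_map, ← charpoly_map, eval_charpoly]
  rw [k, ← charpoly_transpose, k]
  letI : Invertible (scalar (Fin n) x) := ⟨scalar _ x⁻¹, by rw [← map_mul]; simp [hx], by rw [← map_mul]; simp [hx]⟩
  have : scalar (Fin n ⊕ Fin n) x - (fromBlocks 0 (-P⁻¹) P Aᵀ).map φ =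
      fromBlocks (scalar _ x) (P⁻¹.map φ) (-P.map φ) (scalar _ x - Aᵀ.map φ) := by
    ext (i | i) (j | j) <;> simp [diagonal_apply]
  rw [this, det_fromBlocks₁₁]
  congr 1
  · simp
  · congr 1
    change _ - _ * scalar _ x⁻¹ * _ = _
    rw [neg_mul, neg_mul, ← (scalar_commute _ (fun _ => Commute.all _ _) _).eq, mul_assoc, ← Matrix.map_mul, i1, map_add]
    simp only [Matrix.map_one _ (map_zero _) (map_one _), mul_one]; abel

theorem sp_conj [Finite F] (p : ℕ) [hp : Fact p.Prime] [CharP F p] {n : ℕ} {g h : symplecticGroup (Fin n) F} (hg : (orderOf g).Coprime p)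
    (hh : (orderOf h).Coprime p) (hc : g.1.charpoly = h.1.charpoly) : IsConj g h := by
  have : IsConj g.1 h.1 := isConj_of_charpoly (ss_of_coprime (symplecticGroup (Fin n) F).subtype hg)
    (ss_of_coprime (symplecticGroup (Fin n) F).subtype hh) hc
  obtain ⟨e, he⟩ := isConj_iff.1 ((isConj_glEquiv (g := spToGL n g) (h := spToGL n h)).2 this)
  exact (isConj_congr (spEquiv n)).1 (Form.isConj_iff_eqv.2 (Form.eqv_symp (sympF_nondeg n) (spEquiv n g).2 (spEquiv n h).2
    (sympF_nondeg n) e (fun x => LinearEquiv.congr_fun (mul_inv_eq_iff_eq_mul.1 he) x)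
    (mt (CharP.cast_eq_zero_iff F p _).1 (hp.out.coprime_iff_not_dvd.1 hg.symm))
    (by rw [← Subgroup.coe_pow, ← map_pow, pow_orderOf_eq_one, map_one, Subgroup.coe_one])))

end mat

namespace Form
variable {F : Type*} [Field F] {κ : Kind F} {V : Type*} [AddCommGroup V] [Module F V] [FiniteDimensional F V] {Φ : Form κ V}
  {a : V ≃ₗ[F] V}

theorem Nondeg.det_adj (h : Φ.Nondeg) (f : End F V) : LinearMap.det (h.adj f) = κ.σ (LinearMap.det f) := by
  classical
  let b := Module.finBasis F V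
  have : (LinearMap.toMatrix b b f)ᵀ * Φ.gram b = Φ.gram b * (LinearMap.toMatrix b b (h.adj f)).map κ.σ := by
    ext i j
    have := h.adj_spec f (b i) (b j)
    rw [← b.sum_repr (f (b i)), ← b.sum_repr (h.adj f (b j))] at this
    simpa [gram, mul_apply, LinearMap.toMatrix_apply, mul_comm, B_smul_right, -Basis.sum_repr] using this
  have := congrArg det this
  rw [det_mul, det_mul, det_transpose, ← RingHom.mapMatrix_apply, ← RingHom.map_det, LinearMap.det_toMatrix, LinearMap.det_toMatrix,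
    mul_comm] at this
  rw [mul_left_cancel₀ (h.det_gram_ne b) this, κ.σσ]

theorem Nondeg.exists_ext_comm (hΦ : Φ.Nondeg) (ha : a ∈ Φ.isom) {U : Submodule F V} (hU : (Φ.res U).Nondeg) (h : ∀ u ∈ U, a u ∈ U)
    {y : U ≃ₗ[F] U} (hy : y ∈ (Φ.res U).isom) (e : y * resAut a U h = resAut a U h * y) :
    ∃ x ∈ Φ.isom, x * a = a * x ∧ LinearEquiv.det x = LinearEquiv.det y := by
  refine ⟨sumAut (hΦ.isCompl_perp hU) (y, 1), (sumAut_mem_iff _ _ le_rfl _).2 ⟨hy, one_mem _⟩,
    hΦ.ext_of_compl hU (fun u hu => ?_) fun u hu => ?_, by simp [det_sumAut]⟩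
  · rw [LinearEquiv.mul_apply, LinearEquiv.mul_apply]; erw [sumAut_left _ _ ⟨_, h u hu⟩, sumAut_left _ _ ⟨_, hu⟩]
    exact congrArg Subtype.val (LinearEquiv.congr_fun e ⟨u, hu⟩)
  · rw [LinearEquiv.mul_apply, LinearEquiv.mul_apply]; erw [sumAut_right _ _ ⟨_, isom_perp_mem ha h u hu⟩, sumAut_right _ _ ⟨_, hu⟩]; simp

omit [FiniteDimensional F V] in
theorem _root_.H5.coe_pow_end (a : V ≃ₗ[F] V) (n : ℕ) : (a : End F V) ^ n = (a ^ n : V ≃ₗ[F] V) :=
  (map_pow LinearEquiv.automorphismGroup.toLinearMapMonoidHom a n).symm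

theorem _root_.H5.exists_comm_det_end [Finite F] [Nontrivial V] {n : ℕ} (hn : (n : F) ≠ 0) {a : End F V} (h : a ^ n = 1) (c : F) :
    ∃ x : End F V, x * a = a * x ∧ LinearMap.det x = c := by
  let b := Module.finBasis F V
  have : Nonempty (Fin (finrank F V)) := ⟨⟨0, finrank_pos⟩⟩
  obtain ⟨x, h1, h2⟩ := exists_comm_det (semisimple_of_pow (A := LinearMap.toMatrixAlgEquiv b a) hn (by rw [← map_pow, h, map_one])) c
  exact ⟨(LinearMap.toMatrixAlgEquiv b).symm x, (LinearMap.toMatrixAlgEquiv b).injective (by simpa using h1),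
    (LinearMap.det_toLin b x).trans h2⟩

theorem Nondeg.exists_det_cyc [Fintype F] {q : ℕ} {hF : Fintype.card F = q ^ 2} {Φ : Form (unitK hF) V} (hΦ : Φ.Nondeg) [Nontrivial V]
    (ha : a ∈ Φ.isom) {n : ℕ} (hn : (n : F) ≠ 0) (h : a ^ n = 1) {v : V} (hv : ∀ x, ∃ f : F[X], x = aeval (a : End F V) f v)
    {c : Fˣ} (hc : (c : F) * conj hF c = 1) : ∃ x ∈ Φ.isom, x * a = a * x ∧ LinearEquiv.det x = c := by
  obtain ⟨w, w0, hw⟩ := exists_eq_div_conj hF hc
  obtain ⟨y, h1, h2⟩ := exists_comm_det_end hn (a := (a : End F V)) (by rw [coe_pow_end, h]; rfl) w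
  have C : ∀ y z : End F V, y * a = a * y → z * a = a * z → y * z = z * y := fun y z hy hz => by
    obtain ⟨f, hf⟩ := hv (z v)
    obtain rfl : z = aeval (a : End F V) f := LinearMap.ext fun x => by
      obtain ⟨g, rfl⟩ := hv x
      rw [← End.mul_apply, comm_aeval hz, End.mul_apply, hf, ← End.mul_apply, ← map_mul, mul_comm, map_mul, End.mul_apply]
    exact comm_aeval hy f
  have h3 : hΦ.adj y * a = a * hΦ.adj y := by
    have : y * a.symm = a.symm * y := by ext x; simpa using (congrArg a.symm (LinearMap.congr_fun h1 (a.symm x))).symm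
    simpa [hΦ.adj_mul, hΦ.adj_isom' ha] using (congrArg hΦ.adj this).symm
  have d := hΦ.det_adj y
  rw [h2] at d
  let Y := LinearMap.equivOfDetNeZero y (h2 ▸ w0)
  let Z := LinearMap.equivOfDetNeZero (hΦ.adj y) (by simpa [d])
  have c1 : Y * Z = Z * Y := LinearEquiv.toLinearMap_injective (C _ _ h1 h3)
  refine ⟨Y * Z⁻¹, (mem_isom_unit _).2 fun x z => ?_, ?_, Units.ext ?_⟩
  · obtain ⟨x, rfl⟩ := Z.surjective x
    obtain ⟨z, rfl⟩ := Z.surjective z
    simp only [LinearEquiv.mul_apply, LinearEquiv.coe_inv, LinearEquiv.symm_apply_apply]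
    exact (hΦ.adj_spec y _ _).trans ((congrArg _ (LinearEquiv.congr_fun c1 z).symm).trans (hΦ.adj_spec' y _ _).symm)
  · have e1 : Commute Y a := LinearEquiv.toLinearMap_injective h1
    have e2 : Commute Z a := LinearEquiv.toLinearMap_injective h3
    exact e1.mul_left e2.inv_left
  · rw [map_mul, map_inv, Units.val_mul, Units.val_inv_eq_inv_val, LinearEquiv.coe_det, LinearEquiv.coe_det]
    change LinearMap.det y * (LinearMap.det (hΦ.adj y))⁻¹ = _
    rw [h2, d, mul_inv_eq_iff_eq_mul₀ (by simpa)]; exact hw.symm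

theorem Nondeg.exists_det_ss [Fintype F] {q : ℕ} {hF : Fintype.card F = q ^ 2} {Φ : Form (unitK hF) V} (hΦ : Φ.Nondeg) [Nontrivial V]
    (ha : a ∈ Φ.isom) {n : ℕ} (hn : (n : F) ≠ 0) (h : a ^ n = 1)
    {c : Fˣ} (hc : (c : F) * conj hF c = 1) : ∃ x ∈ Φ.isom, x * a = a * x ∧ LinearEquiv.det x = c := by
  obtain ⟨v, hv⟩ := unit_exists_Q_ne hΦ finrank_pos
  have S : End.IsSemisimple (a : End F V) := End.isSemisimple_of_squarefree_aeval_eq_zero (X_pow_sub_one_separable_iff.2 hn).squarefree (by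
    rw [map_sub, map_pow, aeval_X, coe_pow_end, h]; simp [End.one_eq_id])
  let U := LinearMap.range (LinearMap.applyₗ v ∘ₗ (aeval (a : End F V)).toLinearMap)
  have hU : ∀ u ∈ U, a u ∈ U := by rintro _ ⟨f, rfl⟩; exact ⟨X * f, by simp⟩
  have P : ∀ {W : Submodule F V}, (∀ u ∈ W, a u ∈ W) → ∀ f : F[X], ∀ u ∈ W, aeval (a : End F V) f u ∈ W := fun h f u hu =>
    aeval_apply_smul_mem_of_le_comap hu f _ h
  obtain ⟨C, hC, H⟩ := End.isSemisimple_iff.1 S (U ⊓ Φ.perp U) fun u hu => ⟨hU u hu.1, isom_perp_mem ha hU u hu.2⟩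
  have D : ∀ u ∈ U, ∃ r ∈ U ⊓ Φ.perp U, u - r ∈ U ⊓ C := fun u hu => by
    obtain ⟨r, s, rfl⟩ := exists_add_of_isCompl H u
    exact ⟨r, r.2, sub_mem hu r.2.1, by simp⟩
  have N : (Φ.res (U ⊓ C)).Nondeg := (res_nondeg_iff _ _).2 (eq_bot_iff.2 fun x hx => H.disjoint.le_bot ⟨⟨hx.1.1, fun u hu => by
    obtain ⟨r, hr, e⟩ := D u hu
    simpa [Φ.B_zero_symm (hr.2 x hx.1.1)] using hx.2 _ e⟩, hx.1.2⟩)
  have I : ∀ u ∈ U ⊓ C, a u ∈ U ⊓ C := fun u hu => ⟨hU u hu.1, hC hu.2⟩
  have vU : v ∈ U := ⟨1, by simp⟩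
  obtain ⟨r, hr, e⟩ := D v vU
  have : Nontrivial ↥(U ⊓ C) := ⟨⟨_, e⟩, 0, fun H => hv (by
    rw [unit_Q]; exact (sub_eq_zero.1 (congrArg Subtype.val H) ▸ hr).2 v vU)⟩
  have R : ∀ (f : F[X]) (x : ↥(U ⊓ C)), (aeval (resAut a _ I : End F _) f x).1 = aeval (a : End F V) f x := fun f x => by
    induction f using Polynomial.induction_on' with
    | add f g h1 h2 => simp [h1, h2]
    | monomial k c =>
      simp only [aeval_monomial, End.mul_apply, Module.algebraMap_end_apply, Submodule.coe_smul]; congr 1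
      induction k with
      | zero => rfl
      | succ k ih => simp [pow_succ', ih]
  obtain ⟨y, h1, h2, h3⟩ := N.exists_det_cyc (resAut_mem _ ha I) hn (LinearEquiv.ext fun x => Subtype.ext (by
    simpa [coe_pow_end, h, -SetLike.coe_eq_coe] using R (X ^ n) x)) (v := ⟨_, e⟩) (fun x => by
      obtain ⟨f, hf⟩ := x.2.1
      refine ⟨f, Subtype.ext (sub_eq_zero.1 (H.disjoint.le_bot ⟨?_, sub_mem x.2.2 (aeval (resAut a _ I).toLinearMap f ⟨_, e⟩).2.2⟩))⟩
      rw [R, ← hf]
      simpa using P (W := U ⊓ Φ.perp U) (fun u hu => ⟨hU u hu.1, isom_perp_mem ha hU u hu.2⟩) f r hr) hc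
  obtain ⟨x, hx⟩ := hΦ.exists_ext_comm ha N I h1 h2
  exact ⟨x, hx.1, hx.2.1, hx.2.2.trans h3⟩

end Form

theorem su_conj_ss {K : Type*} [Field K] [Fintype K] {q n : ℕ} (hK : Fintype.card K = q ^ 2) (p : ℕ) [hp : Fact p.Prime] [CharP K p]
    {g h : Cfsg.SU n K q} (hg : (orderOf g).Coprime p) (hh : (orderOf h).Coprime p) (hc : g.1.1.charpoly = h.1.1.charpoly) :
    IsConj g h := by
  cases n with
  | zero => rw [Subsingleton.elim g h]
  | succ n =>
  let φ := SpecialLinearGroup.coeMonoidHom.comp (Cfsg.SU (n + 1) K q).subtype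
  exact su_conj hK (isConj_of_charpoly (ss_of_coprime φ hg) (ss_of_coprime φ hh) hc) fun c hc =>
    (hermF_nondeg _ hK).exists_det_ss (suEquiv _ hK g).2.1 (mt (CharP.cast_eq_zero_iff K p _).1 (hp.out.coprime_iff_not_dvd.1 hg.symm))
      (by rw [← Subgroup.coe_pow, ← map_pow, pow_orderOf_eq_one, map_one, Subgroup.coe_one]) hc

end H5
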