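import Cfsg.Agent.H5.SS
import Cfsg.Agent.H5.Hom
import Cfsg.Agent.H5.Inv3
import Cfsg.Agent.S2568
/-! Eigenvalue multisets `ev`, and the number of classes of elements of odd prime order in isometry groups (`Form.card_ord`). -/
set_option autoImplicit false
namespace H5
open Module Polynomial

universe u v
variable {F : Type*} [Field F] {V : Type u} [AddCommGroup V] [Module F V] [FiniteDimensional F V]

/-- The eigenvalues in the algebraic closure. -/
noncomputable def ev (f : End F V) : Multiset (AlgebraicClosure F) := f.charpoly.aroots _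

theorem card_ev (f : End F V) : (ev f).card = finrank F V := by
  rw [ev, IsAlgClosed.card_aroots_eq_natDegree, f.charpoly_natDegree]

theorem aroots_inj {P Q : F[X]} (hP : P.Monic) (hQ : Q.Monic) (h : P.aroots (AlgebraicClosure F) = Q.aroots _) : P = Q :=
  map_injective _ (algebraMap F (AlgebraicClosure F)).injective (by
    rw [(IsAlgClosed.splits _).eq_prod_roots_of_monic (hP.map _), (IsAlgClosed.splits _).eq_prod_roots_of_monic (hQ.map _)]
    exact congrArg (fun s => (Multiset.map _ s).prod) h)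

theorem exists_enum {α : Type*} (s : Multiset α) {n : ℕ} (h : s.card = n) : ∃ d : Fin n → α, Finset.univ.val.map d = s := by
  induction s using Quotient.inductionOn with
  | _ l => subst h; exact ⟨l.get, (Fin.univ_val_map _).trans (congrArg _ (List.ofFn_get l))⟩

theorem ev_aeval (f : End F V) (P : F[X]) : ev (aeval f P) = (ev f).map (aeval · P) := by
  classical
  let b := finBasis F V
  let L := AlgebraicClosure F
  obtain ⟨d, hd⟩ := exists_enum _ (card_ev f)
  have k : ∀ d : Fin (finrank F V) → L, (Matrix.diagonal d).charpoly = ((Finset.univ.val.map d).map fun a => X - C a).prod := fun d => by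
    rw [Matrix.charpoly_diagonal, Multiset.map_map]; rfl
  have e : ∀ f : End F V, f.charpoly.map (algebraMap F L) = ((LinearMap.toMatrixAlgEquiv b f).map (algebraMap F L)).charpoly := fun f => by
    rw [Matrix.charpoly_map, ← f.charpoly_toMatrix b]; rfl
  have := charpoly_aeval (A := (LinearMap.toMatrixAlgEquiv b f).map (algebraMap F L)) (B := Matrix.diagonal d) (by
    rw [k, hd, ← e]; exact (IsAlgClosed.splits _).eq_prod_roots_of_monic (f.charpoly_monic.map _)) (P.map (algebraMap F L))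
  rw [aeval_map_algebraMap, aeval_map_algebraMap, show Matrix.diagonal d = Matrix.diagonalAlgHom F d from rfl, aeval_algHom_apply,
    show (LinearMap.toMatrixAlgEquiv b f).map (algebraMap F L) = (Algebra.ofId F L).mapMatrix (LinearMap.toMatrixAlgEquiv b f) from rfl,
    aeval_algHom_apply, aeval_algHom_apply] at this
  rw [ev, aroots_def, e, ← hd]
  refine (congrArg roots (this.trans (k _))).trans ?_
  rw [roots_multiset_prod_X_sub_C, Multiset.map_map]
  exact Multiset.map_congr rfl fun i _ => (aeval_algHom_apply (Pi.evalAlgHom F _ i) d P).symm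

theorem ev_pow (f : End F V) (k : ℕ) : ev (f ^ k) = (ev f).map (· ^ k) := by simpa using ev_aeval f (X ^ k)

theorem ev_one : ev (1 : End F V) = .replicate (finrank F V) 1 := by
  rw [← pow_zero (1 : End F V), ev_pow]; simp [card_ev]

theorem pow_of_mem_ev {f : End F V} {r : ℕ} (h : f ^ r = 1) {x} (hx : x ∈ ev f) : x ^ r = 1 := by
  have := Multiset.mem_map_of_mem (· ^ r) hx
  rw [← ev_pow, h, ev_one] at this
  exact Multiset.eq_of_mem_replicate this

theorem mem_ev {f : End F V} {c : F} : algebraMap F _ c ∈ ev f ↔ ∃ x, x ≠ 0 ∧ f x = c • x := by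
  rw [ev, mem_aroots, aeval_algebraMap_apply, map_eq_zero, and_iff_right f.charpoly_monic.ne_zero, coe_aeval_eq_eval, ← IsRoot.def,
    ← End.hasEigenvalue_iff_isRoot_charpoly]
  exact ⟨fun h => let ⟨x, hx⟩ := h.exists_hasEigenvector; ⟨x, hx.2, hx.apply_eq_smul⟩,
    fun ⟨x, h1, h2⟩ => End.hasEigenvalue_of_hasEigenvector ⟨End.mem_eigenspace_iff.2 h2, h1⟩⟩

theorem aroots_map_pow (p k : ℕ) [Fact p.Prime] [CharP F p] (τ : F →+* F) (h : ∀ a, τ a = a ^ p ^ k) (P : F[X]) :
    (P.map τ).aroots (AlgebraicClosure F) = (P.aroots _).map (· ^ p ^ k) := by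
  have := (IsAlgClosed.splits (P.map (algebraMap F (AlgebraicClosure F)))).roots_map (iterateFrobenius (AlgebraicClosure F) p k)
  rw [map_map, show (iterateFrobenius _ p k).comp (algebraMap F _) = (algebraMap F _).comp τ from RingHom.ext fun a => by
    simp [h, iterateFrobenius_def], ← map_map] at this
  exact this

theorem ev_frob [Fintype F] (f : End F V) : (ev f).map (· ^ Fintype.card F) = ev f := by
  obtain ⟨p, hp, k, pp, e⟩ : ∃ p, CharP F p ∧ ∃ f : ℕ+, p.Prime ∧ Fintype.card F = p ^ (f : ℕ) := ⟨_, ringChar.charP F, FiniteField.card F _⟩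
  have := Fact.mk pp
  rw [e, ev, ← aroots_map_pow p k (.id F) fun a => by rw [← e, FiniteField.pow_card]; rfl, map_id]

theorem exists_intertw [Finite F] {W : Type v} [AddCommGroup W] [Module F W] [FiniteDimensional F W] {a : End F V} {b : End F W} {n : ℕ}
    (hn : (n : F) ≠ 0) (ha : a ^ n = 1) (hb : b ^ n = 1) (h : ev a = ev b) : ∃ e : V ≃ₗ[F] W, ∀ x, e (a x) = b (e x) := by
  classical
  have T : V ≃ₗ[F] W := .ofFinrankEq _ _ (by rw [← card_ev a, h, card_ev])
  let φ := LinearMap.toMatrixAlgEquiv (finBasis F V)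
  have := isConj_of_charpoly (A := φ a) (B := φ (T.symm.conjAlgEquiv F b)) (semisimple_of_pow hn (by rw [← map_pow, ha, map_one]))
    (semisimple_of_pow hn (by rw [← map_pow, ← map_pow, hb, map_one, map_one])) ((a.charpoly_toMatrix _).trans ((aroots_inj a.charpoly_monic
      b.charpoly_monic h).trans ((T.symm.charpoly_conj b).symm.trans (LinearMap.charpoly_toMatrix _ _).symm)))
  obtain ⟨c, hc⟩ := φ.symm.toMonoidHom.map_isConj this
  refine ⟨(LinearMap.GeneralLinearGroup.toLinearEquiv c).trans T, fun x => ?_⟩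
  simpa [LinearEquiv.eq_symm_apply] using congrArg T (LinearMap.congr_fun hc.eq x)

theorem eq_one_of_ev [Finite F] {a : End F V} {n : ℕ} (hn : (n : F) ≠ 0) (ha : a ^ n = 1) (h : ev a = .replicate (finrank F V) 1) : a = 1 := by
  obtain ⟨e, he⟩ := exists_intertw hn ha (one_pow n) (h.trans ev_one.symm)
  exact LinearMap.ext fun x => e.injective (he x)

theorem ev_congr {W : Type v} [AddCommGroup W] [Module F W] [FiniteDimensional F W] {a : End F V} {b : End F W} (e : V ≃ₗ[F] W)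
    (h : ∀ x, e (a x) = b (e x)) : ev a = ev b := by
  rw [ev, ← e.charpoly_conj, show e.conj a = b from LinearMap.ext fun x => by simp [h], ev]

theorem ev_prod {W : Type v} [AddCommGroup W] [Module F W] [FiniteDimensional F W] (a : End F V) (b : End F W) :
    ev (a.prodMap b) = ev a + ev b := by
  rw [ev, LinearMap.charpoly_prodMap, aroots_mul (a.charpoly_monic.mul b.charpoly_monic).ne_zero]; rfl

theorem Form.Nondeg.charpoly_adj {κ : Kind F} {Φ : Form κ V} (h : Φ.Nondeg) (f : End F V) : ((h.adj f).charpoly.map κ.σ) = f.charpoly := by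
  classical
  let b := finBasis F V
  have : (LinearMap.toMatrix b b f).transpose * Φ.gram b = Φ.gram b * (LinearMap.toMatrix b b (h.adj f)).map κ.σ := by
    ext i j
    have := h.adj_spec f (b i) (b j)
    rw [← b.sum_repr (f (b i)), ← b.sum_repr (h.adj f (b j))] at this
    simpa [Form.gram, Matrix.mul_apply, LinearMap.toMatrix_apply, mul_comm, Form.B_smul_right, -Basis.sum_repr] using this
  rw [← f.charpoly_toMatrix b, ← (h.adj f).charpoly_toMatrix b, ← Matrix.charpoly_map, ← Matrix.charpoly_transpose (LinearMap.toMatrix b b f)]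
  exact (IsConj.charpoly ⟨Matrix.GeneralLinearGroup.mkOfDetNeZero _ (h.det_gram_ne b), this.symm⟩)

section lift
variable {r : ℕ} [Fact r.Prime] (w : (ZMod r)ˣ)

/-- Orbits of multiplication by `w`. -/
abbrev Orb := (ZMod r)ˣ ⧸ Subgroup.zpowers w

open Classical in
/-- The union of the orbits in `N`. -/
noncomputable def olift (N : Multiset (Orb w)) : Multiset (ZMod r) :=
  N.bind fun c => (Finset.univ.filter fun x : (ZMod r)ˣ => (x : Orb w) = c).val.map Units.val

theorem olift_add (N M : Multiset (Orb w)) : olift w (N + M) = olift w N + olift w M := Multiset.add_bind _ _ _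

open Classical in
theorem count_olift (N : Multiset (Orb w)) (u : (ZMod r)ˣ) : (olift w N).count u.1 = N.count (u : Orb w) := by
  induction N using Multiset.induction_on with
  | empty => simp [olift]
  | cons c N ih =>
    rw [olift, Multiset.cons_bind, Multiset.count_add, ← olift, ih, Multiset.count_cons, add_comm,
      Multiset.count_map_eq_count' _ _ Units.val_injective]
    simp [Multiset.count_filter]

theorem zero_notMem_olift (N : Multiset (Orb w)) : 0 ∉ olift w N := by simp [olift, Units.ne_zero]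

theorem card_olift (N : Multiset (Orb w)) : (olift w N).card = orderOf w * N.card := by
  classical
  rw [olift, Multiset.card_bind, Multiset.map_congr (g := fun _ => orderOf w) rfl fun c _ => ?_]
  · simp [mul_comm]
  · have := QuotientGroup.card_preimage_mk (Subgroup.zpowers w) {c}
    rw [Nat.card_zpowers, Nat.card_unique (α := ({c} : Set _)), mul_one] at this
    rw [← this]
    simp [Nat.card_eq_fintype_card, Fintype.card_subtype]; rfl

theorem card_orb : Nat.card (Orb w) * orderOf w = r - 1 := by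
  rw [← Nat.card_zpowers, ← Subgroup.card_eq_card_quotient_mul_card_subgroup, Nat.card_eq_fintype_card, ZMod.card_units]

theorem olift_inj {k l : ℕ} {N M : Multiset (Orb w)} (h : .replicate k 0 + olift w N = .replicate l 0 + olift w M) : N = M := by
  classical
  ext c
  obtain ⟨u, rfl⟩ := QuotientGroup.mk_surjective c
  simpa [Multiset.count_replicate, count_olift, u.ne_zero.symm] using congrArg (Multiset.count u.1) h

theorem exists_olift {E : Multiset (ZMod r)} (h : E.map (w.1 * ·) = E) : ∃ k N, E = .replicate k 0 + olift w N := by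
  classical
  refine ⟨E.count 0, Finsupp.toMultiset (Finsupp.equivFunOnFinite.symm fun c : Orb w => E.count c.out.1), Multiset.ext.2 fun x => ?_⟩
  by_cases x0 : x = 0
  · simp [x0, zero_notMem_olift]
  lift x to (ZMod r)ˣ using (Ne.isUnit x0)
  have k : ∀ (n : ℕ) (x : ZMod r), E.count ((w ^ n).1 * x) = E.count x := fun n => by
    induction n with
    | zero => simp
    | succ n ih =>
      intro x
      rw [pow_succ, Units.val_mul, mul_assoc, ih]
      conv_lhs => rw [← h]
      exact Multiset.count_map_eq_count' _ _ (mul_right_injective₀ w.ne_zero) x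
  obtain ⟨⟨_, n, rfl⟩, hn⟩ := QuotientGroup.mk_out_eq_mul (Subgroup.zpowers w) x
  obtain ⟨n, hn'⟩ := (mem_powers_iff_mem_zpowers (x := w)).2 ⟨n, rfl⟩
  simp only [Multiset.count_add, count_olift, Finsupp.count_toMultiset, Finsupp.coe_equivFunOnFinite_symm, hn, ← hn', mul_comm x,
    Units.val_mul, k]
  simp [Multiset.count_replicate, x.ne_zero.symm]
end lift

theorem exists_char {r : ℕ} [Fact r.Prime] (h : (r : F) ≠ 0) :
    ∃ ψ : AddChar (ZMod r) (AlgebraicClosure F), Function.Injective ψ ∧ ∀ x, x ^ r = 1 → ∃ j, ψ j = x := by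
  have : NeZero (r : F) := ⟨h⟩
  obtain ⟨ζ, hζ⟩ := HasEnoughRootsOfUnity.exists_primitiveRoot (AlgebraicClosure F) r
  refine ⟨AddChar.zmodChar r hζ.pow_eq_one, fun a b e => ZMod.val_injective r (hζ.pow_inj a.val_lt b.val_lt e), fun x hx => ?_⟩
  obtain ⟨i, -, rfl⟩ := hζ.eq_pow_of_pow_eq_one hx
  exact ⟨i, AddChar.zmodChar_apply' _ _⟩

/-- The eigenvalue exponents of isometries of order `r` are invariant under `w`. -/
structure OrdOK [Fintype F] (κ : Kind F) {r : ℕ} (w : (ZMod r)ˣ) : Prop where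
  odd : r ≠ 2
  ne : (r : F) ≠ 0
  ex : ∃ p k : ℕ, p.Prime ∧ CharP F p ∧ (∀ a, κ.σ a = a ^ p ^ k) ∧
    (w.1 = Fintype.card F ∨ w.1 = -(p ^ k : ℕ) ∨ w.1 = -(p ^ k : ℕ) * Fintype.card F)

namespace Form
variable [Fintype F] {κ : Kind F} {r : ℕ} [hr : Fact r.Prime] {w : (ZMod r)ˣ} {Φ : Form κ V} {g : V ≃ₗ[F] V}
  {ψ : AddChar (ZMod r) (AlgebraicClosure F)}

omit [Fintype F] in
theorem ev_pow_char {f : End F V} {E : Multiset (ZMod r)} (h : ev f = E.map ψ) (k : ℕ) :
    (ev f).map (· ^ k) = (E.map ((k : ZMod r) * ·)).map ψ := by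
  rw [h, Multiset.map_map, Multiset.map_map]
  exact Multiset.map_congr rfl fun j _ => by simp [← AddChar.map_nsmul_eq_pow]

theorem exists_ev (ok : OrdOK κ w) (hψ : Function.Injective ψ ∧ ∀ x, x ^ r = 1 → ∃ j, ψ j = x) (hΦ : Φ.Nondeg) (hg : g ∈ Φ.isom) (h : g ^ r = 1) :
    ∃ N : Multiset (Orb w), orderOf w * N.card ≤ finrank F V ∧
      ev (g : End F V) = (.replicate (finrank F V - orderOf w * N.card) 0 + olift w N : Multiset _).map ψ := by
  have h' : (g : End F V) ^ r = 1 := by rw [coe_pow_end, h]; rfl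
  choose l hl using hψ.2
  obtain ⟨E, hE⟩ : ∃ E : Multiset (ZMod r), ev (g : End F V) = E.map ψ :=
    ⟨(ev (g : End F V)).pmap l fun x hx => pow_of_mem_ev h' hx, by simp [Multiset.map_pmap, hl, Multiset.pmap_eq_map]⟩
  obtain ⟨p, k, pp, _, hσ, hw⟩ := ok.ex
  have := Fact.mk pp
  have inj := Multiset.map_injective hψ.1
  have h1 : E.map ((Fintype.card F : ZMod r) * ·) = E := inj (by rw [← ev_pow_char hE, ev_frob, hE])
  have h2 : E.map (-((p ^ k : ℕ) : ZMod r) * ·) = E := by
    have e : (g.symm : End F V) = (g : End F V) ^ (r - 1) := by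
      rw [coe_pow_end, show g ^ (r - 1) = g⁻¹ from eq_inv_of_mul_eq_one_left (by rw [← pow_succ, Nat.sub_add_cancel hr.out.pos, h])]; rfl
    have := aroots_map_pow p k κ.σ hσ (hΦ.adj g).charpoly
    rw [hΦ.charpoly_adj, hΦ.adj_isom hg, ← ev, ← ev, ev_pow_char (f := (g.symm : End F V)) (by rw [e, ev_pow, ev_pow_char hE]), hE] at this
    conv_rhs => rw [inj this, Multiset.map_map]
    simp [Nat.cast_sub hr.out.pos]
  obtain ⟨j, N, rfl⟩ := exists_olift w (E := E) (by
    rcases hw with e | e | e <;> rw [e]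
    exacts [h1, h2, by conv_rhs => rw [← h2, ← h1, Multiset.map_map]; simp only [Function.comp_def, ← mul_assoc]])
  have := congrArg Multiset.card hE
  simp only [card_ev, Multiset.card_map, Multiset.card_add, Multiset.card_replicate, card_olift] at this
  exact ⟨N, by omega, by rw [hE]; congr 3; omega⟩

omit [Fintype F] in
theorem fpf_iff {E : Multiset (ZMod r)} (hψ : Function.Injective ψ) (h : ev (g : End F V) = E.map ψ) : (∀ x, g x = x → x = 0) ↔ 0 ∉ E := by
  rw [← Multiset.mem_map_of_injective hψ, ← h, ψ.map_zero_eq_one, ← map_one (algebraMap F _), mem_ev]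
  simp only [one_smul, not_exists, not_and]
  exact forall_congr' fun x => not_imp_not.symm

theorem exists_blocks (ok : OrdOK κ w) (hψ : Function.Injective ψ ∧ ∀ x, x ^ r = 1 → ∃ j, ψ j = x) (hΦ : Φ.Nondeg)
    (hd : finrank F V = orderOf w) (hc : r ∣ Nat.card Φ.isom) (N : Multiset (Orb w)) :
    ∃ (U : Type u) (_ : AddCommGroup U) (_ : Module F U) (_ : FiniteDimensional F U) (Ψ : Form κ U) (g : U ≃ₗ[F] U),
      Ψ.Nondeg ∧ g ∈ Ψ.isom ∧ g ^ r = 1 ∧ ev (g : End F U) = (olift w N).map ψ := by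
  classical
  induction N using Multiset.induction_on with
  | empty => exact ⟨PUnit, _, _, inferInstance, Φ.comap 0, 1, fun _ _ => rfl, one_mem _, one_pow _, ev_one.trans (by simp [olift, finrank_zero_of_subsingleton])⟩
  | cons c N ih =>
  obtain ⟨U, _, _, _, Ψ, g, h1, h2, h3, h4⟩ := ih
  have : Finite V := Module.finite_of_finite F
  have : Finite (V ≃ₗ[F] V) := Finite.of_injective _ DFunLike.coe_injective
  obtain ⟨a, ha⟩ := exists_prime_orderOf_dvd_card' r hc
  have k : ∀ a : Φ.isom, orderOf a = r → ∃ c, ev (a.1 : End F V) = (olift w {c}).map ψ := fun a ha => by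
    have a1 : a.1 ^ r = 1 := congrArg Subtype.val (ha ▸ pow_orderOf_eq_one a)
    obtain ⟨N, h1, h2⟩ := exists_ev ok hψ hΦ a.2 a1
    have := orderOf_pos w
    obtain h | h : N.card = 0 ∨ N.card = 1 := by have : N.card ≤ 1 := by nlinarith
                                                 omega
    · have := eq_one_of_ev ok.ne (a := (a.1 : End F V)) (by rw [coe_pow_end, a1]; rfl) (by simpa [Multiset.card_eq_zero.1 h, olift] using h2)
      rw [show a = 1 from Subtype.ext (LinearEquiv.toLinearMap_injective this), orderOf_one] at ha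
      exact absurd ha.symm hr.out.ne_one
    · obtain ⟨c, rfl⟩ := Multiset.card_eq_one.1 h
      exact ⟨c, by simpa [hd] using h2⟩
  obtain ⟨c₀, h₀⟩ := k a ha
  let t := c.out * c₀.out⁻¹
  have ho : orderOf (a ^ t.1.val) = r := by
    rw [Nat.Coprime.orderOf_pow (ha ▸ (ZMod.val_coe_unit_coprime t).symm), ha]
  obtain ⟨c₁, h₁⟩ := k _ ho
  obtain rfl : c₁ = c := by
    rw [Subgroup.coe_pow, ← coe_pow_end, ev_pow, ev_pow_char h₀] at h₁
    have := Multiset.mem_map_of_mem ((t.1.val : ZMod r) * ·) (show c₀.out.1 ∈ olift w {c₀} by rw [← Multiset.count_pos, count_olift]; simp)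
    rw [Multiset.map_injective hψ.1 h₁, ZMod.natCast_zmod_val, ← Units.val_mul, ← Multiset.count_pos, count_olift, Multiset.count_pos,
      Multiset.mem_singleton] at this
    simpa [t] using this.symm
  generalize a ^ t.1.val = b at ho h₁
  refine ⟨V × U, _, _, inferInstance, Φ.prod Ψ, (prodHom Φ Ψ (b, ⟨g, h2⟩)).1, hΦ.prod h1, Subtype.property _, ?_, ?_⟩
  · rw [← Subgroup.coe_pow, ← map_pow, show (b, (⟨g, h2⟩ : Ψ.isom)) ^ r = 1 from
      Prod.ext (orderOf_dvd_iff_pow_eq_one.1 ho.dvd) (Subtype.ext h3), map_one]; rfl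
  · rw [← Multiset.singleton_add, olift_add, Multiset.map_add, ← h₁, ← h4, ← ev_prod]; rfl

omit [Fintype F] hr in
theorem exists_ext_one {U W : Type*} [AddCommGroup U] [Module F U] [FiniteDimensional F U] [AddCommGroup W] [Module F W] [FiniteDimensional F W]
    {Ψ : Form κ U} (Θ : Form κ W) (e : (U × W) ≃ₗ[F] V) (he : ∀ x ∈ (Ψ.prod Θ).isom, autCongr e x ∈ Φ.isom) {g : U ≃ₗ[F] U}
    (hg : g ∈ Ψ.isom) (h : g ^ r = 1) :
    ∃ g' ∈ Φ.isom, g' ^ r = 1 ∧ ev (g' : End F V) = .replicate (finrank F V - finrank F U) 1 + ev (g : End F U) := by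
  refine ⟨_, he _ (prodHom Ψ Θ (⟨g, hg⟩, 1)).2, ?_, ?_⟩
  · rw [← map_pow, ← Subgroup.coe_pow, ← map_pow, show ((⟨g, hg⟩ : Ψ.isom), (1 : Θ.isom)) ^ r = 1 from
      Prod.ext (Subtype.ext h) (one_pow _), map_one]; exact map_one _
  · rw [← e.finrank_eq, finrank_prod, Nat.add_sub_cancel_left, ← ev_one, add_comm, ← ev_prod]
    exact (ev_congr e fun x => by simp; rfl).symm

theorem card_ord (ok : OrdOK κ w) (hΦ : Φ.Nondeg) {V₀ : Type v} [AddCommGroup V₀] [Module F V₀] [FiniteDimensional F V₀] {Φ₀ : Form κ V₀}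
    (h₀ : Φ₀.Nondeg) (hd : finrank F V₀ = orderOf w) (hc : r ∣ Nat.card Φ₀.isom) (M : ℕ)
    (nec : ∀ k, orderOf w * k ≤ finrank F V → (orderOf w * k = finrank F V → ∃ g ∈ Φ.isom, g ^ r = 1 ∧ ∀ x, g x = x → x = 0) → k ≤ M)
    (suf : ∀ k ≤ M, ∀ (U : Type v) [AddCommGroup U] [Module F U] [FiniteDimensional F U] (Ψ : Form κ U) (g : U ≃ₗ[F] U), Ψ.Nondeg →
      finrank F U = orderOf w * k → g ∈ Ψ.isom → g ^ r = 1 → (∀ x, g x = x → x = 0) →
      ∃ g' ∈ Φ.isom, g' ^ r = 1 ∧ ev (g' : End F V) = .replicate (finrank F V - finrank F U) 1 + ev (g : End F U))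
    {t : ℕ} (ht : t * orderOf w = r - 1) :
    Nat.card {C : ConjClasses Φ.isom // ∃ g, ConjClasses.mk g = C ∧ orderOf g = r} = (M + t).choose t - 1 := by
  obtain ⟨ψ, hψ⟩ := exists_char ok.ne
  have pw : ∀ {g : V ≃ₗ[F] V}, g ^ r = 1 → (g : End F V) ^ r = 1 := fun h => by rw [coe_pow_end, h]; rfl
  have inj := Multiset.map_injective hψ.1
  rw [← Nat.eq_of_mul_eq_mul_right (orderOf_pos w) ((card_orb w).trans ht.symm), ← Cfsg.Agent.S2568.card_ms]
  refine card_classes (fun g N => g.1 ^ r = 1 ∧ ev (g.1 : End F V) = (.replicate (finrank F V - orderOf w * N.1.card) 0 + olift w N.1 :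
    Multiset _).map ψ) (fun g => ⟨fun h => ?_, fun ⟨N, h1, h2⟩ => orderOf_eq_prime (Subtype.ext h1) ?_⟩) (fun N => ?_)
    fun g g' N N' h h' => ⟨fun e => ?_, fun e => ?_⟩
  · have g1 : g.1 ^ r = 1 := congrArg Subtype.val (h ▸ pow_orderOf_eq_one g)
    obtain ⟨N, h1, h2⟩ := exists_ev ok hψ hΦ g.2 g1
    refine ⟨⟨N, ?_, nec _ h1 fun e => ⟨g, g.2, g1, (fpf_iff hψ.1 h2).2 (by simp [e, zero_notMem_olift])⟩⟩, g1, h2⟩
    rintro rfl
    rw [show g = 1 from Subtype.ext (LinearEquiv.toLinearMap_injective (eq_one_of_ev ok.ne (pw g1) (by simpa [olift] using h2))), orderOf_one] at h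
    exact hr.out.ne_one h.symm
  · rintro rfl
    exact N.2.1 (olift_inj w (k := _) (l := finrank F V) (inj (h2.symm.trans (ev_one.trans (by simp [olift])))))
  · obtain ⟨U, _, _, _, Ψ, g, h1, h2, h3, h4⟩ := exists_blocks ok hψ h₀ hd hc N.1
    have d : finrank F U = orderOf w * N.1.card := by rw [← card_ev, h4, Multiset.card_map, card_olift]
    obtain ⟨g', k1, k2, k3⟩ := suf _ N.2.2 U Ψ g h1 d h2 h3 ((fpf_iff hψ.1 h4).2 (zero_notMem_olift _ _))
    exact ⟨⟨g', k1⟩, k2, by rw [k3, h4, d]; simp⟩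
  · obtain ⟨e, -, he⟩ := isConj_iff_eqv.1 e
    exact Subtype.ext (olift_inj w (inj (h.2.symm.trans ((ev_congr e he).trans h'.2))))
  · obtain ⟨e, he⟩ := exists_intertw ok.ne (pw h.1) (pw h'.1) (by rw [h.2, h'.2, e])
    exact isConj_iff_eqv.2 (eqv_odd hΦ g.2 g'.2 hΦ e he ok.ne h.1 (hr.out.odd_of_ne_two ok.odd) ⟨.refl _ _, fun _ _ => rfl, fun _ => rfl⟩)

theorem card_ord_all (ok : OrdOK κ w) (P : ℕ → Prop) (hP : ∀ k, orderOf w * k ≤ finrank F V → P (finrank F V - orderOf w * k)) (h0 : P (orderOf w))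
    (ex : ∀ n, P n → ∃ (U : Type v) (_ : AddCommGroup U) (_ : Module F U) (_ : FiniteDimensional F U) (Ψ : Form κ U), Ψ.Nondeg ∧ finrank F U = n ∧
      (n = orderOf w → r ∣ Nat.card Ψ.isom))
    (iso : ∀ (U : Type v) [AddCommGroup U] [Module F U] [FiniteDimensional F U] (Ψ : Form κ U), Ψ.Nondeg → finrank F U = finrank F V →
      ∃ e : U ≃ₗ[F] V, ∀ x ∈ Ψ.isom, autCongr e x ∈ Φ.isom) (hΦ : Φ.Nondeg) {t : ℕ} (ht : t * orderOf w = r - 1) :
    Nat.card {C : ConjClasses Φ.isom // ∃ g, ConjClasses.mk g = C ∧ orderOf g = r} = (finrank F V / orderOf w + t).choose t - 1 := by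
  obtain ⟨V₀, _, _, _, Φ₀, h1, h2, h3⟩ := ex _ h0
  refine card_ord ok hΦ h1 h2 (h3 rfl) _ (fun k h _ => (Nat.le_div_iff_mul_le (orderOf_pos w)).2 (mul_comm k _ ▸ h)) (fun k hk U _ _ _ Ψ g a b c d _ => ?_) ht
  have le : orderOf w * k ≤ finrank F V := mul_comm k _ ▸ (Nat.le_div_iff_mul_le (orderOf_pos w)).1 hk
  obtain ⟨W, _, _, _, Θ, k1, k2, -⟩ := ex _ (hP k le)
  obtain ⟨e, he⟩ := iso _ _ (a.prod k1) (by rw [finrank_prod]; omega)
  exact exists_ext_one Θ e he c d

omit hr in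
theorem numQ_minus {q : ℕ} (hF : Fintype.card F = q) {Φ : Form (.orth F) V} (hΦ : Φ.Nondeg) {m : ℕ} (h : finrank F V = 2 * m + 2)
    (ht : ¬ Φ.HasTS (m + 1)) : Φ.numQ 1 = q ^ (2 * m + 1) + q ^ m := by
  induction m generalizing V with
  | zero =>
    obtain ⟨K, _, _, _, hK⟩ := exists_quad_ext F
    rw [hF] at hK
    obtain ⟨e, he⟩ := aniso_plane_iso_norm hF hK hΦ (not_not.1 (mt hasTS_one_iff.2 ht)) h
    rw [he.numQ_eq, mul_zero, zero_add, pow_one, pow_zero, ← card_norm_one hK]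
    refine Nat.card_congr (Equiv.subtypeEquivRight fun x => ?_)
    rw [← normF_Q hF hK, map_eq_one_iff _ (algebraMap F K).injective]
  | succ m ih =>
    obtain ⟨e, f, hef, h2⟩ := hΦ.minus_step (by omega) ht
    have h3 := hef.finrank_perp hΦ
    rw [hef.numQ_eq (c := 1) ⟨1, rfl⟩, ih (hef.perp_nondeg hΦ) (by omega) h2, card_ker_orth, Nat.card_eq_fintype_card, hF,
      show finrank F (Φ.perp _) = 2 * m + 2 by omega]
    zify [(hF ▸ Fintype.card_pos : 1 ≤ q)]
    ring

theorem type_of_fpf {Φ : Form (.orth F) V} (hΦ : Φ.Nondeg) (r2 : r ≠ 2) (r0 : (Fintype.card F : ZMod r) ≠ 0) {m : ℕ} (h : finrank F V = 2 * m)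
    (hg : g ∈ Φ.isom) (g1 : g ^ r = 1) (f : ∀ x, g x = x → x = 0) : Φ.HasTS m ↔ (Fintype.card F : ZMod r) ^ m = 1 := by
  classical
  have : Finite V := Module.finite_of_finite F
  have := Fintype.ofFinite V
  have z : (Φ.numQ 1 : ZMod r) = 0 := by
    let φ : Function.End {x // Φ.Q x = 1} := fun x => ⟨g x.1, (hg.2 _).trans x.2⟩
    have e : ∀ n x, ((φ ^ n) x).1 = (g ^ n) x.1 := fun n => by
      induction n with
      | zero => exact fun _ => rfl
      | succ n ih => exact fun x => by rw [pow_succ', pow_succ']; exact congrArg g (ih x)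
    have := Equiv.Perm.card_fixedPoints_modEq (f := φ) (p := r) (n := 1) (funext fun x => Subtype.ext (by rw [e, pow_one, g1]; rfl))
    rw [Fintype.card_eq_zero_iff.2 (⟨fun x => by simpa [f _ (congrArg Subtype.val x.2)] using x.1.2⟩ : IsEmpty φ.fixedPoints),
      ← Nat.card_eq_fintype_card] at this
    exact (ZMod.natCast_eq_zero_iff _ _).2 (Nat.modEq_zero_iff_dvd.1 this)
  refine ⟨fun ht => ?_, fun e => by_contra fun ht => ?_⟩
  · have := congrArg (Int.cast : ℤ → ZMod r) (hΦ.numQ_plus rfl h ht one_ne_zero)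
    push_cast at this
    exact mul_left_cancel₀ (pow_ne_zero m r0) (by linear_combination Fintype.card F * z - this)
  · obtain _ | m := m
    · exact ht hasTS_zero
    rw [numQ_minus rfl hΦ h ht] at z
    push_cast at z
    have : ((2 : ℕ) : ZMod r) = 0 := mul_left_cancel₀ (pow_ne_zero m r0) (by push_cast; linear_combination z - (Fintype.card F : ZMod r) ^ m * e)
    exact r2 ((Nat.prime_dvd_prime_iff_eq hr.out Nat.prime_two).1 ((ZMod.natCast_eq_zero_iff _ _).1 this))

omit hr [Fintype F] in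
theorem prod_cancel {W W' : Type*} [AddCommGroup W] [Module F W] [FiniteDimensional F W] [AddCommGroup W'] [Module F W'] [FiniteDimensional F W']
    {Θ : Form κ W} {Θ' : Form κ W'} (hΦ : Φ.Nondeg) (hΘ : Θ.Nondeg) {i} (hi : (Φ.prod Θ).IsIso (Φ.prod Θ') i) : ∃ e, Θ.IsIso Θ' e := by
  obtain ⟨g, hg, k⟩ := (hΦ.prod hΘ).witt' (LinearMap.range (.inl F V W)) (i.symm ∘ₗ .inl F V W' ∘ₗ .fst F V W ∘ₗ Submodule.subtype _)
    (by rintro ⟨_, a, rfl⟩ ⟨_, b, rfl⟩ h; simpa using h)
    (by rintro ⟨_, a, rfl⟩ ⟨_, b, rfl⟩; exact (hi.symm.1 _ _).trans (by simp [prod_B]))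
    (by rintro ⟨_, a, rfl⟩; exact (hi.symm.2 _).trans (by simp [prod_Q]))
  have j := (isIso_of_mem hg).trans hi
  have l : ∀ u, (g.trans i) (u, 0) = (u, 0) := fun u => by simpa using congrArg i (k ⟨_, u, rfl⟩)
  generalize g.trans i = j' at j l
  have z : ∀ x, (j' (0, x)).1 = 0 := fun x => hΦ _ fun u => by
    have := j.1 (u, 0) (0, x)
    rw [l] at this
    simpa [prod_B] using this
  let f : W →ₗ[F] W' := .snd F V W' ∘ₗ j' ∘ₗ .inr F V W
  have b : ∀ x y, Θ'.B (f x) (f y) = Θ.B x y := fun x y => by simpa [prod_B, z, f] using j.1 (0, x) (0, y)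
  have d := j'.finrank_eq
  rw [finrank_prod, finrank_prod] at d
  exact ⟨f.linearEquivOfInjective ((injective_iff_map_eq_zero f).2 fun x hx => hΘ x fun y => by rw [← b, hx, map_zero]) (by omega), b,
    fun x => by simpa [prod_Q, z, f] using j.2 (0, x)⟩

omit hr in
theorem even_iso {W : Type*} [AddCommGroup W] [Module F W] [FiniteDimensional F W] {Φ : Form (.orth F) V} {Ψ : Form (.orth F) W} (hΦ : Φ.Nondeg)
    (hΨ : Ψ.Nondeg) {m : ℕ} (hV : finrank F V = 2 * m) (hW : finrank F W = 2 * m) (h : Φ.HasTS m ↔ Ψ.HasTS m) : ∃ e, Φ.IsIso Ψ e := by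
  by_cases c : Φ.HasTS m
  · exact split_iso hΦ hΨ hV hW c (h.1 c)
  · obtain _ | m := m
    exacts [absurd hasTS_zero c, minus_iso hΦ hΨ hV hW c (mt h.2 c)]

omit hr [FiniteDimensional F V] in
theorem _root_.H5.exists_aniso' (F : Type*) [Field F] [Finite F] :
    ∃ a b : F, ∀ z₁ z₂ : F, z₁ ^ 2 + a * z₁ * z₂ + b * z₂ ^ 2 = 0 → z₁ = 0 ∧ z₂ = 0 := by
  obtain ⟨b, hb⟩ : ∃ b : F, ∀ t, -(t ^ 2 + t) ≠ b := by
    by_contra! h
    simpa using (Finite.injective_iff_surjective.2 h) (a₁ := 0) (a₂ := -1) (by ring)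
  refine ⟨1, b, fun x y e => ?_⟩
  obtain rfl : y = 0 := by_contra fun h => hb (x / y) (by field_simp; linear_combination -e)
  simpa using e

theorem orth_block {F : Type v} [Field F] [Fintype F] {j : ℕ} (h : (Fintype.card F : ZMod r) ^ (2 * (j + 1)) = 1) :
    ∃ (U : Type v) (_ : AddCommGroup U) (_ : Module F U) (_ : FiniteDimensional F U) (Ψ : Form (.orth F) U), Ψ.Nondeg ∧
      finrank F U = 2 * (j + 1) ∧ r ∣ Nat.card Ψ.isom := by
  rw [mul_comm, pow_mul, sq_eq_one_iff] at h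
  rcases h with h | h
  · refine ⟨_, _, _, inferInstance, plusF F (j + 1), plusF_nondeg _, by simp; ring, ?_⟩
    rw [card_isom_plus rfl (plusF_nondeg _) (m := j) (by simp; ring) (plusF_hasTS _)]
    refine Dvd.dvd.mul_right (Dvd.dvd.mul_left ((ZMod.natCast_eq_zero_iff _ _).1 ?_) _) _
    rw [Nat.cast_sub (Nat.one_le_pow _ _ Fintype.card_pos)]; simp [h]
  · obtain ⟨a, b, hab⟩ := exists_aniso' F
    have nd := minusF_nondeg j (disc_ne_zero_of_aniso hab)
    refine ⟨_, _, _, inferInstance, minusF j a b, nd, by simp; ring, ?_⟩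
    rw [card_isom_minus rfl nd (m := j) (by simp; ring) (minusF_not_hasTS _ hab)]
    exact Dvd.dvd.mul_right (Dvd.dvd.mul_left ((ZMod.natCast_eq_zero_iff _ _).1 (by simp [h])) _) _

theorem card_ord_even {Φ : Form (.orth F) V} (ok : OrdOK (.orth F) w) (hΦ : Φ.Nondeg) {m j : ℕ} (hm : finrank F V = 2 * m) (hj : orderOf w = 2 * j)
    (hq : (Fintype.card F : ZMod r) ^ (2 * j) = 1) (M : ℕ)
    (hM : ∀ k, k ≤ M ↔ j * k < m ∨ j * k = m ∧ (Φ.HasTS m ↔ (Fintype.card F : ZMod r) ^ m = 1)) {t : ℕ} (ht : t * orderOf w = r - 1) :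
    Nat.card {C : ConjClasses Φ.isom // ∃ g, ConjClasses.mk g = C ∧ orderOf g = r} = (M + t).choose t - 1 := by
  obtain ⟨j, rfl⟩ : ∃ i, j = i + 1 := ⟨j - 1, by have := orderOf_pos w; omega⟩
  have r0 : (Fintype.card F : ZMod r) ≠ 0 := fun e => by simp [e] at hq
  obtain ⟨V₀, _, _, _, Φ₀, h1, h2, h3⟩ := orth_block hq
  refine card_ord ok hΦ h1 (h2.trans hj.symm) h3 M (fun k a b => (hM k).2 ?_) (fun k hk U _ _ _ Ψ g a b c d f => ?_) ht
  · rw [hj, hm, mul_assoc] at a b
    refine (Nat.lt_or_eq_of_le (Nat.le_of_mul_le_mul_left a two_pos)).imp_right fun e => ⟨e, ?_⟩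
    obtain ⟨g, k1, k2, k3⟩ := b (by rw [e])
    exact type_of_fpf hΦ ok.odd r0 hm k1 k2 k3
  rw [hj, mul_assoc] at b
  rcases (hM k).1 hk with l | ⟨l, e⟩
  · obtain ⟨s, rfl⟩ := Nat.exists_eq_add_of_lt l
    obtain ⟨x, y, hab⟩ := exists_aniso' F
    have nd := minusF_nondeg s (disc_ne_zero_of_aniso hab)
    have d1 : finrank F (U × (Fin (s + 1) ⊕ Fin (s + 1) → F)) = 2 * ((j + 1) * k + s + 1) := by rw [finrank_prod, b]; simp; ring
    have d2 : finrank F (U × ((Fin s ⊕ Fin s) ⊕ Fin 2 → F)) = 2 * ((j + 1) * k + s + 1) := by rw [finrank_prod, b]; simp; ring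
    by_cases c1 : (Ψ.prod (plusF F (s + 1))).HasTS ((j + 1) * k + s + 1) ↔ Φ.HasTS ((j + 1) * k + s + 1)
    · obtain ⟨e, he⟩ := even_iso (a.prod (plusF_nondeg _)) hΦ d1 hm c1
      exact exists_ext_one _ e (fun x => (he.mem_iff x).1) c d
    by_cases c2 : (Ψ.prod (minusF s x y)).HasTS ((j + 1) * k + s + 1) ↔ Φ.HasTS ((j + 1) * k + s + 1)
    · obtain ⟨e, he⟩ := even_iso (a.prod nd) hΦ d2 hm c2
      exact exists_ext_one _ e (fun x => (he.mem_iff x).1) c d
    obtain ⟨e, he⟩ := even_iso (a.prod (plusF_nondeg _)) (a.prod nd) d1 d2 (by tauto)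
    obtain ⟨e, he⟩ := prod_cancel a (plusF_nondeg _) he
    exact absurd (he.hasTS (plusF_hasTS _)) (minusF_not_hasTS _ hab)
  · subst l
    obtain ⟨e, he⟩ := even_iso (a.prod (plusF_nondeg 0)) hΦ (by rw [finrank_prod, b]; simp) hm (by
      rw [e, ← type_of_fpf a ok.odd r0 b c d f]
      exact (IsIso.hasTS_iff (e := (LinearEquiv.prodUnique (R := F)).symm) ⟨fun x y => by simp [prod_B, plusF_B], fun x => by
        simp [prod_Q, Cfsg.quadFormPlus]⟩).symm)
    exact exists_ext_one _ e (fun x => (he.mem_iff x).1) c d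
end Form

section order
variable {r : ℕ} [hr : Fact r.Prime] (r2 : r ≠ 2) (u : (ZMod r)ˣ)
include r2

theorem orderOf_neg_odd (h : Odd (orderOf u)) : orderOf (-u) = 2 * orderOf u := by
  have : Fact (2 < r) := ⟨lt_of_le_of_ne hr.out.two_le r2.symm⟩
  have e : orderOf (-1 : (ZMod r)ˣ) = 2 := orderOf_eq_prime (by simp) fun e => ZMod.neg_one_ne_one (congrArg Units.val e)
  rw [← neg_one_mul, (Commute.all _ _).orderOf_mul_eq_mul_orderOf_of_coprime (e ▸ h.coprime_two_left), e]

omit r2 in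
theorem pow_half {j : ℕ} (h : orderOf u = 2 * j) : u ^ j = -1 := by
  have := orderOf_pos u
  have e : (u ^ j).1 ^ 2 = 1 := by rw [← Units.val_pow_eq_pow_val, ← pow_mul, mul_comm, ← h, pow_orderOf_eq_one]; rfl
  exact Units.ext ((sq_eq_one_iff.1 e).resolve_left fun e => pow_ne_one_of_lt_orderOf (by omega) (by omega) (Units.ext e : u ^ j = 1))

omit r2 in
theorem orderOf_neg_even {j : ℕ} (h : orderOf u = 2 * j) : orderOf (-u) = if Odd j then j else 2 * j := by
  have := orderOf_pos u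
  rw [← neg_one_mul, ← pow_half u h, ← pow_succ, orderOf_pow, h]
  split_ifs with c
  · obtain ⟨k, rfl⟩ := c
    rw [show 2 * k + 1 + 1 = 2 * (k + 1) by ring, Nat.gcd_mul_left, show Nat.gcd (2 * k + 1) (k + 1) = 1 from by
      rw [show 2 * k + 1 = k + (k + 1) by ring, Nat.gcd_add_self_left]; simp, mul_one, Nat.mul_div_cancel_left _ two_pos]
  · rw [Nat.Coprime.gcd_eq_one, Nat.div_one]
    exact Nat.Coprime.mul_left (Nat.coprime_two_left.2 ((Nat.not_odd_iff_even.1 c).add_one)) (by simp)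

theorem exists_w {F : Type*} [Field F] [Fintype F] {κ : Kind F} (hσ : ∀ a, κ.σ a = a) (p : ℕ) [hp : Fact p.Prime] [CharP F p] (rp : r ≠ p)
    {i t : ℕ} (hi : i = orderOf (Fintype.card F : ZMod r)) (ht : t * i = r - 1) : ∃ (w : (ZMod r)ˣ) (j : ℕ), OrdOK κ w ∧ orderOf w = 2 * j ∧ 0 < j ∧
      (Fintype.card F : ZMod r) ^ (2 * j) = 1 ∧ if Odd i then j = i ∧ t / 2 * orderOf w = r - 1 ∧ 0 < t / 2 else
        2 * j = i ∧ t * orderOf w = r - 1 ∧ 0 < t ∧ ∀ k, (Fintype.card F : ZMod r) ^ (j * k) = 1 ↔ Even k := by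
  have r0 := cast_ne (F := F) p hr.out rp
  have i0 : 0 < i := hi ▸ ord_pos hr.out r0
  obtain ⟨u, hu⟩ : IsUnit (Fintype.card F : ZMod r) := (orderOf_pos_iff.1 (hi ▸ i0)).isUnit
  have o : orderOf u = i := by rw [hi, ← hu, orderOf_units]
  have q1 : (Fintype.card F : ZMod r) ^ i = 1 := hi ▸ pow_orderOf_eq_one _
  have r3 := hr.out.two_le
  have t0 : 0 < t := Nat.pos_of_ne_zero (by rintro rfl; omega)
  split_ifs with c
  · have e := orderOf_neg_odd r2 u (o ▸ c)
    obtain ⟨s, rfl⟩ : Even t := (Nat.even_mul.1 (ht ▸ hr.out.even_sub_one r2)).resolve_right (Nat.not_even_iff_odd.2 c)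
    exact ⟨-u, i, ⟨r2, r0, p, 0, hp.out, ‹_›, by simpa using hσ, .inr (.inr (by simp [hu]))⟩, by rw [e, o], i0, by rw [mul_comm, pow_mul, q1, one_pow], rfl,
      by rw [e, o, ← ht, show (s + s) / 2 = s by omega]; ring, by omega⟩
  · obtain ⟨j, rfl⟩ := (Nat.not_odd_iff_even.1 c).two_dvd
    refine ⟨u, j, ⟨r2, r0, p, 0, hp.out, ‹_›, by simpa using hσ, .inl hu⟩, o, by omega, q1, rfl, by rw [o, ht], t0, fun k => ?_⟩
    have : Fact (2 < r) := ⟨lt_of_le_of_ne r3 r2.symm⟩
    rw [pow_mul, ← hu, ← Units.val_pow_eq_pow_val, pow_half u o, Units.val_neg, Units.val_one, neg_one_pow_eq_one_iff_even ZMod.neg_one_ne_one]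
end order

end H5
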