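import Cfsg.Agent.H5.Ord
import Cfsg.Agent.S2637
/-! Classes of elements of prime order `r` in `PGL_n(q)` (`r ∣ q - 1`) and `PGU_n(q)` (`r ∣ q + 1`): `card_proj`. -/
set_option autoImplicit false
namespace H5
open Module Polynomial Matrix

section orbits
variable (r n : ℕ) [hr : Fact r.Prime]

/-- Non-constant multisets of exponents. -/
def NC : Type := {E : Multiset (ZMod r) // E.card = n ∧ ∀ a, E ≠ .replicate n a}

instance : AddAction (ZMod r) (NC r n) where
  vadd a E := ⟨E.1.map (a + ·), by simp [E.2.1], fun b h => E.2.2 (b - a) (by simpa [sub_eq_add_neg, add_comm] using congrArg (Multiset.map (-a + ·)) h)⟩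
  zero_vadd E := Subtype.ext (by change Multiset.map _ _ = _; simp)
  add_vadd a b E := Subtype.ext (by change Multiset.map _ _ = Multiset.map _ (Multiset.map _ _); simp [add_assoc])

theorem NC.vadd_val (a : ZMod r) (E : NC r n) : (a +ᵥ E).1 = E.1.map (a + ·) := rfl

instance : Finite (NC r n) := Finite.of_injective (β := Sym (ZMod r) n) (fun E => ⟨E.1, E.2.1⟩) fun _ _ h =>
  Subtype.ext (congrArg (fun s : Sym (ZMod r) n => s.1) h)

theorem card_NC (hn : 0 < n) : Nat.card (NC r n) = (n + r - 1).choose (r - 1) - r := by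
  classical
  have e : NC r n ≃ {s : Sym (ZMod r) n // s ∉ Set.range (Sym.replicate n)} :=
    ⟨fun E => ⟨⟨E.1, E.2.1⟩, fun ⟨a, h⟩ => E.2.2 a (congrArg Subtype.val h).symm⟩, fun s => ⟨s.1.1, s.1.2, fun a h => s.2 ⟨a, Subtype.ext h.symm⟩⟩,
      fun _ => rfl, fun _ => rfl⟩
  rw [Nat.card_congr e, Nat.card_eq_fintype_card, Fintype.card_subtype_compl, Set.card_range_of_injective (Sym.replicate_right_injective hn.ne'),
    Sym.card_sym_eq_choose, ZMod.card, add_comm n, Nat.choose_symm_of_eq_add (b := r - 1) (by have := hr.out.pos; omega)]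

theorem card_fixedBy {a : ZMod r} (ha : a ≠ 0) (hn : 0 < n) : Nat.card (AddAction.fixedBy (NC r n) a) = if r ∣ n then 1 else 0 := by
  classical
  have k : ∀ E ∈ AddAction.fixedBy (NC r n) a, E.1 = E.1.count 0 • Finset.univ.val := fun E h => Multiset.ext.2 fun x => by
    have h1 : ∀ (m : ℕ), E.1.count (m * a) = E.1.count 0 := fun m => by
      induction m with
      | zero => simp
      | succ m ih =>
        rw [← ih, Nat.cast_succ, add_mul, one_mul, add_comm]
        conv_lhs => rw [← congrArg Subtype.val (show a +ᵥ E = E from h)]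
        exact Multiset.count_map_eq_count' _ _ (add_right_injective a) _
    simpa [ha] using h1 (x / a).val
  have c : ∀ E ∈ AddAction.fixedBy (NC r n) a, E.1.count 0 * r = n := fun E h => by
    simpa [E.2.1] using (congrArg Multiset.card (k E h)).symm
  split_ifs with d
  · obtain ⟨m, rfl⟩ := d
    have m0 : m ≠ 0 := by rintro rfl; simp at hn
    refine Nat.card_eq_one_iff_unique.2 ⟨⟨fun E E' => Subtype.ext (Subtype.ext ?_)⟩, ⟨⟨⟨m • Finset.univ.val, by simp [mul_comm], fun b h => ?_⟩,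
      Subtype.ext ?_⟩⟩⟩
    · rw [k _ E.2, k _ E'.2, Nat.eq_of_mul_eq_mul_right hr.out.pos ((c _ E.2).trans (c _ E'.2).symm)]
    · simpa [Multiset.count_replicate, m0] using congrArg (Multiset.count (b + 1)) h
    · exact (Multiset.map_nsmul _ _ _).trans (congrArg _ (congrArg Finset.val (Finset.map_univ_equiv (Equiv.addLeft a))))
  · exact Nat.card_eq_zero.2 (.inl ⟨fun E => d ⟨_, (c _ E.2).symm.trans (mul_comm _ _)⟩⟩)

theorem card_orbits (hn : 0 < n) : Nat.card (Quotient (AddAction.orbitRel (ZMod r) (NC r n))) =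
    ((n + r - 1).choose (r - 1) - r - if r ∣ n then 1 else 0) / r + if r ∣ n then 1 else 0 := by
  classical
  have := Fintype.ofFinite (NC r n)
  have h := AddAction.sum_card_fixedBy_eq_card_orbits_mul_card_addGroup (ZMod r) (NC r n)
  simp only [← Nat.card_eq_fintype_card] at h
  rw [← Finset.add_sum_erase _ _ (Finset.mem_univ 0), Finset.sum_congr rfl fun a ha => card_fixedBy r n (Finset.ne_of_mem_erase ha) hn,
    AddAction.fixedBy_zero_eq_univ, Nat.card_univ, card_NC r n hn, Finset.sum_const, Finset.card_erase_of_mem (Finset.mem_univ _),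
    Finset.card_univ, ZMod.card, Nat.card_zmod] at h
  have r2 := hr.out.two_le
  generalize Nat.card (Quotient _) = o at h ⊢
  generalize (n + r - 1).choose (r - 1) - r = A at h ⊢
  split_ifs at h ⊢
  · obtain _ | o := o
    · simp at h; omega
    · rw [show A - 1 = o * r by rw [smul_eq_mul, add_mul] at h; omega, Nat.mul_div_cancel _ (by omega)]
  · rw [show A - 0 = o * r by simpa using h, Nat.mul_div_cancel _ (by omega), add_zero]
end orbits

theorem isConj_mk_center {G : Type*} [Group G] {g h : G} :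
    IsConj (g : G ⧸ Subgroup.center G) h ↔ ∃ z ∈ Subgroup.center G, IsConj g (h * z) := by
  refine ⟨fun e => ?_, fun ⟨z, hz, e⟩ => ?_⟩
  · obtain ⟨c, e⟩ := isConj_iff.1 e
    obtain ⟨c, rfl⟩ := QuotientGroup.mk_surjective c
    exact ⟨_, QuotientGroup.eq.1 (e.symm : (h : G ⧸ Subgroup.center G) = (c * g * c⁻¹ : G)), isConj_iff.2 ⟨c, by simp⟩⟩
  · simpa [(QuotientGroup.eq_one_iff z).2 hz] using (QuotientGroup.mk' (Subgroup.center G)).map_isConj e

variable {K : Type*} [Field K] {n : ℕ}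

theorem ev_smul (c : K) (A : Matrix (Fin n) (Fin n) K) : ev (toLin' (A * c • 1)) = (ev (toLin' A)).map (algebraMap K _ c * ·) := by
  have := ev_aeval (toLin' A) (C c * X)
  simp only [map_mul, aeval_C, aeval_X] at this
  rw [← this, ← Algebra.smul_def, mul_smul_comm, mul_one, map_smul]

theorem ev_diagonal (d : Fin n → K) : ev (toLin' (diagonal d)) = Finset.univ.val.map fun i => algebraMap K _ (d i) := by
  rw [ev, charpoly_toLin', aroots_def, ← charpoly_map, diagonal_map (map_zero _), charpoly_diagonal, ← roots_multiset_prod_X_sub_C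
    (Finset.univ.val.map _), Multiset.map_map]; rfl

theorem isConj_of_ev [Finite K] {A B : Matrix (Fin n) (Fin n) K} {r : ℕ} (r0 : (r : K) ≠ 0) (hA : A ^ r = 1) (hB : B ^ r = 1)
    (h : ev (toLin' A) = ev (toLin' B)) : IsConj A B := isConj_of_charpoly (semisimple_of_pow r0 hA) (semisimple_of_pow r0 hB) (by
  rw [← charpoly_toLin', ← charpoly_toLin']; exact aroots_inj (LinearMap.charpoly_monic _) (LinearMap.charpoly_monic _) h)

theorem exists_root_scalar {r : ℕ} (h : r ∣ n) (c : K) : ∃ A : Matrix (Fin n) (Fin n) K, A ^ r = c • 1 := by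
  obtain ⟨m, rfl⟩ := h
  obtain rfl | r0 := r.eq_zero_or_pos
  · exact ⟨0, by have : IsEmpty (Fin (0 * m)) := by simpa using Fin.isEmpty'
                 exact Subsingleton.elim _ _⟩
  obtain ⟨A, h, -⟩ := exists_companion (monic_X_pow_sub_C c r0.ne') natDegree_X_pow_sub_C
  refine ⟨reindexAlgEquiv K K finProdFinEquiv (blockDiagonal fun _ => A), ?_⟩
  rw [← map_pow, ← blockDiagonal_pow, show (fun _ : Fin m => A) ^ r = c • 1 from funext fun _ => pow_of_dvd h.dvd, blockDiagonal_smul,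
    blockDiagonal_one, map_smul, map_one]

theorem card_proj [Finite K] {G : Type*} [Group G] (φ : G →* Matrix (Fin n) (Fin n) K) {r N : ℕ} (hr : r.Prime) (hn : 0 < n) {γ : K}
    (hγ : orderOf γ = r * N) (hN : 0 < N) (hZ : ∀ g, g ∈ Subgroup.center G ↔ ∃ k : ℕ, φ g = γ ^ k • 1)
    (hC : ∀ g h, IsConj (φ g) (φ h) → IsConj g h) (hD : ∀ d : Fin n → ℕ, ∃ g, φ g = diagonal fun i => γ ^ d i)
    (hP : ∀ (b : K) j, b ^ r = γ ^ j → r ∣ j) (hE : ∀ (A : Matrix (Fin n) (Fin n) K) j, A ^ r = γ ^ j • 1 → ¬ r ∣ j → ∃ g, IsConj A (φ g)) :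
    Nat.card {C : ConjClasses (G ⧸ Subgroup.center G) // ∃ g, ConjClasses.mk g = C ∧ orderOf g = r} =
      ((n + r - 1).choose (r - 1) - r - if r ∣ n then 1 else 0) / r + r * if r ∣ n then 1 else 0 := by
  have := Fact.mk hr
  have : Nonempty (Fin n) := ⟨⟨0, hn⟩⟩
  have pγ : IsPrimitiveRoot γ (r * N) := hγ ▸ IsPrimitiveRoot.orderOf γ
  have pζ := (pγ.pow (Nat.mul_pos hr.pos hN) (mul_comm _ _))
  have r0 : (r : K) ≠ 0 := (pζ.neZero' (n := r)).out
  have pζ' := pζ.map_of_injective (algebraMap K (AlgebraicClosure K)).injective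
  let ψ := AddChar.zmodChar r pζ'.pow_eq_one
  have hψ : ∀ j : ZMod r, ψ j = algebraMap K _ (γ ^ (N * j.val)) := fun j => by rw [pow_mul, map_pow]; rfl
  have inj : Function.Injective ψ := fun a b e => ZMod.val_injective r (pζ'.pow_inj a.val_lt b.val_lt e)
  have si : ∀ {a b : K}, a • (1 : Matrix (Fin n) (Fin n) K) = b • 1 → a = b := fun h => smul_left_injective K one_ne_zero h
  have sc : ∀ k, ∃ z ∈ Subgroup.center G, φ z = γ ^ k • 1 := fun k => by
    obtain ⟨g, hg⟩ := hD fun _ => k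
    rw [← smul_one_eq_diagonal] at hg
    exact ⟨g, (hZ g).2 ⟨k, hg⟩, hg⟩
  have pw : ∀ {g h z : G} {j j' k : ℕ}, IsConj g (h * z) → φ z = γ ^ k • 1 → φ g ^ r = γ ^ j • 1 → φ h ^ r = γ ^ j' • 1 →
      γ ^ j = γ ^ (j' + k * r) := fun e h1 h2 h3 => by
    obtain ⟨c, hc⟩ := (φ.map_isConj e).pow r
    rw [h2, map_mul, h1, mul_smul_comm, mul_one, _root_.smul_pow, h3, smul_smul, ← pow_mul, ← pow_add, add_comm] at hc
    exact si (c.mul_right_inj.1 (by simpa using hc.eq))
  have md : ∀ {a b k : ℕ}, γ ^ a = γ ^ (b + k * r) → a % r = b % r := fun h => by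
    have := ((orderOf_pos_iff.1 (hγ ▸ Nat.mul_pos hr.pos hN)).pow_eq_pow_iff_modEq.1 h).of_dvd (show r ∣ _ from ⟨N, hγ⟩)
    simpa [Nat.ModEq] using this
  have cX : Nat.card {j : Fin r // j.1 ≠ 0 ∧ r ∣ n} = (r - 1) * if r ∣ n then 1 else 0 := by
    split_ifs with d
    · simp only [d, and_true, Nat.card_eq_fintype_card, mul_one]
      rw [Fintype.card_subtype_compl (fun j : Fin r => j.1 = 0), Fintype.card_fin]
      congr 1
      exact Fintype.card_eq_one_iff.2 ⟨⟨⟨0, hr.pos⟩, rfl⟩, fun y => Subtype.ext (Fin.ext y.2)⟩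
    · simp [d]
  refine (card_classes (X := Quotient (AddAction.orbitRel (ZMod r) (NC r n)) ⊕ {j : Fin r // j.1 ≠ 0 ∧ r ∣ n}) (fun (x : G ⧸ Subgroup.center G) y => ∃ g : G, g = x ∧
    y.elim (fun o => φ g ^ r = γ ^ 0 • 1 ∧ ∃ E : NC r n, ⟦E⟧ = o ∧ ev (toLin' (φ g)) = E.1.map ψ) fun j => φ g ^ r = γ ^ j.1.1 • 1)
    (fun x => ⟨fun h => ?_, ?_⟩) ?_ ?_).trans ?_
  · obtain ⟨g, rfl⟩ := QuotientGroup.mk_surjective x
    obtain ⟨j, hj⟩ := (hZ (g ^ r)).1 ((QuotientGroup.eq_one_iff _).1 (h ▸ pow_orderOf_eq_one (g : G ⧸ Subgroup.center G)))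
    obtain ⟨z, hz, e⟩ := sc (j / r)
    obtain ⟨g, rfl⟩ : ∃ g', g = g' * z := ⟨g * z⁻¹, by simp⟩
    have γ0 : γ ≠ 0 := pγ.ne_zero (Nat.mul_pos hr.pos hN).ne'
    have e2 : φ g ^ r = γ ^ (j % r) • 1 := smul_right_injective _ (pow_ne_zero (j / r * r) γ0) (by
      rw [map_pow, map_mul, e, mul_smul_comm, mul_one, _root_.smul_pow, ← pow_mul] at hj
      simp only [hj, smul_smul, ← pow_add, Nat.div_add_mod'])
    have e3 : ((g * z : G) : G ⧸ Subgroup.center G) = g := by simp [(QuotientGroup.eq_one_iff z).2 hz]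
    rw [e3] at h ⊢
    by_cases j0 : j % r = 0
    · rw [j0] at e2
      have e4 : toLin' (φ g) ^ r = 1 := by rw [← toLin'_pow, e2]; simp [End.one_eq_id]
      choose l hl using fun x (hx : x ^ r = 1) => pζ'.eq_pow_of_pow_eq_one hx
      obtain ⟨E, hE⟩ : ∃ E : Multiset (ZMod r), ev (toLin' (φ g)) = E.map ψ :=
        ⟨(ev _).pmap (fun x hx => (l x hx : ZMod r)) fun x hx => pow_of_mem_ev e4 hx, by
          simp [Multiset.map_pmap, ψ, AddChar.zmodChar_apply', -map_pow, (hl _ _).2, Multiset.pmap_eq_map]⟩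
      refine ⟨.inl _, g, rfl, e2, ⟨E, by simpa [card_ev] using (congrArg Multiset.card hE).symm, fun a ha => ?_⟩, rfl, hE⟩
      obtain ⟨c, hc⟩ := isConj_of_ev r0 (B := 1 * γ ^ (N * a.val) • 1) (by simpa using e2) (by
        simp [_root_.smul_pow, ← pow_mul, mul_right_comm N, pow_mul γ (N * r), mul_comm N r ▸ pγ.pow_eq_one]) (by
        rw [hE, ha, ev_smul, toLin'_one, ← End.one_eq_id, ev_one]; simp [hψ])
      rw [(QuotientGroup.eq_one_iff g).2 ((hZ g).2 ⟨_, c.mul_right_inj.1 (by simpa using hc.eq)⟩), orderOf_one] at h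
      exact hr.ne_one h.symm
    · refine ⟨.inr ⟨⟨j % r, Nat.mod_lt _ hr.pos⟩, j0, ?_⟩, g, rfl, e2⟩
      have := congrArg det e2
      rw [det_pow, det_smul, det_one, mul_one, ← pow_mul, Fintype.card_fin] at this
      exact (hr.dvd_mul.1 (hP _ _ this)).resolve_left (Nat.not_dvd_of_pos_of_lt (Nat.pos_of_ne_zero j0) (Nat.mod_lt _ hr.pos))
  · rintro ⟨y, g, rfl, h⟩
    obtain ⟨j, hj⟩ : ∃ j, φ g ^ r = γ ^ j • 1 := by rcases y with o | j; exacts [⟨_, h.1⟩, ⟨_, h⟩]
    refine orderOf_eq_prime ((QuotientGroup.eq_one_iff (g ^ r)).2 ((hZ _).2 ⟨j, by rw [map_pow, hj]⟩)) fun e => ?_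
    obtain ⟨k, hk⟩ := (hZ g).1 ((QuotientGroup.eq_one_iff g).1 e)
    rcases y with o | j
    · obtain ⟨-, E, -, h⟩ := h
      rw [hk, ← one_mul (_ • _), ev_smul, toLin'_one, ← End.one_eq_id, ev_one, Multiset.map_replicate] at h
      obtain ⟨a, ha⟩ := Multiset.card_pos_iff_exists_mem.1 (E.2.1.symm ▸ hn)
      exact E.2.2 a (Multiset.eq_replicate.2 ⟨E.2.1, fun b hb => inj ((Multiset.eq_of_mem_replicate (h ▸ Multiset.mem_map_of_mem ψ hb)).trans
        (Multiset.eq_of_mem_replicate (h ▸ Multiset.mem_map_of_mem ψ ha)).symm)⟩)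
    · simp only [Sum.elim_inr, hk, _root_.smul_pow, one_pow] at h
      exact Nat.not_dvd_of_pos_of_lt (Nat.pos_of_ne_zero j.2.1) j.1.2 (hP _ _ (si h))
  · rintro (o | j)
    · obtain ⟨E, rfl⟩ := Quotient.exists_rep o
      obtain ⟨d, hd⟩ := exists_enum E.1 E.2.1
      obtain ⟨g, hg⟩ := hD fun i => N * (d i).val
      refine ⟨g, g, rfl, ?_, E, rfl, by rw [hg, ev_diagonal, ← hd, Multiset.map_map]; simp only [Function.comp_def, hψ]⟩
      rw [hg, diagonal_pow, pow_zero, one_smul, ← diagonal_one]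
      congr 1; ext i
      simp [← pow_mul, mul_right_comm N, pow_mul γ (N * r), mul_comm N r ▸ pγ.pow_eq_one]
    · obtain ⟨A, hA⟩ := exists_root_scalar j.2.2 (γ ^ j.1.1)
      obtain ⟨g, hg⟩ := hE A _ hA (Nat.not_dvd_of_pos_of_lt (Nat.pos_of_ne_zero j.2.1) j.1.2)
      obtain ⟨c, hc⟩ := hg.pow r
      exact ⟨g, g, rfl, c.mul_left_inj.1 (by simpa [hA] using hc.eq.symm)⟩
  · rintro _ _ (o | j) (o' | j') ⟨g, rfl, h⟩ ⟨g', rfl, h'⟩ <;> rw [isConj_mk_center]
    · obtain ⟨h1, E, rfl, h⟩ := h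
      obtain ⟨h1', E', rfl, h'⟩ := h'
      rw [Sum.inl.injEq, Quotient.eq, AddAction.orbitRel_apply]
      have ek : ∀ {z} (a : ZMod r), φ z = γ ^ (N * a.val) • 1 → ev (toLin' (φ (g' * z))) = (a +ᵥ E').1.map ψ := fun a hz => by
        rw [map_mul, hz, ev_smul, h', NC.vadd_val, Multiset.map_map, Multiset.map_map, ← hψ]
        simp [AddChar.map_add_eq_mul]
      refine ⟨fun ⟨z, hz, e⟩ => ?_, fun ⟨a, ha⟩ => ?_⟩
      · obtain ⟨k, hk⟩ := (hZ z).1 hz
        obtain ⟨i, hi, e2⟩ := pζ.eq_pow_of_pow_eq_one (ξ := γ ^ k) (by simpa [pow_mul] using (pw e hk h1 h1').symm)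
        refine ⟨i, Subtype.ext (Multiset.map_injective inj ?_)⟩
        rw [← h, ← ek i (by rw [hk, ZMod.val_cast_of_lt hi, pow_mul, e2]), ev, ev, charpoly_toLin', charpoly_toLin',
          IsConj.charpoly (φ.map_isConj e)]
      · obtain ⟨z, hz, e⟩ := sc (N * a.val)
        refine ⟨z, hz, hC _ _ (isConj_of_ev r0 (by simpa using h1) ?_ (by rw [ek a e, h, ← ha]))⟩
        simp [e, _root_.smul_pow, h1', ← pow_mul, mul_right_comm N, pow_mul γ (N * r), mul_comm N r ▸ pγ.pow_eq_one]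
    · refine iff_of_false (fun ⟨z, hz, e⟩ => j'.2.1 ?_) (by simp)
      obtain ⟨k, hk⟩ := (hZ z).1 hz
      simpa [Nat.mod_eq_of_lt j'.1.2] using (md (pw e hk h.1 h')).symm
    · refine iff_of_false (fun ⟨z, hz, e⟩ => j.2.1 ?_) (by simp)
      obtain ⟨k, hk⟩ := (hZ z).1 hz
      simpa [Nat.mod_eq_of_lt j.1.2] using md (pw e hk h h'.1)
    · refine ⟨fun ⟨z, hz, e⟩ => ?_, fun e => ⟨1, one_mem _, ?_⟩⟩
      · obtain ⟨k, hk⟩ := (hZ z).1 hz
        exact congrArg _ (Subtype.ext (Fin.ext (by simpa [Nat.mod_eq_of_lt j.1.2, Nat.mod_eq_of_lt j'.1.2] using md (pw e hk h h'))))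
      · cases e
        rw [mul_one]
        exact hC _ _ (Cfsg.Agent.S2637.isConj_of_irr (X_pow_sub_C_irreducible_of_prime hr fun b hb => Nat.not_dvd_of_pos_of_lt
          (Nat.pos_of_ne_zero j.2.1) j.1.2 (hP b _ hb)) (by rw [map_sub, map_pow, aeval_X, aeval_C, Algebra.algebraMap_eq_smul_one, sub_eq_zero]; exact h)
          (by rw [map_sub, map_pow, aeval_X, aeval_C, Algebra.algebraMap_eq_smul_one, sub_eq_zero]; exact h'))
  · rw [Nat.card_sum, card_orbits r n hn, cX, add_assoc, ← one_add_mul, Nat.add_sub_cancel' hr.one_lt.le]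

theorem card_pgl [Fintype K] {r : ℕ} (hr : r.Prime) (hn : 0 < n) (h : r ∣ Fintype.card K - 1) :
    Nat.card {C : ConjClasses (GL (Fin n) K ⧸ Subgroup.center (GL (Fin n) K)) // ∃ g, ConjClasses.mk g = C ∧ orderOf g = r} =
      ((n + r - 1).choose (r - 1) - r - if r ∣ n then 1 else 0) / r + r * if r ∣ n then 1 else 0 := by
  obtain ⟨γ, hγ⟩ := IsCyclic.exists_monoid_generator (α := Kˣ)
  obtain ⟨N, hN⟩ := h
  have o : orderOf γ.1 = r * N := by
    rw [orderOf_units, orderOf_eq_card_of_forall_mem_powers hγ, Nat.card_units, Nat.card_eq_fintype_card, hN]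
  have N0 : 0 < N := Nat.pos_of_mul_pos_left (o ▸ orderOf_units (y := γ) ▸ orderOf_pos γ)
  refine card_proj (Units.coeHom _) hr hn o N0 (fun g => ?_) (fun g h => isConj_GL.2) (fun d => ⟨GeneralLinearGroup.mkOfDetNeZero _ ?_, rfl⟩)
    (fun b j e => ?_) fun A j e _ => ⟨GeneralLinearGroup.mkOfDetNeZero A fun d => ?_, .refl _⟩
  · rw [GeneralLinearGroup.center_eq_range_scalar]
    refine ⟨?_, fun ⟨k, e⟩ => ⟨γ ^ k, Units.ext (by simpa [smul_one_eq_diagonal, diagonal_pow, Pi.pow_def] using e.symm)⟩⟩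
    rintro ⟨c, rfl⟩
    obtain ⟨k, rfl⟩ := hγ c
    exact ⟨k, by simp [smul_one_eq_diagonal, diagonal_pow]⟩
  · change (diagonal fun i => γ.1 ^ d i).det ≠ 0
    simp [Finset.prod_ne_zero_iff]
  · obtain ⟨k, hk⟩ := hγ (.mk0 b (by rintro rfl; simpa [hr.ne_zero] using e.symm))
    have : γ ^ (k * r) = γ ^ j := Units.ext (by simpa [pow_mul, show γ.1 ^ k = b from congrArg Units.val hk] using e)
    have := (pow_eq_pow_iff_modEq.1 this).of_dvd (show r ∣ _ from ⟨N, orderOf_units.symm.trans o⟩)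
    exact (this.dvd_iff dvd_rfl).1 (Dvd.intro_left _ rfl)
  · simpa [d, hr.ne_zero] using (congrArg det e).symm

theorem card_pgu [Fintype K] {q r : ℕ} (hK : Fintype.card K = q ^ 2) (hr : r.Prime) (r2 : r ≠ 2) (hn : 2 ≤ n) (h : r ∣ q + 1) :
    Nat.card {C : ConjClasses (Cfsg.GU n K q ⧸ Subgroup.center (Cfsg.GU n K q)) // ∃ g, ConjClasses.mk g = C ∧ orderOf g = r} =
      ((n + r - 1).choose (r - 1) - r - if r ∣ n then 1 else 0) / r + r * if r ∣ n then 1 else 0 := by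
  obtain ⟨γ, g1, o⟩ := exists_norm_one_gen hK
  obtain ⟨N, hN⟩ := h
  have q2 := two_le_of_card_sq hK
  have pγ : IsPrimitiveRoot γ.1 (q + 1) := o ▸ orderOf_units (y := γ) ▸ IsPrimitiveRoot.orderOf γ.1
  have nk : ∀ k, γ.1 ^ k * conj hK (γ.1 ^ k) = 1 := fun k => by rw [map_pow, ← mul_pow, g1, one_pow]
  have : Nontrivial (Fin n → K) := nontrivial_of_finrank_pos (R := K) (by simp; omega)
  have hP : ∀ (b : K) j, b ^ r = γ.1 ^ j → r ∣ j := fun b j e => by
    have b0 : b ≠ 0 := by rintro rfl; simpa [hr.ne_zero] using e.symm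
    obtain ⟨k, -, hk⟩ := pγ.eq_pow_of_pow_eq_one (ξ := b ^ (q - 1)) (by
      rw [← pow_mul, mul_comm, ← card_sq_sub_one hK, FiniteField.pow_card_sub_one_eq_one b b0])
    have : γ ^ (k * r) = γ ^ (j * (q - 1)) := Units.ext (by simp only [Units.val_pow_eq_pow_val, pow_mul, hk, ← e]; rw [← pow_mul, mul_comm, pow_mul])
    have := (pow_eq_pow_iff_modEq.1 this).of_dvd (show r ∣ _ from ⟨N, o.trans hN⟩)
    refine (hr.dvd_mul.1 ((this.dvd_iff dvd_rfl).1 (Dvd.intro_left _ rfl))).resolve_right fun d => r2 ?_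
    refine (Nat.prime_dvd_prime_iff_eq hr Nat.prime_two).1 ?_
    rw [show 2 = q + 1 - (q - 1) by omega]
    exact Nat.dvd_sub ⟨N, hN⟩ d
  refine card_proj ((Units.coeHom _).comp (Cfsg.GU n K q).subtype) hr (by omega) (orderOf_units.trans (o.trans hN)) (by nlinarith) (fun g => ?_)
    (fun g h => (gu_conj_iff hK g h).2) (fun d => ⟨⟨GeneralLinearGroup.mkOfDetNeZero (diagonal fun i => γ.1 ^ d i)
      (by simp [Finset.prod_ne_zero_iff]), fun u v => ?_⟩, rfl⟩) hP fun A j e hj => ?_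
  · rw [mem_center_congr (guEquiv n hK), Form.mem_center_iff_scalar fun g _ hg => Form.unit_center (hermF_nondeg n hK) (by simpa using hn)
      fun t ht => hg t ht.1]
    refine ⟨fun ⟨c, hc⟩ => ?_, fun ⟨k, hk⟩ => ⟨γ ^ k, LinearEquiv.ext fun x => ?_⟩⟩
    · have := (Form.scal_mem_iff (hermF_nondeg n hK)).1 (hc ▸ (guEquiv n hK g).2)
      obtain ⟨k, -, hk⟩ := pγ.eq_pow_of_pow_eq_one ((norm_eq_pow hK _).symm.trans this)
      exact ⟨k, matrix_ext_mulVec fun x => (LinearEquiv.congr_fun hc x).trans (by simp [hk, smul_mulVec])⟩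
    · change g.1.1 *ᵥ x = _
      rw [show g.1.1 = _ from hk, scal_apply]; simp [smul_mulVec]
  · refine Finset.sum_congr rfl fun i _ => ?_
    change (diagonal _ *ᵥ u) i * (diagonal _ *ᵥ v) i ^ q = _
    rw [mulVec_diagonal, mulVec_diagonal, mul_pow, mul_mul_mul_comm, ← conj_apply hK, nk, one_mul]
  · have d : A.det ≠ 0 := fun d => by simpa [d, hr.ne_zero] using (congrArg det e).symm
    obtain ⟨B, hB⟩ := exists_gu hK (A := .mkOfDetNeZero A d) (Cfsg.Agent.S2637.isConj_of_irr (X_pow_sub_C_irreducible_of_prime hr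
      fun b hb => hj (hP b _ hb)) (by rw [map_sub, map_pow, aeval_X, aeval_C, Algebra.algebraMap_eq_smul_one, sub_eq_zero]; exact e) (by
        rw [map_sub, map_pow, aeval_X, aeval_C, Algebra.algebraMap_eq_smul_one, sub_eq_zero, inv_pow', ← transpose_pow]
        refine inv_eq_right_inv ?_
        change ((conj hK).mapMatrix A ^ r)ᵀ * _ = 1
        rw [← map_pow, e, RingHom.mapMatrix_apply, smul_one_eq_diagonal, diagonal_map (map_zero _), diagonal_transpose, diagonal_mul_diagonal]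
        simp only [mul_comm (conj hK _), nk, diagonal_one]))
    exact ⟨B, hB⟩

end H5
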