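import Cfsg.Agent.H5.Dc3
import Cfsg.Agent.H5.Geo
/-! Totally singular subspaces fixed by semisimple isometries of prime order. -/
set_option autoImplicit false
namespace H5
open Module Pointwise Matrix

universe u
variable {F : Type u} [Field F] {κ : Kind F} {V : Type u} [AddCommGroup V] [Module F V] [FiniteDimensional F V] {Φ : Form κ V} {r c i m : ℕ}
  {g : V ≃ₗ[F] V} {z : Fˣ} {W D U C : Submodule F V}

theorem ev_sumAut (h : IsCompl W D) (a : W ≃ₗ[F] W) (b : D ≃ₗ[F] D) : ev (sumAut h (a, b) : End F V) = ev (a : End F W) + ev (b : End F D) := by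
  rw [← ev_prod]; exact (ev_congr (W.prodEquivOfIsCompl D h) fun x => by simp [sumAut_apply]).symm

theorem ev_add_le (r0 : (r : F) ≠ 0) (e : g ^ r = scal V z) (d : Disjoint W D) (i : ∀ v ∈ W, g v ∈ W) (j : ∀ v ∈ D, g v ∈ D) :
    ev (resAut g W i : End F W) + ev (resAut g D j : End F D) ≤ ev (g : End F V) := by
  obtain ⟨C, c1, c2⟩ := exists_inv_compl r0 e (sup_inv i j)
  have := Submodule.finrank_add_eq_of_isCompl c1
  rw [finrank_sup_disj d] at this
  let φ := (W.subtype.coprod D.subtype).coprod C.subtype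
  have h : finrank F ((W × D) × C) = finrank F V := by simpa
  have s : Function.Surjective φ := LinearMap.range_eq_top.1 (by simp [φ, LinearMap.range_coprod, c1.sup_eq_top])
  rw [← ev_congr (a := ((resAut g W i : End F W).prodMap (resAut g D j : End F D)).prodMap (resAut g C c2 : End F C))
    (.ofBijective φ ⟨(LinearMap.injective_iff_surjective_of_finrank_eq_finrank h).2 s, s⟩) fun x => show φ _ = g (φ x) by simp [φ], ev_prod, ev_prod]
  exact le_self_add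

namespace Form
theorem card_ts_mod [Fintype F] (D : ℕ) (hS : ∀ (V : Type u) [AddCommGroup V] [Module F V] [FiniteDimensional F V] (Φ : Form κ V), Φ.Nondeg → D ≤ finrank F V →
    (Φ.numSing : F) = 0) (k : ℕ) : ∀ {V : Type u} [AddCommGroup V] [Module F V] [FiniteDimensional F V] {Φ : Form κ V}, Φ.Nondeg → 2 * k + D ≤ finrank F V + 2 →
    (Nat.card {T : Submodule F V // finrank F T = k ∧ Φ.TS T} : F) = 1 := by
  induction k with
  | zero =>
    intro V _ _ _ Φ _ _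
    rw [Nat.card_eq_one_iff_unique.2 ⟨⟨fun a b => Subtype.ext ((Submodule.finrank_eq_zero.1 a.2.1).trans (Submodule.finrank_eq_zero.1 b.2.1).symm)⟩,
      ⟨⊥, finrank_bot .., ts_bot⟩⟩, Nat.cast_one]
  | succ k ih =>
    intro V _ _ _ Φ n h
    haveI : Finite V := finite_of_fd (F := F)
    haveI : Finite (Submodule F V) := .of_injective _ SetLike.coe_injective
    haveI := Fintype.ofFinite {L : Submodule F V // finrank F L = 1 ∧ Φ.TS L}
    haveI := Fintype.ofFinite {T : Submodule F V // finrank F T = k + 1 ∧ Φ.TS T}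
    have q : ((Fintype.card F - 1 : ℕ) : F) = -1 := by simp [Nat.cast_sub Fintype.card_pos]
    have := congrArg (Nat.cast : ℕ → F) (Nat.card_congr (α := Σ L : {L : Submodule F V // finrank F L = 1 ∧ Φ.TS L},
      {W : Submodule F V // finrank F W = finrank F L.1 + k ∧ Φ.TS W ∧ L.1 ≤ W}) (β := Σ T : {T : Submodule F V // finrank F T = k + 1 ∧ Φ.TS T},
      {L : Submodule F V // finrank F L = 1 ∧ L ≤ T.1}) ⟨fun x => ⟨⟨x.2, by rw [x.2.2.1, x.1.2.1, add_comm], x.2.2.2.1⟩, x.1, x.1.2.1, x.2.2.2.2⟩,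
        fun x => ⟨⟨x.2, x.2.2.1, x.1.2.2.mono x.2.2.2⟩, x.1, x.1.2.1.trans (by rw [x.2.2.1, add_comm]), x.1.2.2, x.2.2.2⟩, fun _ => rfl, fun _ => rfl⟩)
    rw [Nat.card_sigma, Nat.card_sigma, Nat.cast_sum, Nat.cast_sum] at this
    replace this := (Finset.sum_congr rfl (f := fun _ => 1) fun L _ => Eq.symm ?_).trans (this.trans (Finset.sum_congr rfl (g := fun _ => 1) fun T _ => ?_))
    rotate_left; swap; rotate_right
    · have p := congrArg (Nat.cast : ℕ → F) (card_points (Φ := Φ))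
      rw [Nat.cast_mul, q, Nat.cast_sub Φ.numSing_pos, hS V Φ n (by omega), Nat.card_eq_fintype_card] at p
      simp only [Finset.sum_const, Finset.card_univ, nsmul_eq_mul, mul_one] at this
      rw [Nat.card_eq_fintype_card, ← this]; simpa using p
    · have p := congrArg (Nat.cast : ℕ → F) (card_lines (F := F) (fun v : V => v ∈ T.1 ∧ v ≠ 0) (by simp) fun c v c0 h => ⟨T.1.smul_mem _ h.1, smul_ne_zero c0 h.2⟩)
      rw [Nat.cast_mul, q, Nat.card_congr (α := {v : V // v ∈ T.1 ∧ v ≠ 0}) (β := {x : T.1 // x ≠ 0}) ⟨fun v => ⟨⟨v, v.2.1⟩, by simpa using v.2.2⟩, fun v => ⟨v.1, v.1.2, by simpa using v.2⟩,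
        fun _ => rfl, fun _ => rfl⟩, show Nat.card {x : T.1 // x ≠ 0} = ({0}ᶜ : Set T.1).ncard from rfl, Set.ncard_compl, Set.ncard_singleton, Module.natCard_eq_pow_finrank (K := F) (V := T.1), T.2.1, Nat.cast_sub (Nat.one_le_pow _ _ Nat.card_pos)] at p
      rw [Nat.card_congr (Equiv.subtypeEquivRight (q := fun L : Submodule F V => finrank F L = 1 ∧ ∃ v ∈ L, v ∈ T.1 ∧ v ≠ 0) fun L => and_congr_right fun l => ⟨fun h => ?_, ?_⟩)]
      · simpa using p
      · obtain ⟨v, hv, v0⟩ := Submodule.exists_mem_ne_zero_of_ne_bot (Submodule.one_le_finrank_iff.1 l.ge)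
        exact ⟨v, hv, h hv, v0⟩
      · rintro ⟨v, h1, h2, v0⟩
        rwa [← Submodule.eq_of_le_of_finrank_eq ((Submodule.span_singleton_le_iff_mem _ _).2 h1) (by rw [l, finrank_span_singleton v0]), Submodule.span_singleton_le_iff_mem]
    · obtain ⟨H, h1, h2, h3, h4⟩ := n.exists_levi L.2.2
      rw [card_ts_over L.2.2 h1 h2, ih h3 (by rw [L.2.1] at h4; omega)]

theorem Nondeg.levi (h : Φ.Nondeg) (hU : Φ.TS U) (hC : IsCompl U C) : (Φ.res (C ⊓ Φ.perp U)).Nondeg ∧ finrank F ↥(C ⊓ Φ.perp U) + 2 * finrank F U = finrank F V := by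
  obtain ⟨e, k⟩ := compl_inf hU.le_perp hC
  have d : U ⊓ (C ⊓ Φ.perp U) = ⊥ := by rw [← inf_assoc, hC.inf_eq_bot, bot_inf_eq]
  refine ⟨(res_nondeg_iff _ _).2 (eq_bot_iff.2 (le_trans (le_inf ?_ inf_le_left) d.le)), by have := h.finrank_perp U; omega⟩
  conv_rhs => rw [← h.perp_perp U, ← e, perp_sup]
  exact le_inf (inf_le_left.trans inf_le_right) inf_le_right

theorem Nondeg.ts_chain (n : Φ.Nondeg) (hg : g ∈ Φ.isom) (r0 : (r : F) ≠ 0) (e : g ^ r = scal V z) {s : ℕ} (step : ∀ C : Submodule F V, (Φ.res C).Nondeg →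
    (∀ v ∈ C, g v ∈ C) → s < finrank F C → ∃ U ≤ C, Φ.TS U ∧ (∀ v ∈ U, g v ∈ U) ∧ finrank F U = i) (l : ℕ) (h : l = 0 ∨ 2 * (i * l) + s < finrank F V + 2 * i) :
    ∃ W : Submodule F V, finrank F W = i * l ∧ Φ.TS W ∧ ∀ v ∈ W, g v ∈ W := by
  induction l with
  | zero => exact ⟨⊥, finrank_bot .., ts_bot, by simp⟩
  | succ l ih =>
    rw [mul_add i] at h ⊢
    obtain ⟨W, w1, w2, w3⟩ := ih (.inr (by omega))
    obtain ⟨C, c1, c2⟩ := exists_inv_compl r0 e w3
    obtain ⟨k1, k2⟩ := n.levi w2 c1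
    obtain ⟨U, u1, u2, u3, u4⟩ := step _ k1 (fun v hv => ⟨c2 v hv.1, isom_perp_mem hg w3 v hv.2⟩) (by omega)
    exact ⟨W ⊔ U, by rw [finrank_sup_disj (c1.disjoint.mono_right (u1.trans inf_le_left))]; omega, w2.sup u2 (Φ.le_perp_comm.1 (u1.trans inf_le_right)), sup_inv w3 u3⟩

theorem ts_of_iso (hg : g ∈ Φ.isom) (f : ∀ x, g x = x → x = 0) (i : ∀ v ∈ U, g v ∈ U) (h : ∀ x ∈ U, ∀ y ∈ U, Φ.B x y = 0) : Φ.TS U := ⟨fun x hx => by
  obtain ⟨y, hy⟩ := LinearMap.injective_iff_surjective.1 ((injective_iff_map_eq_zero (nl (resAut g U i))).2 fun x hx =>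
    Subtype.ext (f x (congrArg Subtype.val (sub_eq_zero.1 hx)))) ⟨x, hx⟩
  have a := Φ.Q_sub y y
  rw [sub_self, Q_zero, h _ y.2 _ y.2] at a
  rw [show x = g y - y from (congrArg Subtype.val hy).symm, Q_sub, hg.2, h _ (i _ y.2) _ y.2, ← a], h⟩

/-- The negative of a form. -/
def neg {V : Type u} [AddCommGroup V] [Module F V] (Φ : Form κ V) : Form κ V where
  B := -Φ.B
  Q x := -Φ.Q x
  B_symm x y := by simp [Φ.B_symm x y]
  Q_add x y := by simp [Φ.Q_add]; ring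
  Q_smul c x := by simp [Φ.Q_smul]
  Q_range x := let ⟨a, h⟩ := Φ.Q_range x; ⟨-a, by simp [h]⟩
  B_self x a h := by simp [Φ.B_self x (-a) (by simp [h])]; ring

theorem Nondeg.two_ev_le [Fintype F] [hr : Fact r.Prime] (n : Φ.Nondeg) (hg : g ∈ Φ.isom) (r0 : (r : F) ≠ 0) (e : g ^ r = 1)
    (sd : ∃ p k j : ℕ, p.Prime ∧ CharP F p ∧ (∀ a, κ.σ a = a ^ p ^ k) ∧ (r - 1) * p ^ k ≡ Fintype.card F ^ j [MOD r]) (t : W ≤ Φ.perp W) (i : ∀ v ∈ W, g v ∈ W) :
    ev (resAut g W i : End F W) + ev (resAut g W i : End F W) ≤ ev (g : End F V) := by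
  obtain ⟨p, k, j, pp, _, hσ, sd⟩ := sd
  have := Fact.mk pp
  have e' : g ^ r = scal V 1 := by simpa
  obtain ⟨C, c1, c2⟩ := exists_inv_compl r0 e' i
  have c3 : IsCompl (Φ.perp C) (Φ.perp W) := ⟨disjoint_iff.2 (by rw [← perp_sup, c1.symm.sup_eq_top, n.perp_top]),
    codisjoint_iff.2 (by rw [← n.perp_inf, c1.symm.inf_eq_bot, perp_bot])⟩
  have d := isom_perp_mem hg c2
  refine .trans (le_of_eq (congrArg _ ?_)) (ev_add_le r0 e' (c3.disjoint.symm.mono_left t) i d)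
  have a := aroots_map_pow p k κ.σ hσ (n.adj (sumAut c1 (resAut g W i, 1) : End F V)).charpoly
  rw [n.charpoly_adj, n.adj_eq (g := sumAut c3 ((resAut g _ d)⁻¹, 1)) fun x y => ?_, ← ev, ← ev, ev_sumAut, ev_sumAut, Multiset.map_add] at a
  · have := n.finrank_perp W
    have := Submodule.finrank_add_eq_of_isCompl c1
    rw [LinearEquiv.coe_toLinearMap_one, LinearEquiv.coe_toLinearMap_one, ← End.one_eq_id, ← End.one_eq_id, ev_one, ev_one, Multiset.map_replicate, one_pow, show finrank F (Φ.perp W) = finrank F C by omega, add_left_inj,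
      ← eq_inv_of_mul_eq_one_left ((pow_succ _ (r - 1)).symm.trans (by rw [Nat.sub_add_cancel hr.out.pos, resAut_one d e])), ← coe_pow_end, ev_pow, Multiset.map_map] at a
    rw [a, Multiset.map_congr rfl (g := (· ^ Fintype.card F ^ j)) fun x hx => by
      simpa [← pow_mul] using pow_eq_pow_of_modEq sd (pow_of_mem_ev (by rw [coe_pow_end, resAut_one d e]; rfl) hx)]
    clear sd a
    induction j with
    | zero => simp
    | succ j ih => conv_rhs => rw [← ih, ← ev_frob, Multiset.map_map]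
                   simp [pow_succ', pow_mul]
  obtain ⟨w, x, rfl⟩ := exists_add_of_isCompl c1 x
  obtain ⟨y, p, rfl⟩ := exists_add_of_isCompl c3 y
  obtain ⟨y, rfl⟩ := (resAut g _ d).surjective y
  rw [LinearEquiv.coe_coe, LinearEquiv.coe_coe, sumAut_apply, sumAut_apply]
  simp [Φ.B_zero_symm (p.2 _ (i _ w.2)), Φ.B_zero_symm (p.2 _ w.2), Φ.B_zero_symm (y.2 _ x.2), Φ.B_zero_symm (d _ y.2 _ x.2), hg.1]
end Form

variable [Fintype F] [hr : Fact r.Prime]
open Form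

variable (κ r c i) in
/-- Dimensions of invariant totally singular subspaces of fixed-point-free isometries of order `r`: at least `i * τ k` is always reached in dimension `c * k`,
and sometimes not more. -/
def TSK (τ : ℕ → ℕ) : Prop :=
  (∀ {V : Type u} [AddCommGroup V] [Module F V] [FiniteDimensional F V] {Φ : Form κ V} {g : V ≃ₗ[F] V}, Φ.Nondeg → g ∈ Φ.isom → g ^ r = 1 → (∀ x, g x = x → x = 0) →
    ∀ k, finrank F V = c * k → ∀ l ≤ τ k, ∃ W : Submodule F V, finrank F W = i * l ∧ Φ.TS W ∧ ∀ v ∈ W, g v ∈ W) ∧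
  ∀ k, ∃ (U : Type u) (_ : AddCommGroup U) (_ : Module F U) (_ : FiniteDimensional F U) (Ψ : Form κ U) (h : U ≃ₗ[F] U), Ψ.Nondeg ∧ h ∈ Ψ.isom ∧ h ^ r = 1 ∧
    (∀ x, h x = x → x = 0) ∧ finrank F U = c * k ∧ ∀ W : Submodule F U, Ψ.TS W → (∀ v ∈ W, h v ∈ W) → finrank F W ≤ i * τ k

variable (b : Blk κ r c) (hi : i = orderOf (Fintype.card F : ZMod r))
include b hi

theorem Blk.exists_ts (hg : g ∈ Φ.isom) (e : g ^ r = 1) (f : ∀ x, g x = x → x = 0) (j : ∀ v ∈ U, g v ∈ U) (h : U ≤ Φ.perp U) (u0 : U ≠ ⊥) :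
    ∃ W ≤ U, Φ.TS W ∧ (∀ v ∈ W, g v ∈ W) ∧ finrank F W = i := by
  obtain ⟨W, w1, w2, w3⟩ := exists_blk b.ne hi e U (le_top.trans (Submodule.eq_top_of_finrank_eq (finrank_mv_fpf f)).ge) j u0
  exact ⟨W, w1, ts_of_iso hg f w2 fun x hx y hy => h (w1 hx) y (w1 hy), w2, w3⟩

theorem Blk.tsk_hyp (hc : c = 2 * i) : TSK κ r c i id := by
  refine ⟨fun {V} _ _ _ Φ g n hg e f k hk l hl => n.ts_chain hg b.ne (z := 1) (by simpa) (s := 0) (fun C c1 c2 c3 => ?_) l ?_, fun k => ?_⟩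
  · obtain ⟨U, u1, u2, u3⟩ := exists_blk b.ne hi e C (le_top.trans (Submodule.eq_top_of_finrank_eq (finrank_mv_fpf f)).ge) c2 (Submodule.one_le_finrank_iff.1 c3)
    obtain ⟨W, w1, w⟩ := b.exists_ts hi hg e f (U := U ⊓ Φ.perp U) (fun v hv => ⟨u2 v hv.1, isom_perp_mem hg u2 v hv.2⟩) (fun v hv w hw => hv.2 w hw.1) fun k => by
      have := Nat.le_of_dvd (u3 ▸ hi ▸ ord_pos hr.out b.ne) (b.sub_fpf ((res_nondeg_iff _ _).2 k) (Φ.resAut_mem hg u2) (resAut_one _ e)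
        fun x hx => Subtype.ext (f _ (congrArg Subtype.val hx))).1
      have := b.pos; omega
    exact ⟨W, w1.trans (inf_le_left.trans u1), w⟩
  · have := Nat.mul_le_mul_left i hl
    have := b.pos
    rw [hk, hc, mul_assoc]; exact .inr (by simp only [id] at *; omega)
  · obtain ⟨U, _, _, _, Ψ, h, h1, h2, h3, h4, h5⟩ := b.exists_fpf k
    exact ⟨U, _, _, ‹_›, Ψ, h, h1, h2, h3, h4, h5, fun W w _ => by have := w.two_mul_le h1; rw [h5, hc, mul_assoc] at this; simp only [id]; omega⟩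

theorem Blk.tsk_sd (hc : c = i) (sd : ∃ p k j : ℕ, p.Prime ∧ CharP F p ∧ (∀ a, κ.σ a = a ^ p ^ k) ∧ (r - 1) * p ^ k ≡ Fintype.card F ^ j [MOD r]) :
    TSK κ r c i fun k => (k + 1 - (r - 1) / i) / 2 := by
  classical
  have c0 := b.pos
  obtain ⟨w, ok, e, U, _, _, _, Ψ, h1, h2, h3⟩ := id b
  obtain ⟨ψ, hψ⟩ := exists_char ok.ne
  haveI := Fintype.ofFinite (Orb w)
  obtain ⟨t, ht, ht'⟩ : ∃ t, (r - 1) / i = t ∧ Fintype.card (Orb w) = t := ⟨_, rfl, by
    rw [← card_orb w, e, hc, Nat.mul_div_cancel _ (hc ▸ c0), Nat.card_eq_fintype_card]⟩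
  rw [ht]; subst hc
  refine ⟨fun {V} _ _ _ Φ g n hg g1 f k hk l hl => n.ts_chain hg b.ne (z := 1) (by simpa) (s := c * t) (fun C c1 c2 c3 => ?_) l ?_, fun k => ?_⟩
  · have f' : ∀ x, resAut g C c2 x = x → x = 0 := fun x hx => Subtype.ext (f _ (congrArg Subtype.val hx))
    obtain ⟨N, l, hN⟩ := exists_ev ok hψ c1 (Φ.resAut_mem hg c2) (resAut_one c2 g1)
    have d : finrank F C = orderOf w * N.card := le_antisymm (Nat.sub_eq_zero_iff_le.1 (by simpa [zero_notMem_olift, Multiset.mem_replicate] using (fpf_iff hψ.1 hN).1 f')) l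
    obtain ⟨o, ho⟩ : ∃ o, 2 ≤ N.count o := by_contra fun k => by
      have := Finset.card_le_univ ⟨N, Multiset.nodup_iff_count_le_one.2 fun o => by have := not_exists.1 k o; omega⟩
      rw [d, e] at c3
      exact (Nat.lt_of_mul_lt_mul_left c3).not_ge (ht' ▸ this)
    obtain ⟨N, rfl⟩ := Multiset.le_iff_exists_add.1 (Multiset.le_count_iff_replicate_le.1 ho)
    obtain ⟨U, _, _, _, Ψ₁, g₁, k1, k2, k3, k4⟩ := exists_blocks ok hψ h1 (h2.trans e.symm) h3 {o}
    obtain ⟨U', _, _, _, Ψ₂, g₂, l1, l2, l3, l4⟩ := exists_blocks ok hψ h1 (h2.trans e.symm) h3 N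
    obtain ⟨i, hi'⟩ := exists_intertw ok.ne (a := (resAut g C c2 : End F C)) (by rw [coe_pow_end, resAut_one c2 g1]; rfl)
      (b := ((g₁.prodCongr g₁).prodCongr g₂ : End F ((U × U) × U'))) (by rw [coe_pow_end, prodCongr_pow, prodCongr_pow, k3, l3]; rfl)
      (by rw [hN, ← d, LinearEquiv.coe_prodCongr, LinearEquiv.coe_prodCongr, ev_prod, ev_prod, k4, l4, show Multiset.replicate 2 o = {o} + {o} from rfl, olift_add, olift_add]; simp)
    obtain ⟨m, hm⟩ := hr.out.odd_of_ne_two ok.odd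
    obtain ⟨i, a1, a2⟩ := eqv_fpf c1 (Φ.resAut_mem hg c2) (prod_mem (prod_mem (Θ := Ψ₁.neg) k2 ⟨fun x y => congrArg (-·) (k2.1 x y), fun x => congrArg (-·) (k2.2 x)⟩) l2)
      ((k1.prod fun y h => k1 y fun x => neg_eq_zero.1 (h x)).prod l1) i hi' fun x hx => f' x (by
      have : resAut g C c2 * resAut g C c2 ∈ MulAction.stabilizer _ x := hx
      have := pow_mem this m
      rwa [← sq, ← pow_mul, eq_inv_of_mul_eq_one_left ((pow_succ _ _).symm.trans (hm ▸ resAut_one c2 g1)), inv_mem_iff] at this)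
    haveI : Nontrivial U := (finrank_pos_iff (R := F)).1 (by rw [← card_ev (g₁ : End F U), k4, Multiset.card_map, card_olift, e]; simpa)
    obtain ⟨W, w1, w⟩ := b.exists_ts hi hg g1 f (U := LinearMap.range (C.subtype ∘ₗ i.symm.toLinearMap ∘ₗ .inl F _ _ ∘ₗ LinearMap.id.prod .id)) (by
      rintro _ ⟨x, rfl⟩
      exact ⟨g₁ x, congrArg Subtype.val (show i.symm _ = resAut g C c2 (i.symm _) by rw [i.symm_apply_eq, a2, i.apply_symm_apply]; simp)⟩) (by
      rintro _ ⟨x, rfl⟩ _ ⟨y, rfl⟩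
      exact (a1.symm.1 _ _).trans (by simp [prod_B, Form.neg])) fun k => by
      obtain ⟨x, hx⟩ := exists_ne (0 : U)
      simpa [hx] using k.le ⟨x, rfl⟩
    exact ⟨W, w1.trans (by rintro _ ⟨x, rfl⟩; exact Subtype.mem _), w⟩
  · rcases l with _ | l; · exact .inl rfl
    have := Nat.mul_le_mul_left c (show 2 * l + t + 1 ≤ k by simp only at hl; omega)
    simp only [hk, mul_add, mul_left_comm c] at this ⊢; omega
  obtain ⟨S, -, hS⟩ := Finset.exists_subset_card_eq (s := (Finset.univ : Finset (Orb w))) (n := min k t) (by simp [ht'])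
  obtain ⟨U, _, _, _, Ψ, g, k1, k2, k3, k4⟩ := exists_blocks ok hψ h1 (h2.trans e.symm) h3 (S.1 + .replicate (k - t) default)
  refine ⟨U, _, _, ‹_›, Ψ, g, k1, k2, k3, (fpf_iff hψ.1 k4).2 (zero_notMem_olift _ _), by
    rw [← card_ev, k4, Multiset.card_map, card_olift, e]; simp [hS]; omega, fun W w1 w2 => ?_⟩
  have := k1.two_ev_le k2 b.ne k3 sd w1.le_perp w2
  rw [← card_ev (resAut g W w2 : End F W)]
  generalize ev (resAut g W w2 : End F W) = A at this
  rw [k4] at this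
  lift A to Multiset (Set.range ψ) using fun x hx => by
    obtain ⟨y, -, rfl⟩ := Multiset.mem_map.1 (Multiset.mem_of_le this (Multiset.mem_add.2 (.inl hx))); exact ⟨y, rfl⟩
  obtain ⟨A, rfl⟩ := Multiset.map_surjective_of_surjective (Set.rangeFactorization_surjective (f := ψ)) A
  rw [Multiset.map_map, show Subtype.val ∘ Set.rangeFactorization ψ = ψ from rfl, ← Multiset.map_add, Multiset.map_le_map_iff hψ.1] at this
  have k : A ≤ olift w (.replicate ((k + 1 - t) / 2) default) := Multiset.le_iff_count.2 fun x => by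
    have := Multiset.count_le_of_le x this
    by_cases x0 : x = 0
    · simpa [x0, zero_notMem_olift] using this
    lift x to (ZMod r)ˣ using (Ne.isUnit x0)
    have s := Multiset.nodup_iff_count_le_one.1 S.2 x
    simp only [count_olift, Multiset.count_add, Multiset.count_replicate] at this ⊢
    split_ifs at this ⊢ with h
    · by_cases kt : k < t
      · omega
      · omega
    · omega
  simpa [card_olift, e] using Multiset.card_le_card k

theorem Blk.ts_el (u : Uniq κ r) {τ w : ℕ → ℕ} (T : TSK κ r c i τ) (n : Φ.Nondeg) {a : ℕ} (ha : ∀ k, Φ.HasB r (c * k) ↔ k ≤ a)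
    (hw : ∀ X : Submodule F V, (Φ.res X).Nondeg → (Φ.res X).Fpf r → ∀ k, finrank F X = c * k → ∀ f, (Φ.res (Φ.perp X)).HasTS f ↔ f ≤ w k) :
    (∀ g ∈ Φ.isom, g ^ r = 1 → ∃ W : Submodule F V, (finrank F W = m ∧ Φ.TS W) ∧ ∀ v ∈ W, g v ∈ W) ↔ ∀ k ≤ a, ∃ l ≤ τ k, i * l ≤ m ∧ m - i * l ≤ w k := by
  refine ⟨fun H k hk => ?_, fun H g g1 g2 => ?_⟩
  · obtain ⟨X, x1, x2, x3⟩ := (ha k).2 hk
    obtain ⟨U, _, _, _, Ψ, h, h1, h2, h3, h4, h5, h6⟩ := T.2 k
    obtain ⟨e, he⟩ := u h1 x1 ⟨h, h2, h3, h4⟩ x3 (h5.trans x2.symm)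
    have g2 := sumAut_pow (n.isCompl_perp x1) (a := autCongr e h) (by rw [← map_pow, h3, map_one]) (one_pow r)
    obtain ⟨W, ⟨rfl, w1⟩, w2⟩ := H _ ((Φ.sumAut_mem_iff (n.isCompl_perp x1) le_rfl (autCongr e h, 1)).2 ⟨(he.mem_iff h).1 h2, one_mem _⟩) g2
    have s : ∀ x (y : Φ.perp X), sumAut (n.isCompl_perp x1) (autCongr e h, 1) (e x + y) = e (h x) + y := fun x y => by simp [sumAut_apply, autCongr_apply]
    generalize sumAut (n.isCompl_perp x1) (autCongr e h, 1) = g at g2 w2 s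
    obtain ⟨l, hl⟩ := ord_dvd_map b.ne hi g2 w2
    have k1 := finrank_map_nl (g := g) W
    have dec : ∀ v : V, ∃ (x : U) (y : Φ.perp X), v = e x + y := fun v => by
      obtain ⟨x, y, rfl⟩ := exists_add_of_isCompl (n.isCompl_perp x1) v
      exact ⟨e.symm x, y, by simp⟩
    have inj : Function.Injective (X.subtype ∘ₗ e.toLinearMap) := X.injective_subtype.comp e.injective
    have k2 := h6 (W.comap (X.subtype ∘ₗ e.toLinearMap)) ⟨fun x hx => (he.2 x).symm.trans (w1.1 _ hx), fun x hx y hy => (he.1 x y).symm.trans (w1.2 _ hx _ hy)⟩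
      fun v hv => by have := w2 (e v + (0 : Φ.perp X)) (by simpa using hv); rw [s] at this; simpa using this
    have k3 : finrank F (W.map (nl g)) ≤ _ := (Submodule.finrank_mono (show _ ≤ (W.comap (X.subtype ∘ₗ e.toLinearMap)).map (X.subtype ∘ₗ e.toLinearMap) by
      rintro _ ⟨v, hv, rfl⟩
      obtain ⟨x, y, rfl⟩ := dec v
      have : nl g (e x + y) = e (h x - x) := by simp [s]
      exact ⟨h x - x, show (e (h x - x) : V) ∈ W from this ▸ sub_mem (w2 _ hv) hv, this.symm⟩)).trans ((Submodule.finrank_map_le ..).trans k2)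
    have k4 := (hw X x1 x3 k x2 _).1 ⟨_, Submodule.comapSubtypeEquivOfLe (show W ⊓ fixSp g ≤ Φ.perp X from fun v hv => by
      obtain ⟨x, y, rfl⟩ := dec v
      rw [h4 x (inj (add_right_cancel ((s x y).symm.trans hv.2)))]; simp) |>.finrank_eq, (w1.mono inf_le_left).comap_subtype _⟩
    exact ⟨l, Nat.le_of_mul_le_mul_left (hl ▸ k3) (hi ▸ ord_pos hr.out b.ne), by omega, by omega⟩
  have a1 := n.hasB_mv b.ne g1 g2
  have f : ∀ x, resAut g _ (mv_inv g) x = x → x = 0 := fun x hx => Subtype.ext ((mv_inf_fixSp b.ne g2).le ⟨x.2, congrArg Subtype.val hx⟩)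
  obtain ⟨k, hk⟩ := b.dvd a1
  obtain ⟨l, l1, l2, l3⟩ := H k ((ha k).1 (hk ▸ a1))
  obtain ⟨A, a1, a2, a3⟩ := T.1 (n.mv_nondeg g1 b.ne g2) (Φ.resAut_mem g1 (mv_inv g)) (resAut_one _ g2) f k hk l l1
  obtain ⟨B, b1, b2⟩ := (hw _ (n.mv_nondeg g1 b.ne g2) ⟨_, Φ.resAut_mem g1 (mv_inv g), resAut_one _ g2, f⟩ k hk _).2 l3
  refine ⟨A.map (mv g).subtype ⊔ B.map (Φ.perp (mv g)).subtype, ⟨?_, a2.map_subtype.sup b2.map_subtype ((Submodule.map_subtype_le ..).trans
    (Φ.le_perp_comm.1 (Submodule.map_subtype_le ..)))⟩, sup_inv ?_ ?_⟩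
  · rw [finrank_sup_disj ((n.isCompl_perp (n.mv_nondeg g1 b.ne g2)).disjoint.mono (Submodule.map_subtype_le ..) (Submodule.map_subtype_le ..)),
      Submodule.finrank_map_subtype_eq, Submodule.finrank_map_subtype_eq]; omega
  · rintro _ ⟨v, hv, rfl⟩; exact ⟨_, a3 v hv, rfl⟩
  · rintro _ ⟨v, hv, rfl⟩; exact ⟨v, hv, (mem_fixSp.1 ((n.perp_range_sub g1).le v.2)).symm⟩

theorem Blk.le_of_ts (n : Φ.Nondeg) (h : r ∣ Nat.card {W : Submodule F V // finrank F W = m ∧ Φ.TS W})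
    (H : ∀ g ∈ Φ.isom, g ^ r = 1 → ∃ W : Submodule F V, (finrank F W = m ∧ Φ.TS W) ∧ ∀ v ∈ W, g v ∈ W) : i ≤ m := by
  obtain ⟨W₀, ⟨rfl, w⟩, -⟩ := H 1 (one_mem _) (one_pow _)
  have cl : ∀ W, Φ.Cl W₀ W ↔ finrank F W = finrank F W₀ ∧ Φ.TS W := fun W => ⟨fun ⟨e, h⟩ => ⟨e.finrank_eq.symm, fun x hx => (e.surjective ⟨x, hx⟩).elim fun y hy =>
    (congrArg _ (congrArg Subtype.val hy.symm)).trans ((h.2 y).trans (w.1 _ y.2)), fun x hx y hy => by
      obtain ⟨x, hx⟩ := e.surjective ⟨x, hx⟩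
      obtain ⟨y, hy⟩ := e.surjective ⟨y, hy⟩
      exact (congrArg₂ (Φ.B · ·) (congrArg Subtype.val hx.symm) (congrArg Subtype.val hy.symm)).trans ((h.1 x y).trans (w.2 _ x.2 _ y.2))⟩,
    fun h => ⟨.ofFinrankEq _ _ h.1.symm, fun x y => (h.2.2 _ (Subtype.mem _) _ (Subtype.mem _)).trans (w.2 _ x.2 _ y.2).symm,
      fun x => (h.2.1 _ (Subtype.mem _)).trans (w.1 _ x.2).symm⟩⟩
  obtain ⟨g, g1, g2, W, h1, h2, h3⟩ := n.exists_not_le (W₀ := W₀) b.ne (by simpa only [cl] using h) (by simpa only [cl] using H)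
  exact (Nat.le_of_dvd (Submodule.one_le_finrank_iff.2 fun k => h3 fun v hv => sub_eq_zero.1 (k.le (Submodule.mem_map_of_mem hv))) (ord_dvd_map b.ne hi g2 h2)).trans
    ((Submodule.finrank_map_le ..).trans h1.finrank.le)
end H5
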