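import Cfsg.Agent.H5.Ts
/-! Totally singular subspaces fixed by elements of prime order of symplectic and orthogonal groups. -/
set_option autoImplicit false
namespace H5
open Module Pointwise Matrix Form

universe u
variable {F : Type u} [Field F] {κ : Kind F} {V : Type u} [AddCommGroup V] [Module F V] [FiniteDimensional F V] {Φ : Form κ V} {r c i m : ℕ}
  {g : V ≃ₗ[F] V} {W U C : Submodule F V}

theorem ar_sd {D u x y : ℕ} (hy : y ≤ i) (hx : x < i) : 2 * (i * D + y) ≤ i * u + x ↔ 2 * D + 2 ≤ u ∨ (u = 2 * D + 1 ∧ 2 * y ≤ i + x) ∨ (u = 2 * D ∧ 2 * y ≤ x) := by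
  rcases lt_trichotomy u (2 * D) with h | rfl | h
  · have := Nat.mul_le_mul_left i h
    simp only [Nat.succ_eq_add_one, mul_add, mul_left_comm i] at this; omega
  · rw [mul_left_comm i]; omega
  rcases (show 2 * D + 1 ≤ u from h).eq_or_lt with rfl | h
  · rw [mul_add i, mul_left_comm i]; omega
  · have := Nat.mul_le_mul_left i h
    simp only [Nat.succ_eq_add_one, mul_add, mul_left_comm i] at this; omega

theorem ar_hyp {D u x y : ℕ} (hy : y ≤ i) (hx : x < 2 * i) : 2 * (i * D + y) ≤ 2 * i * u + x ↔ D + 1 ≤ u ∨ (u = D ∧ 2 * y ≤ x) := by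
  rw [mul_assoc]
  rcases lt_trichotomy u D with h | rfl | h
  · have := Nat.mul_le_mul_left i h
    simp only [Nat.succ_eq_add_one, mul_add] at this; omega
  · omega
  · have := Nat.mul_le_mul_left i h
    simp only [Nat.succ_eq_add_one, mul_add] at this; omega

theorem ar_ex {τ N k δ : ℕ} (i0 : 0 < i) (c0 : 0 < c) (h : 2 * δ + c * k ≤ N) :
    (∃ l ≤ τ, i * l ≤ m ∧ m - i * l ≤ (N - c * k) / 2 - δ) ↔ 2 * (i * (m / i - τ) + (m % i + δ)) ≤ c * (N / c - k) + N % c := by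
  have a := Nat.mod_add_div N c
  have b := Nat.mod_add_div m i
  have : k ≤ N / c := (Nat.le_div_iff_mul_le c0).2 (by rw [mul_comm]; omega)
  rw [Nat.mul_sub c]
  have := Nat.mul_le_mul_left c this
  refine ⟨fun ⟨l, h1, h2, h3⟩ => ?_, fun h => ⟨min τ (m / i), min_le_left .., ?_⟩⟩
  · have := Nat.mul_le_mul_left i (show m / i - τ + l ≤ m / i by have := (Nat.le_div_iff_mul_le i0).2 (mul_comm i l ▸ h2); omega)
    rw [mul_add] at this; omega
  · have := congrArg (i * ·) (show m / i - τ + min τ (m / i) = m / i by omega)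
    simp only [mul_add] at this; omega

theorem not_dvd_ts [Fintype F] (p : ℕ) [CharP F p] {N : ℕ} (h : (N : F) = 1) : ¬ p ∣ N := fun k => by simp [(CharP.cast_eq_zero_iff F p N).2 k] at h

theorem Form.Nondeg.hasTS_odd [Finite F] {Φ : Form (.orth F) V} (n : Φ.Nondeg) (o : Odd (finrank F V)) (k : ℕ) : Φ.HasTS k ↔ k ≤ finrank F V / 2 :=
  ⟨fun ⟨T, a, b⟩ => by have := b.two_mul_le n; omega, fun h => n.orth_hasTS (by have := Nat.odd_iff.1 o; omega)⟩

theorem numSing_symp [Fintype F] (V : Type u) [AddCommGroup V] [Module F V] [FiniteDimensional F V] (Φ : Form (.symp F) V) (_ : Φ.Nondeg) (h : 2 ≤ finrank F V) :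
    (Φ.numSing : F) = 0 := by
  rw [numSing, Nat.card_congr (Equiv.subtypeUnivEquiv Φ.symp_Q), Module.natCard_eq_pow_finrank (K := F)]; simp; omega

theorem numSing_orth [Fintype F] (V : Type u) [AddCommGroup V] [Module F V] [FiniteDimensional F V] (Φ : Form (.orth F) V) (n : Φ.Nondeg) (h : 3 ≤ finrank F V) :
    (Φ.numSing : F) = 0 := by
  obtain ⟨m, e | e⟩ := (finrank F V).even_or_odd'
  · obtain ⟨m, rfl⟩ := Nat.exists_eq_add_of_le' (show 2 ≤ m by omega)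
    by_cases t : Φ.HasTS (m + 1 + 1)
    · rw [Nat.eq_add_of_sub_eq Φ.numSing_pos (numSing_plus' rfl n e t)]; simp [Nat.cast_sub (Nat.one_le_pow _ _ Fintype.card_pos)]
    · simpa using congrArg (Int.cast : ℤ → F) (numSing_minus rfl n (m := m + 1) e t)
  · rw [numSing_odd rfl n e]; simp; omega

theorem Blk.ts_fin [Fintype F] [hr : Fact r.Prime] (b : Blk κ r c) (hi : i = orderOf (Fintype.card F : ZMod r)) (u : Uniq κ r) {τ δ : ℕ → ℕ} (T : TSK κ r c i τ) (n : Φ.Nondeg)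
    {a N : ℕ} (ha : ∀ k, Φ.HasB r (c * k) ↔ k ≤ a) (hδ : ∀ k ≤ a, 2 * δ k + c * k ≤ N) (hw : ∀ X : Submodule F V, (Φ.res X).Nondeg → (Φ.res X).Fpf r → ∀ k, finrank F X = c * k →
      ∀ f, (Φ.res (Φ.perp X)).HasTS f ↔ f ≤ (N - c * k) / 2 - δ k) (h : r ∣ Nat.card {W : Submodule F V // finrank F W = m ∧ Φ.TS W}) :
    (∀ g ∈ Φ.isom, g ^ r = 1 → ∃ W : Submodule F V, (finrank F W = m ∧ Φ.TS W) ∧ ∀ v ∈ W, g v ∈ W) ↔
      1 ≤ m / i ∧ ∀ k ≤ a, 2 * (i * (m / i - τ k) + (m % i + δ k)) ≤ c * (N / c - k) + N % c := by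
  have i0 := hi ▸ ord_pos hr.out b.ne
  rw [← and_iff_right_of_imp (b.le_of_ts hi n h), b.ts_el hi u T n ha hw, Nat.one_le_div_iff i0]
  exact and_congr_right fun _ => forall₂_congr fun k hk => ar_ex i0 b.pos (hδ k hk)

theorem tsk_so [Fintype F] [hr : Fact r.Prime] (hσ : ∀ a, κ.σ a = a) (b : Blk κ r c) (r2 : r ≠ 2) (p : ℕ) [hp : Fact p.Prime] [CharP F p]
    (hi : i = orderOf (Fintype.card F : ZMod r)) (hc : c = if Even i then i else 2 * i) : TSK κ r c i fun k => if Even i then (k + 1 - (r - 1) / i) / 2 else k := by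
  split_ifs at hc ⊢ with h
  · obtain ⟨j, hj⟩ := h.two_dvd
    obtain ⟨u, hu⟩ := (orderOf_pos_iff.1 (ord_pos hr.out b.ne)).isUnit
    refine b.tsk_sd hi hc ⟨p, 0, j, hp.out, ‹_›, by simpa, (ZMod.natCast_eq_natCast_iff ..).1 ?_⟩
    rw [Nat.cast_pow, ← hu, ← Units.val_pow_eq_pow_val, pow_half u (by rw [← hj, hi, ← hu, orderOf_units])]; simp [Nat.cast_sub hr.out.pos]
  · exact b.tsk_hyp hi hc

section two
theorem inv_ts (h2 : (2 : F) ≠ 0) (n : Φ.Nondeg) (hg : g ∈ Φ.isom) (e : g ^ 2 = 1) : (∃ W : Submodule F V, (finrank F W = m ∧ Φ.TS W) ∧ ∀ v ∈ W, g v ∈ W) ↔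
    ∃ f f', m = f + f' ∧ (Φ.res (mv g)).HasTS f ∧ (Φ.res (Φ.perp (mv g))).HasTS f' := by
  have p := n.perp_range_sub hg
  refine ⟨fun ⟨W, ⟨w1, w2⟩, w3⟩ => ⟨_, _, w1.symm.trans (finrank_map_nl (g := g) W).symm, ⟨_, (Submodule.comapSubtypeEquivOfLe LinearMap.map_le_range).finrank_eq,
    (w2.mono (by rintro _ ⟨v, hv, rfl⟩; exact sub_mem (w3 v hv) hv)).comap_subtype _⟩, _, (Submodule.comapSubtypeEquivOfLe (inf_le_right.trans p.ge)).finrank_eq,
    (w2.mono inf_le_left).comap_subtype _⟩, ?_⟩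
  rintro ⟨_, _, rfl, ⟨A, rfl, a⟩, B, rfl, b⟩
  refine ⟨A.map (mv g).subtype ⊔ B.map (Φ.perp (mv g)).subtype, ⟨?_, a.map_subtype.sup b.map_subtype ((Submodule.map_subtype_le ..).trans
    (Φ.le_perp_comm.1 (Submodule.map_subtype_le ..)))⟩, sup_inv ?_ ?_⟩
  · rw [finrank_sup_disj ((n.isCompl_perp (n.mv_nondeg hg (n := 2) (by simpa) e)).disjoint.mono (Submodule.map_subtype_le ..) (Submodule.map_subtype_le ..)),
      Submodule.finrank_map_subtype_eq, Submodule.finrank_map_subtype_eq]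
  · rintro _ ⟨⟨_, x, rfl⟩, hv, rfl⟩
    exact ⟨_, neg_mem hv, by simp [show g (g x) = x from LinearEquiv.congr_fun (sq g ▸ e) x]⟩
  · rintro _ ⟨v, hv, rfl⟩; exact ⟨v, hv, (mem_fixSp.1 (p.le v.2)).symm⟩

omit [FiniteDimensional F V] in
theorem neg_scal (e : ∀ x, g (g x) = -x) : g ^ 2 = scal V (-1) := LinearEquiv.ext fun x => by simp [sq, e]

theorem even_of_neg (s : ¬ IsSquare (-1 : F)) (e : ∀ x, g (g x) = -x) (h : ∀ v ∈ W, g v ∈ W) : Even (finrank F W) := by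
  obtain ⟨k, a, -⟩ := det_npow (r := 2) (z := -1) (fun b h => s ⟨b, by simpa [sq] using h.symm⟩) (g := resAut g W h) (neg_scal fun x => Subtype.ext (e x))
  exact ⟨k, by omega⟩

theorem neg_ts (h2 : (2 : F) ≠ 0) (hσ : ∀ a, κ.σ a = a) (n : Φ.Nondeg) (hg : g ∈ Φ.isom) (e : ∀ x, g (g x) = -x) (hm : 2 * m ≤ finrank F V)
    (s : ∀ C : Submodule F V, (Φ.res C).Nondeg → (∀ v ∈ C, g v ∈ C) → 2 < finrank F C → ∃ v ∈ C, v ≠ 0 ∧ Φ.Q v = 0 ∧ Φ.B v (g v) = 0) (h : IsSquare (-1 : F) ∨ Even m) :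
    ∃ W : Submodule F V, (finrank F W = m ∧ Φ.TS W) ∧ ∀ v ∈ W, g v ∈ W := by
  simp only [and_assoc]
  by_cases q : IsSquare (-1 : F)
  · obtain ⟨a, ha⟩ := q
    simpa using n.ts_chain hg (r := 2) (by simpa) (neg_scal e) (s := 0) (i := 1) (fun C _ c2 c3 => by
      obtain ⟨x, hx, x0⟩ := Submodule.exists_mem_ne_zero_of_ne_bot (Submodule.one_le_finrank_iff.1 c3)
      obtain ⟨v, hv, v0, a, a1, a2⟩ : ∃ v ∈ C, v ≠ 0 ∧ ∃ a : F, -1 = a * a ∧ g v = a • v := by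
        by_cases k : g x + a • x = 0
        exacts [⟨x, hx, x0, -a, by simpa, by simpa [← eq_neg_iff_add_eq_zero] using k⟩,
          ⟨_, add_mem (c2 x hx) (C.smul_mem _ hx), k, a, ha, by simp [e, smul_smul, ← ha, add_comm]⟩]
      have := hg.2 v
      rw [a2, Φ.Q_smul, hσ, ← a1] at this
      refine ⟨F ∙ v, by simpa, ts_singleton ((mul_eq_zero.1 (by linear_combination -this)).resolve_left h2), fun w hw => ?_, finrank_span_singleton v0⟩
      obtain ⟨c, rfl⟩ := Submodule.mem_span_singleton.1 hw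
      rw [map_smul, a2, smul_comm]; exact Submodule.smul_mem _ _ hw) m (.inr (by omega))
  obtain ⟨l, rfl⟩ := (h.resolve_left q).two_dvd
  refine n.ts_chain hg (r := 2) (by simpa) (neg_scal e) (s := 2) (fun C c1 c2 c3 => ?_) l (.inr (by omega))
  obtain ⟨v, hv, v0, h1, h3⟩ := s C c1 c2 c3
  have i := span_pair_inv (g := g) (v := v) (w := g v) (Submodule.subset_span (by simp)) (e v ▸ neg_mem (Submodule.subset_span (by simp)))
  refine ⟨_, Submodule.span_le.2 (Set.pair_subset hv (c2 v hv)), ?_, i, ?_⟩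
  · rw [Submodule.span_insert]; exact (ts_singleton h1).sup_singleton ((hg.2 v).trans h1) (by simpa [mem_perp_singleton] using Φ.B_zero_symm h3)
  · have := even_of_neg q e i
    have : 1 ≤ finrank F (Submodule.span F {v, g v}) := Submodule.one_le_finrank_iff.2 fun h => v0 (h.le (Submodule.subset_span (by simp)))
    have : finrank F (Submodule.span F {v, g v}) ≤ 2 := by classical exact (finrank_span_le_card _).trans (by simpa using Finset.card_le_two)
    rw [Nat.even_iff] at *; omega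

variable [Fintype F]
theorem symp_ts_two {d : ℕ} [NeZero d] (h2 : (2 : F) ≠ 0) (hm : m ≤ d) :
    El (sympF F d).isom 2 (fun W => finrank F W = m ∧ (sympF F d).TS W) ↔ Even m ∨ Fintype.card F % 4 = 1 := by
  have n := sympF_nondeg (F := F) d
  have e : finrank F (Fin d ⊕ Fin d → F) = 2 * d := by simp [two_mul]
  obtain ⟨W₀, w⟩ := (n.hasTS_symp m).2 (by omega)
  rw [el_iff n (fun _ => rfl) le_rfl w, ← pow_one (Fintype.card F), ← isSquare_neg_one_pow_iff h2, pow_one]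
  refine ⟨fun H => or_iff_not_imp_right.2 fun s => ?_, fun H g g1 g2 => g2.elim (fun g2 => ?_) fun g2 => ?_⟩
  · have j : ∀ x, (spEquiv d ⟨_, SymplecticGroup.J_mem _ F⟩).1 ((spEquiv d ⟨_, SymplecticGroup.J_mem _ F⟩).1 x) = -x := fun x =>
      show J _ F *ᵥ J _ F *ᵥ x = -x by rw [mulVec_mulVec, J_squared, neg_mulVec, one_mulVec]
    obtain ⟨W, ⟨a, -⟩, b⟩ := H _ (spEquiv d ⟨_, SymplecticGroup.J_mem _ F⟩).2 (.inr j)
    exact a ▸ even_of_neg s j b
  · have a := n.mv_nondeg g1 (n := 2) (by simpa) g2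
    obtain ⟨k, hk, -⟩ := a.symp_hasTS
    have := n.finrank_perp (mv g)
    exact (inv_ts h2 n g1 g2).2 ⟨min m k, m - k, by omega, (a.hasTS_symp _).2 (by omega), ((n.perp_nondeg a).hasTS_symp _).2 (by omega)⟩
  replace g2 : ∀ x, g (g x) = -x := g2
  refine neg_ts h2 (fun _ => rfl) n g1 g2 (by omega) (fun C c1 c2 c3 => ?_) H.symm
  let β : LinearMap.BilinForm F C := ((sympF F d).res C).B.compl₂ (resAut g C c2).toLinearMap
  have s : β.IsSymm := ⟨fun x y => show (sympF F d).B x (g y) = (sympF F d).B y (g x) by rw [← g1.1 y, g2, map_neg, symp_symm]⟩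
  obtain ⟨X, x1, x2⟩ := (ofSym_hasTS (hS := s) (h2 := h2)).1 (Nondeg.orth_hasTS (m := 1) (fun y hy => (resAut g C c2).map_eq_zero_iff.1 (c1 _ hy)) c3)
  obtain ⟨v, hv, v0⟩ := Submodule.exists_mem_ne_zero_of_ne_bot (Submodule.one_le_finrank_iff.1 x1.ge)
  exact ⟨v, v.2, by simpa, symp_Q .., x2 v hv v hv⟩

variable {Φ : Form (.orth F) V}
theorem Form.Nondeg.inv_Om (n : Φ.Nondeg) (h2 : (2 : F) ≠ 0) (hg : g ∈ Φ.isom) (e : g ^ 2 = 1) :
    g ∈ Φ.Om ↔ ∃ b, finrank F (mv g) = 2 * b ∧ ((Φ.res (mv g)).HasTS b ↔ Even b ∨ Fintype.card F % 4 = 1) := by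
  have a := n.mv_nondeg hg (n := 2) (by simpa) e
  have k : g ∈ Φ.Om ↔ scal _ (-1 : Fˣ) ∈ (Φ.res (mv g)).Om := by
    rw [(n.good h2).mem_Om hg, (a.good h2).mem_Om neg_mem_isom, (ab_emb n a (j := (mv g).subtype) (fun _ => rfl) ((a.good h2).RG.ge neg_mem_isom) ?_ fun y hy => ?_).2]
    · rintro ⟨_, x, rfl⟩; simp [show g (g x) = x from LinearEquiv.congr_fun (sq g ▸ e) x]
    · exact mem_fixSp.1 ((n.perp_range_sub hg).le fun w hw => hy ⟨w, hw⟩)
  have s : ∀ k, Fintype.card F ^ k % 4 = 1 ↔ Even k ∨ Fintype.card F % 4 = 1 := fun k => by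
    rw [← isSquare_neg_one_pow_iff h2, isSquare_pow_iff (by simp), ← pow_one (-1 : F), isSquare_neg_one_pow_iff h2, pow_one]
  rw [k]
  obtain ⟨b, hb | hb⟩ := (finrank F (mv g)).even_or_odd'
  · simp only [hb, mul_right_inj' two_ne_zero, exists_eq_left', ← s]
    by_cases t : (Φ.res (mv g)).HasTS b
    · simp [neg_mem_Om_plus a h2 hb t, t]
    · rcases b with _ | b; · exact (t hasTS_zero).elim
      have := pow_mod_four_of_odd (Nat.odd_iff.2 (odd_of_two_ne h2)) (b + 1)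
      simp only [neg_mem_Om_minus a h2 hb t, t, false_iff]; omega
  · exact iff_of_false (neg_notMem_Om_odd a ⟨b, hb⟩) (by rintro ⟨b, h, -⟩; omega)
end two

section orth
variable [Fintype F] {Φ : Form (.orth F) V} {N : ℕ} {τ : Prop} [Decidable τ]

theorem Form.Nondeg.witt_perp (n : Φ.Nondeg) (e : finrank F V = N) (t : Even N → (Φ.HasTS (N / 2) ↔ τ)) (n₀ : (Φ.res W).Nondeg) {b : ℕ} (e₀ : finrank F W = 2 * b)
    {τ₀ : Prop} [Decidable τ₀] (t₀ : (Φ.res W).HasTS b ↔ τ₀) (f : ℕ) :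
    (Φ.res (Φ.perp W)).HasTS f ↔ f ≤ (N - 2 * b) / 2 - if N % 2 = 0 ∧ ¬ (τ ↔ τ₀) then 1 else 0 := by
  have := n.finrank_perp W
  obtain ⟨d, hd | hd⟩ := N.even_or_odd'
  · rw [(n.perp_nondeg n₀).hasTS_orth (a := d - b) (by omega) (τ := τ ↔ τ₀) (by rw [n.type_perp n₀ (e.trans hd) e₀, t₀, ← t ⟨d, by omega⟩, show N / 2 = d by omega])]
    by_cases k : τ ↔ τ₀ <;> simp only [k, show N % 2 = 0 by omega, not_true, not_false_iff, and_true, and_false, if_true, if_false] <;> omega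
  · rw [(n.perp_nondeg n₀).hasTS_odd (Nat.odd_iff.2 (by omega)), if_neg (by omega)]; omega

omit [Fintype F] in
theorem Form.Nondeg.exists_neg (n : Φ.Nondeg) (h2 : (2 : F) ≠ 0) (n₀ : (Φ.res W).Nondeg) : ∃ g ∈ Φ.isom, g ^ 2 = 1 ∧ mv g = W := by
  have c := n.isCompl_perp n₀
  refine ⟨_, (Φ.sumAut_mem_iff c le_rfl (scal _ (-1), 1)).2 ⟨neg_mem_isom, one_mem _⟩, sumAut_pow c (by rw [← map_pow]; simp) (one_pow _), le_antisymm ?_ fun v hv => ?_⟩
  · rintro _ ⟨x, rfl⟩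
    obtain ⟨x, y, rfl⟩ := exists_add_of_isCompl c x
    simpa [sumAut_apply] using sub_mem (neg_mem x.2) x.2
  · refine ⟨(-2 : F)⁻¹ • v, ?_⟩
    rw [map_smul, LinearMap.sub_apply, LinearEquiv.coe_coe, sumAut_left c _ ⟨v, hv⟩, inv_smul_eq_iff₀ (by simpa)]
    simp [two_smul, sub_eq_add_neg]

variable (n : Φ.OGood) (e : finrank F V = N) (n3 : 3 ≤ N) (t : Even N → (Φ.HasTS (N / 2) ↔ τ)) (h₀ : Φ.HasTS m)
include n e n3 t h₀

theorem Form.OGood.ts_two (h2 : (2 : F) ≠ 0) {q : ℕ} (hq : Fintype.card F = q) : El Φ.Om 2 (fun W => finrank F W = m ∧ Φ.TS W) ↔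
    (q % 4 = 3 → m + (if N % 2 = 0 ∧ τ then 2 else 1) ≤ N / 2 ∧ (N % 2 = 0 → (τ ↔ N / 2 % 2 = 0) → (N / 2 % 2 = 0 ∨ q % 8 = 7) → m % 2 = 0)) := by
  haveI : Nontrivial V := (finrank_pos_iff (R := F)).1 (by omega)
  have o := hq ▸ odd_of_two_ne h2
  have s0 : IsSquare (-1 : F) ↔ q % 4 = 1 := by rw [← pow_one (-1 : F), isSquare_neg_one_pow_iff h2, pow_one, hq]
  have s1 : ∀ k, IsSquare ((-1 : F) ^ k) ↔ Even k ∨ q % 4 = 1 := fun k => by rw [isSquare_pow_iff (by simp), s0]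
  have s2 : ∀ k, IsSquare ((2 : F) ^ k) ↔ Even k ∨ q % 8 = 1 ∨ q % 8 = 7 := fun k => by
    rw [isSquare_pow_iff h2, FiniteField.isSquare_two_iff, hq]; exact or_congr_right (by omega)
  have hm : m + (if N % 2 = 0 ∧ ¬ τ then 1 else 0) ≤ N / 2 := by
    have := (n.nd.witt_perp e t (W := ⊥) (fun _ _ => Subsingleton.elim _ _) (b := 0) (finrank_bot ..) (iff_true_intro hasTS_zero) m).1
      (perp_bot Φ ▸ (IsIso.hasTS (e := Submodule.topEquiv.symm) ⟨fun _ _ => rfl, fun _ => rfl⟩ h₀))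
    simp only [iff_true] at this; split_ifs at this ⊢ <;> omega
  obtain ⟨W₀, w⟩ := h₀
  rw [el_iff n.nd (fun _ => rfl) Om_le_isom w]
  refine ⟨fun H q3 => ⟨?_, fun d a b => ?_⟩, fun H g g1 g2 => g2.elim (fun g2 => ?_) fun g2 => ?_⟩
  · obtain ⟨X, x1, x2, x3⟩ := n.nd.exists_type False one_pos (by omega)
    obtain ⟨g, g1, g2, rfl⟩ := n.nd.exists_neg h2 x1
    obtain ⟨_, g0⟩ := H g ((n.nd.inv_Om h2 g1 g2).2 ⟨1, x2, x3.trans (by rw [hq]; simp; omega)⟩) (.inl g2)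
    obtain ⟨f, f', rfl, a, b⟩ := (inv_ts h2 n.nd g1 g2).1 ⟨_, g0⟩
    rw [x1.hasTS_orth x2 x3] at a
    rw [n.nd.witt_perp e t x1 x2 x3] at b
    by_cases τ <;> simp only [*, iff_false, not_true, not_false_iff, and_true, and_false, not_not, if_false] at * <;> (try split_ifs at *) <;> omega
  · obtain ⟨D, _, _, _, Θ, d1, d2⟩ := exists_orth h2 (N / 2)
    let s : (D × D) ≃ₗ[F] D × D := (LinearEquiv.prodComm ..).trans ((LinearEquiv.neg F).prodCongr (.refl ..))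
    have s3 : s ∈ (Θ.prod Θ).isom := (mem_isom_orth _).2 fun x => by simp [s, prod_Q, add_comm]
    have s4 : ∀ x, s (s x) = -x := fun x => rfl
    obtain ⟨d', k1, k2, -⟩ := (d1.prod d1).neg_sq h2 s3 s4
    obtain rfl : d' = N / 2 := by simp at k1; omega
    obtain ⟨f, i⟩ := even_iso (d1.prod d1) n.nd k1 (by omega) (by rw [k2, s1, t (Nat.even_iff.2 d), a, Nat.even_iff]; omega)
    have g1 := (i.mem_iff s).1 s3
    have g2 : ∀ x, autCongr f s (autCongr f s x) = -x := fun x => by simp [s4]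
    obtain ⟨d', l1, -, l3, -⟩ := n.nd.neg_sq h2 g1 g2
    obtain rfl : d' = N / 2 := by omega
    obtain ⟨W, w1, w2⟩ := H _ (l3.2 ((s2 _).2 (by rw [Nat.even_iff]; omega))) (.inr g2)
    exact w1.1 ▸ Nat.even_iff.1 (even_of_neg (by rw [s0]; omega) g2 w2)
  · obtain ⟨b, b1, b2⟩ := (n.nd.inv_Om h2 (Om_le_isom g1) g2).1 g1
    have a := n.nd.mv_nondeg (Om_le_isom g1) (n := 2) (by simpa) g2
    have := (mv g).finrank_le
    refine (inv_ts h2 n.nd (Om_le_isom g1) g2).2 ⟨min m (if Even b ∨ q % 4 = 1 then b else b - 1), m - (if Even b ∨ q % 4 = 1 then b else b - 1), by omega,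
      (a.hasTS_orth b1 (hq ▸ b2) _).2 (min_le_right ..), (n.nd.witt_perp e t a b1 (hq ▸ b2) _).2 ?_⟩
    replace H := fun h => (H h).1
    simp only [Nat.even_iff]
    clear * - hm H this b1 e o n3
    by_cases k : τ <;> by_cases k' : N % 2 = 0 <;>
      simp only [k, k', true_iff, false_iff, not_true, not_false_iff, and_true, and_false, not_not, if_false, if_true, true_and, false_and] at hm H ⊢ <;> split_ifs <;> omega
  obtain ⟨d, k1, k2, k3, -⟩ := n.nd.neg_sq h2 (Om_le_isom g1) g2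
  obtain rfl : d = N / 2 := by omega
  refine neg_ts h2 (fun _ => rfl) n.nd (Om_le_isom g1) g2 (by omega) (fun C c1 c2 c3 => ?_) (or_iff_not_imp_left.2 fun s => ?_)
  · obtain ⟨X, x1, x2⟩ := c1.orth_hasTS (m := 1) c3
    obtain ⟨v, hv, v0⟩ := Submodule.exists_mem_ne_zero_of_ne_bot (Submodule.one_le_finrank_iff.1 x1.ge)
    refine ⟨v, v.2, by simpa, x2.1 v hv, (mul_eq_zero.1 ?_).resolve_left h2⟩
    have := (Om_le_isom g1).1 v (g v); rw [show g (g v) = -v from g2 v, map_neg, orth_symm] at this; linear_combination -this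
  · have := (s2 _).1 (k3.1 g1)
    rw [t (Nat.even_iff.2 (by omega)), s1] at k2
    rw [s0] at s
    simp only [Nat.even_iff] at *
    exact (H (by omega)).2 (by omega) (k2.trans (by omega)) (by omega)

omit h₀ in
theorem Form.OGood.ts_ss [hr : Fact r.Prime] (r2 : r ≠ 2) (p : ℕ) [Fact p.Prime] [CharP F p] (rp : r ≠ p) (hi : i = orderOf (Fintype.card F : ZMod r))
    (hc : c = if Even i then i else 2 * i) (h : r ∣ Nat.card {W : Submodule F V // finrank F W = m ∧ Φ.TS W}) (h₀ : Φ.HasTS m) :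
    El Φ.Om r (fun W => finrank F W = m ∧ Φ.TS W) ↔ 1 ≤ m / i ∧ ∀ k ≤ am c N (τ ↔ Odd i ∨ Even (N / c)),
      2 * (i * (m / i - if Even i then (k + 1 - (r - 1) / i) / 2 else k) + (m % i + if N % 2 = 0 ∧ ¬ (τ ↔ Odd i ∨ Even k) then 1 else 0)) ≤ c * (N / c - k) + N % c := by
  classical
  haveI : Nontrivial V := (finrank_pos_iff (R := F)).1 (by omega)
  obtain ⟨-, b, j, hj, ty, -⟩ := blk_so (F := F) r2 p rp hi hc
  obtain ⟨W₀, w⟩ := h₀
  have l := fun k => le_am (n := N) (k := k) b.pos (by omega) fun k => τ ↔ Odd i ∨ Even k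
  rw [el_odd n.nd (fun _ => rfl) Om_le_isom w (hr.out.odd_of_ne_two r2) fun g a b => n.mem_of_odd a (hr.out.odd_of_ne_two r2) b]
  refine b.ts_fin hi (uniq_orth r2 p rp) (tsk_so (fun _ => rfl) b r2 p hi hc) n.nd (fun k => ?_) (fun k hk => ?_) (fun X x1 ⟨g, g1, g2, g3⟩ k hk f => ?_) h
  · subst e
    rw [hasB_orth r2 p rp hi hc n.nd (by omega), am, am]
    congr! 2
    refine and_congr_right fun l => ?_
    rw [t (even_iff_two_dvd.2 ((Dvd.intro _ hj.symm).trans (Nat.dvd_of_mod_eq_zero l)))]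
  · have := (l k).2 hk
    rw [hj, mul_assoc] at this ⊢
    split_ifs with h
    · have := this.resolve_right fun k => h.2 k.2; omega
    · omega
  · rw [hj, mul_assoc] at hk ⊢
    exact n.nd.witt_perp e t x1 hk ((type_of_fpf x1 r2 (card_ne_zero p rp) hk g1 g2 g3).trans (ty k)) f
end orth
end H5
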