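import Cfsg.Agent.H5.Un2
/-! Involutions of `SU₃(q)`, `q` odd, as non-isotropic points. -/
set_option autoImplicit false
namespace H5
open Module Form

universe u
variable {F : Type u} [Field F] [Fintype F] {q : ℕ} {hF : Fintype.card F = q ^ 2} {V : Type u} [AddCommGroup V] [Module F V] [FiniteDimensional F V] {Φ : Form (unitK hF) V}
  {G : Type*} [Group G] {u v w : V}

structure U3 (Φ : Form (unitK hF) V) (ρ : G →* (V ≃ₗ[F] V)) (τ : V → G) : Prop where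
  nd : Φ.Nondeg
  dim : finrank F V = 3
  two : (2 : F) ≠ 0
  inj : Function.Injective ρ
  mem : ∀ g, g ∈ Φ.sisom ↔ ∃ x, ρ x = g
  tau : ∀ v, Φ.B v v = 1 → ∀ x, ρ (τ v) x = (2 * Φ.B x v) • v - x

theorem exists_U3 (n : Φ.Nondeg) (d : finrank F V = 3) (h2 : (2 : F) ≠ 0) (e : G ≃* Φ.sisom) : ∃ τ, U3 Φ (Φ.sisom.subtype.comp e.toMonoidHom) τ := by
  have : ∀ v, ∃ t : G, Φ.B v v = 1 → ∀ x, (e t).1 x = (2 * Φ.B x v) • v - x := fun v => by
    by_cases h : Φ.B v v = 1; swap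
    · exact ⟨1, by simp [h]⟩
    have ha : (unitK hF).π 2⁻¹ = Φ.Q v := by rw [Φ.unit_Q, h]; simp [map_ofNat]; field_simp; norm_num
    refine ⟨e.symm ⟨scal V (-1) * Φ.refl v _ ha, ⟨mul_mem ⟨fun x y => by simp, fun x => by simp⟩ (Φ.refl_mem ..), Units.ext ?_⟩⟩, fun _ x => by simp [refl_apply]⟩
    rw [map_mul, Units.val_mul, det_refl ha (by simpa), det_scal, d]; simp [map_ofNat]; field_simp
  choose τ h using this
  exact ⟨τ, n, d, h2, Subtype.val_injective.comp e.injective, fun g => ⟨fun k => ⟨e.symm ⟨g, k⟩, by simp⟩, by rintro ⟨x, rfl⟩; exact (e x).2⟩, h⟩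

namespace U3
variable {ρ : G →* (V ≃ₗ[F] V)} {τ : V → G} (h : U3 Φ ρ τ)
include h

theorem iso (g : G) : ρ g ∈ Φ.isom := ((h.mem _).2 ⟨g, rfl⟩).1

theorem eq_iff (hv : Φ.B v v = 1) (hw : Φ.B w w = 1) : τ v = τ w ↔ ∃ c : F, w = c • v := by
  refine ⟨fun e => ⟨Φ.B w v, smul_right_injective V h.two ?_⟩, ?_⟩
  · have := h.tau v hv w
    rw [e, h.tau w hw, hw] at this
    linear_combination (norm := module) this
  · rintro ⟨c, rfl⟩
    refine h.inj (LinearEquiv.ext fun x => ?_)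
    rw [h.tau v hv, h.tau _ hw, smul_smul]
    simp [hv] at hw
    simp; congr 1; linear_combination (-2 * Φ.B x v) * hw

theorem conj (g : G) (hv : Φ.B v v = 1) : g * τ v * g⁻¹ = τ (ρ g v) := h.inj (LinearEquiv.ext ((ρ g).surjective.forall.2 fun x => by
  rw [h.tau _ ((isom_B (h.iso g) ..).trans hv), isom_B (h.iso g)]; simp [h.tau v hv]))

theorem comm_iff (hv : Φ.B v v = 1) (hw : Φ.B w w = 1) : Commute (τ v) (τ w) ↔ Φ.B w v = 0 ∨ ∃ c : F, w = c • v := by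
  rw [commute_iff_eq, ← mul_inv_eq_iff_eq_mul, h.conj _ hw, eq_comm, h.eq_iff hw ((isom_B (h.iso _) ..).trans hw), h.tau v hv]
  refine ⟨fun ⟨c, e⟩ => (em _).imp_right fun n => ?_, fun e => e.elim (fun e => ⟨-1, by simp [e]⟩) ?_⟩
  · have c0 : c + 1 ≠ 0 := fun z => by
      have : (2 * Φ.B w v) • v = 0 := by linear_combination (norm := module) e + z • w
      rw [smul_eq_zero, mul_eq_zero] at this
      rcases this with (k | k) | k; exacts [h.two k, n k, by simp [k] at hv]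
    exact ⟨(c + 1)⁻¹ * (2 * Φ.B w v), by rw [mul_smul, eq_inv_smul_iff₀ c0]; linear_combination (norm := module) -e⟩
  · rintro ⟨c, rfl⟩; exact ⟨1, by simp [hv]; module⟩

theorem inv_iff (x : G) : x ≠ 1 ∧ x * x = 1 ↔ ∃ v, Φ.B v v = 1 ∧ τ v = x := by
  refine ⟨fun ⟨x1, x2⟩ => ?_, ?_⟩; swap
  · rintro ⟨v, hv, rfl⟩
    obtain ⟨y, -, y0, hy⟩ := h.nd.exists_perp_not_mem ⊤ ⊥ [v] (by simp [h.dim])
    refine ⟨fun e => y0 (smul_right_injective V h.two ?_), h.inj (LinearEquiv.ext fun x => by simp [h.tau v hv, hv]; module)⟩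
    have := h.tau v hv y
    rw [e, hy v (by simp)] at this
    simp at this ⊢; right; simpa [h.two, ← two_smul F] using eq_neg_iff_add_eq_zero.1 this
  have s2 : ρ x ^ 2 = 1 := by rw [← map_pow, sq, x2, map_one]
  have ss : ∀ y, ρ x (ρ x y) = y := fun y => LinearEquiv.congr_fun s2 y
  have d := (det_invol h.two s2).symm.trans ((h.mem _).2 ⟨x, rfl⟩).2
  rw [neg_one_pow_eq_one_iff_even (by rw [Ne, Units.ext_iff]; simpa [neg_eq_iff_add_eq_zero, one_add_one_eq_two] using h.two)] at d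
  have d0 : finrank F (mv (ρ x)) ≠ 0 := fun z => x1 (h.inj (LinearEquiv.ext fun y => by simpa [sub_eq_zero] using (Submodule.finrank_eq_zero.1 z).le ⟨y, rfl⟩))
  have d1 := finrank_mv_add (ρ x)
  obtain ⟨u, u0, hu⟩ := finrank_eq_one_iff'.1 (show finrank F (fixSp (ρ x)) = 1 by rw [h.dim] at d1; grind)
  have k : ∀ y, ∃ c : F, ρ x y = c • u.1 - y ∧ c * Φ.B u u = 2 * Φ.B y u := fun y => by
    obtain ⟨c, e⟩ := hu ⟨ρ x y + y, by simp [mem_fixSp, ss, add_comm]⟩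
    replace e : c • u.1 = ρ x y + y := congrArg Subtype.val e
    refine ⟨c, by simp [e], ?_⟩
    have := isom_B (h.iso x) y u
    rw [mem_fixSp.1 u.2] at this
    simpa [this, two_mul] using congrArg (Φ.B · u) e
  have n : Φ.B u u ≠ 0 := fun z => u0 (Subtype.ext (h.nd u fun y => by simpa [z, h.two] using (k y).choose_spec.2))
  obtain ⟨a, ha⟩ := exists_norm_eq hF (μ := (Φ.B u u)⁻¹) (by rw [map_inv₀, ← Φ.unit_Q, Φ.unit_σ_Q])
  have hv : Φ.B (a • u.1) (a • u.1) = 1 := by simp; field_simp at ha; linear_combination ha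
  refine ⟨_, hv, h.inj (LinearEquiv.ext fun y => ?_)⟩
  obtain ⟨c, e, e'⟩ := k y
  rw [h.tau _ hv, e, smul_smul]
  simp; congr 1; field_simp at ha; linear_combination (c - 0) * ha - (a * H5.conj hF a) * e'

theorem trans (hv : Φ.B v v = 1) (hw : Φ.B w w = 1) : ∃ g, g * τ v * g⁻¹ = τ w := by
  obtain ⟨g, g1, rfl, -⟩ := h.nd.witt_step (H := ⊥) (x := v) (y := w) (by rintro rfl; simp at hv) (by rintro rfl; simp at hw) (by rw [Φ.unit_Q, Φ.unit_Q, hv, hw]) fun z hz => by simp [show z = 0 from hz]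
  by_cases d : (LinearEquiv.det g : F) = 1
  · obtain ⟨x, rfl⟩ := (h.mem g).1 ⟨g1, Units.ext d⟩
    exact ⟨x, h.conj x hv⟩
  obtain ⟨a, ha, -, e⟩ := unit_exists_refl_det (Φ := Φ) (v := v) (by simp [Φ.unit_Q, hv]) (c := (LinearEquiv.det g : F)⁻¹) (by rw [map_inv₀, ← mul_inv]; exact inv_eq_one.2 (h.nd.det_mul_conj g1)) (by simpa using d)
  obtain ⟨x, k⟩ := (h.mem (g * Φ.refl v a ha)).1 ⟨mul_mem g1 (Φ.refl_mem ..), Units.ext (by rw [map_mul, Units.val_mul, e]; exact mul_inv_cancel₀ (Units.ne_zero _))⟩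
  exact ⟨x, (h.conj x hv).trans ((h.eq_iff hw ((isom_B (h.iso x) ..).trans hv)).2 ⟨1 - a⁻¹, by simp [k, refl_apply, hv, sub_smul]⟩).symm⟩

theorem card (P : G → Prop) : Nat.card {w // Φ.B w w = 1 ∧ P (τ w)} = Nat.card {x // x ≠ 1 ∧ x * x = 1 ∧ P x} * (q + 1) := by
  haveI := finite_of_fd (F := F) (V := V)
  haveI := finite_aut (F := F) (V := V)
  haveI := Finite.of_injective _ h.inj
  haveI := Fintype.ofFinite {x // x ≠ 1 ∧ x * x = 1 ∧ P x}
  rw [← Nat.card_congr (Equiv.sigmaFiberEquiv fun w : {w // Φ.B w w = 1 ∧ P (τ w)} => (⟨τ w, and_assoc.1 ⟨(h.inv_iff _).2 ⟨_, w.2.1, rfl⟩, w.2.2⟩⟩ : {x // x ≠ 1 ∧ x * x = 1 ∧ P x})), Nat.card_sigma,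
    Finset.sum_congr rfl (g := fun _ => q + 1), Finset.sum_const, Nat.card_eq_fintype_card]; rfl
  rintro ⟨x, x1, x2, x3⟩ -
  obtain ⟨v, hv, rfl⟩ := (h.inv_iff x).1 ⟨x1, x2⟩
  rw [← card_norm_one hF]
  refine (Nat.card_congr (Equiv.ofBijective (fun a : {x : F // x * H5.conj hF x = 1} => have k : Φ.B (a.1 • v) (a.1 • v) = 1 := by simpa [hv, mul_comm] using a.2
    have := ((h.eq_iff hv k).2 ⟨_, rfl⟩).symm; ⟨⟨a.1 • v, k, this ▸ x3⟩, Subtype.ext this⟩) ⟨fun a b e => ?_, fun ⟨⟨w, hw, _⟩, e⟩ => ?_⟩)).symm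
  · exact Subtype.ext (smul_left_injective F (by rintro rfl; simp at hv : v ≠ 0) (congrArg (·.1.1) e))
  · obtain ⟨c, rfl⟩ := (h.eq_iff hv hw).1 (congrArg Subtype.val e).symm
    exact ⟨⟨c, by simpa [hv, mul_comm] using hw⟩, rfl⟩

theorem card_all : Nat.card {x : G // x ≠ 1 ∧ x * x = 1} = q ^ 2 * (q ^ 2 - q + 1) := by
  classical
  have a := h.card fun _ => True
  have b := numQ_unit_aux h.nd (c := 1) (by simp) h.dim
  have q2 := two_le_of_card_sq hF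
  simp only [and_true, ← Φ.unit_Q] at a
  rw [numQ, a] at b
  zify [Nat.le_self_pow two_ne_zero q]
  exact mul_left_cancel₀ (a := (q * (q + 1) : ℤ)) (by positivity) (by simp at b; linear_combination b)

theorem split (hv : Φ.B v v = 1) (P : F → Prop) {n : ℕ} (k : ∀ a, P a → Nat.card {y : Φ.perp (F ∙ v) // (Φ.res _).Q y = 1 - a * H5.conj hF a ∧ y ≠ 0} = n) :
    Nat.card {w // Φ.B w w = 1 ∧ P (Φ.B w v) ∧ ¬ ∃ c : F, w = c • v} = Nat.card {a // P a} * n := by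
  haveI := finite_of_fd (F := F) (V := V)
  haveI := Fintype.ofFinite {a // P a}
  rw [← Nat.card_congr (Equiv.sigmaFiberEquiv fun w : {w // Φ.B w w = 1 ∧ P (Φ.B w v) ∧ ¬ ∃ c : F, w = c • v} => (⟨_, w.2.2.1⟩ : {a // P a})), Nat.card_sigma,
    Finset.sum_congr rfl (g := fun _ => n), Finset.sum_const, Nat.card_eq_fintype_card]; rfl
  rintro ⟨a, ha⟩ -
  rw [← k a ha]
  refine Nat.card_congr (Equiv.ofBijective (fun w => ⟨⟨w.1.1 - a • v, by simpa [mem_perp_singleton, hv, sub_eq_zero] using congrArg Subtype.val w.2⟩, ?_, fun z => w.1.2.2.2 ⟨a, sub_eq_zero.1 (congrArg Subtype.val z)⟩⟩) ⟨fun a b e => ?_, fun ⟨⟨y, hy⟩, e, y0⟩ => ?_⟩)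
  · have : Φ.B w.1.1 v = a := congrArg Subtype.val w.2
    simp [unit_Q, hv, w.1.2.1, this, Φ.B_symm w.1.1 v, mul_comm]
  · exact Subtype.ext (Subtype.ext (sub_left_injective (congrArg (·.1.1) e)))
  · rw [mem_perp_singleton] at hy
    have b : Φ.B (y + a • v) v = a := by simp [hy, hv]
    refine ⟨⟨⟨y + a • v, ?_, b.symm ▸ ha, fun ⟨c, z⟩ => y0 (Subtype.ext ?_)⟩, Subtype.ext b⟩, by simp⟩
    · simp [unit_Q] at e; simp [hv, hy, e, Φ.B_symm y v]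
    · rw [z] at b; simp [hv] at b; simpa [b] using z

theorem plane (hv : Φ.B v v = 1) : (Φ.res (Φ.perp (F ∙ v))).Nondeg ∧ finrank F (Φ.perp (F ∙ v)) = 2 := by
  have := h.nd.finrank_perp_singleton (v := v) (by rintro rfl; simp at hv)
  refine ⟨h.nd.perp_nondeg fun ⟨y, hy⟩ e => ?_, by rw [h.dim] at this; omega⟩
  obtain ⟨c, rfl⟩ := Submodule.mem_span_singleton.1 hy
  simpa [hv, show c = 0 by simpa [hv] using e ⟨v, Submodule.mem_span_singleton_self v⟩]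

theorem cnt0 (hv : Φ.B v v = 1) : Nat.card {y : Φ.perp (F ∙ v) // (Φ.res _).Q y = 0 ∧ y ≠ 0} = (q ^ 2 - 1) * (q + 1) := by
  haveI := finite_of_fd (F := F) (V := V)
  rw [card_ne_zero_sing, numSing_unit (h.plane hv).1 (n := 0) (h.plane hv).2]; simp [uf]

theorem cnt1 (hv : Φ.B v v = 1) {c : F} (c0 : c ≠ 0) (hc : H5.conj hF c = c) : Nat.card {y : Φ.perp (F ∙ v) // (Φ.res _).Q y = c ∧ y ≠ 0} = q * (q - 1) * (q + 1) := by
  classical
  have b := numQ_unit_aux (h.plane hv).1 hc (h.plane hv).2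
  have q2 := two_le_of_card_sq hF
  rw [Nat.card_congr (Equiv.subtypeEquivRight fun y => and_iff_left_of_imp (by rintro e rfl; exact c0 (by simpa using e.symm)))]
  rw [numQ, if_neg c0] at b
  zify [show 1 ≤ q by omega]
  exact mul_left_cancel₀ (a := (q : ℤ)) (by positivity) (by linear_combination b)

theorem mid (hv : Φ.B v v = 1) (hw : Φ.B w w = 1) (n : ¬ ∃ c : F, w = c • v) : (∃ u, Φ.B u u = 1 ∧ Φ.B u v = 0 ∧ Φ.B u w = 0) ↔ Φ.B w v * H5.conj hF (Φ.B w v) ≠ 1 := by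
  have y0 : w - Φ.B w v • v ≠ 0 := fun z => n ⟨_, sub_eq_zero.1 z⟩
  have yy : Φ.B (w - Φ.B w v • v) (w - Φ.B w v • v) = 1 - Φ.B w v * H5.conj hF (Φ.B w v) := by simp [hv, hw, Φ.B_symm w v, mul_comm]
  have yv : Φ.B (w - Φ.B w v • v) v = 0 := by simp [hv]
  have l : ∀ u, u ≠ 0 → Φ.B u v = 0 → Φ.B u (w - Φ.B w v • v) = 0 → (Φ.B u u = 0 ↔ Φ.B (w - Φ.B w v • v) (w - Φ.B w v • v) = 0) := by
    generalize w - Φ.B w v • v = y at y0 yv
    suffices ∀ u y, u ≠ 0 → y ≠ 0 → Φ.B u v = 0 → Φ.B y v = 0 → Φ.B u y = 0 → Φ.B y y = 0 → Φ.B u u = 0 from fun u u0 a b => ⟨this y u y0 u0 yv a (Φ.B_eq_zero_comm.1 b), this u y u0 y0 a yv b⟩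
    intro u y u0 y0 a b c d
    obtain ⟨n, e⟩ := h.plane hv
    have := n.finrank_perp_singleton (v := ⟨y, (mem_perp_singleton _).2 b⟩) (by simpa using y0)
    obtain ⟨s, e⟩ := (finrank_eq_one_iff_of_nonzero' (⟨⟨y, (mem_perp_singleton _).2 b⟩, (mem_perp_singleton _).2 d⟩ : (Φ.res _).perp (F ∙ ⟨y, (mem_perp_singleton _).2 b⟩)) (by simpa using y0)).1 (Nat.add_right_cancel (m := 1) (this.trans e))
      ⟨⟨u, (mem_perp_singleton _).2 a⟩, (mem_perp_singleton _).2 c⟩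
    obtain rfl : s • y = u := congrArg (·.1.1) e
    simp [d]
  refine ⟨fun ⟨u, a, b, c⟩ e => by simpa only [a, yy, e, sub_self, one_ne_zero, iff_true] using l u (by rintro rfl; simp at a) b (by simp [b, c]), fun e => ?_⟩
  obtain ⟨u, -, u0, hu⟩ := h.nd.exists_perp_not_mem ⊤ ⊥ [v, w] (by simp [h.dim])
  have a := hu v (by simp)
  have b := hu w (by simp)
  have c : Φ.B u u ≠ 0 := fun z => e (by rw [l u u0 a (by simp [a, b]), yy, sub_eq_zero] at z; exact z.symm)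
  obtain ⟨s, hs⟩ := exists_norm_eq hF (μ := (Φ.B u u)⁻¹) (by rw [map_inv₀, ← Φ.unit_Q, Φ.unit_σ_Q])
  exact ⟨s • u, by simp; field_simp at hs; linear_combination hs, by simp [a], by simp [b]⟩

theorem cent {t : G} (t1 : t ≠ 1) (t2 : t * t = 1) : (∀ x : G, x ≠ 1 → x * x = 1 → ∃ g, g * t * g⁻¹ = x) ∧ Nat.card (Subgroup.centralizer {t}) = q * (q + 1) * (q ^ 2 - 1) := by
  obtain ⟨v, hv, rfl⟩ := (h.inv_iff t).1 ⟨t1, t2⟩
  have c : ∀ x : G, x ≠ 1 → x * x = 1 → ∃ g, g * τ v * g⁻¹ = x := fun x x1 x2 => by obtain ⟨w, hw, rfl⟩ := (h.inv_iff x).1 ⟨x1, x2⟩; exact h.trans hv hw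
  refine ⟨c, ?_⟩
  have a := card_eq_orbit_mul (⊤ : Subgroup (ConjAct G)) (τ v) (fun x => x ≠ 1 ∧ x * x = 1) fun y => ⟨fun k => (c y k.1 k.2).elim fun g e => ⟨ConjAct.toConjAct g, trivial, e⟩, by
    rintro ⟨g, -, rfl⟩; exact ⟨by simpa [ConjAct.smul_def] using t1, by rw [← smul_mul', t2, smul_one]⟩⟩
  have b := card_sisom_unit h.nd h.dim (by omega)
  rw [show Φ.sisom = ρ.range from Subgroup.ext h.mem, ← Nat.card_congr (MonoidHom.ofInjective h.inj).toEquiv] at b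
  rw [top_inf_eq, h.card_all, ConjAct.stabilizer_eq_centralizer, Subgroup.card_top] at a
  have q2 := two_le_of_card_sq hF
  have q3 := Nat.le_self_pow two_ne_zero q
  erw [a] at b
  simp [guOrd, uf, Finset.prod_range_succ, show Even 2 by decide] at b
  refine Nat.eq_of_mul_eq_mul_left (show 0 < (q + 1) * (q ^ 2 * (q ^ 2 - q + 1)) by positivity) ((mul_assoc ..).trans (b.trans ?_))
  zify [q3, show 1 ≤ q ^ 2 by omega]; ring

theorem third {t x : G} (t1 : t ≠ 1) (t2 : t * t = 1) (x1 : x ≠ 1) (x2 : x * x = 1) (n : x ≠ t) (c : Commute t x) : Nat.card {y // y ≠ 1 ∧ y * y = 1 ∧ y ≠ t ∧ y ≠ x ∧ Commute t y ∧ Commute x y} = 1 := by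
  refine Nat.card_eq_one_iff_exists.2 ⟨⟨t * x, fun e => n (mul_left_cancel (e.trans t2.symm)), by rw [c.symm.mul_mul_mul_comm, t2, x2, one_mul], by simpa, by simpa, (Commute.refl t).mul_right c, c.symm.mul_right (.refl x)⟩, fun ⟨y, y1, y2, y3, y4, y5, y6⟩ => Subtype.ext ?_⟩
  obtain ⟨v, hv, rfl⟩ := (h.inv_iff t).1 ⟨t1, t2⟩
  obtain ⟨w, hw, rfl⟩ := (h.inv_iff x).1 ⟨x1, x2⟩
  obtain ⟨u, hu, rfl⟩ := (h.inv_iff y).1 ⟨y1, y2⟩
  have a := ((h.comm_iff hv hw).1 c).resolve_right fun e => n ((h.eq_iff hv hw).2 e).symm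
  have b := ((h.comm_iff hv hu).1 y5).resolve_right fun e => y3 ((h.eq_iff hv hu).2 e).symm
  have d := ((h.comm_iff hw hu).1 y6).resolve_right fun e => y4 ((h.eq_iff hw hu).2 e).symm
  have a' := Φ.B_eq_zero_comm.1 a
  have b' := Φ.B_eq_zero_comm.1 b
  have d' := Φ.B_eq_zero_comm.1 d
  have l : LinearIndependent F ![v, w, u] := Fintype.linearIndependent_iff.2 fun g e i => by
    have e1 := congrArg (Φ.B · v) e
    have e2 := congrArg (Φ.B · w) e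
    have e3 := congrArg (Φ.B · u) e
    simp [Fin.sum_univ_succ, hv, hw, hu, a, b, d, a', b', d'] at e1 e2 e3
    fin_cases i <;> assumption
  refine h.inj (LinearEquiv.toLinearMap_injective ((basisOfLinearIndependentOfCardEqFinrank l (by simp [h.dim])).ext fun i => ?_))
  fin_cases i <;> simp [h.tau v hv, h.tau w hw, h.tau u hu, *] <;> module

theorem cnt (hv : Φ.B v v = 1) (P : G → Prop) (R : F → Prop) {m n k : ℕ} (e : ∀ w, Φ.B w w = 1 → (P (τ w) ↔ R (Φ.B w v) ∧ ¬ ∃ c : F, w = c • v)) (a : Nat.card {a // R a} = m)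
    (b : ∀ a, R a → Nat.card {y : Φ.perp (F ∙ v) // (Φ.res _).Q y = 1 - a * H5.conj hF a ∧ y ≠ 0} = n) (c : m * n = k * (q + 1)) : Nat.card {x // x ≠ 1 ∧ x * x = 1 ∧ P x} = k :=
  Nat.eq_of_mul_eq_mul_right q.succ_pos (by rw [← h.card, Nat.card_congr (Equiv.subtypeEquivRight fun w => and_congr_right (e w)), h.split hv R b, a, c])

theorem graph {t : G} (t1 : t ≠ 1) (t2 : t * t = 1) : Nat.card {x // x ≠ 1 ∧ x * x = 1 ∧ x ≠ t ∧ Commute t x} = q * (q - 1) ∧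
    Nat.card {x // x ≠ 1 ∧ x * x = 1 ∧ ¬ Commute t x ∧ ∃ y, y ≠ 1 ∧ y * y = 1 ∧ Commute t y ∧ Commute y x} = q * (q - 2) * (q ^ 2 - 1) ∧
    Nat.card {x // x ≠ 1 ∧ x * x = 1 ∧ ¬ Commute t x ∧ ∀ y, y ≠ 1 → y * y = 1 → ¬ (Commute t y ∧ Commute y x)} = (q + 1) * (q ^ 2 - 1) ∧
    ∀ x, x ≠ 1 → x * x = 1 → ∃ y z, y ≠ 1 ∧ y * y = 1 ∧ z ≠ 1 ∧ z * z = 1 ∧ Commute t y ∧ Commute y z ∧ Commute z x := by
  classical
  obtain ⟨v, hv, rfl⟩ := (h.inv_iff t).1 ⟨t1, t2⟩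
  have q2 := two_le_of_card_sq hF
  have m : ∀ w, Φ.B w w = 1 → ¬ Commute (τ v) (τ w) → ((∃ y, y ≠ 1 ∧ y * y = 1 ∧ Commute (τ v) y ∧ Commute y (τ w)) ↔ Φ.B w v * H5.conj hF (Φ.B w v) ≠ 1) := fun w hw n => by
    rw [← h.mid hv hw fun k => n ((h.comm_iff hv hw).2 (.inr k))]
    refine ⟨fun ⟨y, y1, y2, y3, y4⟩ => ?_, fun ⟨u, a, b, c⟩ => ⟨τ u, ((h.inv_iff _).2 ⟨u, a, rfl⟩).1, ((h.inv_iff _).2 ⟨u, a, rfl⟩).2, (h.comm_iff hv a).2 (.inl b), ((h.comm_iff hw a).2 (.inl c)).symm⟩⟩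
    obtain ⟨u, hu, rfl⟩ := (h.inv_iff y).1 ⟨y1, y2⟩
    exact ⟨u, hu, ((h.comm_iff hv hu).1 y3).resolve_right fun e => n ((h.eq_iff hv hu).2 e ▸ y4), ((h.comm_iff hw hu).1 y4.symm).resolve_right fun e => n ((h.eq_iff hw hu).2 e ▸ y3)⟩
  refine ⟨h.cnt hv _ (· = 0) (m := 1) (fun w hw => ?_) (by simp) (fun a e => h.cnt1 hv (by simp [e]) (by simp [e])) (one_mul _),
    h.cnt hv _ (fun a => a ≠ 0 ∧ a * H5.conj hF a ≠ 1) (m := (q - 2) * (q + 1)) (fun w hw => ?_) ?_ (fun a e => h.cnt1 hv (sub_ne_zero.2 e.2.symm) (by simp [conj_conj, mul_comm])) ?_,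
    h.cnt hv _ (fun a => a * H5.conj hF a = 1) (fun w hw => ?_) (card_norm_one hF) (fun a e => by rw [e, sub_self, h.cnt0 hv]) (by ring), fun x x1 x2 => ?_⟩
  · rw [ne_comm, Ne, h.eq_iff hv hw, h.comm_iff hv hw]; tauto
  · rw [and_congr_right (m w hw), h.comm_iff hv hw]; tauto
  · have := card_norm_one hF
    rw [Nat.card_eq_fintype_card, Fintype.card_subtype] at this ⊢
    have k := Finset.card_filter_add_card_filter_not (s := (Finset.univ : Finset F).erase 0) fun a => a * H5.conj hF a = 1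
    rw [Finset.filter_erase, Finset.erase_eq_of_notMem (by simp), this, Finset.card_erase_of_mem (by simp), Finset.card_univ, card_sq_sub_one hF] at k
    rw [show Finset.univ.filter (fun a => a ≠ 0 ∧ a * H5.conj hF a ≠ 1) = (Finset.univ.erase 0).filter fun a => ¬ a * H5.conj hF a = 1 by ext; simp]
    obtain ⟨r, rfl⟩ := Nat.exists_eq_add_of_le' q2
    simp only [Nat.add_sub_cancel, show r + 2 - 1 = r + 1 from rfl] at k ⊢; linarith
  · zify [q2, show 1 ≤ q by omega, Nat.one_le_pow 2 q (by omega)]; ring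
  · simp only [← not_exists, exists_prop]
    rw [and_congr_right fun n => not_congr (m w hw n), h.comm_iff hv hw, not_not, not_or]
    exact ⟨by tauto, fun k => ⟨⟨fun z => by simp [z] at k, k.2⟩, k.1⟩⟩
  obtain ⟨w, hw, rfl⟩ := (h.inv_iff x).1 ⟨x1, x2⟩
  by_cases c : Commute (τ v) (τ w)
  · exact ⟨_, _, t1, t2, t1, t2, .refl _, .refl _, c⟩
  by_cases d : Φ.B w v * H5.conj hF (Φ.B w v) = 1; swap
  · obtain ⟨y, y1, y2, y3, y4⟩ := (m w hw c).2 d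
    exact ⟨_, _, t1, t2, y1, y2, .refl _, y3, y4⟩
  have y0 : w - Φ.B w v • v ≠ 0 := fun z => c ((h.comm_iff hv hw).2 (.inr ⟨_, sub_eq_zero.1 z⟩))
  obtain ⟨f, hf⟩ := (h.plane hv).1.exists_hyp (e := ⟨w - Φ.B w v • v, by simp [mem_perp_singleton, hv]⟩) (by simp [unit_Q, hv, hw, Φ.B_symm w v, mul_comm, d]) (by simpa using y0)
  obtain ⟨b, hb⟩ := exists_norm_eq hF (μ := -1) (by simp)
  have b0 : H5.conj hF b ≠ 0 := by rintro z; simp [z] at hb
  have e1 : Φ.B (w - Φ.B w v • v) (w - Φ.B w v • v) = 0 := hf.Bee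
  have e2 : Φ.B f f = 0 := hf.Bff
  have e3 : Φ.B f (w - Φ.B w v • v) = 1 := hf.Bfe
  have e4 : Φ.B f v = 0 := (mem_perp_singleton _).1 f.2
  have e5 : Φ.B (w - Φ.B w v • v) v = 0 := by simp [hv]
  have e6 : ∀ u, Φ.B u w = Φ.B u (w - Φ.B w v • v) + H5.conj hF (Φ.B w v) * Φ.B u v := by simp
  clear hf
  generalize w - Φ.B w v • v = y at *
  have b1 : b ≠ 0 := by simpa using b0
  have := h.two
  have hu : Φ.B ((2 * H5.conj hF b)⁻¹ • y + b • f.1) ((2 * H5.conj hF b)⁻¹ • y + b • f.1) = 1 := by simp [e1, e2, e3, Φ.B_symm f y, conj_conj, map_ofNat]; field_simp; norm_num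
  have uv : Φ.B ((2 * H5.conj hF b)⁻¹ • y + b • f.1) v = 0 := by simp [e4, e5]
  have uw : Φ.B ((2 * H5.conj hF b)⁻¹ • y + b • f.1) w = b := by rw [e6, uv]; simp [e1, e3]
  generalize (2 * H5.conj hF b)⁻¹ • y + b • f.1 = u at *
  obtain ⟨z, z1, z2, z3⟩ := (h.mid hu hw (by rintro ⟨c, rfl⟩; simp [uv] at d)).2 (by
    rw [Φ.B_symm u w, uw]; simp only [Kind.unit_ε, Kind.unit_σ, one_mul, conj_conj, mul_comm, hb]; exact fun e => this (by linear_combination -e))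
  exact ⟨τ u, τ z, ((h.inv_iff _).2 ⟨u, hu, rfl⟩).1, ((h.inv_iff _).2 ⟨u, hu, rfl⟩).2, ((h.inv_iff _).2 ⟨z, z1, rfl⟩).1, ((h.inv_iff _).2 ⟨z, z1, rfl⟩).2,
    (h.comm_iff hv hu).2 (.inl uv), (h.comm_iff hu z1).2 (.inl z2), ((h.comm_iff hw z1).2 (.inl z3)).symm⟩

end U3
end H5
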