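import Cfsg.Agent.H5.Cay
/-! Classification of unipotent classes in symplectic groups of odd characteristic by Jordan type and signs. -/
set_option autoImplicit false
namespace H5
open Module Finset

universe u v w
variable {F : Type u} [Field F] {κ κ' : Kind F} {η : F} {V : Type v} [AddCommGroup V] [Module F V] {W : Type w} [AddCommGroup W] [Module F W]

theorem card_comp_surj {p : V →ₗ[F] W} (h : Function.Surjective p) (P : W → Prop) :
    Nat.card {x // P (p x)} = Nat.card (LinearMap.ker p) * Nat.card {y // P y} := by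
  obtain ⟨s, hs⟩ := p.exists_rightInverse_of_surjective (LinearMap.range_eq_top.2 h)
  have hs : ∀ y, p (s y) = y := LinearMap.congr_fun hs
  rw [← Nat.card_prod]
  exact Nat.card_congr ⟨fun x => (⟨x - s (p x), by simp [hs]⟩, ⟨p x, x.2⟩), fun y => ⟨y.1 + s y.2, by simpa [hs, show p y.1 = 0 from y.1.2] using y.2.2⟩,
    fun x => by simp, fun y => by simp [hs, show p y.1 = 0 from y.1.2]⟩

theorem JE.finrank_inf [FiniteDimensional F V] {T : End F V} {μ} (j : JE T μ) :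
    finrank F ↥(LinearMap.range T ⊓ LinearMap.ker T) + μ.count 1 = finrank F (LinearMap.ker T) := by
  have j1 := j 1
  have j2 := j.dT 1
  rw [pow_one, (sum_min_one μ).2] at j1
  rw [pow_one, (sum_min_one μ).1] at j2
  have e : LinearMap.range T ⊓ LinearMap.ker T = (LinearMap.ker (H5.dT T)).map (Submodule.subtype _) := by
    ext x
    exact ⟨fun h => ⟨⟨x, h.1⟩, Subtype.ext h.2, rfl⟩, by rintro ⟨x, hx, rfl⟩; exact ⟨x.2, congrArg Subtype.val hx⟩⟩
  rw [e, Submodule.finrank_map_subtype_eq, j1, j2]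

theorem mem_pred {μ : Multiset ℕ} {i : ℕ} : i + 1 ∈ μ.map (· - 1) ↔ i + 2 ∈ μ := by rw [← Multiset.one_le_count_iff_mem, count_pred, Multiset.one_le_count_iff_mem]

namespace Form
variable {Φ : Form κ V} {T : End F V} {Ψ : Form κ' W} {Φ₂ : Form κ W} {T₂ : End F W} {j : W →ₗ[F] V} {p : V →ₗ[F] W}

variable (Φ T) in
/-- Sign of the quadratic function `B (T x) x`. -/
def sg : Prop := Nat.card V < Nat.card F * Nat.card {x // Φ.B (T x) x = 2}

theorem IsIso.sg {f : V ≃ₗ[F] W} (h : Φ.IsIso Φ₂ f) (c : ∀ x, f (T x) = T₂ (f x)) (i : ℕ) : Φ.sg (T ^ i) ↔ Φ₂.sg (T₂ ^ i) := by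
  have e : ∀ x, f ((T ^ i) x) = (T₂ ^ i) (f x) := fun x => by
    induction i with
    | zero => rfl
    | succ i ih => rw [pow_succ', pow_succ', End.mul_apply, End.mul_apply, c, ih]
  rw [Form.sg, Form.sg, Nat.card_congr f.toEquiv, Nat.card_congr (f.toEquiv.subtypeEquiv (q := fun y => Φ₂.B ((T₂ ^ i) y) y = 2) fun x => by
    rw [← h.1, e]; rfl)]

variable (Φ Ψ j p) in
/-- `Ψ` is the derived form for `j ∘ p`. -/
structure Lift : Prop where
  inj : Function.Injective j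
  surj : Function.Surjective p
  eq : ∀ w y, Ψ.B w (p y) = Φ.B (j w) y

theorem comp_pow (i : ℕ) (x : V) : ((j ∘ₗ p : End F V) ^ (i + 1)) x = j (((p ∘ₗ j : End F W) ^ i) (p x)) := by
  induction i with
  | zero => rfl
  | succ i ih => rw [pow_succ', End.mul_apply, ih, pow_succ']; rfl

theorem Lift.sg [Finite V] (h : Φ.Lift Ψ j p) (i : ℕ) : Φ.sg ((j ∘ₗ p : End F V) ^ (i + 1)) ↔ Ψ.sg ((p ∘ₗ j : End F W) ^ i) := by
  have := card_comp_surj h.surj fun _ => True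
  simp only [Form.sg, comp_pow, ← h.eq, card_comp_surj h.surj fun y => Ψ.B (((p ∘ₗ j : End F W) ^ i) y) y = 2]
  rw [Nat.card_congr (Equiv.subtypeUnivEquiv fun _ => trivial), Nat.card_congr (Equiv.subtypeUnivEquiv fun _ => trivial)] at this
  rw [this, mul_left_comm, Nat.mul_lt_mul_left Nat.card_pos]

theorem Lift.adj (d : DualK κ κ' η) (h : Φ.Lift Ψ j p) : Φ.Adj η (j ∘ₗ p) := fun x y => by
  rw [Φ.B_symm _ x, LinearMap.comp_apply, LinearMap.comp_apply, ← h.eq, ← h.eq, Ψ.B_symm, d.ε, d.σ, mul_assoc]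

theorem Lift.prod {D : Type*} [AddCommGroup D] [Module F D] (Θ : Form κ D) (h : Φ.Lift Ψ j p) :
    (Φ.prod Θ).Lift Ψ (.inl F V D ∘ₗ j) (p ∘ₗ .fst F V D) :=
  ⟨LinearMap.inl_injective.comp h.inj, h.surj.comp Prod.fst_surjective, fun w y => by simp [prod_B, h.eq]⟩

theorem Der.lift {Ψ : Form κ' (LinearMap.range T)} (h : Φ.Der T Ψ) : Φ.Lift Ψ (Submodule.subtype _) T.rangeRestrict :=
  ⟨Subtype.val_injective, T.surjective_rangeRestrict, h⟩

variable [FiniteDimensional F V] [FiniteDimensional F W]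

theorem Lift.je (h : Φ.Lift Ψ j p) {μ : Multiset ℕ} (k : JE (p ∘ₗ j) (μ.map (· - 1))) (e : finrank F V = finrank F W + (μ.map (min · 1)).sum) :
    JE (j ∘ₗ p) μ := by
  rintro (_ | i)
  · simp [End.one_eq_id]
  have := finrank_map_add p (p := (LinearMap.ker ((p ∘ₗ j : End F W) ^ i)).comap p) fun x hx => by simp [show p x = 0 from hx]
  have l := p.finrank_range_add_finrank_ker
  rw [Submodule.map_comap_eq_of_surjective h.surj, k] at this
  rw [LinearMap.range_eq_top.2 h.surj, finrank_top] at l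
  have e : ((μ.map (· - 1)).map (min · i)).sum + (μ.map (min · 1)).sum = (μ.map (min · (i + 1))).sum := by
    rw [Multiset.map_map, ← Multiset.sum_map_add]
    exact congrArg _ (Multiset.map_congr rfl fun a _ => by simp only [Function.comp]; omega)
  rw [show LinearMap.ker ((j ∘ₗ p : End F V) ^ (i + 1)) = (LinearMap.ker ((p ∘ₗ j : End F W) ^ i)).comap p by
    ext x; simp [comp_pow, map_eq_zero_iff j h.inj]]
  omega

theorem exists_lift (d : DualK κ κ' η) (n : Ψ.Nondeg) (a : Ψ.Adj η T₂) : ∃ (V : Type w) (_ : AddCommGroup V) (_ : Module F V) (_ : FiniteDimensional F V)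
    (Φ : Form κ V) (j : W →ₗ[F] V) (p : V →ₗ[F] W), Φ.Nondeg ∧ Φ.Lift Ψ j p ∧ p ∘ₗ j = T₂ ∧ finrank F V = finrank F W + finrank F (LinearMap.ker T₂) := by
  obtain ⟨C, hC⟩ := (LinearMap.range T₂).exists_isCompl
  have s : κ.σ η = η := by rcases mul_self_eq_one_iff.1 d.sq with e | e <;> simp [e]
  have e : ∀ x y, κ.ε * κ.σ (Ψ.B x y) = η * Ψ.B y x := fun x y => by rw [Ψ.B_symm x, d.ε, d.σ, ← mul_assoc, ← mul_assoc, d.sq, one_mul]
  obtain ⟨Φ, k⟩ := d.t.exists_form (LinearMap.mk₂'ₛₗ (.id F) κ.σ (fun x y : W × C => Ψ.B x.1 (T₂ y.1 + y.2) + η * Ψ.B x.2 y.1)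
    (by intros; simp; ring) (by intros; simp; ring) (by intros; simp; ring) (by intros; simp [d.σ]; ring)) fun x y => by
      simp only [LinearMap.mk₂'ₛₗ_apply, map_add, map_mul, s, mul_add, mul_left_comm _ η, e, a y.1]
      linear_combination (-Ψ.B y.1 (T₂ x.1) - Ψ.B y.1 x.2) * d.sq
  refine ⟨_, _, _, inferInstance, Φ, .inl _ _ _, T₂.coprod C.subtype, fun y hy => ?_, ⟨LinearMap.inl_injective, fun w => ?_, fun w y => by simp [k]⟩,
    by ext; simp, ?_⟩
  · have h1 : T₂ y.1 + y.2 = 0 := n _ fun x => by simpa [k] using hy (x, 0)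
    have h2 : y.2.1 = 0 := Submodule.disjoint_def.1 hC.disjoint _ ⟨-y.1, by simp [eq_neg_of_add_eq_zero_left h1]⟩ y.2.2
    refine Prod.ext (n _ fun x => ?_) (Subtype.ext h2)
    obtain ⟨_, ⟨x, rfl⟩, c, hc, rfl⟩ := Submodule.mem_sup.1 (hC.sup_eq_top.ge (Submodule.mem_top (x := x)))
    have := hy (0, ⟨c, hc⟩)
    rw [h2, add_zero] at h1
    simp only [k, LinearMap.mk₂'ₛₗ_apply, map_zero, LinearMap.zero_apply, zero_add] at this
    rw [map_add, LinearMap.add_apply, a, h1, map_zero, mul_zero, zero_add, ← one_mul (Ψ.B c _), ← d.sq, mul_assoc, this, mul_zero]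
  · obtain ⟨_, ⟨x, rfl⟩, c, hc, rfl⟩ := Submodule.mem_sup.1 (hC.sup_eq_top.ge (Submodule.mem_top (x := w)))
    exact ⟨(x, ⟨c, hc⟩), rfl⟩
  · have := Submodule.finrank_add_eq_of_isCompl hC
    have := T₂.finrank_range_add_finrank_ker
    rw [finrank_prod]; omega

theorem iso_of_coiso (t : Tame κ) (n : Φ.Nondeg) (n₂ : Φ₂.Nondeg) (e : finrank F V = finrank F W) {R : Submodule F V} {R₂ : Submodule F W}
    (α : R ≃ₗ[F] R₂) (hα : ∀ x y : R, Φ₂.B (α x) (α y) = Φ.B x y) (h : Φ.perp R ≤ R) : ∃ f, Φ.IsIso Φ₂ f := by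
  obtain ⟨i⟩ := FiniteDimensional.nonempty_linearEquiv_of_finrank_eq e
  obtain ⟨g, hg⟩ := Submodule.exists_linearEquiv_restrict_eq (α.trans (i.symm.submoduleMap R₂))
  have k : (Φ₂.comap (g.trans i).toLinearMap).IsIso Φ₂ (g.trans i) := ⟨fun _ _ => rfl, fun _ => rfl⟩
  have n' := k.symm.nondeg n₂
  have b : ∀ x ∈ R, ∀ y ∈ R, (Φ₂.comap (g.trans i).toLinearMap).B x y = Φ.B x y := fun x hx y hy => by
    simp [← hg ⟨x, hx⟩, ← hg ⟨y, hy⟩, hα]
  suffices ∃ f, Φ.IsIso (Φ₂.comap (g.trans i).toLinearMap) f from let ⟨_, l⟩ := this; ⟨_, l.trans k⟩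
  generalize Φ₂.comap (g.trans i).toLinearMap = Φ' at n' b
  obtain ⟨U, h1, h2, h3⟩ := n.exists_rad_compl R
  rw [inf_eq_right.2 h] at h2 h3
  have le : U ≤ R := h2 ▸ le_sup_right
  have i0 : (Φ.res U).IsIso (Φ'.res U) (.refl _ _) := ⟨fun x y => b _ (le x.2) _ (le y.2), fun x => t.Q_eq (b _ (le x.2) _ (le x.2))⟩
  have ts : ∀ {Φ' : Form κ V}, (∀ x ∈ R, ∀ y ∈ R, Φ'.B x y = Φ.B x y) → (Φ'.res (Φ'.perp U)).HasTS (finrank F (Φ.perp R)) := fun {Φ'} b =>
    ⟨_, (Submodule.comapSubtypeEquivOfLe (q := Φ'.perp U) fun x hx y hy => (b x (h hx) y (le hy)).trans (hx y (le hy))).finrank_eq,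
      TS.comap_subtype ⟨fun x hx => (t.Q_eq (Ψ := Φ') (y := 0) (by simpa [b x (h hx) x (h hx)] using hx x (h hx))).trans Φ'.Q_zero,
      fun x hx y hy => (b x (h hx) y (h hy)).trans (hx y (h hy))⟩ _⟩
  have := n.finrank_perp U
  have := n'.finrank_perp U
  obtain ⟨_, l⟩ := split_iso (n.perp_nondeg h1) (n'.perp_nondeg (i0.nondeg h1)) (by omega) (by omega) (ts fun _ _ _ _ => rfl) (ts b)
  exact (exists_glue n n' h1 (i0.nondeg h1) i0 l).imp fun _ h => h.1

end Form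

/-- Classification data for forms of kind `κ`; `s` says whether the sign matters. -/
structure Cls (κ : Kind F) (s : Prop) : Prop where
  iso : ∀ {V W : Type u} [AddCommGroup V] [Module F V] [FiniteDimensional F V] [AddCommGroup W] [Module F W] [FiniteDimensional F W]
    {Φ : Form κ V} {Ψ : Form κ W}, Φ.Nondeg → Ψ.Nondeg → finrank F V = finrank F W → (s → (Φ.sg 1 ↔ Ψ.sg 1)) → ∃ f, Φ.IsIso Ψ f
  ex : ∀ d, (¬ s → Even d) → ∃ (D : Type u) (_ : AddCommGroup D) (_ : Module F D) (_ : FiniteDimensional F D) (Θ Θ' : Form κ D),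
    Θ.Nondeg ∧ Θ'.Nondeg ∧ finrank F D = d ∧ (s → 0 < d → ¬ ∃ f, Θ.IsIso Θ' f)

namespace Form
variable [Finite F]

theorem iso_of_sg (n : ℕ) : ∀ (K : ℕ → Kind F) (S : ℕ → Prop) (_ : ∀ i, DualK (K i) (K (i + 1)) η ∧ Cls (K i) (S i)) {V W : Type u} [AddCommGroup V]
    [Module F V] [FiniteDimensional F V] [AddCommGroup W] [Module F W] [FiniteDimensional F W] {Φ : Form (K 0) V} {Φ₂ : Form (K 0) W} {T : End F V}
    {T₂ : End F W} {μ : Multiset ℕ}, Φ.Nondeg → Φ₂.Nondeg → Φ.Adj η T → Φ₂.Adj η T₂ → JE T μ → JE T₂ μ → finrank F V = μ.sum → finrank F W = μ.sum →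
    (∀ a ∈ μ, a ≤ n) → (∀ i, S i → i + 1 ∈ μ → (Φ.sg (T ^ i) ↔ Φ₂.sg (T₂ ^ i))) → ∃ f, Φ.IsIso Φ₂ f ∧ ∀ x, f (T x) = T₂ (f x) := by
  induction n with
  | zero =>
    intro K S _ V W _ _ _ _ _ _ Φ Φ₂ T T₂ μ _ _ _ _ _ _ e e₂ h _
    rw [Multiset.sum_eq_zero fun a ha => Nat.le_zero.1 (h a ha)] at e e₂
    have := finrank_zero_iff.1 e₂
    exact (zero_iso e e₂).imp fun f h => ⟨h, fun _ => Subsingleton.elim _ _⟩
  | succ n ih =>
    intro K S d V W _ _ _ _ _ _ Φ Φ₂ T T₂ μ h h₂ a a₂ j j₂ e e₂ b s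
    obtain ⟨Ψ, k⟩ := a.exists_der (d 0).1
    obtain ⟨Ψ₂, k₂⟩ := a₂.exists_der (d 0).1
    have : Finite V := Module.finite_of_finite F
    have : Finite W := Module.finite_of_finite F
    obtain ⟨α, h1, h2⟩ := ih (fun i => K (i + 1)) (fun i => S (i + 1)) (fun i => d (i + 1)) (k.nondeg h) (k₂.nondeg h₂) (k.adj a) (k₂.adj a₂) j.dT j₂.dT
      (j.finrank_range e) (j₂.finrank_range e₂) (by simpa using b) fun i hi m => (k.lift.sg i).symm.trans ((s _ hi (mem_pred.1 m)).trans (k₂.lift.sg i))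
    suffices ∃ i, Φ.IsIso Φ₂ i from let ⟨_, hi⟩ := this; (k.exists_ext (d 0).1.t k₂ h hi h1.1 h2).imp fun _ h => ⟨h.1, h.2.2⟩
    by_cases m : 1 ∈ μ
    · exact (d 0).2.iso h h₂ (e.trans e₂.symm) fun l => s 0 l m
    · have := j.finrank_inf
      rw [Multiset.count_eq_zero.2 m] at this
      exact iso_of_coiso (d 0).1.t h h₂ (e.trans e₂.symm) α (k.iso_B k₂ h1.1 h2)
        (by rw [a.perp_range h]; exact inf_eq_right.1 (Submodule.eq_of_le_of_finrank_eq inf_le_right this))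

theorem exists_sg (n : ℕ) : ∀ (K : ℕ → Kind F) (S : ℕ → Prop) (_ : ∀ i, DualK (K i) (K (i + 1)) η ∧ Cls (K i) (S i)) (μ : Multiset ℕ) (b : ℕ → Prop),
    (∀ a ∈ μ, a ≤ n) → (∀ i, ¬ S i → Even (μ.count (i + 1))) → ∃ (V : Type u) (_ : AddCommGroup V) (_ : Module F V) (_ : FiniteDimensional F V)
    (Φ : Form (K 0) V) (T : End F V), Φ.Nondeg ∧ Φ.Adj η T ∧ JE T μ ∧ finrank F V = μ.sum ∧ ∀ i, S i → i + 1 ∈ μ → (Φ.sg (T ^ i) ↔ b i) := by
  induction n with
  | zero =>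
    intro K S d μ b h _
    obtain ⟨D, _, _, _, Θ, -, h1, -, h2, -⟩ := (d 0).2.ex 0 (by simp)
    refine ⟨D, _, _, inferInstance, Θ, 0, h1, fun x y => by simp, fun k => ?_, h2.trans (Multiset.sum_eq_zero fun a ha => Nat.le_zero.1 (h a ha)).symm,
      fun i _ m => by simpa using h _ m⟩
    rw [Multiset.sum_eq_zero (by simpa using fun a ha => .inl (Nat.le_zero.1 (h a ha)))]
    exact Nat.le_zero.1 (h2 ▸ Submodule.finrank_le _)
  | succ n ih =>
    intro K S d μ b h par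
    obtain ⟨U, _, _, _, Ψ, T, h1, h2, h3, h4, h5⟩ := ih (fun i => K (i + 1)) (fun i => S (i + 1)) (fun i => d (i + 1)) (μ.map (· - 1)) (fun i => b (i + 1))
      (by simpa using h) fun i hi => count_pred μ i ▸ par _ hi
    obtain ⟨V, _, _, _, Φ, j, p, k1, k2, rfl, k3⟩ := exists_lift (d 0).1 h1 h2
    obtain ⟨D, _, _, _, Θ, Θ', l1, l2, l3, l4⟩ := (d 0).2.ex _ (par 0)
    have : Finite (V × D) := Module.finite_of_finite F
    obtain ⟨Θ, l1, l⟩ : ∃ Θ : Form (K 0) D, Θ.Nondeg ∧ (S 0 → 1 ∈ μ → ((Φ.prod Θ).sg 1 ↔ b 0)) := by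
      by_contra! c
      obtain ⟨s, m, c1⟩ := c Θ l1
      obtain ⟨_, e⟩ := (d 0).2.iso (k1.prod l1) (k1.prod l2) rfl fun _ => by have := (c Θ' l2).2.2; tauto
      exact l4 s (Multiset.count_pos.2 m) (prod_cancel k1 l1 e)
    have e := h3 1
    rw [pow_one, (sum_min_one μ).1] at e
    have e' : finrank F (V × D) = finrank F U + (μ.map (min · 1)).sum := by rw [finrank_prod, k3, e, l3, (sum_min_one μ).2, add_assoc]
    refine ⟨_, _, _, inferInstance, _, _, k1.prod l1, (k2.prod Θ).adj (d 0).1, (k2.prod Θ).je h3 e', ?_, ?_⟩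
    · rw [e', h4, ← Multiset.sum_map_add]
      exact congrArg _ ((Multiset.map_congr rfl fun a _ => by simp only [id]; omega).trans (Multiset.map_id μ))
    rintro (_ | i) s m
    exacts [l s m, ((k2.prod Θ).sg i).trans (h5 i s (mem_pred.2 m))]

theorem sg_one {Φ : Form (.orth F) V} (h2 : (2 : F) ≠ 0) : Φ.sg 1 ↔ Nat.card V < Nat.card F * Φ.numQ 1 := by
  rw [sg, numQ, Nat.card_congr (Equiv.subtypeEquivRight (q := fun x => Φ.Q x = 1) fun x => by simp [orth_self, h2])]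

omit [Finite F] in
/-- The form `c x²`. -/
def lineF (c : F) : Form (.orth F) F := ofQuad (c • QuadraticMap.sq)

omit [Finite F] in
theorem lineF_nondeg (h2 : (2 : F) ≠ 0) {c : F} (hc : c ≠ 0) : (lineF c).Nondeg := fun y hy => by
  have := hy 1
  simp only [lineF, ofQuad_B, QuadraticMap.polar, smul_apply, QuadraticMap.sq_apply, smul_eq_mul] at this
  exact (mul_eq_zero.1 (show (2 * c) * y = 0 by linear_combination this)).resolve_left (mul_ne_zero h2 hc)

variable [FiniteDimensional F V] [FiniteDimensional F W] {Φ : Form (.orth F) V} {Ψ : Form (.orth F) W} (h2 : (2 : F) ≠ 0)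
include h2

theorem Hyp.sg {e f : V} (h : Φ.Hyp e f) (n : Φ.Nondeg) : Φ.sg 1 ↔ (Φ.res (Φ.perp (Submodule.span F {e, f}))).sg 1 := by
  obtain ⟨q, hq⟩ := Nat.exists_eq_add_of_le' (Nat.card_pos (α := F))
  rw [sg_one h2, sg_one h2, h.numQ_eq (c := 1) ⟨1, rfl⟩, card_ker_orth, natCard_eq_pow_finrank (K := F) (V := V), ← h.finrank_perp n,
    natCard_eq_pow_finrank (K := F) (V := Φ.perp _), hq, Nat.add_sub_cancel]
  generalize (Φ.res (Φ.perp (Submodule.span F {e, f}))).numQ 1 = N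
  generalize finrank F (Φ.perp (Submodule.span F {e, f})) = k
  rw [← Nat.mul_lt_mul_left (a := q + Nat.succ 0) (b := _ ^ k) (by omega), ← Nat.add_lt_add_iff_right (k := (q + 1) * q * (q + 1) ^ k) (n := _ * _ ^ k)]
  exact Iff.of_eq (congrArg₂ _ (by simp; ring) (by simp; ring))

theorem sg_even (n : Φ.Nondeg) {m : ℕ} (e : finrank F V = 2 * m) : Φ.sg 1 ↔ ¬ Φ.HasTS m := by
  have := Fintype.ofFinite F
  rw [sg_one h2, natCard_eq_pow_finrank (K := F) (V := V), e, Nat.card_eq_fintype_card]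
  have q : 0 < Fintype.card F := Fintype.card_pos
  refine ⟨fun h t => ?_, fun t => ?_⟩
  · have := n.numQ_plus rfl e t one_ne_zero
    have := pow_pos q m
    zify at *
    omega
  · rcases m with _ | m
    · exact absurd hasTS_zero t
    rw [numQ_minus rfl n e t, mul_add _ (_ ^ _), ← pow_succ']
    exact Nat.lt_add_of_pos_right (by positivity)

theorem sg_line (n : Φ.Nondeg) (e : finrank F V = 1) {v : V} (hv : v ≠ 0) : Φ.sg 1 ↔ IsSquare (Φ.Q v) := by
  rw [sg_one h2, natCard_eq_pow_finrank (K := F) (V := V), e, pow_one, numQ_line e hv, lt_mul_iff_one_lt_right Nat.card_pos, Finite.one_lt_card_iff_nontrivial]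
  have := n.line_Q_ne e hv
  refine ⟨fun ⟨⟨a, ha⟩, _⟩ => ⟨a * Φ.Q v, ?_⟩, fun ⟨a, ha⟩ => ?_⟩
  · simp only [Kind.orth_σ] at ha; linear_combination (-Φ.Q v) * ha
  · have a0 : a ≠ 0 := by rintro rfl; simp [ha] at this
    refine ⟨⟨a⁻¹, by simp [ha]; field_simp⟩, ⟨-a⁻¹, by simp [ha]; field_simp⟩, fun h => a0 ?_⟩
    simpa [eq_neg_iff_add_eq_zero, ← two_mul, h2] using congrArg Subtype.val h

theorem orth_iso (m : ℕ) : ∀ {V : Type v} {W : Type w} [AddCommGroup V] [Module F V] [FiniteDimensional F V] [AddCommGroup W] [Module F W]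
    [FiniteDimensional F W] {Φ : Form (.orth F) V} {Ψ : Form (.orth F) W}, Φ.Nondeg → Ψ.Nondeg → finrank F V = 2 * m + 1 → finrank F W = 2 * m + 1 →
    (Φ.sg 1 ↔ Ψ.sg 1) → ∃ f, Φ.IsIso Ψ f := by
  induction m with
  | zero =>
    intro V W _ _ _ _ _ _ Φ Ψ n n' e e' h
    obtain ⟨v, hv⟩ := exists_ne_zero_of_pos (V := V) (F := F) (by omega)
    obtain ⟨w, hw⟩ := exists_ne_zero_of_pos (V := W) (F := F) (by omega)
    rw [sg_line h2 n e hv, sg_line h2 n' e' hw] at h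
    have h1 := n.line_Q_ne e hv
    have h3 := n'.line_Q_ne e' hw
    obtain ⟨c, hc⟩ : IsSquare (Φ.Q v * Ψ.Q w) := by
      classical
      have := Fintype.ofFinite F
      rw [← quadraticChar_one_iff_isSquare h1, ← quadraticChar_one_iff_isSquare h3] at h
      rw [← quadraticChar_one_iff_isSquare (mul_ne_zero h1 h3), map_mul]
      rcases quadraticChar_dichotomy h1 with a | a <;> rcases quadraticChar_dichotomy h3 with b | b <;> simp_all
    refine (line_iso e e' hv (w := (c / Ψ.Q w) • w) (smul_ne_zero (div_ne_zero ?_ h3) hw) ?_).imp fun _ h => h.1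
    · rintro rfl; simp [h1, h3] at hc
    · rw [orth_smul]; field_simp; linear_combination -hc
  | succ m ih =>
    intro V W _ _ _ _ _ _ Φ Ψ n n' e e' h
    obtain ⟨a, b, k⟩ := n.orth_hyp (by omega)
    obtain ⟨a', b', k'⟩ := n'.orth_hyp (by omega)
    have := k.finrank_perp n
    have := k'.finrank_perp n'
    obtain ⟨_, l⟩ := ih (k.perp_nondeg n) (k'.perp_nondeg n') (by omega) (by omega) ((k.sg h2 n).symm.trans (h.trans (k'.sg h2 n')))
    exact (k.isIso_glue k' l).imp fun _ h => h.1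

theorem exists_orth (d : ℕ) : ∃ (D : Type u) (_ : AddCommGroup D) (_ : Module F D) (_ : FiniteDimensional F D) (Θ : Form (.orth F) D),
    Θ.Nondeg ∧ finrank F D = d := by
  obtain ⟨m, rfl | rfl⟩ := d.even_or_odd'
  exacts [⟨_, _, _, inferInstance, _, plusF_nondeg m, by simp [two_mul]⟩, ⟨_, _, _, inferInstance, _, oddF_nondeg h2 m, by simp; omega⟩]

theorem cls_orth : Cls (.orth F) True := by
  refine ⟨fun {V W _ _ _ _ _ _ Φ Ψ} n n' e h => ?_, fun d _ => ?_⟩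
  · have := Fintype.ofFinite F
    obtain ⟨m, k | k⟩ := (finrank F W).even_or_odd'
    · exact even_iso n n' (e.trans k) k (not_iff_not.1 ((sg_even h2 n (e.trans k)).symm.trans ((h trivial).trans (sg_even h2 n' k))))
    · exact orth_iso h2 m n n' (e.trans k) k (h trivial)
  rcases d with _ | d
  · obtain ⟨D, _, _, _, Θ, h, k⟩ := exists_orth h2 0
    exact ⟨D, _, _, inferInstance, Θ, Θ, h, h, k, by simp⟩
  obtain ⟨D, _, _, _, Θ, h, k⟩ := exists_orth h2 d
  obtain ⟨c, hc⟩ := FiniteField.exists_nonsquare (F := F) fun e => h2 (by simpa [e] using ringChar.Nat.cast_ringChar (R := F))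
  have l := lineF_nondeg h2 (c := c) (by rintro rfl; simp at hc)
  refine ⟨_, _, _, inferInstance, _, _, h.prod l, h.prod (lineF_nondeg h2 one_ne_zero), by simp [k], fun _ _ ⟨_, e⟩ => hc ?_⟩
  obtain ⟨f, hf⟩ := prod_cancel h l e
  exact ⟨f 1, by simpa [lineF] using (hf.2 1).symm⟩

omit h2 in
theorem cls_symp : Cls (.symp F) False :=
  ⟨fun n n' e _ => symp_iso n n' e, fun _ h => let ⟨m, e⟩ := h id; ⟨_, _, _, inferInstance, _, _, sympF_nondeg m, sympF_nondeg m, by simp [e], False.elim⟩⟩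

theorem cls_alt (i : ℕ) : DualK (altK (.symp F) (.orth F) i) (altK (.symp F) (.orth F) (i + 1)) (-1) ∧ Cls (altK (.symp F) (.orth F) i) (Odd i) := by
  refine ⟨(dual_so h2).alt i, ?_⟩
  rw [altK_eq]
  split_ifs with h
  · simpa [Nat.not_odd_iff_even.2 h] using cls_symp
  · simpa [Nat.not_even_iff_odd.1 h] using cls_orth h2

open Classical in
theorem card_unip_symp {V : Type u} [AddCommGroup V] [Module F V] [FiniteDimensional F V] {Φ : Form (.symp F) V} (n : Φ.Nondeg) {N : ℕ}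
    (e : finrank F V = N) (P : N.Partition → Prop) {G : Type*} [Group G] (φ : G ≃* Φ.isom) {Q : G → Prop}
    (hQ : ∀ g, Q g ↔ ∃ μ, P μ ∧ JE (nl (φ g).1) μ.parts) : Nat.card {C : ConjClasses G // ∃ g, ConjClasses.mk g = C ∧ Q g} =
    ∑ μ ∈ univ.filter fun μ : N.Partition => P μ ∧ ∀ j, Odd j → Even (μ.parts.count j), 2 ^ (μ.parts.toFinset.filter Even).card := by
  have c0 : (1 : F) - -1 * (Kind.symp F).σ 1 ≠ 0 := by simpa [one_add_one_eq_two] using h2
  have le : ∀ μ : N.Partition, ∀ a ∈ μ.parts, a ≤ μ.parts.sum := fun μ a => Multiset.single_le_sum (by simp) a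
  refine (card_classes (X := Σ μ : univ.filter fun μ : N.Partition => P μ ∧ ∀ j, Odd j → Even (μ.parts.count j), μ.1.parts.toFinset.filter Even → Prop)
    (fun g x => ∃ T, Cay 1 (1 - -1 * (Kind.symp F).σ 1) (nl (φ g).1) T ∧ Φ.Adj (-1) T ∧ JE T x.1.1.parts ∧ ∀ j, Φ.sg (T ^ (j.1 - 1)) ↔ x.2 j)
    (fun g => (hQ g).trans ⟨?_, ?_⟩) ?_ ?_).trans (by
      rw [Nat.card_sigma]
      refine (sum_congr rfl fun μ _ => ?_).trans (sum_coe_sort _ _)
      rw [Nat.card_fun, Nat.card_eq_fintype_card, Fintype.card_prop, Nat.card_eq_fintype_card, Fintype.card_coe])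
  · rintro ⟨μ, h, j⟩
    obtain ⟨T, c, a, k⟩ := Form.exists_cay (φ g).2 j (e.trans μ.parts_sum.symm) (by simp) c0
    exact ⟨⟨⟨μ, mem_filter.2 ⟨mem_univ _, h, fun _ => n.even_count_alt (fun _ => rfl) Φ.symp_self (φ g).2 j⟩⟩, fun j => Φ.sg (T ^ (j.1 - 1))⟩,
      T, c, a, k, fun _ => .rfl⟩
  · exact fun ⟨x, T, c, _, k, _⟩ => ⟨_, (mem_filter.1 x.1.2).2.1, c.je.1 k⟩
  · rintro ⟨⟨μ, hμ⟩, b⟩
    obtain ⟨U, _, _, _, Ψ, T, h1, h3, h4, h5, h6⟩ := exists_sg _ _ _ (cls_alt h2) μ.parts (fun i => ∃ h, b ⟨i + 1, h⟩) (le μ)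
      fun i hi => (mem_filter.1 hμ).2.2 _ (Nat.not_odd_iff_even.1 hi).add_one
    obtain ⟨f, hf⟩ := symp_iso h1 n (h5.trans (μ.parts_sum.trans e.symm))
    have c : ∀ x, f (T x) = (f.conj T) (f x) := fun x => by simp [LinearEquiv.conj_apply]
    have a : Φ.Adj (-1) (f.conj T) := fun x y => by
      obtain ⟨x, rfl⟩ := f.surjective x
      obtain ⟨y, rfl⟩ := f.surjective y
      rw [← c, ← c, hf.1, hf.1]; exact h3 x y
    have j := h4.congr f c
    obtain ⟨M, k⟩ := exists_cay' c0 1 ⟨_, j.nil (μ.parts_sum.trans e.symm)⟩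
    obtain ⟨g, hg⟩ := φ.surjective ⟨.ofBijective (1 + M) ((End.isUnit_iff _).1 k.nN.isUnit_one_add), Φ.mem_isom_symp.2 (k.isom (by simp) rfl a)⟩
    refine ⟨g, _, by rw [hg]; convert k; ext; simp, a, j, fun ⟨i, hi⟩ => ?_⟩
    have m := mem_filter.1 hi
    obtain ⟨i, rfl⟩ := Nat.exists_eq_add_of_le' (μ.parts_pos (Multiset.mem_toFinset.1 m.1))
    exact (hf.sg c _).symm.trans ((h6 i (by simpa [parity_simps] using m.2) (Multiset.mem_toFinset.1 m.1)).trans ⟨fun h => h.2, fun h => ⟨_, h⟩⟩)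
  · rintro g g' ⟨⟨μ, hμ⟩, b⟩ ⟨⟨μ', hμ'⟩, b'⟩ ⟨T, c, a, j, s⟩ ⟨T', c', a', j', s'⟩
    rw [← isConj_congr φ, isConj_iff]
    refine ⟨fun ⟨f, hf⟩ => ?_, fun h => ?_⟩
    · have k := (c.iff c' f.1.toLinearMap).1 ((comm_nl _).2 fun x => by simp [← hf])
      obtain rfl : μ = μ' := Nat.Partition.ext (parts_inj (fun _ => μ.parts_pos) (fun _ => μ'.parts_pos) fun i => (j.congr f.1 k i).symm.trans (j' i))
      obtain rfl : b = b' := funext fun i => propext ((s i).symm.trans (((isIso_of_mem f.2).sg k _).trans (s' i)))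
      rfl
    · cases h
      obtain ⟨f, h1, h3⟩ := iso_of_sg _ _ _ (cls_alt h2) (Φ := Φ) (Φ₂ := Φ) n n a a' j j' (e.trans μ.parts_sum.symm) (e.trans μ.parts_sum.symm) (le μ)
        fun i o m => (s ⟨i + 1, mem_filter.2 ⟨Multiset.mem_toFinset.2 m, o.add_one⟩⟩).trans (s' _).symm
      exact ⟨⟨f, h1⟩, mul_inv_eq_iff_eq_mul.2 (Subtype.ext (LinearEquiv.ext ((comm_nl f.toLinearMap).1 ((c.iff c' f.toLinearMap).2 h3))))⟩

end Form
end H5
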