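import Cfsg.Agent.H5.Ts2
import Cfsg.Agent.H5.PCl
/-! Elements of prime order of projective unitary groups. -/
set_option autoImplicit false
namespace H5
open Module Pointwise Matrix Form Polynomial

universe u
variable {F : Type u} [Field F] {V : Type u} [AddCommGroup V] [Module F V] [FiniteDimensional F V] {U : Type u} [AddCommGroup U] [Module F U] [FiniteDimensional F U]
  {D : Type u} [AddCommGroup D] [Module F D] [FiniteDimensional F D] {r m k : ℕ} {g : V ≃ₗ[F] V} {h : U ≃ₗ[F] U} {t : D ≃ₗ[F] D} {z b : Fˣ} {W W₀ : Submodule F V}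

theorem cp_npow [hr : Fact r.Prime] (np : ∀ b : F, b ^ r ≠ z) (e : g ^ r = scal V z) : ∃ k, (g : End F V).charpoly = (X ^ r - C (z : F)) ^ k := by
  let B := finBasis F V
  have i := X_pow_sub_C_irreducible_of_prime hr.out np
  have m := (LinearMap.charpoly_monic (g : End F V))
  obtain ⟨k, c, h1, h2⟩ := WfDvdMonoid.max_power_factor m.ne_zero i
  have m' := (monic_X_pow_sub_C (z : F) hr.out.ne_zero).pow k
  obtain rfl : c = 1 := (m'.of_mul_monic_left (h2 ▸ m)).eq_one_of_isUnit (by_contra fun u => by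
    obtain ⟨Q, q1, q2⟩ := WfDvdMonoid.exists_irreducible_factor u (by rintro rfl; exact h1 (dvd_zero _))
    refine h1 (((q1.dvd_irreducible_iff_associated i).1 (dvd_of_charpoly (A := LinearMap.toMatrixAlgEquiv B g) q1 ?_ ?_)).symm.dvd.trans q2)
    · rw [show (LinearMap.toMatrixAlgEquiv B g).charpoly = _ from LinearMap.charpoly_toMatrix _ B, h2]; exact q2.mul_left _
    · rw [aeval_algEquiv, AlgHom.comp_apply, aeval_scal e, map_zero])
  exact ⟨k, by simpa using h2⟩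

theorem cp_det (r0 : r ≠ 0) (h2 : (g : End F V).charpoly = (X ^ r - C (z : F)) ^ k) : finrank F V = r * k ∧ (LinearEquiv.det g : F) = ((-1) ^ (r + 1) * z) ^ k := by
  let B := finBasis F V
  have d := LinearMap.charpoly_natDegree (g : End F V)
  rw [h2, natDegree_pow, natDegree_X_pow_sub_C] at d
  refine ⟨by rw [← d, mul_comm], ?_⟩
  rw [LinearEquiv.coe_det, ← LinearMap.det_toMatrix B, det_eq_sign_charpoly_coeff, LinearMap.charpoly_toMatrix, h2, Fintype.card_fin, ← d,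
    coeff_zero_eq_eval_zero, pow_mul', eval_pow, ← mul_pow]
  simp [r0, pow_succ]

theorem ev_scal : ev (scal V z : End F V) = .replicate (finrank F V) (algebraMap F _ z) := by
  have := ev_aeval (1 : End F V) (C (z : F))
  rw [ev_one] at this
  simpa [show (scal V z : End F V) = algebraMap F _ z from LinearMap.ext fun _ => rfl] using this

omit [FiniteDimensional F V] [FiniteDimensional F U] in
theorem autCongr_scal (e : V ≃ₗ[F] U) : autCongr e (scal V z) = scal U z := LinearEquiv.ext fun x => by simp [autCongr_apply]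

omit [FiniteDimensional F V] [FiniteDimensional F U] in
theorem prod_scal (a : g ^ r = scal V z) (b : h ^ r = scal U z) : g.prodCongr h ^ r = scal _ z := by rw [prodCongr_pow, a, b]; rfl

theorem res_scal (e : g ^ r = scal V z) (i : ∀ v ∈ W, g v ∈ W) : resAut g W i ^ r = scal W z := LinearEquiv.ext fun x => Subtype.ext (by simp [resAut_pow, e])

variable [Fintype F] {q : ℕ} {hF : Fintype.card F = q ^ 2} {Φ : Form (unitK hF) V} {Ψ : Form (unitK hF) U} {Θ : Form (unitK hF) D}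

theorem uniq_unit : Uniq (unitK hF) r := fun n n' _ _ e => unit_iso n n' e

theorem Form.Nondeg.unit_em (n : Φ.Nondeg) (n' : Ψ.Nondeg) (h : finrank F U ≤ finrank F V) : Φ.Em Ψ :=
  (unit_iso (n'.prod (hermF_nondeg (finrank F V - finrank F U) hF)) n (by simp; omega)).choose_spec.sub

theorem Form.Nondeg.unit_nd (n : Φ.Nondeg) (h : m ≤ finrank F V) : ∃ W : Submodule F V, finrank F W = m ∧ (Φ.res W).Nondeg :=
  let ⟨W, _, e, i⟩ := (n.unit_em (hermF_nondeg m hF) (by simpa)).exists_W (hermF_nondeg m hF); ⟨W, by simp [← e.finrank_eq], i.nondeg (hermF_nondeg m hF)⟩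

theorem Form.Nondeg.hasTS_unit (n : Φ.Nondeg) (k : ℕ) : Φ.HasTS k ↔ k ≤ finrank F V / 2 :=
  ⟨fun ⟨_, a, b⟩ => by have := b.two_mul_le n; omega, fun h => n.unit_hasTS (by omega)⟩

theorem cl_unit (n₀ : (Φ.res W₀).Nondeg) (e : finrank F W₀ = m) (W : Submodule F V) : Φ.Cl W₀ W ↔ finrank F W = m ∧ (Φ.res W).Nondeg :=
  ⟨fun h => ⟨h.finrank.trans e, h.nd n₀⟩, fun h => unit_iso n₀ h.2 (e.trans h.1.symm)⟩

theorem numSing_u (V : Type u) [AddCommGroup V] [Module F V] [FiniteDimensional F V] (Φ : Form (unitK hF) V) (n : Φ.Nondeg) (h : 2 ≤ finrank F V) : (Φ.numSing : F) = 0 := by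
  obtain ⟨a, ha⟩ := Nat.exists_eq_add_of_le' h
  have q0 : (q : F) = 0 := pow_eq_zero_iff two_ne_zero |>.1 (by rw [← Nat.cast_pow, ← hF, FiniteField.cast_card_eq_zero])
  have k : ∀ i, (uf q i : F) = (-1) ^ i := fun i => by
    simpa [q0] using congrArg (Int.cast : ℤ → F) (uf_cast (by have := two_le_of_card_sq hF; omega : 1 ≤ q) i)
  rw [Nat.eq_add_of_sub_eq Φ.numSing_pos (numSing_unit n ha)]
  simp [k, pow_succ, ← mul_pow]

theorem Form.Nondeg.unit_fix (n : Φ.Nondeg) (hg : g ∈ Φ.isom) (n₁ : Ψ.Nondeg) (hh : h ∈ Ψ.isom) (n₂ : Θ.Nondeg) (ht : t ∈ Θ.isom) (e : (U × D) ≃ₗ[F] V)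
    (he : ∀ x, e (h.prodCongr t x) = g (e x)) : ∃ W : Submodule F V, (finrank F W = finrank F U ∧ (Φ.res W).Nondeg) ∧ ∀ v ∈ W, g v ∈ W :=
  let ⟨W, a, e, i⟩ := ((eqv_unit (conj_ne_id hF) (n₁.prod n₂) (prod_mem hh ht) hg n e he).sub.trans sub_inl).exists_W n₁; ⟨W, ⟨e.finrank_eq.symm, i.nondeg n₁⟩, a⟩

theorem Form.Nondeg.exists_je_unit (n : Φ.Nondeg) {μ : Multiset ℕ} (l : ∀ a ∈ μ, 0 < a) (s : μ.sum = finrank F V) : ∃ g ∈ Φ.isom, JE (nl g) μ := by
  obtain ⟨B, hB⟩ := exists_gu_jt hF (n := finrank F V) ⟨μ, fun h => l _ h, by simpa⟩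
  obtain ⟨_, i⟩ := unit_iso (hermF_nondeg (finrank F V) hF) n (by simp)
  exact i.exists_je ((mem_GU_iff _ hF _).1 B.2) ((jt_gl _).1 hB)

theorem Form.Nondeg.unip_unit (n : Φ.Nondeg) (p : ℕ) [hp : Fact p.Prime] [CharP F p] :
    (∀ g ∈ Φ.isom, g ^ p = 1 → ∃ W : Submodule F V, (finrank F W = m ∧ (Φ.res W).Nondeg) ∧ ∀ v ∈ W, g v ∈ W) ↔
      ∀ μ : Multiset ℕ, (∀ a ∈ μ, 0 < a ∧ a ≤ p) → μ.sum = finrank F V → ∃ ν ≤ μ, ν.sum = m := by
  refine ⟨fun H μ l s => ?_, fun H g g1 g2 => ?_⟩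
  · obtain ⟨g, g1, j⟩ := n.exists_je_unit (fun a h => (l a h).1) s
    obtain ⟨W, ⟨rfl, w1⟩, w2⟩ := H g g1 (j.pow_char p s fun a h => (l a h).2)
    exact (j.split (fun a h => (l a h).1) s (n.isCompl_perp w1) (fun x hx => sub_mem (w2 x hx) hx) fun x hx => sub_mem (isom_perp_mem g1 w2 _ hx) hx).imp
      fun _ h => ⟨h.1, h.2.1⟩
  obtain ⟨μ, l, s, j⟩ := exists_je_of_pow p g2
  obtain ⟨ν, a1, rfl⟩ := H μ l s
  obtain ⟨ν', rfl⟩ := Multiset.le_iff_exists_add.1 a1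
  obtain ⟨h, h1, h2⟩ := (hermF_nondeg ν.sum hF).exists_je_unit (μ := ν) (fun a h => (l a (by simp [h])).1) (by simp)
  obtain ⟨t, t1, t2⟩ := (hermF_nondeg ν'.sum hF).exists_je_unit (μ := ν') (fun a h => (l a (by simp [h])).1) (by simp)
  obtain ⟨e, he⟩ := (h2.prod t2).exists_equiv j (by simp) s
  simpa using n.unit_fix g1 (hermF_nondeg _ hF) h1 (hermF_nondeg _ hF) t1 e fun x => by
    have := he x
    rwa [show (nl h).prodMap (nl t) x = h.prodCongr t x - x from rfl, map_sub, LinearMap.sub_apply, End.one_apply, sub_left_inj] at this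

theorem exists_mono (s : ℕ) (hz : z * conj hF z = 1) : ∃ g ∈ (hermF (s + 1) hF).isom, g ^ (s + 1) = scal _ z := by
  let d : ZMod (s + 1) → Fˣ := Pi.mulSingle 0 z
  let g : (ZMod (s + 1) → F) ≃ₗ[F] (ZMod (s + 1) → F) := (LinearEquiv.funCongrLeft F F (Equiv.addRight 1)).trans (.piCongrRight fun i => scal F (d i))
  have e : ∀ v i, g v i = d i * v (i + 1) := fun _ _ => rfl
  have h : ∀ (k : ℕ) v i, (g ^ k) v i = (∏ j ∈ Finset.range k, d (i + j) : Fˣ) * v (i + k) := fun k v => by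
    induction k with
    | zero => simp
    | succ k ih => intro i; rw [pow_succ', LinearEquiv.mul_apply, e, ih, Finset.prod_range_succ']; simp [add_assoc, add_comm (1 : ZMod _), mul_assoc, mul_left_comm]
  refine ⟨g, (mem_isom_unit _).2 fun (x y : ZMod (s + 1) → F) => ?_, LinearEquiv.ext fun v => funext fun i : ZMod (s + 1) => ?_⟩
  · change ∑ i : ZMod (s + 1), g x i * conj hF (g y i) = _
    refine .trans (Finset.sum_congr rfl fun i _ => ?_) (Equiv.sum_comp (Equiv.addRight (1 : ZMod (s + 1))) fun i => x i * conj hF (y i))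
    rw [e, e, map_mul, mul_mul_mul_comm, show (d i : F) * conj hF (d i) = 1 by by_cases k : i = 0 <;> simp [d, k, hz], one_mul]; rfl
  · have : ∏ j ∈ Finset.range (s + 1), d (i + j) = z := (Fin.prod_univ_eq_prod_range (fun j => d (i + j)) _).symm.trans (((Finset.prod_congr rfl
      fun (j : ZMod (s + 1)) _ => congrArg (fun a => d (i + a)) (ZMod.natCast_zmod_val j)).trans (Equiv.prod_comp (Equiv.addLeft i) d)).trans (by simp [d]))
    exact (h _ v i).trans (by rw [this, ZMod.natCast_self, add_zero]; rfl)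

theorem Form.Nondeg.np_ex (n : Φ.Nondeg) (r0 : r ≠ 0) (hz : z * conj hF z = 1) (e : finrank F V = r * k) : ∃ g ∈ Φ.isom, g ^ r = scal V z := by
  obtain ⟨s, rfl⟩ := Nat.exists_eq_add_one_of_ne_zero r0
  induction k generalizing V with
  | zero => haveI := finrank_zero_iff.1 e; exact ⟨1, one_mem _, Subsingleton.elim _ _⟩
  | succ k ih =>
    obtain ⟨a, a1, a2⟩ := exists_mono s hz
    obtain ⟨b, b1, b2⟩ := ih (hermF_nondeg ((s + 1) * k) hF) (by simp)
    obtain ⟨e, i⟩ := unit_iso ((hermF_nondeg _ hF).prod (hermF_nondeg _ hF)) n (show finrank F ((Fin (s + 1) → F) × (Fin ((s + 1) * k) → F)) = _ by simp [e]; ring)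
    exact ⟨_, (i.mem_iff _).1 (prod_mem a1 b1), by rw [← map_pow, prod_scal a2 b2, autCongr_scal]⟩

variable (hF r z) in
/-- `z` has norm one and is not an `r`-th power of an element of norm one. -/
def NP : Prop := z * conj hF z = 1 ∧ ∀ b : Fˣ, b * conj hF b = 1 → b ^ r ≠ z

theorem NP.odd (np : NP r z hF) (o : Odd r) (b : F) : b ^ r ≠ z := fun e => by
  obtain ⟨t, rfl⟩ := o
  have b0 : b ≠ 0 := by rintro rfl; simp at e; exact z.ne_zero e.symm
  have v : (b * conj hF b) ^ (2 * t + 1) = 1 := by rw [mul_pow, ← map_pow, e, np.1]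
  refine np.2 (.mk0 (b * (b * conj hF b) ^ t) (by simp [b0])) ?_ (Units.ext ?_)
  · simp only [Units.val_mk0, map_mul, map_pow, conj_conj]; rw [← v]; ring
  · rw [Units.val_pow_eq_pow_val, Units.val_mk0, mul_pow, e, ← pow_mul, mul_comm t, pow_mul, v]; simp

theorem NP.two (np : NP 2 z hF) (h2 : (2 : F) ≠ 0) : ∃ b : Fˣ, b ^ 2 = z ∧ b * conj hF b = -1 := by
  have o := odd_of_two_ne h2
  obtain ⟨t, ht⟩ : Odd q := by rw [hF] at o; exact (Nat.odd_pow_iff two_ne_zero).1 (Nat.odd_iff.2 o)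
  obtain ⟨b, hb⟩ := (FiniteField.isSquare_iff (F := F) (fun h => by have := FiniteField.even_card_iff_char_two.1 h; omega) z.ne_zero).2 (by
    rw [hF, show q ^ 2 / 2 = (q + 1) * t by rw [ht]; ring_nf; omega, pow_mul, ← norm_eq_pow hF, np.1, one_pow])
  have e : Units.mk0 b (by rintro rfl; simp at hb) ^ 2 = z := Units.ext (by simp [hb, sq])
  refine ⟨_, e, (sq_eq_one_iff.1 ?_).resolve_left fun k => np.2 _ k e⟩
  rw [mul_pow, ← map_pow, ← Units.val_pow_eq_pow_val, e, np.1]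

theorem Form.Nondeg.np_two (n : Φ.Nondeg) (h2 : (2 : F) ≠ 0) (hb : b * conj hF b = -1) (hg : g ∈ Φ.isom) (e : g ^ 2 = scal V (b ^ 2)) :
    ∃ E E' : Submodule F V, IsCompl E E' ∧ Φ.TS E ∧ finrank F V = 2 * finrank F E ∧ finrank F E' = finrank F E ∧ (∀ v ∈ E, g v = (b : F) • v) ∧ ∀ v ∈ E', g v = (-b : Fˣ) • v := by
  have t : (g * scal V b⁻¹) ^ 2 = 1 := by rw [Commute.mul_pow (scal_comm _ _), e, ← map_pow, ← map_mul]; simp
  have k : ∀ (c : F) (E : Submodule F V), c * conj hF c = -1 → (∀ v ∈ E, g v = c • v) → Φ.TS E := fun c E h1 h => unit_ts.2 fun x hx y hy => by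
    have := hg.1 x y
    rw [h x hx, h y hy, B_smul_left, B_smul_right, ← mul_assoc] at this
    erw [h1] at this
    exact (mul_eq_zero.1 (show (2 : F) * _ = 0 by linear_combination -this)).resolve_left h2
  have e1 : ∀ v ∈ fixSp (g * scal V b⁻¹), g v = (b : F) • v := fun v hv => by simpa [inv_smul_eq_iff₀, -map_inv] using mem_fixSp.1 hv
  have e2 : ∀ v ∈ mv (g * scal V b⁻¹), g v = ((-b : Fˣ) : F) • v := by
    rintro _ ⟨x, rfl⟩
    simp [show g (g x) = _ from LinearEquiv.congr_fun (sq g ▸ e) x, smul_smul, smul_sub, sq, sub_eq_neg_add, -map_inv, add_comm]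
  have a := finrank_mv_add (g * scal V b⁻¹)
  have a1 := (k _ _ hb e1).two_mul_le n
  have a2 := (k _ _ (by simpa) e2).two_mul_le n
  exact ⟨_, _, (IsCompl.of_eq (mv_inf_fixSp (n := 2) (by simpa) t) (Submodule.eq_top_of_finrank_eq (by
    rw [finrank_sup_disj (disjoint_iff.2 (mv_inf_fixSp (n := 2) (by simpa) t)), a]))).symm, k _ _ hb e1, by omega, by omega, e1, e2⟩

variable [hr : Fact r.Prime] (np : NP r z hF) (r0 : (r : F) ≠ 0) (n : Φ.Nondeg)
include np r0 n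
theorem NP.cp (hg : g ∈ Φ.isom) (e : g ^ r = scal V z) : ∃ k, (g : End F V).charpoly = (X ^ r - C (z : F)) ^ k := by
  rcases hr.out.eq_two_or_odd' with rfl | o
  · obtain ⟨b, rfl, hb⟩ := np.two (by simpa using r0)
    obtain ⟨E, E', c, -, -, d, e1, e2⟩ := n.np_two (by simpa using r0) hb hg e
    have m := fun c : F => monic_X_sub_C c
    refine ⟨finrank F E, aroots_inj (LinearMap.charpoly_monic _) ((monic_X_pow_sub_C _ two_ne_zero).pow _) ?_⟩
    rw [← ev, show g = sumAut c (scal _ b, scal _ (-b)) from LinearEquiv.ext fun x => by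
      obtain ⟨x, y, rfl⟩ := exists_add_of_isCompl c x
      rw [sumAut_apply, map_add, e1 _ x.2, e2 _ y.2]; rfl, ev_sumAut, ev_scal, ev_scal, d, aroots_pow,
      show (X ^ 2 - C ((b ^ 2 : Fˣ) : F)) = (X - C (b : F)) * (X - C ((-b : Fˣ) : F)) by simp; ring, aroots_mul ((m _).mul (m _)).ne_zero, aroots_X_sub_C, aroots_X_sub_C,
      nsmul_add, Multiset.nsmul_singleton, Multiset.nsmul_singleton]
  · exact cp_npow (np.odd o) e

theorem NP.det (hg : g ∈ Φ.isom) (e : g ^ r = scal V z) : ∃ k, finrank F V = r * k ∧ (LinearEquiv.det g : F) = ((-1) ^ (r + 1) * z) ^ k :=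
  (np.cp r0 n hg e).imp fun _ => cp_det hr.out.ne_zero

theorem NP.intertw (hg : g ∈ Φ.isom) (e : g ^ r = scal V z) (n' : Ψ.Nondeg) (hh : h ∈ Ψ.isom) (e' : h ^ r = scal U z) (d : finrank F V = finrank F U) :
    ∃ e : V ≃ₗ[F] U, ∀ x, e (g x) = h (e x) := by
  obtain ⟨k, a⟩ := np.cp r0 n hg e
  obtain ⟨l, b⟩ := np.cp r0 n' hh e'
  obtain rfl : k = l := Nat.eq_of_mul_eq_mul_left hr.out.pos ((cp_det hr.out.ne_zero a).1.symm.trans (d.trans (cp_det hr.out.ne_zero b).1))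
  have z1 : z ^ (Fintype.card F - 1) = 1 := Units.ext (by simpa using FiniteField.pow_card_sub_one_eq_one z.1 z.ne_zero)
  exact exists_intertw (a := (g : End F V)) (b := (h : End F U)) (n := r * (Fintype.card F - 1)) (by simpa [Nat.cast_sub Fintype.card_pos])
    (by rw [coe_pow_end, pow_mul, e, ← map_pow, z1, map_one]; rfl) (by rw [coe_pow_end, pow_mul, e', ← map_pow, z1, map_one]; rfl) (by rw [ev, a, ev, b])

theorem NP.nd (hg : g ∈ Φ.isom) (e : g ^ r = scal V z) (hm : m ≤ finrank F V) :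
    (∃ W : Submodule F V, (finrank F W = m ∧ (Φ.res W).Nondeg) ∧ ∀ v ∈ W, g v ∈ W) ↔ r ∣ m := by
  refine ⟨fun ⟨W, ⟨w1, w2⟩, w3⟩ => let ⟨k, a, _⟩ := np.det r0 w2 (Φ.resAut_mem hg w3) (res_scal e w3); ⟨k, w1 ▸ a⟩, ?_⟩
  rintro ⟨k, rfl⟩
  obtain ⟨l, a, -⟩ := np.det r0 n hg e
  obtain ⟨h, h1, h2⟩ := (hermF_nondeg (r * k) hF).np_ex (k := k) hr.out.ne_zero np.1 (by simp)
  obtain ⟨t, t1, t2⟩ := (hermF_nondeg (r * (l - k)) hF).np_ex (k := l - k) hr.out.ne_zero np.1 (by simp)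
  obtain ⟨f, hf⟩ := np.intertw r0 ((hermF_nondeg _ hF).prod (hermF_nondeg _ hF)) (prod_mem h1 t1) (prod_scal h2 t2) n hg e (by simp [Nat.mul_sub]; omega)
  simpa using n.unit_fix hg (hermF_nondeg _ hF) h1 (hermF_nondeg _ hF) t1 f hf

theorem NP.ts (hg : g ∈ Φ.isom) (e : g ^ r = scal V z) (hm : 2 * m ≤ finrank F V) :
    (∃ W : Submodule F V, (finrank F W = m ∧ Φ.TS W) ∧ ∀ v ∈ W, g v ∈ W) ↔ r = 2 ∨ r ∣ m := by
  rcases hr.out.eq_two_or_odd' with rfl | o
  · obtain ⟨b, rfl, hb⟩ := np.two (by simpa using r0)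
    obtain ⟨E, -, -, t, d, -, e1, -⟩ := n.np_two (by simpa using r0) hb hg e
    obtain ⟨W, w1, w2⟩ := exists_le_finrank_eq E (show m ≤ _ by omega)
    exact iff_of_true ⟨W, ⟨w2, t.mono w1⟩, fun v hv => e1 v (w1 hv) ▸ W.smul_mem _ hv⟩ (.inl rfl)
  refine ⟨fun ⟨W, ⟨w1, w2⟩, w3⟩ => let ⟨k, a, _⟩ := det_npow (np.odd o) (res_scal e w3); .inr ⟨k, w1 ▸ a⟩, ?_⟩
  rintro (rfl | ⟨k, rfl⟩); · exact absurd o (by decide)
  obtain ⟨l, a, -⟩ := np.det r0 n hg e
  obtain ⟨h, h1, h2⟩ := (hermF_nondeg (r * k) hF).np_ex (k := k) hr.out.ne_zero np.1 (by simp)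
  obtain ⟨t, t1, t2⟩ := (hermF_nondeg (r * (l - 2 * k)) hF).np_ex (k := l - 2 * k) hr.out.ne_zero np.1 (by simp)
  have n1 := ((hermF_nondeg (r * k) hF).prod (Ψ := (hermF (r * k) hF).neg) fun y h => hermF_nondeg _ hF y fun x => neg_eq_zero.1 (h x)).prod (hermF_nondeg (r * (l - 2 * k)) hF)
  have m1 := prod_mem (prod_mem (Θ := (hermF (r * k) hF).neg) h1 ⟨fun x y => congrArg (-·) (h1.1 x y), fun x => congrArg (-·) (h1.2 x)⟩) t1
  obtain ⟨f, hf⟩ := np.intertw r0 n1 m1 (prod_scal (prod_scal h2 h2) t2) n hg e (by simp [Nat.mul_sub, mul_left_comm r]; omega)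
  obtain ⟨f, f1, f2⟩ := eqv_unit (conj_ne_id hF) n1 m1 hg n f hf
  refine ⟨LinearMap.range (f.toLinearMap ∘ₗ .inl F _ _ ∘ₗ LinearMap.id.prod .id), ⟨?_, unit_ts.2 ?_⟩, ?_⟩
  · rw [LinearMap.finrank_range_of_inj fun x y h => by simpa using h]; simp
  · rintro _ ⟨x, rfl⟩ _ ⟨y, rfl⟩
    exact (f1.1 _ _).trans (by simp [prod_B, Form.neg])
  · rintro _ ⟨x, rfl⟩
    exact ⟨h x, by simp [← f2]⟩
end H5
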