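import Cfsg.Agent.H5.Un
/-! Elements of prime order of projective special unitary groups: reduction to isometries of prime order. -/
set_option autoImplicit false
namespace H5
open Module Pointwise Matrix Form Polynomial

universe u
variable {F : Type u} [Field F] {V : Type u} [AddCommGroup V] [Module F V] [FiniteDimensional F V] {r m k : ℕ} {g : V ≃ₗ[F] V} {z b : Fˣ} {W W₀ : Submodule F V}

theorem det_invol (h2 : (2 : F) ≠ 0) (e : g ^ 2 = 1) : LinearEquiv.det g = (-1) ^ finrank F (mv g) := by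
  have i := mv_inf_fixSp (n := 2) (by simpa) e
  have c := IsCompl.of_eq i (Submodule.eq_top_of_finrank_eq (by rw [finrank_sup_disj (disjoint_iff.2 i), finrank_mv_add]))
  conv_lhs => rw [show g = sumAut c (scal _ (-1), 1) from LinearEquiv.ext fun x => by
    obtain ⟨⟨_, x, rfl⟩, y, rfl⟩ := exists_add_of_isCompl c x
    rw [sumAut_apply]
    simp [show g (g x) = x from LinearEquiv.congr_fun (sq g ▸ e) x, mem_fixSp.1 y.2]]
  simp [det_sumAut, det_scal]

variable [Fintype F] {q : ℕ} {hF : Fintype.card F = q ^ 2} {Φ : Form (unitK hF) V}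

theorem norm_iff : z * conj hF z = 1 ↔ z ^ (q + 1) = 1 := by rw [norm_eq_pow, ← Units.val_pow_eq_pow_val, Units.val_eq_one]

include hF in
theorem ne_of_dvd (h : r ∣ q + 1) : (r : F) ≠ 0 := fun e => by
  obtain ⟨s, hs⟩ := h
  have q0 : (q : F) = 0 := pow_eq_zero_iff two_ne_zero |>.1 (by rw [← Nat.cast_pow, ← hF, FiniteField.cast_card_eq_zero])
  simpa [e, q0] using congrArg (Nat.cast : ℕ → F) hs

theorem el_su {n : ℕ} {P : Submodule F (Fin n → F) → Prop} : (∀ x : SpecialLinearGroup (Fin n) F, x ∈ Cfsg.SU n F q → (∃ z : F, (x ^ r).1 = z • 1) → (∀ z : F, x.1 ≠ z • 1) →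
    ∃ W, P W ∧ W.map (toLin' x.1) ≤ W) ↔ El (hermF n hF).sisom r P :=
  el_mat SpecialLinearGroup.toGL fun g => ⟨fun a => ⟨_, ((suEquiv n hF).symm ⟨g, a⟩).2, congrArg Subtype.val ((suEquiv n hF).apply_symm_apply ⟨g, a⟩)⟩,
    fun ⟨x, a, b⟩ => b ▸ (suEquiv n hF ⟨x, a⟩).2⟩

theorem elu_iff [Nontrivial V] (n : Φ.Nondeg) {P : Submodule F V → Prop} (h₀ : P W₀) : El Φ.sisom r P ↔ (∀ g ∈ Φ.isom, g ^ r = 1 →
    (∃ b : Fˣ, b * conj hF b = 1 ∧ LinearEquiv.det g * b ^ finrank F V = 1) → ∃ W, P W ∧ ∀ v ∈ W, g v ∈ W) ∧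
      ∀ z, NP r z hF → ∀ g ∈ Φ.sisom, g ^ r = scal V z → ∃ W, P W ∧ ∀ v ∈ W, g v ∈ W := by
  refine ⟨fun H => ⟨fun g g1 g2 ⟨b, b1, b2⟩ => ?_, fun z np g g1 g2 => H g g1 ⟨z, fun v => by simp [g2]⟩ fun c h => ?_⟩, fun H g g1 ⟨z, e⟩ _ => ?_⟩
  · by_cases h : ∃ c : F, ∀ v, g v = c • v
    · exact ⟨W₀, h₀, fun v hv => h.choose_spec v ▸ W₀.smul_mem _ hv⟩
    obtain ⟨W, w1, w2⟩ := H (g * scal V b) ⟨mul_mem g1 ((scal_mem_iff n).2 b1), by simpa [det_scal] using b2⟩
      ⟨b ^ r, fun v => by simp [Commute.mul_pow (scal_comm _ _), g2, ← map_pow]⟩ fun c k => h ⟨(b : F)⁻¹ * c, fun v => by simp [mul_smul, ← k v]⟩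
    exact ⟨W, w1, fun v hv => by simpa using w2 v hv⟩
  · obtain ⟨v, hv⟩ := exists_ne (0 : V)
    lift c to Fˣ using Ne.isUnit (by rintro rfl; simpa [hv] using h v)
    obtain rfl : g = scal V c := LinearEquiv.ext h
    exact np.2 _ ((scal_mem_iff n).1 g1.1) (scal_injective (V := V) ((map_pow ..).trans g2))
  obtain ⟨v, hv⟩ := exists_ne (0 : V)
  lift z to Fˣ using Ne.isUnit (by rintro rfl; simpa [hv] using e v)
  replace e : g ^ r = scal V z := LinearEquiv.ext e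
  by_cases np : NP r z hF
  · exact H.2 z np g g1 e
  obtain ⟨b, b1, rfl⟩ : ∃ b : Fˣ, b * conj hF b = 1 ∧ b ^ r = z := by simpa [NP, show z * conj hF z = 1 from (scal_mem_iff n).1 (e ▸ pow_mem g1.1 r)] using np
  obtain ⟨W, w1, w2⟩ := H.1 (g * scal V b⁻¹) (mul_mem g1.1 (map_inv (scal V) b ▸ inv_mem ((scal_mem_iff n).2 b1)))
    (by rw [Commute.mul_pow (scal_comm _ _), e, ← map_pow, ← map_mul]; simp) ⟨b, b1, by simp [det_scal, show LinearEquiv.det g = 1 from g1.2]⟩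
  exact ⟨W, w1, fun v hv => by simpa [-map_inv] using w2 v hv⟩

variable [hr : Fact r.Prime]
theorem elu_cop [Nontrivial V] (n : Φ.Nondeg) {P : Submodule F V → Prop} (h₀ : P W₀) (h : ¬ r ∣ q + 1) : El Φ.sisom r P ↔ ∀ g ∈ Φ.isom, g ^ r = 1 → ∃ W, P W ∧ ∀ v ∈ W, g v ∈ W := by
  have k : ∀ z : Fˣ, z * conj hF z = 1 → ∃ m, (z ^ r) ^ m = z := fun z hz =>
    exists_pow_eq_self_of_coprime ((hr.out.coprime_iff_not_dvd.2 h).coprime_dvd_right (orderOf_dvd_of_pow_eq_one (norm_iff.1 hz)))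
  rw [elu_iff n h₀, and_iff_left fun z np => (k z np.1).elim fun m e => absurd ((pow_right_comm ..).trans e) (np.2 (z ^ m) (by
    rw [Units.val_pow_eq_pow_val, map_pow, ← mul_pow, np.1, one_pow]))]
  refine forall₃_congr fun g g1 g2 => forall_prop_of_true ⟨1, by simp, ?_⟩
  obtain ⟨m, e⟩ := k _ (n.det_mul_conj g1)
  rw [← e, ← map_pow, g2]; simp

theorem Form.Nondeg.det_fix (n : Φ.Nondeg) (h : ¬ r ∣ finrank F V) (hg : g ∈ Φ.isom) (e : g ^ r = 1) : ∃ b : Fˣ, b * conj hF b = 1 ∧ LinearEquiv.det g * b ^ finrank F V = 1 := by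
  obtain ⟨m, k⟩ := exists_pow_eq_self_of_coprime (x := (LinearEquiv.det g)⁻¹) ((hr.out.coprime_iff_not_dvd.2 h).symm.coprime_dvd_right
    (orderOf_dvd_of_pow_eq_one (by rw [inv_pow, ← map_pow, e]; simp)))
  refine ⟨(LinearEquiv.det g)⁻¹ ^ m, norm_iff.2 (by rw [pow_right_comm, inv_pow, (norm_iff (hF := hF)).1 (n.det_mul_conj hg)]; simp), by rw [pow_right_comm, k]; simp⟩

theorem np_noz (h : r ∣ q + 1) {n : ℕ} (n0 : n ≠ 0) : (∀ z, NP r z hF → ∀ k, n = r * k → ((-1) ^ (r + 1) * z : F) ^ k ≠ 1) ↔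
    padicValNat r n ≤ padicValNat r (q + 1) ∧ (r = 2 → Even n → q % 4 = 3) := by
  by_cases d : ¬ r ∣ n
  · exact iff_of_true (fun _ _ k e => absurd ⟨k, e⟩ d) ⟨by simp [padicValNat.eq_zero_of_not_dvd d], by rintro rfl e; exact absurd e.two_dvd d⟩
  obtain ⟨k, rfl⟩ := not_not.1 d
  have key := npow_iff (G := (powMonoidHom (q + 1) : Fˣ →* Fˣ).ker) (r := r) (by rwa [card_units_pow_succ hF]) k
  rw [card_units_pow_succ hF, pow_val_dvd (by simpa [hr.out.ne_zero] using n0)] at key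
  replace key : (∃ z, NP r z hF ∧ z ^ k = 1) ↔ _ := .trans ⟨fun ⟨z, a, b⟩ => ⟨⟨z, norm_iff.1 a.1⟩, fun c e => a.2 c (norm_iff.2 c.2) (congrArg Subtype.val e), Subtype.ext b⟩,
    fun ⟨z, a, b⟩ => ⟨z, ⟨norm_iff.2 z.2, fun c e k => a ⟨c, norm_iff.1 e⟩ (Subtype.ext k)⟩, congrArg Subtype.val b⟩⟩ key
  simp only [mul_right_inj' hr.out.ne_zero, forall_eq']
  rw [← not_not (a := _ ≤ _), ← key]
  rcases hr.out.eq_two_or_odd' with rfl | o
  · have m1 : (-1 : Fˣ) ≠ 1 := fun e => ne_of_dvd (hF := hF) h (by have := congrArg Units.val e; push_cast at this ⊢; linear_combination -this)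
    by_cases s : q % 4 = 3
    · obtain ⟨γ, g1, o⟩ := exists_norm_one_gen hF
      have ht : (γ ^ ((q + 1) / 4)) ^ 2 = -1 := Units.ext ((sq_eq_one_iff.1 (by
        rw [← Units.val_pow_eq_pow_val, ← pow_mul, ← pow_mul, show (q + 1) / 4 * (2 * 2) = orderOf γ by omega, pow_orderOf_eq_one]; rfl)).resolve_left fun e =>
          pow_ne_one_of_lt_orderOf (x := γ) (n := (q + 1) / 4 * 2) (by omega) (by omega) (by rw [pow_mul]; exact Units.ext e))
      have t1 : (γ ^ ((q + 1) / 4)) ^ (q + 1) = 1 := by rw [pow_right_comm, norm_iff.1 g1, one_pow]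
      generalize γ ^ ((q + 1) / 4) = t at ht t1
      have N : ∀ z, NP 2 z hF → NP 2 (-z) hF := fun z a => ⟨by simpa using a.1, fun c c1 e => a.2 (t * c) (norm_iff.2 (by rw [mul_pow, t1, norm_iff.1 c1, one_mul]))
        (by rw [mul_pow, ht, e]; simp)⟩
      exact ⟨fun H => ⟨fun ⟨z, a, b⟩ => H (-z) (N z a) (by simpa [pow_succ] using congrArg Units.val b), fun _ _ => s⟩,
        fun H z a b => H.1 ⟨-z, N z a, Units.ext (by simpa [pow_succ] using b)⟩⟩
    · refine iff_of_false (fun H => H (-1) ⟨by simp, fun c c1 e => m1 ?_⟩ (by simp [pow_succ])) fun H => s (H.2 rfl (by simp))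
      have := norm_iff.1 c1
      rw [show q + 1 = 2 * (2 * (q / 4) + 1) by omega, pow_mul, e, pow_succ, pow_mul] at this; simpa using this
  · simp [o.add_one.neg_one_pow, (show r ≠ 2 by rintro rfl; exact absurd o (by decide)), ← Units.val_pow_eq_pow_val]

theorem Form.Nondeg.np_part [Nontrivial V] (n : Φ.Nondeg) (h : r ∣ q + 1) {P : Submodule F V → Prop} {Q : Prop}
    (hQ : ∀ z, NP r z hF → ∀ g ∈ Φ.isom, g ^ r = scal V z → ((∃ W, P W ∧ ∀ v ∈ W, g v ∈ W) ↔ Q)) :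
    (∀ z, NP r z hF → ∀ g ∈ Φ.sisom, g ^ r = scal V z → ∃ W, P W ∧ ∀ v ∈ W, g v ∈ W) ↔
      Q ∨ padicValNat r (finrank F V) ≤ padicValNat r (q + 1) ∧ (r = 2 → Even (finrank F V) → q % 4 = 3) := by
  rw [← np_noz (hF := hF) h finrank_pos.ne', or_comm, or_iff_not_imp_left]
  refine ⟨fun H k => ?_, fun H z np g g1 g2 => (hQ z np g g1.1 g2).2 (H fun k => ?_)⟩
  · push Not at k
    obtain ⟨z, np, k, k1, k2⟩ := k
    obtain ⟨g, g1, g2⟩ := n.np_ex hr.out.ne_zero np.1 k1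
    obtain ⟨l, l1, l2⟩ := np.det (ne_of_dvd (hF := hF) h) n g1 g2
    obtain rfl : k = l := Nat.eq_of_mul_eq_mul_left hr.out.pos (k1.symm.trans l1)
    exact (hQ z np g g1 g2).1 (H z np g ⟨g1, Units.ext (l2.trans k2)⟩ g2)
  · obtain ⟨l, l1, l2⟩ := np.det (ne_of_dvd (hF := hF) h) n g1.1 g2
    exact k z np l l1 (l2.symm.trans (congrArg Units.val g1.2))

omit hr in
theorem Form.Nondeg.nd_two (n : Φ.Nondeg) (h2 : (2 : F) ≠ 0) (hg : g ∈ Φ.isom) (e : g ^ 2 = 1) (hm : m ≤ finrank F V) :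
    ∃ W : Submodule F V, (finrank F W = m ∧ (Φ.res W).Nondeg) ∧ ∀ v ∈ W, g v ∈ W := by
  have a := finrank_mv_add g
  obtain ⟨A, a1, a2⟩ := (n.mv_nondeg hg (n := 2) (by simpa) e).unit_nd (m := min m (finrank F (mv g))) (min_le_right ..)
  obtain ⟨B, b1, b2⟩ := (n.fix_nondeg hg (n := 2) (by simpa) e).unit_nd (m := m - finrank F (mv g)) (by omega)
  obtain ⟨W, w, f, i⟩ := ((sub_pair (Φ := Φ) (Φ.le_perp_comm.1 (n.perp_range_sub hg).ge) (mv_inv g) fun x hx => (mem_fixSp.1 hx).symm ▸ hx).trans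
    (((em_res A).one (c := -1) (h := scal _ (-1)) (by
      rintro ⟨_, x, rfl⟩; exact Subtype.ext (by simp [show g (g x) = x from LinearEquiv.congr_fun (sq g ▸ e) x])) (by simp)).prod
      ((em_res B).one (c := 1) (h := 1) (fun x => Subtype.ext (by simpa using mem_fixSp.1 x.2)) (by simp)))).exists_W (a2.prod b2)
  exact ⟨W, ⟨by rw [← f.finrank_eq, finrank_prod]; omega, i.nondeg (a2.prod b2)⟩, w⟩

omit hr in
theorem neg_pow_iff (h : 2 ∣ q + 1) {n : ℕ} (n0 : n ≠ 0) : (∃ b : Fˣ, b * conj hF b = 1 ∧ b ^ n = -1) ↔ ¬ padicValNat 2 (q + 1) ≤ padicValNat 2 n := by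
  have m1 : (-1 : Fˣ) ≠ 1 := fun e => ne_of_dvd (hF := hF) h (by have := congrArg Units.val e; push_cast at this ⊢; linear_combination -this)
  obtain ⟨v, u, o, e⟩ := Nat.exists_eq_two_pow_mul_odd q.succ_ne_zero
  obtain ⟨s, t, o', rfl⟩ := Nat.exists_eq_two_pow_mul_odd n0
  have k : ∀ {a b : ℕ}, Odd b → padicValNat 2 (2 ^ a * b) = a := fun h => by
    rw [padicValNat.mul (by simp) h.pos.ne', padicValNat.prime_pow, padicValNat.eq_zero_of_not_dvd h.not_two_dvd_nat, add_zero]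
  replace e : q + 1 = _ := e
  rw [e, k o, k o']
  refine ⟨fun ⟨b, b1, b2⟩ l => m1 ?_, fun l => ?_⟩
  · obtain ⟨d, rfl⟩ := Nat.exists_eq_add_of_le l
    rw [← o.neg_one_pow, ← b2, ← pow_mul, show 2 ^ (v + d) * t * u = (q + 1) * (2 ^ d * t) by rw [e]; ring, pow_mul, norm_iff.1 b1, one_pow]
  obtain ⟨d, rfl⟩ := Nat.exists_eq_add_of_lt (not_le.1 l)
  obtain ⟨γ, g1, g2⟩ := exists_norm_one_gen hF
  have e' : q + 1 = 2 ^ d * u * 2 ^ s * 2 := by rw [e]; ring
  refine ⟨γ ^ (2 ^ d * u), norm_iff.2 (by rw [pow_right_comm, norm_iff.1 g1, one_pow]), ?_⟩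
  rw [pow_mul, ← pow_mul γ, show γ ^ (2 ^ d * u * 2 ^ s) = -1 from Units.ext ((sq_eq_one_iff.1 (by
    rw [← Units.val_pow_eq_pow_val, ← pow_mul, ← e', norm_iff.1 g1]; rfl)).resolve_left fun e =>
      pow_ne_one_of_lt_orderOf (x := γ) (by omega) (by omega) (Units.ext e)), o'.neg_one_pow]

omit hr in
theorem Form.Nondeg.ts_inv (n : Φ.Nondeg) (h : 2 ∣ q + 1) (m0 : 0 < m) (hm : 2 * m ≤ finrank F V) : (∀ g ∈ Φ.isom, g ^ 2 = 1 →
    (∃ b : Fˣ, b * conj hF b = 1 ∧ LinearEquiv.det g * b ^ finrank F V = 1) → ∃ W : Submodule F V, (finrank F W = m ∧ Φ.TS W) ∧ ∀ v ∈ W, g v ∈ W) ↔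
      2 * m < finrank F V ∨ padicValNat 2 (q + 1) ≤ padicValNat 2 (finrank F V) := by
  have h2 : (2 : F) ≠ 0 := by simpa using ne_of_dvd (hF := hF) h
  have key : ∀ g ∈ Φ.isom, g ^ 2 = 1 → ((∃ W : Submodule F V, (finrank F W = m ∧ Φ.TS W) ∧ ∀ v ∈ W, g v ∈ W) ↔ 2 * m < finrank F V ∨ Even (finrank F (mv g))) := fun g g1 g2 => by
    have a := n.mv_nondeg g1 (n := 2) (by simpa) g2
    have := n.finrank_perp (mv g)
    simp only [inv_ts h2 n g1 g2, a.hasTS_unit, (n.perp_nondeg a).hasTS_unit, Nat.even_iff]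
    exact ⟨fun ⟨f, f', h⟩ => by omega, fun h => ⟨min m (finrank F (mv g) / 2), m - finrank F (mv g) / 2, by omega⟩⟩
  rw [← not_not (a := _ ≤ _), ← neg_pow_iff (hF := hF) h (by omega)]
  refine ⟨fun H => or_iff_not_imp_right.2 fun k => ?_, fun H g g1 g2 ⟨b, b1, b2⟩ => (key g g1 g2).2 (H.imp_right fun k => by_contra fun o => k ⟨b, b1, ?_⟩)⟩
  · obtain ⟨b, b1, b2⟩ := not_not.1 k
    obtain ⟨W, w1, w2⟩ := n.unit_nd (m := 1) (by omega)
    have c := n.isCompl_perp w2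
    have g1 := (Φ.sumAut_mem_iff c le_rfl (scal _ (-1), 1)).2 ⟨(mem_isom_unit _).2 (by simp), one_mem _⟩
    have g2 := sumAut_pow c (a := scal _ (-1)) (n := 2) (by rw [← map_pow]; simp) (one_pow _)
    have d : LinearEquiv.det (sumAut c (scal _ (-1), 1)) = -1 := by simp [det_sumAut, det_scal, w1]
    refine ((key _ g1 g2).1 (H _ g1 g2 ⟨b, b1, by simp [d, b2]⟩)).resolve_right fun e => h2 ?_
    rw [det_invol h2 g2, e.neg_one_pow] at d
    have := congrArg Units.val d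
    push_cast at this; linear_combination this
  · rw [det_invol h2 g2, (Nat.not_even_iff_odd.1 o).neg_one_pow] at b2
    simpa [neg_eq_iff_eq_neg] using b2

theorem Form.Nondeg.exists_diag (n : Φ.Nondeg) (o : Odd r) (h : r ∣ q + 1) (l : r ≤ finrank F V) : ∃ g ∈ Φ.isom, g ^ r = 1 ∧ LinearEquiv.det g = 1 ∧
    ∀ W : Submodule F V, Φ.TS W → (∀ v ∈ W, g v ∈ W) → 2 * finrank F W + r ≤ finrank F V + 1 := by
  classical
  obtain ⟨γ, g1, g2⟩ := exists_norm_one_gen hF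
  obtain ⟨N, hN⟩ := id h
  have w : orderOf (γ ^ N) = r := by rw [orderOf_pow_of_dvd (by rintro rfl; simp at hN) (by rw [g2, hN]; simp), g2, hN, Nat.mul_div_cancel _ (Nat.pos_of_ne_zero (by rintro rfl; simp at hN))]
  have w1 : (γ ^ N) ^ (q + 1) = 1 := by rw [pow_right_comm, norm_iff.1 g1, one_pow]
  generalize γ ^ N = ω at w w1
  have wr : ω ^ r = 1 := w ▸ pow_orderOf_eq_one ω
  let A : GL (Fin r) F := .mkOfDetNeZero (diagonal fun i => ω.1 ^ i.1) (by simp [Finset.prod_ne_zero_iff])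
  have a1 : glEquiv A ∈ (hermF r hF).isom := (mem_isom_unit _).2 fun u v => (hermF_B' ..).trans <| .symm <| (hermF_B' ..).trans <| .symm <| Finset.sum_congr rfl fun i _ => by
    change (diagonal _ *ᵥ u) i * conj hF ((diagonal _ *ᵥ v) i) = _
    rw [mulVec_diagonal, mulVec_diagonal, map_mul, mul_mul_mul_comm, map_pow, ← mul_pow, norm_iff.2 w1, one_pow, one_mul]
  have a2 : glEquiv A ^ r = 1 := by
    rw [← map_pow, show A ^ r = 1 from Units.ext ?_, map_one]
    change diagonal _ ^ r = 1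
    rw [diagonal_pow, ← diagonal_one]; congr 1; ext i
    rw [Pi.pow_apply, pow_right_comm, ← Units.val_pow_eq_pow_val, wr]; simp
  obtain ⟨W₀, w2, w3⟩ := n.unit_nd l
  obtain ⟨e, i⟩ := unit_iso (hermF_nondeg r hF) w3 (by simp [w2])
  have c := n.isCompl_perp w3
  have k1 := (Φ.sumAut_mem_iff c le_rfl (autCongr e (glEquiv A), 1)).2 ⟨(i.mem_iff _).1 a1, one_mem _⟩
  have k2 := sumAut_pow c (a := autCongr e (glEquiv A)) (by rw [← map_pow, a2, map_one]) (one_pow r)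
  refine ⟨_, k1, k2, Units.ext ?_, fun W t j => ?_⟩
  · obtain ⟨s, rfl⟩ := o
    have := Finset.sum_range_id_mul_two (2 * s + 1)
    rw [det_sumAut, det_autCongr, det_glEquiv']
    simp only [map_one, mul_one, A, GeneralLinearGroup.val_det_apply, GeneralLinearGroup.val_mkOfDetNeZero, det_diagonal, Finset.prod_pow_eq_pow_sum]
    rw [Fin.sum_univ_eq_sum_range fun i => i, show ∑ i ∈ Finset.range (2 * s + 1), i = (2 * s + 1) * s by rw [Nat.add_sub_cancel] at this; nlinarith, pow_mul,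
      ← Units.val_pow_eq_pow_val, wr]; simp
  obtain ⟨p, k, pp, _, -, hq⟩ := exists_pow_of_card_sq hF
  have := n.two_ev_le k1 (ne_of_dvd (hF := hF) h) k2 ⟨p, k, 0, pp, ‹_›, fun a => hq ▸ rfl, (ZMod.natCast_eq_natCast_iff ..).1 (by
    have := (ZMod.natCast_eq_zero_iff _ _).2 h
    push_cast [Nat.cast_sub hr.out.pos, ← hq] at this ⊢
    rw [ZMod.natCast_self, pow_zero]; linear_combination -this)⟩ t.le_perp j
  rw [← card_ev (resAut _ W j : End F W)]
  generalize ev (resAut _ W j : End F W) = B at this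
  rw [ev_sumAut, ← ev_congr (a := (glEquiv A : End F _)) e (by simp [autCongr_apply]), glEquiv_coe, show A.1 = diagonal _ from rfl, ev_diagonal,
    LinearEquiv.coe_toLinearMap_one, ← End.one_eq_id, ev_one] at this
  have nd := Multiset.nodup_iff_count_le_one.1 (Finset.univ.nodup.map (f := fun i : Fin r => algebraMap F (AlgebraicClosure F) (ω.1 ^ i.1)) fun i j e =>
    Fin.ext (pow_injOn_Iio_orderOf (x := ω) (w ▸ i.2) (w ▸ j.2) (Units.ext (by simpa using (algebraMap F _).injective e))))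
  have b : ∀ x ∈ B, x = 1 := fun x hx => by_contra fun x1 => by
    have := Multiset.count_le_of_le x this
    have := nd x
    have := Multiset.one_le_count_iff_mem.2 hx
    simp only [Multiset.count_add, Multiset.count_replicate, if_neg (Ne.symm x1)] at *; omega
  have := Multiset.count_le_of_le 1 this
  have := nd 1
  have := n.finrank_perp W₀
  rw [Multiset.count_add, Multiset.count_add, Multiset.count_replicate_self, Multiset.count_eq_card.2 fun x h => (b x h).symm] at *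
  omega

section blk
variable (r2 : r ≠ 2) (r0 : (r : F) ≠ 0) {i b c : ℕ} (hi : i = orderOf (q : ZMod r)) (hb : b = if Even i then i / 2 else i)
  (hc : c = if i % 4 = 0 then i else if i % 4 = 2 then i / 2 else 2 * i)
include hF hi hb in
theorem ord_sq : b = orderOf (Fintype.card F : ZMod r) := by
  rw [hF, Nat.cast_pow, orderOf_pow' _ two_ne_zero, ← hi, hb]
  split_ifs with h
  · rw [Nat.gcd_eq_right h.two_dvd]
  · rw [(Nat.not_even_iff_odd.1 h).coprime_two_right, Nat.div_one]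

include hF r0 in
theorem exists_qu : ∃ u : (ZMod r)ˣ, u.1 = q := (Ne.isUnit fun e => by
  have := ord_pos hr.out r0
  rw [hF] at this
  simp [e] at this : IsUnit _)

include hF r2 r0 hi in
theorem two_iff_dvd : i = 2 ↔ r ∣ q + 1 := by
  haveI : Fact (2 < r) := ⟨lt_of_le_of_ne hr.out.two_le r2.symm⟩
  obtain ⟨u, hu⟩ := exists_qu (hF := hF) r0
  rw [← ZMod.natCast_eq_zero_iff, Nat.cast_succ, add_eq_zero_iff_eq_neg, hi, ← hu, orderOf_units]
  exact ⟨fun h => by simpa using congrArg Units.val (pow_half u (j := 1) h), fun h => orderOf_eq_prime (Units.ext (by simp [h])) fun e => ZMod.neg_one_ne_one (by simpa [e] using h.symm)⟩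

include r2 r0 hi hc in
theorem blk_unit : Blk (unitK hF) r c := by
  obtain ⟨p', k, pp, _, -, hq⟩ := exists_pow_of_card_sq hF
  obtain ⟨u, hu⟩ := exists_qu (hF := hF) r0
  have o : orderOf u = i := by rw [hi, ← hu, orderOf_units]
  have e : orderOf (-u) = c := by
    rcases i.even_or_odd' with ⟨j, rfl | rfl⟩
    · rw [orderOf_neg_even u o, hc]; simp only [Nat.odd_iff]; split_ifs <;> omega
    · rw [orderOf_neg_odd r2 u (o ▸ ⟨j, rfl⟩), o, hc, if_neg (by omega), if_neg (by omega)]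
  refine ⟨-u, ⟨r2, r0, p', k, pp, ‹_›, fun a => hq ▸ rfl, .inr (.inl (by rw [← hq, Units.val_neg, hu]))⟩, e, _, _, _, inferInstance, hermF c hF, hermF_nondeg c hF, by simp, ?_⟩
  have a0 : 0 < c := e ▸ orderOf_pos _
  rw [card_isom_unit (hermF_nondeg c hF) (n := c) (by simp), guOrd]
  refine Dvd.dvd.mul_left (.trans ((ZMod.natCast_eq_zero_iff _ _).1 ?_) (Finset.dvd_prod_of_mem _ (Finset.mem_range.2 (Nat.sub_one_lt a0.ne')))) _
  have := congrArg (Int.cast : ℤ → ZMod r) (uf_cast (by have := two_le_of_card_sq hF; omega : 1 ≤ q) (c - 1))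
  have e2 := congrArg Units.val (pow_orderOf_eq_one (-u))
  clear hc
  obtain ⟨a, rfl⟩ := Nat.exists_eq_add_one_of_ne_zero a0.ne'
  rw [e, Units.val_pow_eq_pow_val, Units.val_neg, hu, neg_pow, Units.val_one] at e2
  push_cast at this
  rw [Nat.add_sub_cancel, this]
  linear_combination (-(-1) ^ a) * e2 - (q : ZMod r) ^ (a + 1) * (show Even (a + a) from ⟨a, rfl⟩).neg_one_pow (α := ZMod r)

include r2 r0 hi hb hc in
theorem tsk_unit : TSK (unitK hF) r c b (fun k => if i % 4 = 2 then (k + 1 - (r - 1) / b) / 2 else k) ∧ c = if i % 4 = 2 then b else 2 * b := by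
  have B := blk_unit (hF := hF) r2 r0 hi hc
  have e : c = if i % 4 = 2 then b else 2 * b := by simp only [hb, hc, Nat.even_iff]; split_ifs <;> omega
  refine ⟨?_, e⟩
  split_ifs at e ⊢ with h
  · obtain ⟨p', k, pp, _, -, hq⟩ := exists_pow_of_card_sq hF
    obtain ⟨u, hu⟩ := exists_qu (hF := hF) r0
    refine B.tsk_sd (ord_sq (hF := hF) hi hb) e ⟨p', k, i / 4 + 1, pp, ‹_›, fun a => hq ▸ rfl, (ZMod.natCast_eq_natCast_iff ..).1 ?_⟩
    have := congrArg Units.val (pow_half u (j := 2 * (i / 4) + 1) (by rw [← orderOf_units, hu, ← hi]; omega))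
    push_cast [hF, ← hq, Nat.cast_sub hr.out.pos, hu] at this ⊢
    rw [ZMod.natCast_self]; linear_combination -(q : ZMod r) * this
  · exact B.tsk_hyp (ord_sq (hF := hF) hi hb) e
end blk
end H5
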