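import Cfsg.Agent.H5.Ord
import Cfsg.Prelude.Def_JordanBlocks
/-! Jordan types `JE` of endomorphisms; which unipotent Jordan types occur in symplectic and orthogonal groups (`RealU`, `even_count`). -/
set_option autoImplicit false
namespace H5
open Module Matrix

universe u v
variable {F : Type*} [Field F] {V : Type u} [AddCommGroup V] [Module F V] [FiniteDimensional F V]
  {W : Type v} [AddCommGroup W] [Module F W] [FiniteDimensional F W] {f : End F V} {g : End F W} {μ ν : Multiset ℕ}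

/-- Jordan type of a nilpotent endomorphism. -/
def JE (f : End F V) (μ : Multiset ℕ) : Prop := ∀ k, finrank F (LinearMap.ker (f ^ k)) = (μ.map (min · k)).sum

theorem jt_iff_je {ι : Type*} [Fintype ι] [DecidableEq ι] {N : Matrix ι ι F} : JT N μ ↔ JE (toLin' N) μ := forall_congr' fun k => by
  rw [← toLin'_pow, ← rank_add_ker (N ^ k), Nat.add_left_cancel_iff, eq_comm]; rfl

omit [FiniteDimensional F V] [FiniteDimensional F W] in
theorem JE.congr (h : JE f μ) (e : V ≃ₗ[F] W) (k : ∀ x, e (f x) = g (e x)) : JE g μ := fun n => by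
  have p : ∀ x, e ((f ^ n) x) = (g ^ n) (e x) := by
    induction n with
    | zero => exact fun _ => rfl
    | succ n ih => exact fun x => by rw [pow_succ, pow_succ, End.mul_apply, End.mul_apply, ih, k]
  rw [← h n, ← LinearEquiv.finrank_map_eq e, show (LinearMap.ker (f ^ n)).map (e : V →ₗ[F] W) = LinearMap.ker (g ^ n) from Submodule.ext fun x => by
    obtain ⟨x, rfl⟩ := e.surjective x
    simp [← p]]

theorem JE.prod (h : JE f μ) (k : JE g ν) : JE (f.prodMap g : End F (V × W)) (μ + ν) := fun n => by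
  have : (f.prodMap g : End F (V × W)) ^ n = (f ^ n).prodMap (g ^ n) := (map_pow (LinearMap.prodMapRingHom F V W) (f, g) n).symm
  have e : ∀ (p : Submodule F V) (q : Submodule F W), p.prod q ≃ₗ[F] p × q := fun p q =>
    { toFun x := (⟨x.1.1, x.2.1⟩, ⟨x.1.2, x.2.2⟩), invFun x := ⟨(x.1, x.2), x.1.2, x.2.2⟩, map_add' _ _ := rfl, map_smul' _ _ := rfl
      left_inv _ := rfl, right_inv _ := rfl }
  rw [this, LinearMap.ker_prodMap, (e _ _).finrank_eq, finrank_prod, h, k]; simp

omit [FiniteDimensional F V] in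
theorem JE.count (h : JE f μ) (k : ℕ) : finrank F (LinearMap.ker (f ^ (k + 2))) + finrank F (LinearMap.ker (f ^ k)) + μ.count (k + 1) =
    2 * finrank F (LinearMap.ker (f ^ (k + 1))) := by
  rw [h, h, h]
  clear h
  induction μ using Multiset.induction_on with
  | empty => simp
  | cons a s ih => simp only [Multiset.map_cons, Multiset.sum_cons, Multiset.count_cons]; split_ifs <;> omega

theorem JE.reg {n : ℕ} (hn : finrank F V = n) (h : f ^ n = 0) (hr : finrank F (LinearMap.ker f) ≤ 1) : JE f {n} := fun k => by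
  have l : ∀ k, finrank F (LinearMap.ker (f ^ k)) ≤ k := fun k => by
    induction k with
    | zero => simp [End.one_eq_id]
    | succ k ih => have := finrank_ker_pow_le f k 1; rw [pow_one] at this; omega
  rcases le_total n k with h' | h'
  · rw [pow_eq_zero_of_le h' h, LinearMap.ker_zero]; simp [h', hn]
  obtain ⟨b, rfl⟩ := Nat.exists_eq_add_of_le h'
  have := finrank_ker_pow_le f k b
  rw [h, LinearMap.ker_zero, finrank_top] at this
  have := l k; have := l b
  simp; omega

theorem JE.nil (h : JE f μ) (e : μ.sum = finrank F V) : f ^ finrank F V = 0 := by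
  rw [← LinearMap.ker_eq_top, Submodule.eq_top_iff_finrank_eq, h, Multiset.map_congr rfl fun a ha => min_eq_left (e ▸ Multiset.le_sum_of_mem ha)]
  simpa using e

theorem JE.exists_equiv [Finite F] (h : JE f μ) (k : JE g μ) (e : μ.sum = finrank F V) (e' : μ.sum = finrank F W) :
    ∃ c : V ≃ₗ[F] W, ∀ x, c (f x) = g (c x) := by
  let T := (finBasis F V).equivFun
  let T' := (finBasisOfFinrankEq F W (e'.symm.trans e)).equivFun
  have h1 : JT (LinearMap.toMatrix' (T.conj f)) μ := jt_iff_je.2 (h.congr T (by simp))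
  have h2 : JT (LinearMap.toMatrix' (T'.conj g)) μ := jt_iff_je.2 (k.congr T' (by simp))
  have n : ∀ {A : Matrix (Fin (finrank F V)) (Fin (finrank F V)) F}, JT A μ → IsNilpotent A := fun h =>
    ⟨_, (h.isNilpotent (by simpa using e)).2 fun _ h => Multiset.le_sum_of_mem h⟩
  obtain ⟨c, hc⟩ := isConj_of_nil (n h1) (n h2) fun k => Nat.add_right_cancel ((h1 k).trans (h2 k).symm)
  refine ⟨(T.trans (glEquiv c)).trans T'.symm, fun x => ?_⟩
  simpa [← mulVec_mulVec, -Basis.equivFun_apply, -Basis.equivFun_symm_apply] using congrArg (fun M => T'.symm (M *ᵥ T x)) hc.eq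

/-- `g - 1`. -/
abbrev nl (g : V ≃ₗ[F] V) : End F V := (g : End F V) - 1

theorem jt_jordan [Finite F] {t : ℕ} (d : Fin t → ℕ) : JT (Cfsg.jordanTypeMatrix d F - 1) (Finset.univ.val.map d) := fun k => by
  have b : ∀ n, JT (Cfsg.jordanBlock n F - 1) {n} := fun n => by
    have e : ∀ k (i j : Fin n), ((Cfsg.jordanBlock n F - 1) ^ k) i j = if i.1 = j + k then 1 else 0 := fun k => by
      induction k with
      | zero => exact fun i j => by simp [one_apply, Fin.ext_iff]
      | succ k ih =>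
        intro i j
        rw [pow_succ, mul_apply]
        simp only [ih]
        simp only [Cfsg.jordanBlock, Matrix.sub_apply, of_apply, one_apply, Fin.ext_iff]
        by_cases h : j.1 + 1 < n
        · rw [Finset.sum_eq_single ⟨_, h⟩ (fun b _ hb => by
            have : b.1 ≠ j + 1 := fun e => hb (Fin.ext e)
            split_ifs <;> simp_all) (by simp)]
          simp [add_assoc, add_comm 1]
        · rw [Finset.sum_eq_zero fun b _ => by have := b.2; split_ifs <;> first | omega | simp, if_neg (by omega)]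
    refine jt_iff_je.2 (JE.reg (by simp) (by rw [← toLin'_pow, show _ ^ n = (0 : Matrix _ _ F) from Matrix.ext fun i j => by
      rw [e, if_neg (by omega)]; rfl, map_zero]) ?_)
    obtain _ | n := n
    · exact (Submodule.finrank_le _).trans (by simp)
    refine (Submodule.finrank_mono (show _ ≤ F ∙ Pi.single (Fin.last n) 1 from fun v hv => Submodule.mem_span_singleton.2 ⟨v (.last n), funext fun i => ?_⟩)).trans
      (finrank_span_le_card _ |>.trans (by simp))
    refine Fin.lastCases (by simp) (fun i => ?_) i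
    have := congrFun (LinearMap.mem_ker.1 hv) i.succ
    rw [← pow_one (_ - 1)] at this
    simp only [toLin'_apply, mulVec, dotProduct, e, Fin.val_succ, Nat.add_right_cancel_iff] at this
    rw [Finset.sum_eq_single i.castSucc (fun b _ hb => by rw [if_neg fun e => hb (Fin.ext e.symm), zero_mul]) (by simp)] at this
    simpa [i.castSucc_ne_last] using this.symm
  have e : (Cfsg.jordanTypeMatrix d F - 1) ^ k = blockDiagonal' fun i => (Cfsg.jordanBlock (d i) F - 1) ^ k := by
    rw [Cfsg.jordanTypeMatrix, ← blockDiagonal'_one, ← blockDiagonal'_sub, ← blockDiagonal'_pow]; rfl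
  have := (card_ker_mulVec ((Cfsg.jordanTypeMatrix d F - 1) ^ k)).symm.trans ((Nat.card_congr (((Equiv.piCurry fun _ _ => F).subtypeEquiv fun v => ?_).trans
    (Equiv.subtypePiEquivPi (p := fun i (x : Fin (d i) → F) => (Cfsg.jordanBlock (d i) F - 1) ^ k *ᵥ x = 0)))).trans Nat.card_pi)
  · simp only [card_ker_mulVec, Finset.prod_pow_eq_pow_sum] at this
    have := Nat.pow_right_injective Finite.one_lt_card this
    have := rank_le_card_width ((Cfsg.jordanTypeMatrix d F - 1) ^ k)
    rw [Multiset.map_map]; change _ + ∑ i, min (d i) k = _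
    rw [Finset.sum_congr rfl fun i _ => show _ = Fintype.card (Fin (d i)) - ((Cfsg.jordanBlock (d i) F - 1) ^ k).rank by
      have := b (d i) k; simp at this ⊢; omega]
    omega
  · simp only [e, funext_iff, Sigma.forall]
    refine forall₂_congr fun i j => Eq.congr_left ?_
    simp only [mulVec, dotProduct, Fintype.sum_sigma]
    rw [Finset.sum_eq_single i (fun b _ hb => by simp [blockDiagonal'_apply_ne _ _ _ hb.symm]) (by simp)]
    simp [Sigma.curry]

section inv
variable {σ : F →+* F} {C : V →ₗ[F] V →ₛₗ[σ] F} {u : End F V} (hC : ∀ x y, C (u x) (u y) = C x y)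
include hC
omit [FiniteDimensional F V]

theorem inv_sub (x y : V) : C ((u - 1) x) y = -C (u x) ((u - 1) y) := by simp [hC]

theorem inv_orth (a : ℕ) (x w : V) (h : ((u - 1) ^ a) w = 0) : C (((u - 1) ^ a) x) w = 0 := by
  induction a generalizing x w with
  | zero => simp [show w = 0 from h]
  | succ a ih =>
    rw [pow_succ', End.mul_apply, inv_sub hC, ← End.mul_apply, (((Commute.refl u).sub_right (.one_right u)).pow_right a).eq, End.mul_apply,
      ih _ _ (by rw [← End.mul_apply, ← pow_succ, h]), neg_zero]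

theorem inv_shift {n : ℕ} {y : V} (h : ((u - 1) ^ (n + 1)) y = 0) (x : V) (j a b : ℕ) (e : a + b + j = n) :
    C (((u - 1) ^ (a + j)) x) (((u - 1) ^ b) y) = (-1) ^ j * C (((u - 1) ^ a) x) (((u - 1) ^ (b + j)) y) := by
  induction j generalizing b with
  | zero => simp
  | succ j ih =>
    have := inv_orth hC (a + j + 1) x (((u - 1) ^ (b + 1)) y) (by
      rw [← End.mul_apply, ← pow_add, show a + j + 1 + (b + 1) = n + 1 by omega, h])
    rw [pow_succ', End.mul_apply, LinearMap.sub_apply, map_sub, LinearMap.sub_apply, sub_eq_zero] at this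
    rw [← add_assoc, pow_succ', End.mul_apply, inv_sub hC, ← End.mul_apply _ _ y, ← pow_succ', this, End.one_apply, ih _ (by omega),
      show b + 1 + j = b + (j + 1) by omega]
    ring
end inv

theorem even_rank (b : V →ₗ[F] V →ₗ[F] F) (h : ∀ x, b x x = 0) : ∃ m, finrank F V = finrank F (LinearMap.ker b) + 2 * m := by
  obtain ⟨U, hU⟩ := (LinearMap.ker b).exists_isCompl
  obtain ⟨m, hm, -⟩ := Form.Nondeg.symp_hasTS (Φ := (Form.ofAlt b h).res U) fun y hy => Subtype.ext (Submodule.disjoint_def.1 hU.disjoint _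
    (LinearMap.ext fun x => by
      obtain ⟨k, z, rfl⟩ := exists_add_of_isCompl hU x
      rw [LinearMap.zero_apply, ← neg_eq_zero, ← Form.ofAlt_B b h, ← Form.symp_symm, map_add, LinearMap.add_apply, show (Form.ofAlt b h).B z y = 0 from hy z]
      simp [show b k = 0 from k.2]) y.2)
  exact ⟨m, by rw [← hm, Submodule.finrank_add_eq_of_isCompl hU]⟩

theorem finrank_map_add (f : V →ₗ[F] W) {p : Submodule F V} (h : LinearMap.ker f ≤ p) :
    finrank F (p.map f) + finrank F (LinearMap.ker f) = finrank F p := by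
  rw [← (f.domRestrict p).finrank_range_add_finrank_ker, LinearMap.range_domRestrict, LinearMap.ker_domRestrict,
    (Submodule.comapSubtypeEquivOfLe h).finrank_eq]

namespace Form
variable {κ : Kind F} {Φ : Form κ V} {u : V ≃ₗ[F] V}

theorem Nondeg.perp_ker_pow (hΦ : Φ.Nondeg) (hu : u ∈ Φ.isom) (a : ℕ) :
    Φ.perp (LinearMap.ker (((u : End F V) - 1) ^ a)) = LinearMap.range (((u : End F V) - 1) ^ a) := by
  refine (Submodule.eq_of_le_of_finrank_eq (by rintro _ ⟨x, rfl⟩ w hw; exact inv_orth (u := (u : End F V)) hu.1 a x w hw) ?_).symm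
  have := hΦ.finrank_perp (LinearMap.ker (((u : End F V) - 1) ^ a))
  have := (((u : End F V) - 1) ^ a).finrank_range_add_finrank_ker
  omega

theorem Nondeg.even_count (hΦ : Φ.Nondeg) (hσ : ∀ a, κ.σ a = a) (hu : u ∈ Φ.isom) (h : JE ((u : End F V) - 1) μ) {i : ℕ}
    (alt : ∀ x, (((u : End F V) - 1) ^ (i + 1)) x = 0 → Φ.B ((((u : End F V) - 1) ^ i) x) x = 0) : Even (μ.count (i + 1)) := by
  have hp := hΦ.perp_ker_pow hu (i + 1)
  have c := h.count i
  generalize (u : End F V) - 1 = N at *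
  have le : ∀ {a b}, a ≤ b → LinearMap.ker (N ^ a) ≤ LinearMap.ker (N ^ b) := fun h => LinearMap.iterateKer N |>.monotone h
  let b : LinearMap.ker (N ^ (i + 1)) →ₗ[F] LinearMap.ker (N ^ (i + 1)) →ₗ[F] F :=
    LinearMap.mk₂ F (fun x y => Φ.B ((N ^ i) x) y) (by simp) (by simp) (by simp) (by simp [hσ])
  obtain ⟨m, hm⟩ := even_rank b fun x => alt x x.2
  have m1 : ∀ x, x ∈ (LinearMap.ker b).map (Submodule.subtype _) ↔ (N ^ (i + 1)) x = 0 ∧ (N ^ i) x ∈ LinearMap.range (N ^ (i + 1)) := fun x => by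
    rw [← hp]
    exact ⟨by rintro ⟨x, hx, rfl⟩; exact ⟨x.2, fun w hw => LinearMap.congr_fun hx ⟨w, hw⟩⟩,
      fun h => ⟨⟨x, h.1⟩, LinearMap.ext fun w => h.2 w w.2, rfl⟩⟩
  have e1 := finrank_map_add (N ^ i) (p := (LinearMap.ker b).map (Submodule.subtype _)) fun x hx =>
    (m1 x).2 ⟨le i.le_succ hx, by rw [LinearMap.mem_ker.1 hx]; exact zero_mem _⟩
  have e2 := finrank_map_add (N ^ (i + 1)) (le (show i + 1 ≤ i + 2 by omega))
  rw [show ((LinearMap.ker b).map (Submodule.subtype _)).map (N ^ i) = (LinearMap.ker (N ^ (i + 2))).map (N ^ (i + 1)) from le_antisymm (by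
    rintro _ ⟨x, hx, rfl⟩
    obtain ⟨h1, y, h2⟩ := (m1 x).1 hx
    exact ⟨y, by rw [SetLike.mem_coe, LinearMap.mem_ker, pow_succ', End.mul_apply, h2, ← End.mul_apply, ← pow_succ', h1], h2⟩) (by
    rintro _ ⟨y, hy, rfl⟩
    exact ⟨N y, (m1 _).2 ⟨by rw [← End.mul_apply, ← pow_succ]; exact hy, y, by rw [pow_succ]; rfl⟩, by rw [pow_succ]; rfl⟩),
    Submodule.finrank_map_subtype_eq] at e1
  exact ⟨m, by omega⟩

theorem Nondeg.even_count_alt (hΦ : Φ.Nondeg) (hσ : ∀ a, κ.σ a = a) (ha : ∀ x, Φ.B x x = 0) (hu : u ∈ Φ.isom) (h : JE ((u : End F V) - 1) μ)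
    {j : ℕ} (hj : Odd j) : Even (μ.count j) := by
  obtain ⟨k, rfl⟩ := hj
  refine hΦ.even_count hσ hu h fun x hx => ?_
  obtain ⟨z, hz⟩ : ∃ z, z = (((u : End F V) - 1) ^ k) x := ⟨_, rfl⟩
  have h1 := inv_shift (u := (u : End F V)) hu.1 hx x k k 0 (by omega)
  rwa [zero_add, ha, mul_zero, ← two_mul] at h1

theorem Nondeg.even_count_orth {Φ : Form (.orth F) V} (hΦ : Φ.Nondeg) (h2 : (2 : F) ≠ 0) (hu : u ∈ Φ.isom) (h : JE ((u : End F V) - 1) μ)
    {j : ℕ} (hj : Even j) (j0 : 0 < j) : Even (μ.count j) := by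
  obtain ⟨i, rfl⟩ := Nat.exists_eq_add_one_of_ne_zero j0.ne'
  refine hΦ.even_count (fun _ => rfl) hu h fun x hx => ?_
  have h1 := inv_shift (u := (u : End F V)) hu.1 hx x i 0 0 (by omega)
  rw [zero_add, (Nat.not_even_iff_odd.1 (Nat.even_add_one.1 hj)).neg_one_pow, pow_zero, End.one_apply, orth_symm _ _ x] at h1
  exact mul_left_cancel₀ h2 (by linear_combination h1)

variable (κ W) in
/-- The hyperbolic form on `W × W*`. -/
def hyp (hσ : ∀ a, κ.σ a = a) (hk : ∀ a, κ.π a = 0 → a + κ.ε * a = 0) : Form κ (W × Dual F W) where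
  B := LinearMap.mk₂'ₛₗ (RingHom.id F) κ.σ (fun x y => y.2 x.1 + κ.ε * x.2 y.1) (by simp; intros; ring) (by simp; intros; ring)
    (by simp; intros; ring) (by simp [hσ]; intros; ring)
  Q x := κ.π (x.2 x.1)
  B_symm x y := by simp [hσ, mul_add, add_comm]
  Q_add x y := by
    have := κ.π_conj (x.2 y.1)
    simp [hσ] at this ⊢
    rw [this]; ring
  Q_smul c x := by simpa [hσ, mul_assoc] using κ.π_norm c (x.2 x.1)
  Q_range x := ⟨_, rfl⟩
  B_self x a h := by
    have := hk (a - x.2 x.1) (by simp [h])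
    simp [hσ]; linear_combination -this

omit [FiniteDimensional F W] in
theorem hyp_B {hσ hk} (x y : W × Dual F W) : (hyp W κ hσ hk).B x y = y.2 x.1 + κ.ε * x.2 y.1 := rfl

omit [FiniteDimensional F W] in
theorem hyp_nondeg {hσ hk} : (hyp W κ hσ hk).Nondeg := fun y h => Prod.ext
  ((forall_dual_apply_eq_zero_iff F _).1 fun φ => by simpa [hyp_B, κ.ε_ne] using h (0, φ)) (LinearMap.ext fun x => by simpa [hyp_B] using h (x, 0))

omit [FiniteDimensional F W] in
theorem hyp_mem {hσ hk} (A : W ≃ₗ[F] W) : A.prodCongr A.symm.dualMap ∈ (hyp W κ hσ hk).isom :=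
  ⟨fun x y => by simp [hyp_B], fun x => by simp [hyp]⟩
end Form

theorem JE.dual {A : W ≃ₗ[F] W} (h : JE ((A : End F W) - 1) μ) : JE ((A.symm.dualMap : End F (Dual F W)) - 1) μ := fun k => by
  have e : ((A.symm.dualMap : End F (Dual F W)) - 1) ^ k = (((-A.symm : End F W) ^ k) ∘ₗ ((A : End F W) - 1) ^ k).dualMap := by
    have c : Commute (-A.symm : End F W) ((A : End F W) - 1) := LinearMap.ext fun x => by simp
    rw [← End.mul_eq_comp, ← c.mul_pow, show (-A.symm : End F W) * (A - 1) = A.symm - 1 from LinearMap.ext fun x => by simp]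
    induction k with
    | zero => rfl
    | succ k ih => rw [pow_succ, ih, pow_succ']; ext; simp
  have i : LinearMap.ker ((-A.symm : End F W) ^ k) = ⊥ := (End.isUnit_iff _).1 (((End.isUnit_iff _).2 A.symm.bijective).neg.pow k) |>.1 |>
    LinearMap.ker_eq_bot.2
  have h1 := LinearMap.finrank_range_add_finrank_ker (((A.symm.dualMap : End F (Dual F W)) - 1) ^ k)
  have h2 := LinearMap.finrank_range_add_finrank_ker (((-A.symm : End F W) ^ k) ∘ₗ ((A : End F W) - 1) ^ k)
  rw [LinearMap.ker_comp_of_ker_eq_bot _ i, h k, ← LinearMap.finrank_range_dualMap_eq_finrank_range, ← e] at h2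
  rw [Subspace.dual_finrank_eq] at h1
  omega

section real
variable {F : Type u} [Field F]

/-- The Jordan type `μ` occurs in an isometry group of kind `κ`. -/
def RealU (κ : Kind F) (μ : Multiset ℕ) : Prop := ∃ (U : Type u) (_ : AddCommGroup U) (_ : Module F U) (_ : FiniteDimensional F U)
  (Ψ : Form κ U) (g : U ≃ₗ[F] U), Ψ.Nondeg ∧ g ∈ Ψ.isom ∧ JE ((g : End F U) - 1) μ ∧ finrank F U = μ.sum

variable {κ : Kind F}
theorem RealU.add (h : RealU κ μ) (k : RealU κ ν) : RealU κ (μ + ν) := by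
  obtain ⟨U, _, _, _, Ψ, g, h1, h2, h3, h4⟩ := h
  obtain ⟨U', _, _, _, Ψ', g', k1, k2, k3, k4⟩ := k
  exact ⟨_, _, _, inferInstance, Ψ.prod Ψ', _, h1.prod k1, (Form.prodHom Ψ Ψ' (⟨g, h2⟩, ⟨g', k2⟩)).2, (h3.prod k3).congr (.refl _ _) fun _ => rfl,
    by rw [finrank_prod, h4, k4, Multiset.sum_add]⟩

theorem exists_reg [Finite F] (a : ℕ) : ∃ A : (Fin a → F) ≃ₗ[F] (Fin a → F), JE ((A : End F (Fin a → F)) - 1) {a} := by
  obtain ⟨N, h⟩ := exists_of_jt (F := F) (ι := Fin a) {a} (by simp)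
  obtain ⟨A, hA⟩ := (show IsNilpotent N from ⟨a, (h.isNilpotent (by simp)).2 (by simp)⟩).isUnit_add_one
  exact ⟨glEquiv A, by simpa [glEquiv_coe, hA, End.one_eq_id] using jt_iff_je.1 h⟩

theorem realU_pair [Finite F] (hσ : ∀ a, κ.σ a = a) (hk : ∀ a, κ.π a = 0 → a + κ.ε * a = 0) (a : ℕ) : RealU κ ({a} + {a}) := by
  obtain ⟨A, h⟩ := exists_reg (F := F) a
  exact ⟨_, _, _, inferInstance, Form.hyp (Fin a → F) κ hσ hk, _, Form.hyp_nondeg, Form.hyp_mem A, (h.prod h.dual).congr (.refl _ _) fun _ => rfl,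
    by simp⟩

theorem realU_of [Finite F] (hσ : ∀ a, κ.σ a = a) (hk : ∀ a, κ.π a = 0 → a + κ.ε * a = 0) {P : ℕ → Prop} (h : ∀ a, P a → RealU κ {a})
    (hμ : ∀ j, ¬ P j → Even (μ.count j)) : RealU κ μ := by
  induction μ using Multiset.strongInductionOn with
  | _ μ ih =>
  rcases μ.empty_or_exists_mem with rfl | ⟨a, ha⟩
  · obtain ⟨U, _, _, _, Ψ, g, h1, h2, h3, h4⟩ := realU_pair hσ hk 0
    exact ⟨U, _, _, ‹_›, Ψ, g, h1, h2, by simpa [JE] using h3, h4⟩
  obtain ⟨ν, rfl⟩ := Multiset.exists_cons_of_mem ha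
  by_cases c : P a
  · exact (h a c).add (ih ν (Multiset.lt_cons_self _ _) fun j hj => by simpa [Multiset.count_cons_of_ne (show j ≠ a by rintro rfl; exact hj c)] using hμ j hj)
  obtain ⟨ν, rfl⟩ := Multiset.exists_cons_of_mem (show a ∈ ν from by_contra fun e => by simpa [e] using hμ a c)
  rw [← Multiset.singleton_add, ← Multiset.singleton_add, ← add_assoc]
  refine (realU_pair hσ hk a).add (ih ν ((Multiset.lt_cons_self _ _).trans (Multiset.lt_cons_self _ _)) fun j hj => ?_)
  have := hμ j hj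
  simp only [Multiset.count_cons] at this
  split_ifs at this <;> simpa [Nat.even_add_one] using this

theorem JE.exists_gen {W : Type*} [AddCommGroup W] [Module F W] [FiniteDimensional F W] {N : End F W} {a : ℕ} (h : JE N {a + 1})
    (hW : finrank F W = a + 1) : ∃ e, (N ^ a) e ≠ 0 ∧ (∀ x, ∃ c : F, ∃ y, x = c • e + N y) ∧ ∀ x, N x = 0 → ∃ c : F, x = c • (N ^ a) e := by
  have n : N ^ (a + 1) = 0 := hW ▸ h.nil (by simp [hW])
  obtain ⟨e, he⟩ : ∃ e, (N ^ a) e ≠ 0 := by_contra fun c => by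
    have := h a
    rw [LinearMap.ker_eq_top.2 (LinearMap.ext fun x => by simpa using not_exists.1 c x)] at this
    simp [hW] at this
  have h1 : finrank F (LinearMap.ker N) = 1 := by have := h 1; rw [pow_one] at this; simpa using this
  refine ⟨e, he, fun x => ?_, fun x hx => ?_⟩
  · have : (F ∙ e) ⊔ LinearMap.range N = ⊤ := Submodule.eq_top_of_finrank_eq (le_antisymm (Submodule.finrank_le _) (by
      have := N.finrank_range_add_finrank_ker
      have := Submodule.finrank_lt_finrank_of_lt (s := LinearMap.range N) (t := (F ∙ e) ⊔ LinearMap.range N) (right_lt_sup.2 fun l => by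
        obtain ⟨y, rfl⟩ := l (Submodule.mem_span_singleton_self e)
        exact he (by rw [← End.mul_apply, ← pow_succ, n]; rfl))
      omega))
    obtain ⟨_, h, _, ⟨y, rfl⟩, rfl⟩ := Submodule.mem_sup.1 (this.ge (Submodule.mem_top (x := x)))
    obtain ⟨c, rfl⟩ := Submodule.mem_span_singleton.1 h
    exact ⟨c, y, rfl⟩
  · obtain ⟨c, hc⟩ := (finrank_eq_one_iff_of_nonzero' (⟨(N ^ a) e, by rw [LinearMap.mem_ker, ← End.mul_apply, ← pow_succ', n]; rfl⟩ :
      LinearMap.ker N) (fun e => he (congrArg Subtype.val e))).1 h1 ⟨x, hx⟩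
    exact ⟨c, (congrArg Subtype.val hc).symm⟩

theorem realU_symp [Finite F] (a : ℕ) : RealU (.symp F) {2 * a} := by
  obtain _ | a := a
  · obtain ⟨U, _, _, _, Ψ, g, h1, h2, h3, h4⟩ := realU_pair (κ := .symp F) (fun _ => rfl) (by simp) 0
    exact ⟨U, _, _, ‹_›, Ψ, g, h1, h2, by simpa [JE] using h3, h4⟩
  obtain ⟨A, h⟩ := exists_reg (F := F) (a + 1)
  obtain ⟨e, h1, h2, h3⟩ := h.exists_gen (by simp)
  let Φ := Form.hyp (Fin (a + 1) → F) (.symp F) (fun _ => rfl) (by simp)
  let g := Φ.eich (e, 0) 0 1 rfl (by simp) rfl * A.prodCongr A.symm.dualMap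
  have hg : ∀ x, (nl g) x = (A x.1 - x.1 - x.2 (A.symm e) • e, A.symm.dualMap x.2 - x.2) := fun x => by
    change Φ.eichLin (e, 0) 0 1 (A x.1, A.symm.dualMap x.2) - x = _
    have hb : ∀ x y, Φ.B x y = y.2 x.1 - x.2 y.1 := fun x y => (Form.hyp_B x y).trans (by simp [sub_eq_add_neg])
    rw [Form.eichLin_apply, hb, hb]
    ext <;> simp; ring
  have n1 := h.nil (by simp)
  have n2 := h.dual.nil (by simp)
  simp only [Subspace.dual_finrank_eq, finrank_fintype_fun_eq_card, Fintype.card_fin] at n1 n2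
  refine ⟨_, _, _, inferInstance, Φ, g, Form.hyp_nondeg, mul_mem (Φ.eich_mem _ _ _) (Form.hyp_mem A), JE.reg (by simp; ring) ?_ ?_, by simp; ring⟩
  · have p1 : ∀ k x, (((nl g) ^ k) x).2 = ((nl A.symm.dualMap) ^ k) x.2 := fun k => by
      induction k with
      | zero => exact fun _ => rfl
      | succ k ih => exact fun x => by rw [pow_succ, pow_succ, End.mul_apply, ih, hg]; rfl
    have p2 : ∀ k x, ((nl g) ^ k) (x, 0) = (((nl A) ^ k) x, 0) := fun k => by
      induction k with
      | zero => exact fun _ => rfl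
      | succ k ih => exact fun x => by rw [pow_succ, pow_succ, End.mul_apply, hg, End.mul_apply, ← ih]; simp
    refine LinearMap.ext fun x => ?_
    rw [two_mul, pow_add, End.mul_apply, show ((nl g) ^ (a + 1)) x = (_, 0) from Prod.ext rfl (by rw [p1, n2]; rfl), p2, n1]; rfl
  · refine (Submodule.finrank_mono (show _ ≤ F ∙ (((nl A) ^ a) e, (0 : Dual F _)) from fun x hx => ?_)).trans (finrank_span_le_card _ |>.trans (by simp))
    rw [LinearMap.mem_ker, hg, Prod.mk_eq_zero, sub_eq_zero, sub_eq_zero] at hx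
    have k : ∀ y, x.2 (A.symm y) = x.2 y := fun y => LinearMap.congr_fun hx.2 y
    have z : x.2 e = 0 := by
      have := congrArg ((nl A) ^ a) hx.1
      rw [k, map_smul, show A x.1 - x.1 = (nl A) x.1 from rfl, ← End.mul_apply, ← pow_succ, n1] at this
      exact (smul_eq_zero.1 this.symm).resolve_right h1
    obtain ⟨c, hc⟩ := h3 x.1 (by simpa [k, z] using hx.1)
    refine Submodule.mem_span_singleton.2 ⟨c, Prod.ext hc.symm (LinearMap.ext fun y => ?_)⟩
    obtain ⟨c, y, rfl⟩ := h2 y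
    simp [z, ← k (A y)]

theorem realU_orth [Finite F] (h2 : (2 : F) ≠ 0) (a : ℕ) : RealU (.orth F) {2 * a + 1} := by
  obtain ⟨A, h⟩ := exists_reg (F := F) (2 * a + 1)
  obtain ⟨e, h1, h3, h4⟩ := h.exists_gen (by simp)
  have n1 := h.nil (by simp)
  simp only [finrank_fintype_fun_eq_card, Fintype.card_fin] at n1
  obtain ⟨C, hC⟩ := h.exists_equiv h.dual (by simp) (by simp)
  simp only [LinearMap.sub_apply, map_sub, End.one_apply, sub_left_inj, LinearEquiv.coe_coe] at hC
  have iC : ∀ x y, C.toLinearMap (A.toLinearMap x) (A.toLinearMap y) = C.toLinearMap x y := fun x y => by simp [hC]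
  let Φ := Form.ofQuadFun (fun x => C x x) (C.toLinearMap + C.toLinearMap.flip) (by simp [mul_assoc]) (by simp; intros; ring)
  have hA : A ∈ Φ.isom := (Form.mem_isom_orth _).2 fun x => iC x x
  refine ⟨_, _, _, inferInstance, Φ, A, fun y hy => by_contra fun y0 => ?_, hA, h, by simp⟩
  obtain ⟨k, k1, k2⟩ : ∃ k, ((nl A) ^ k) y ≠ 0 ∧ ((nl A) ^ (k + 1)) y = 0 := by
    classical
    have ex : ∃ k, ((nl A) ^ k) y = 0 := ⟨_, by rw [n1]; rfl⟩
    exact ⟨Nat.find ex - 1, Nat.find_min ex (Nat.sub_one_lt (by simpa using y0)), by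
      rw [Nat.sub_add_cancel ((Nat.find_pos ex).2 (by simpa using y0))]; exact Nat.find_spec ex⟩
  obtain ⟨c, hc⟩ := h4 _ (by rw [← End.mul_apply, ← pow_succ', k2])
  have c0 : c ≠ 0 := by rintro rfl; exact k1 (by simpa using hc)
  have z := inv_shift (u := A.toLinearMap) hA.1 k2 e k 0 0 (by omega)
  rw [pow_zero, End.one_apply, hy, zero_add, End.one_apply, hc, eq_comm, mul_eq_zero, map_smulₛₗ] at z
  have s := inv_shift iC (n := 2 * a) (y := e) (by rw [n1]; rfl) e (2 * a) 0 0 (by simp)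
  simp [Φ, c0] at s z
  refine h1 (C.injective (LinearMap.ext fun x => ?_))
  obtain ⟨c, x, rfl⟩ := h3 x
  have := inv_orth iC (2 * a) e ((nl A) x) (by rw [← End.mul_apply, ← pow_succ, n1]; rfl)
  rw [map_add, map_smul, show C _ _ = 0 from this, mul_left_cancel₀ h2 (show 2 * C _ e = 2 * 0 by linear_combination s + z)]; simp
end real

theorem jordan_conj_iff [Finite F] {t : ℕ} (d : Fin t → ℕ) {ι : Type*} [Fintype ι] [DecidableEq ι] (e : ((k : Fin t) × Fin (d k)) ≃ ι)
    (A : Matrix ι ι F) : IsConj (reindex e e (Cfsg.jordanTypeMatrix d F)) A ↔ JE (toLin' A - 1) (Finset.univ.val.map d) := by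
  have h : JT (reindex e e (Cfsg.jordanTypeMatrix d F) - 1) (Finset.univ.val.map d) := fun k => by
    rw [← Fintype.card_congr e, ← jt_jordan (F := F) d k, ← rank_reindex e e, ← coe_reindexAlgEquiv F F, map_pow, map_sub, map_one]
  have n : ∀ {A : Matrix ι ι F}, JT A (Finset.univ.val.map d) → IsNilpotent A := fun h =>
    ⟨_, (h.isNilpotent (by rw [← Fintype.card_congr e]; simp [List.sum_ofFn])).2 fun _ h => Multiset.le_sum_of_mem h⟩
  rw [End.one_eq_id, ← toLin'_one, ← map_sub, ← jt_iff_je, isConj_sub_one_iff]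
  exact ⟨h.conj, fun k => isConj_of_nil (n h) (n k) fun j => Nat.add_right_cancel ((h j).trans (k j).symm)⟩

theorem count_map_univ {t : ℕ} (d : Fin t → ℕ) (j : ℕ) : (Finset.univ.val.map d).count j = (Finset.univ.filter fun k => d k = j).card := by
  rw [Multiset.count_map]; simp only [eq_comm (a := j)]; rfl

/-- Dye: in characteristic two every symplectic element fixes a quadratic form. -/
theorem Form.dye [Finite F] [CharP F 2] {Ψ : Form (.symp F) V} (hΨ : Ψ.Nondeg) {g : V ≃ₗ[F] V} (hg : g ∈ Ψ.isom) :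
    ∃ Φ : Form (.orth F) V, (∀ x y, Φ.B x y = Ψ.B x y) ∧ g ∈ Φ.isom := by
  obtain ⟨m, hm, -⟩ := hΨ.symp_hasTS
  obtain ⟨e, he⟩ := Form.symp_iso hΨ (sympF_nondeg m) (by simp [hm, two_mul])
  let Φ := (plusF F m).comap e.toLinearMap
  have hB : ∀ x y, Φ.B x y = Ψ.B x y := fun x y => by
    rw [← he.1, sympF_B, sympForm_eq, Form.comap_B, plusF_B]
    exact Finset.sum_congr rfl fun i _ => by rw [CharTwo.sub_eq_add, add_comm]; rfl
  let r := (frobeniusEquiv F 2).symm
  have hr : ∀ a, r a ^ 2 = a := fun a => frobenius_apply_frobeniusEquiv_symm F 2 a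
  let l : Dual F V :=
    { toFun x := r (Φ.Q (g x) - Φ.Q x)
      map_add' x y := by rw [← map_add, map_add g, Form.orth_add, Form.orth_add, hB, hB, hg.1]; congr 1; ring
      map_smul' c x := (frobeniusEquiv F 2).injective (by
        simp only [frobeniusEquiv_def, hr, map_smul, Form.orth_smul, RingHom.id_apply, smul_eq_mul, mul_pow]; ring) }
  obtain ⟨c, hc⟩ := hΨ.exists_rep l
  obtain ⟨w, rfl⟩ : c ∈ LinearMap.range (nl g ^ 1) := hΨ.perp_ker_pow hg 1 ▸ (Form.mem_perp' _).2 fun x hx => by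
    rw [hc]; simp [l, show g x = x from sub_eq_zero.1 hx]
  refine ⟨Form.ofQuadFun (fun x => Φ.Q x + Ψ.B x (g w) ^ 2) Φ.B (fun c x => by simp [Form.orth_smul]; ring) (fun x y => by
    rw [Form.orth_add, map_add, LinearMap.add_apply, CharTwo.add_sq]; ac_rfl), hB, (Form.mem_isom_orth _).2 fun x => ?_⟩
  have := hr (Φ.Q (g x) - Φ.Q x)
  rw [show r _ = _ from (hc x).symm, pow_one, LinearMap.sub_apply, map_sub, CharTwo.sub_eq_add, CharTwo.add_sq] at this
  change Φ.Q (g x) + Ψ.B (g x) (g w) ^ 2 = Φ.Q x + Ψ.B x (g w) ^ 2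
  rw [hg.1]
  simp only [LinearEquiv.coe_coe, End.one_apply] at this
  linear_combination -this + CharTwo.add_self_eq_zero (Ψ.B x w ^ 2)

theorem Form.exists_quadratic {Φ : Form (.orth F) V} (hΦ : Φ.Nondeg) {g : V ≃ₗ[F] V} (hg : g ∈ Φ.isom) (h : JE (nl g) μ) {n : ℕ} (hn : finrank F V = n) :
    ∃ Q : QuadraticForm F (Fin n → F), (QuadraticMap.polarBilin Q).Nondegenerate ∧ ∃ A : Cfsg.isometryGroup F Q, JE (toLin' A.1.1 - 1) μ := by
  have T : V ≃ₗ[F] (Fin n → F) := .ofFinrankEq _ _ (by simpa using hn)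
  have i : Φ.IsIso (Φ.comap T.symm.toLinearMap) T := ⟨by simp, by simp⟩
  have nd := i.nondeg hΦ
  refine ⟨(Φ.comap T.symm.toLinearMap).toQuad, ⟨fun x hx => nd.left x fun y => (Form.orth_polar _ _ _).symm.trans (hx y),
    fun x hx => nd x fun y => (Form.orth_polar _ _ _).symm.trans (hx y)⟩, (oEquiv _).symm (i.isomCongr ⟨g, hg⟩), h.congr T fun x => ?_⟩
  have := oEquiv_apply _ ((oEquiv _).symm (i.isomCongr ⟨g, hg⟩)) (T x)
  rw [MulEquiv.apply_symm_apply] at this
  simpa [Form.IsIso.isomCongr] using this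

end H5
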