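import Cfsg.Agent.H5.Hom
import Cfsg.Agent.H1.Frattini
/-! Weights of commuting families of endomorphisms; derived length of `p`-groups of permutations and matrices. -/
namespace H5
open Module Subgroup
open scoped commutatorElement

section wt
variable {K V ι : Type*} [Field K] [AddCommGroup V] [Module K V] [FiniteDimensional K V] {f : ι → End K V}

/-- Weights of a family of endomorphisms. -/
def Wt (f : ι → End K V) : Set (ι → K) := {χ | ∃ v, v ≠ 0 ∧ ∀ i, f i v = χ i • v}

theorem wt_card {X : Type*} (hc : ∀ i j, Commute (f i) (f j)) (χ : X → ι → K) (h : Function.Injective χ) (k : ∀ x, χ x ∈ Wt f) :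
    Finite X ∧ Nat.card X ≤ finrank K V := by
  have i := End.independent_iInf_maxGenEigenspace_of_forall_mapsTo f fun i j => End.mapsTo_maxGenEigenspace_of_comm (hc j i)
  choose v v0 hv using k
  have l := (i.comp h).linearIndependent _ (v := v) (fun x => (Submodule.mem_iInf _).2 fun j =>
    End.eigenspace_le_maxGenEigenspace (End.mem_eigenspace_iff.2 (hv x j))) v0
  have := l.finite
  have := Fintype.ofFinite X
  exact ⟨‹_›, Nat.card_eq_fintype_card.trans_le l.fintype_card_le_finrank⟩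

theorem wt_ext [IsAlgClosed K] (hc : ∀ i j, Commute (f i) (f j)) {m : ℕ} (hm : (m : K) ≠ 0) (h : ∀ i, f i ^ m = 1) {a b : End K V}
    (k : ∀ (χ : ι → K) v, v ≠ 0 → (∀ i, f i v = χ i • v) → a v = b v) : a = b := by
  have e := End.iSup_iInf_maxGenEigenspace_eq_top_of_iSup_maxGenEigenspace_eq_top_of_commute f (fun i j _ => hc i j)
    fun i => End.iSup_maxGenEigenspace_eq_top _
  refine LinearMap.eqLocus_eq_top.1 (eq_top_iff.2 (e.ge.trans (iSup_le fun χ v hv => ?_)))
  rcases eq_or_ne v 0 with rfl | v0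
  · exact zero_mem _
  refine k χ v v0 fun i => End.mem_eigenspace_iff.1 ?_
  rw [← (End.isSemisimple_of_squarefree_aeval_eq_zero (Polynomial.separable_X_pow_sub_C (1 : K) hm one_ne_zero).squarefree
    (by simp [h])).isFinitelySemisimple.maxGenEigenspace_eq_eigenspace]
  exact (Submodule.mem_iInf _).1 hv i

end wt

section dl
variable {G H : Type*} [Group G] [Group H] {p k : ℕ}

theorem Emb.ds (h : Emb H G) (e : derivedSeries G k = ⊥) : derivedSeries H k = ⊥ :=
  let ⟨φ, hφ⟩ := h; (map_eq_bot_iff_of_injective _ hφ).1 (eq_bot_iff.2 ((map_derivedSeries_le_derivedSeries φ k).trans e.le))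

theorem ds_succ_le {M : Subgroup G} (h : commutator G ≤ M) : derivedSeries G (k + 1) ≤ (derivedSeries M k).map M.subtype := by
  induction k with
  | zero => simpa [← MonoidHom.range_eq_map] using h
  | succ k ih => rw [derivedSeries_succ, derivedSeries_succ M, map_commutator]; exact commutator_mono ih ih

theorem ds_succ_bot {A : Subgroup G} (hA : IsMulCommutative A) (h : derivedSeries G k ≤ A) : derivedSeries G (k + 1) = ⊥ :=
  eq_bot_iff.2 ((commutator_mono h h).trans (commutator_eq_bot_iff_le_centralizer.2 A.le_centralizer).le)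

theorem ds_mono {l : ℕ} (h : k ≤ l) (e : derivedSeries G k = ⊥) : derivedSeries G l = ⊥ := by
  induction h with
  | refl => exact e
  | step _ ih => rw [derivedSeries_succ, ih, commutator_bot_left]

variable [hp : Fact p.Prime]

theorem ds_le_of_index [Finite G] (hG : IsPGroup p G) {U : Subgroup G} (h : U.index < p ^ (k + 1)) : derivedSeries G k ≤ U := by
  induction k generalizing G with
  | zero =>
    obtain ⟨j, e⟩ := hG.index U
    rw [e, Nat.pow_lt_pow_iff_right hp.out.one_lt] at h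
    rw [index_eq_one.1 (e.trans (by rw [show j = 0 by omega, pow_zero]))]; exact le_top
  | succ k ih =>
    rcases eq_top_or_exists_le_coatom U with rfl | ⟨M, hM, e⟩
    · exact le_top
    have := hG.isNilpotent
    refine (ds_succ_le (H1.commutator_le_frattini.trans (frattini_le_coatom hM))).trans (map_le_iff_le_comap.2 (ih (hG.to_subgroup M) ?_))
    rw [← relIndex_mul_index e, H1.index_coatom_of_isPGroup hG hM, pow_succ] at h
    exact lt_of_mul_lt_mul_right' h

theorem ds_fix [Finite G] (hG : IsPGroup p G) {X : Type*} [MulAction G X] (x : X) (h : Nat.card (MulAction.orbit G x) < p ^ (k + 1))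
    {g : G} (hg : g ∈ derivedSeries G k) : g • x = x :=
  ds_le_of_index hG (U := MulAction.stabilizer G x) (by rwa [MulAction.index_stabilizer, ← Nat.card_coe_set_eq]) hg

theorem exists_fix {F V : Type*} [Field F] [CharP F p] [AddCommGroup V] [Module F V] [Nontrivial V] [Finite G] (hG : IsPGroup p G)
    (ρ : Representation F G V) : ∃ v, v ≠ 0 ∧ ∀ g, ρ g v = v := by
  let _ : Module (ZMod p) V := .compHom V (ZMod.castHom dvd_rfl F)
  obtain ⟨v, hv⟩ := exists_ne (0 : V)
  let M := Submodule.span (ZMod p) (Set.range fun g => ρ g v)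
  have : Module.Finite (ZMod p) M := .span_of_finite _ (Set.finite_range _)
  have : Finite M := finite_of_finite (ZMod p)
  have m : ∀ g, ∀ x ∈ M, ρ g x ∈ M := fun g x hx => by
    induction hx using Submodule.span_induction with
    | mem _ h => obtain ⟨a, rfl⟩ := h; exact Submodule.subset_span ⟨g * a, by simp⟩
    | zero => simp
    | add a b _ _ h k => rw [map_add]; exact add_mem h k
    | smul c a _ h => exact (map_smul (ρ g) (ZMod.castHom dvd_rfl F c) a).symm ▸ M.smul_mem c h
  let _ : MulAction G M := { smul := fun g x => ⟨ρ g x, m g _ x.2⟩, one_smul := fun x => Subtype.ext (by change ρ 1 x = x; simp)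
                             mul_smul := fun a b x => Subtype.ext (by change ρ (a * b) x = ρ a (ρ b x); simp) }
  have : Nontrivial M := ⟨⟨v, Submodule.subset_span ⟨1, by simp⟩⟩, 0, fun e => hv (congrArg Subtype.val e)⟩
  obtain ⟨b, hb, ne⟩ := hG.exists_fixed_point_of_prime_dvd_card_of_fixed_point M (a := 0) (by
    rw [natCard_eq_pow_finrank (K := ZMod p), Nat.card_zmod]; exact dvd_pow_self p finrank_pos.ne') fun u => Subtype.ext (map_zero (ρ u))
  exact ⟨b, fun e => ne (Subtype.ext e.symm), fun g => congrArg Subtype.val (hb g)⟩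

theorem ds_unip {F V : Type*} [Field F] [CharP F p] [AddCommGroup V] [Module F V] [FiniteDimensional F V] [Finite G] (hG : IsPGroup p G)
    (ρ : Representation F G V) (hρ : Function.Injective ρ) (h : finrank F V ≤ 2 ^ k) : derivedSeries G k = ⊥ := by
  obtain ⟨W, W0, hW⟩ : ∃ W : ℕ → Submodule F V, W 0 = ⊥ ∧ ∀ i v, v ∈ W (i + 1) ↔ ∀ g, ρ g v - v ∈ W i :=
    ⟨fun i => Nat.rec ⊥ (fun _ U => ⨅ g, U.comap (ρ g - 1)) i, rfl, fun i v => by simp⟩
  have inv : ∀ i g, ∀ v ∈ W i, ρ g v ∈ W i := fun i => by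
    induction i with
    | zero => simp [W0]
    | succ i ih => exact fun g v hv => (hW i _).2 fun a => by simpa [← End.mul_apply, ← map_mul, mul_assoc] using ih g _ ((hW i v).1 hv (g⁻¹ * a * g))
  have le : ∀ i, W i ≤ W (i + 1) := fun i v hv => (hW i v).2 fun g => sub_mem (inv i g v hv) hv
  have dim : ∀ i : ℕ, W i = ⊤ ∨ i ≤ finrank F ↥(W i) := by
    intro i
    induction i with
    | zero => simp
    | succ i ih =>
      by_cases c : W i = ⊤
      · exact .inl (eq_top_iff.2 (c.ge.trans (le i)))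
      have := Submodule.Quotient.nontrivial_iff.2 c
      obtain ⟨b, ne, hb⟩ := exists_fix hG (ρ.quotient (W i) fun g v hv => inv i g v hv)
      obtain ⟨b, rfl⟩ := Submodule.Quotient.mk_surjective _ b
      exact .inr ((ih.resolve_left c).trans_lt (Submodule.finrank_lt_finrank_of_lt (lt_of_le_of_ne (le i) fun e => ne
        ((Submodule.Quotient.mk_eq_zero _).2 (e ▸ (hW i b).2 fun u => (Submodule.Quotient.eq _).1 (hb u))))))
  let U : ℕ → Subgroup G := fun m =>
    { carrier := {g | ∀ i, ∀ v ∈ W (i + m), ρ g v - v ∈ W i}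
      mul_mem' := fun {a b} ha hb i v hv => by simpa using add_mem (inv i a _ (hb i v hv)) (ha i v hv)
      one_mem' := by simp
      inv_mem' := fun {a} ha i v hv => by simpa [← End.mul_apply, ← map_mul] using neg_mem (inv i a⁻¹ _ (ha i v hv)) }
  have key : ∀ k, derivedSeries G k ≤ U (2 ^ k) := fun k => by
    induction k with
    | zero => exact fun g _ i v hv => (hW i v).1 hv g
    | succ k ih =>
      refine commutator_le.2 fun a ha b hb i v hv => ?_
      have hw := inv _ a⁻¹ _ (inv _ b⁻¹ v hv)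
      rw [pow_succ, mul_two, ← add_assoc] at hw
      have := sub_mem (ih ha i _ (ih hb _ _ hw)) (ih hb i _ (ih ha _ _ hw))
      simp only [map_sub] at this
      convert this using 1
      simp [commutatorElement_def, ← End.mul_apply, ← map_mul, mul_assoc]; abel
  refine eq_bot_iff.2 fun g hg => hρ (LinearMap.ext fun v => ?_)
  have := (dim (2 ^ k)).elim id fun c => Submodule.eq_top_of_finrank_eq ((Submodule.finrank_le _).antisymm (h.trans c))
  simpa [W0, sub_eq_zero] using key k hg 0 v (by rw [zero_add, this]; trivial)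

/-- Derived length in cross characteristic, from a bound on the orbits on weights of a normal abelian subgroup. -/
theorem ds_wt {K V : Type*} [Field K] [IsAlgClosed K] [AddCommGroup V] [Module K V] [FiniteDimensional K V] [Finite G] (hG : IsPGroup p G)
    (hK : (p : K) ≠ 0) (ρ : G →* End K V) (hρ : Function.Injective ρ)
    (h : ∀ (A : Subgroup G) [A.Normal], (∀ a b : A, Commute (ρ a) (ρ b)) → ∀ χ ∈ Wt fun a : A => ρ a,
      Nat.card (Set.range fun g : G => fun a : A => χ (MulAut.conjNormal g a)) < p ^ (k + 1)) : derivedSeries G (k + 1) = ⊥ := by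
  obtain ⟨A, ⟨hA, cA⟩, mx⟩ := (Set.toFinite {A : Subgroup G | A.Normal ∧ IsMulCommutative A}).exists_maximal ⟨⊥, inferInstance, inferInstance⟩
  have := hG.isNilpotent
  have e := H1.centralizer_eq_of_maximal_abelian_normal (L := ⊤) (N := A) inferInstance le_top le_normalizer_of_normal cA fun M _ h1 h2 h3 =>
    le_antisymm (mx ⟨normalizer_eq_top_iff.1 (eq_top_iff.2 h1), h2⟩ h3) h3
  have c : ∀ a b : A, Commute (ρ a) (ρ b) := fun a b => (Commute.map (congrArg Subtype.val (cA.is_comm.comm a b)) ρ :)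
  obtain ⟨m, hm⟩ := hG.exists_card_eq
  refine ds_succ_bot cA fun g hg => e.le ⟨trivial, fun a ha => hρ (wt_ext c (pow_ne_zero m hK |> (Nat.cast_pow (α := K) p m).trans_ne)
    (fun a => by rw [← map_pow, ← hm, pow_card_eq_one', map_one]) fun χ v v0 hv => ?_)⟩
  let _ : MulAction G (A → K) := { smul := fun g χ a => χ (MulAut.conjNormal g⁻¹ a), one_smul := fun x => by ext a; change x _ = _; simp
                                   mul_smul := fun a b x => by ext y; change x _ = x _; simp }
  have k := congrFun (ds_fix hG χ (by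
    convert h A c χ ⟨v, v0, hv⟩ using 3
    exact Set.ext fun x => ⟨fun ⟨g, e⟩ => ⟨g⁻¹, e⟩, fun ⟨g, e⟩ => ⟨g⁻¹, e ▸ by ext a; change χ _ = χ _; simp⟩⟩) hg) ⟨a, ha⟩
  have k1 := hv (MulAut.conjNormal g⁻¹ ⟨a, ha⟩)
  rw [show χ _ = _ from k, ← hv] at k1
  rw [show a * g = g * (g⁻¹ * a * g⁻¹⁻¹) by group, map_mul, map_mul ρ g a]
  exact congrArg (ρ g) k1

omit hp in
theorem wt_conj {K V : Type*} [Field K] [AddCommGroup V] [Module K V] {ρ : G →* End K V} {A : Subgroup G} [A.Normal] {χ : A → K}
    (h : χ ∈ Wt fun a : A => ρ a) (g : G) : (fun a : A => χ (MulAut.conjNormal g a)) ∈ Wt fun a : A => ρ a := by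
  obtain ⟨v, v0, hv⟩ := h
  refine ⟨ρ g⁻¹ v, fun e => v0 (by simpa [← End.mul_apply, ← map_mul] using congrArg (ρ g) e), fun a => ?_⟩
  rw [← map_smul, ← hv]; simp [← End.mul_apply, ← map_mul, mul_assoc]

theorem ds_gl {F : Type*} [Field F] [Finite G] (hG : IsPGroup p G) {ι : Type*} [Fintype ι] [DecidableEq ι] (h : Emb G (GL ι F)) :
    derivedSeries G (Nat.log 2 (Fintype.card ι) + 1) = ⊥ := by
  obtain ⟨ρ, hρ⟩ := h
  let K := AlgebraicClosure F
  let σ : G →* End K (ι → K) := (Matrix.toLinAlgEquiv' : Matrix ι ι K ≃ₐ[K] _).toMonoidHom.comp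
    ((algebraMap F K).mapMatrix.toMonoidHom.comp ((Units.coeHom _).comp ρ))
  have hσ : Function.Injective σ := Matrix.toLinAlgEquiv'.injective.comp
    ((Matrix.map_injective (algebraMap F K).injective).comp (Units.val_injective.comp hρ))
  by_cases c : (p : K) = 0
  · have := (CharP.charP_iff_prime_eq_zero hp.out).2 c
    exact ds_unip hG σ hσ (by simpa using (Nat.lt_pow_succ_log_self one_lt_two _).le)
  refine ds_wt hG c σ hσ fun A _ hc χ hχ => (wt_card hc Subtype.val Subtype.val_injective ?_).2.trans_lt ?_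
  · rintro ⟨_, g, rfl⟩; exact wt_conj hχ g
  · simpa using (Nat.lt_pow_succ_log_self one_lt_two _).trans_le (Nat.pow_le_pow_left hp.out.two_le _)

theorem ds_gl_ord {F : Type*} [Field F] [Fintype F] [Finite G] (hG : IsPGroup p G) (hq : ¬ p ∣ Fintype.card F) {ι : Type*} [Fintype ι]
    [DecidableEq ι] (h : Emb G (GL ι F)) : derivedSeries G (Nat.log p (Fintype.card ι / orderOf (Fintype.card F : ZMod p)) + 1) = ⊥ := by
  obtain ⟨ρ, hρ⟩ := h
  let K := AlgebraicClosure F
  let σ : G →* End K (ι → K) := (Matrix.toLinAlgEquiv' : Matrix ι ι K ≃ₐ[K] _).toMonoidHom.comp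
    ((algebraMap F K).mapMatrix.toMonoidHom.comp ((Units.coeHom _).comp ρ))
  have hσ : Function.Injective σ := Matrix.toLinAlgEquiv'.injective.comp
    ((Matrix.map_injective (algebraMap F K).injective).comp (Units.val_injective.comp hρ))
  set q := Fintype.card F
  set e := orderOf (q : ZMod p)
  have e0 : 0 < e := ord_pos' Fintype.one_lt_card hq
  have c : (p : K) ≠ 0 := fun c => by
    obtain ⟨r, hr⟩ := CharP.exists F
    obtain ⟨n, pr, hn⟩ := FiniteField.card F r
    rw [CharP.cast_eq_zero_iff K r, Nat.prime_dvd_prime_iff_eq pr hp.out] at c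
    exact hq (by rw [← c]; exact (dvd_pow_self r n.ne_zero).trans hn.symm.dvd)
  refine ds_wt hG c σ hσ fun A _ hc χ hχ => ?_
  by_cases h1 : ∀ a, χ a = 1
  · simp [h1, hp.out.one_lt]
  obtain ⟨b, hb⟩ := not_forall.1 h1
  have hφ : ∀ i x, (FiniteField.frobeniusAlgHom F K ^ i).toRingHom x = x ^ q ^ i := fun i x => by
    simp [AlgHom.coe_pow, FiniteField.coe_frobeniusAlgHom, pow_iterate, q]
  have fr : ∀ i, ∀ ψ ∈ Wt fun a : A => σ a, (fun a => ψ a ^ q ^ i) ∈ Wt fun a : A => σ a := fun i ψ ⟨v, v0, hv⟩ => by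
    let φ := (FiniteField.frobeniusAlgHom F K ^ i).toRingHom

    refine ⟨φ ∘ v, fun e => v0 (funext fun j => φ.injective ((congrFun e j).trans (map_zero φ).symm)), fun a => funext fun j => ?_⟩
    have := RingHom.map_mulVec φ ((ρ a).1.map (algebraMap F K)) v j
    rw [Matrix.map_map, show φ ∘ algebraMap F K = algebraMap F K from funext (AlgHom.commutes _)] at this
    refine this.symm.trans ((congrArg φ (congrFun (hv a) j)).trans ?_)
    rw [Pi.smul_apply, smul_eq_mul, map_mul, hφ]; rfl
  obtain ⟨s, hs⟩ := hG.exists_card_eq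
  have o : χ b ^ p ^ s = 1 := by
    obtain ⟨v, v0, hv⟩ := hχ
    have := (End.HasEigenvector.pow_apply ⟨End.mem_eigenspace_iff.2 (hv b), v0⟩ (p ^ s)).symm
    rw [← map_pow, ← hs, pow_card_eq_one', map_one] at this
    rw [← hs]; exact smul_left_injective K v0 (this.trans (one_smul K v).symm)
  have key : ∀ (i j : Fin e) (g g' : G), i ≤ j → (∀ a, χ (MulAut.conjNormal g a) ^ q ^ i.1 = χ (MulAut.conjNormal g' a) ^ q ^ j.1) → i = j := by
    intro i j g g' le k
    obtain ⟨d, hd⟩ := Nat.exists_eq_add_of_le' (show i.1 ≤ j.1 from le)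
    have k1 : ∀ a, χ (MulAut.conjNormal (g * g'⁻¹) a) = χ a ^ q ^ d := fun a => (FiniteField.frobeniusAlgHom F K ^ i.1).toRingHom.injective (by
      rw [hφ, hφ]; simpa [hd, pow_add, pow_mul] using k (MulAut.conjNormal g'⁻¹ a))
    have k2 : ∀ m a, χ (MulAut.conjNormal ((g * g'⁻¹) ^ m) a) = χ a ^ (q ^ d) ^ m := fun m => by
      induction m with
      | zero => simp
      | succ m ih => intro a; rw [pow_succ', map_mul, MulAut.mul_apply, k1, ih, ← pow_mul, pow_succ]
    have k3 := k2 (p ^ s) b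
    rw [← hs, pow_card_eq_one', hs, map_one, MulAut.one_apply, ← pow_one (χ b), ← pow_mul, one_mul,
      (isOfFinOrder_iff_pow_eq_one.2 ⟨_, pow_pos hp.out.pos s, o⟩).pow_eq_pow_iff_modEq] at k3
    obtain ⟨t, -, ht⟩ := (Nat.dvd_prime_pow hp.out).1 (orderOf_dvd_of_pow_eq_one o)
    have k4 := (ZMod.natCast_eq_natCast_iff _ _ p).2 (k3.of_dvd (ht ▸ dvd_pow_self p (by rintro rfl; exact hb (orderOf_eq_one_iff.1 ht))))
    rw [Nat.cast_pow, ZMod.pow_card_pow, Nat.cast_pow, Nat.cast_one] at k4
    have := Nat.eq_zero_of_dvd_of_lt (orderOf_dvd_of_pow_eq_one k4.symm) (show d < e by omega)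
    exact Fin.ext (by omega)
  have := (wt_card hc (fun x : Fin e × Set.range fun g : G => fun a : A => χ (MulAut.conjNormal g a) => fun a => x.2.1 a ^ q ^ x.1.1) (by
    rintro ⟨i, _, g, rfl⟩ ⟨j, _, g', rfl⟩ k
    obtain rfl : i = j := (le_total i j).elim (key i j g g' · (congrFun k)) fun l => (key j i g' g l fun a => (congrFun k a).symm).symm
    exact Prod.ext rfl (Subtype.ext (funext fun a => (FiniteField.frobeniusAlgHom F K ^ i.1).toRingHom.injective (by
      rw [hφ, hφ]; exact congrFun k a)))) (by rintro ⟨i, _, g, rfl⟩; exact fr _ _ (wt_conj hχ g))).2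
  refine lt_of_le_of_lt ((Nat.le_div_iff_mul_le e0).2 ?_) (Nat.lt_pow_succ_log_self hp.out.one_lt _)
  simpa [mul_comm] using this

/-- `G` has a `p`-subgroup of derived length `> k`. -/
def DLg (p k : ℕ) (G : Type*) [Group G] : Prop := ∃ P : Subgroup G, IsPGroup p P ∧ derivedSeries P k ≠ ⊥

omit hp in
theorem DLg.emb (h : DLg p k H) (e : Emb H G) : DLg p k G :=
  let ⟨P, h1, h2⟩ := h; let ⟨φ, hφ⟩ := e
  ⟨P.map φ, h1.map φ, fun c => h2 ((Emb.of_equiv (P.equivMapOfInjective φ hφ)).ds c)⟩

theorem DLg.sylow [Finite G] (h : DLg p k G) (P : Sylow p G) : derivedSeries P k ≠ ⊥ := fun c =>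
  let ⟨_, h1, h2⟩ := h; let ⟨Q, e⟩ := h1.exists_le_sylow
  h2 ((Emb.trans ⟨_, inclusion_injective e⟩ (.of_equiv (Q.equiv P))).ds c)

theorem DLg.zero [Finite G] (h : p ∣ Nat.card G) : DLg p 0 G :=
  let P : Sylow p G := default
  ⟨P, P.2, have := (nontrivial_iff_ne_bot _).2 (P.ne_bot_of_dvd_card h); top_ne_bot⟩

theorem DLg.one [Finite G] {a b : G} {m : ℕ} (ha : a ^ p ^ m = 1) (hb : b ^ p ^ m = 1) (h : b * a * b⁻¹ ∈ zpowers a) (n : a * b ≠ b * a) : DLg p 1 G := by
  have k : ∀ a : G, a ^ p ^ m = 1 → IsPGroup p (zpowers a) := fun a h ⟨_, j, rfl⟩ => ⟨m, Subtype.ext (by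
    change (a ^ j) ^ _ = 1
    rw [← zpow_natCast, ← zpow_mul, mul_comm, zpow_mul, zpow_natCast, h, one_zpow])⟩
  refine ⟨_, (k a ha).to_sup_of_normal_left' (k b hb) (zpowers_le.2 (mem_normalizer_fintype ?_)), fun c => n ?_⟩
  · rintro _ ⟨j, rfl⟩; simpa using zpow_mem h j
  · exact congrArg Subtype.val (commutatorElement_eq_one_iff_mul_comm.1 (c.le (commutator_mem_commutator
      (mem_top ⟨a, mem_sup_left (mem_zpowers a)⟩) (mem_top ⟨b, mem_sup_right (mem_zpowers b)⟩))))

theorem DLg.wr [Finite G] (h : DLg p k G) : DLg p (k + 1) (G ≀ᵣ Multiplicative (ZMod p)) := by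
  obtain ⟨P, h1, h2⟩ := h
  classical
  have : DLg p (k + 1) (P ≀ᵣ Multiplicative (ZMod p)) := by
    obtain ⟨s, hs⟩ := h1.exists_card_eq
    refine ⟨⊤, (IsPGroup.of_card (n := s * p + 1) (by simp [RegularWreathProduct.card, hs, pow_succ, pow_mul])).to_subgroup _, fun c => h2 ?_⟩
    let ι : (Multiplicative (ZMod p) → P) →* P ≀ᵣ Multiplicative (ZMod p) :=
      { toFun := fun f => ⟨f, 1⟩, map_one' := rfl, map_mul' := fun a b => by ext <;> simp }
    have key : ∀ k, derivedSeries P k ≤ ((derivedSeries _ (k + 1)).comap ι).map (Pi.evalMonoidHom _ 1) := fun k => by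
      induction k with
      | zero =>
        let t := Multiplicative.ofAdd (1 : ZMod p)
        refine fun a _ => ⟨⁅ι (Pi.mulSingle 1 a), RegularWreathProduct.inl t⁆.left, ?_, by simp [commutatorElement_def, ι, t]⟩
        have := commutator_mem_commutator (mem_top (ι (Pi.mulSingle 1 a))) (mem_top (RegularWreathProduct.inl t))
        refine (congrArg (· ∈ (⁅⊤, ⊤⁆ : Subgroup (P ≀ᵣ Multiplicative (ZMod p)))) ?_).mp this
        ext <;> simp [commutatorElement_def, ι]
      | succ k ih =>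
        refine (commutator_mono ih ih).trans ((map_commutator ..).ge.trans (map_mono (map_le_iff_le_comap.1 ((map_commutator ..).le.trans ?_))))
        exact commutator_mono (map_comap_le _ _) (map_comap_le _ _)
    refine eq_bot_iff.2 ((key k).trans ?_)
    rw [(Emb.of_equiv topEquiv.symm).ds c]
    rintro _ ⟨f, hf, rfl⟩
    exact congrArg (·.left 1) (show ι f = 1 from hf)
  exact this.emb ⟨{ toFun := fun w => ⟨fun i => w.left i, w.right⟩, map_one' := rfl, map_mul' := fun _ _ => rfl }, fun a b e =>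
    RegularWreathProduct.ext (funext fun i => Subtype.ext (congrArg (·.left i) e)) (congrArg (·.right) e)⟩

theorem DLg.iter (T : ℕ → Type*) [∀ n, Group (T n)] [∀ n, Finite (T n)] (h : ∀ a b, Emb (T a × T b) (T (a + b)))
    (h' : ∀ a, a ≠ 0 → Emb (T a ≀ᵣ Multiplicative (ZMod p)) (T (a * p))) {e n : ℕ} (e0 : 0 < e) (he : e ≤ n) (k0 : DLg p k (T e)) :
    DLg p (Nat.log p (n / e) + k) (T n) := by
  have : ∀ j, DLg p (j + k) (T (e * p ^ j)) := fun j => by
    induction j with
    | zero => rw [pow_zero, mul_one, zero_add]; exact k0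
    | succ j ih => rw [pow_succ, ← mul_assoc, add_right_comm]; exact ih.wr.emb (h' _ (Nat.mul_pos e0 (pow_pos hp.out.pos j)).ne')
  obtain ⟨d, hd⟩ := Nat.exists_eq_add_of_le (show e * p ^ Nat.log p (n / e) ≤ n from
    (Nat.mul_le_mul_left _ (Nat.pow_log_le_self p (Nat.div_pos he e0).ne')).trans (Nat.mul_div_le n e))
  exact (this _).emb (Emb.trans ⟨.inl _ _, fun _ _ e => congrArg Prod.fst e⟩ (hd ▸ h _ d))

end dl

section wr
variable {F V Q : Type*} [Field F] [AddCommGroup V] [Module F V] [Group Q]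

/-- The product action of a regular wreath product. -/
def wrLin (A : Subgroup (V ≃ₗ[F] V)) : A ≀ᵣ Q →* (Q → V) ≃ₗ[F] (Q → V) where
  toFun w := (LinearEquiv.funCongrLeft F V (Equiv.mulLeft w.right⁻¹)).trans (.piCongrRight fun i => (w.left i).1)
  map_one' := by ext; simp
  map_mul' a b := by ext; simp [mul_assoc]

theorem wrLin_apply (A : Subgroup (V ≃ₗ[F] V)) (w : A ≀ᵣ Q) (v : Q → V) (i : Q) : wrLin A w v i = (w.left i).1 (v (w.right⁻¹ * i)) := rfl

theorem wrLin_inj [Nontrivial V] (A : Subgroup (V ≃ₗ[F] V)) : Function.Injective (wrLin (Q := Q) A) := (injective_iff_map_eq_one _).2 fun w h => by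
  classical
  have k : ∀ (v : Q → V) i, (w.left i).1 (v (w.right⁻¹ * i)) = v i := fun v i => congrArg (· v i) h
  obtain ⟨x, hx⟩ := exists_ne (0 : V)
  exact RegularWreathProduct.ext (funext fun i => Subtype.ext (LinearEquiv.ext fun x => k (fun _ => x) i))
    (by_contra fun c => hx (by simpa [show w.right ≠ 1 from c] using (k (Pi.single 1 x) 1).symm))

theorem gl_wr [Fintype Q] {a : ℕ} (ha : a ≠ 0) : Emb (GL (Fin a) F ≀ᵣ Q) (GL (Fin (a * Fintype.card Q)) F) := by
  have := NeZero.mk ha
  exact (Emb.of_equiv (RegularWreathProduct.congr (glEquiv.trans topEquiv.symm) (.refl _))).trans (Emb.trans ⟨_, wrLin_inj ⊤⟩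
    (.of_equiv ((autCongr (LinearEquiv.ofFinrankEq _ _ (by simp [finrank_pi_fintype, mul_comm]))).trans glEquiv.symm)))

theorem sp_wr [Fintype Q] {a : ℕ} (ha : a ≠ 0) :
    Emb (Matrix.symplecticGroup (Fin a) F ≀ᵣ Q) (Matrix.symplecticGroup (Fin (a * Fintype.card Q)) F) := by
  have := NeZero.mk ha
  classical
  let Φ := sympF F a
  let Ψ : Form (.symp F) (Q → Fin a ⊕ Fin a → F) := .ofAlt (.mk₂ F (fun x y => ∑ i, Φ.B (x i) (y i))
    (by simp [Finset.sum_add_distrib]) (by simp [Finset.mul_sum]) (by simp [Finset.sum_add_distrib]) (by simp [Finset.mul_sum]))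
    fun x => by simp [Form.symp_self]
  have hB : ∀ x y, Ψ.B x y = ∑ i, Φ.B (x i) (y i) := fun x y => rfl
  have hΨ : Ψ.Nondeg := fun y hy => funext fun i => sympF_nondeg a _ fun x => by
    have := hy (Pi.single i x)
    rwa [hB, Finset.sum_eq_single i (fun j _ c => by simp [c]) (by simp), Pi.single_eq_same] at this
  obtain ⟨e, he⟩ := Form.symp_iso hΨ (sympF_nondeg (a * Fintype.card Q)) (by simp [finrank_pi_fintype]; ring)
  refine (Emb.of_equiv (RegularWreathProduct.congr (spEquiv a) (.refl _))).trans (Emb.trans ⟨(wrLin _).codRestrict Ψ.isom fun w => ?_,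
    fun x y e => wrLin_inj _ (congrArg Subtype.val e)⟩ (.of_equiv (he.isomCongr.trans (spEquiv _).symm)))
  refine (Form.mem_isom_symp _).2 fun x y => ?_
  exact (Finset.sum_congr rfl fun i _ => Form.isom_B (w.left i).2 _ _).trans (Equiv.sum_comp (Equiv.mulLeft w.right⁻¹) fun i => Φ.B (x i) (y i))

end wr
end H5
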